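import Cfsg.Agent.Chars2.InduceTower
import Cfsg.Agent.Chars.Monomial

/-!
Characters irreducible on a normal solvable A-group are monomial.
-/

set_option autoImplicit false
set_option linter.style.haveILetI false
set_option linter.unusedSectionVars false

namespace Cfsg.Agent.Chars2

open Cfsg Cfsg.Agent
open scoped ComplexConjugate commutatorElement

universe u

/-- A finite group of class two with commutative Sylow groups is commutative. -/
theorem comm_of_sylow_comm {D : Type*} [Group D] [Finite D]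
    (hc : ∀ a b : D, ⁅a, b⁆ ∈ Subgroup.center D)
    (hs : ∀ (p : ℕ) [Fact p.Prime] (P : Sylow p D), ∀ a b : (P : Subgroup D), a * b = b * a) :
    ∀ a b : D, a * b = b * a := by
  classical
  have hcomm : ∀ a b : D ⧸ Subgroup.center D, a * b = b * a := by
    intro a b
    obtain ⟨a, rfl⟩ := QuotientGroup.mk'_surjective _ a
    obtain ⟨b, rfl⟩ := QuotientGroup.mk'_surjective _ b
    rw [← commutatorElement_eq_one_iff_mul_comm, ← map_commutatorElement,
      QuotientGroup.mk'_apply, QuotientGroup.eq_one_iff]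
    exact hc a b
  letI : CommGroup (D ⧸ Subgroup.center D) :=
    { (inferInstance : Group (D ⧸ Subgroup.center D)) with mul_comm := hcomm }
  haveI : Group.IsNilpotent D := Subgroup.isNilpotent_of_ker_le_center
    (QuotientGroup.mk' (Subgroup.center D)) (le_of_eq (QuotientGroup.ker_mk' _))
  have hn := ((Group.isNilpotent_of_finite_tfae (G := D)).out 0 3).1 ‹_›
  let e := Sylow.directProductOfNormal (G := D) (fun {p} hp P => hn p hp P)
  intro a b
  obtain ⟨a, rfl⟩ := e.surjective a
  obtain ⟨b, rfl⟩ := e.surjective b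
  rw [← map_mul, ← map_mul]
  congr 1
  funext p P
  haveI : Fact (p : ℕ).Prime := ⟨Nat.prime_of_mem_primeFactors p.2⟩
  exact hs (p : ℕ) P (a p P) (b p P)

section

variable {G : Type u} [Group G] [Fintype G]

/-- Two elements with commuting images: the inertia group of a constituent is proper. -/
theorem inertia_ne_top {d : ℕ} (ρ : Representation ℂ G (Fin d → ℂ))
    (hχ : IsIrrCharacter G ρ.character) (M : Subgroup G) [M.Normal] [Fintype M]
    (hcomm : ∀ a ∈ M, ∀ b ∈ M, ρ a * ρ b = ρ b * ρ a)
    (hns : ∃ g₀ ∈ M, ¬ ∃ c : ℂ, ρ g₀ = c • (1 : Module.End ℂ (Fin d → ℂ)))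
    (θ : IrrCharacter M) (hθ : classInner (fun k : M => ρ.character k) (θ : M → ℂ) ≠ 0) :
    inertiaSub (θ : M → ℂ) ≠ ⊤ := by
  intro htop
  obtain ⟨g₀, hg₀, hns⟩ := hns
  have hres := clifford_invariant hχ θ.2 htop hθ
  obtain ⟨e, σ, hσi, hσ⟩ := θ.2
  haveI := hσi
  have hker : ∀ c : M, ρ (c : G) = 1 → σ c = 1 := by
    intro c hc
    refine (Chars.rep_char_eq_finrank_iff σ c).1 ?_
    have h1 := hres c
    have h2 := hres 1
    simp only [Subgroup.coe_one] at h2
    rw [show ρ.character (c : G) = ρ.character 1 by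
      rw [Representation.character, Representation.character, hc, map_one ρ], h2] at h1
    rw [← Representation.char_one σ, hσ]
    exact (mul_left_cancel₀ hθ h1).symm
  let m₀ : M := ⟨g₀, hg₀⟩
  have hscal : ∃ s : ℂ, σ m₀ = s • (1 : Module.End ℂ (Fin e → ℂ)) := by
    refine Chars.scalar_of_commute σ (σ m₀) fun m => ?_
    have hc : σ ((m * m₀)⁻¹ * (m₀ * m)) = 1 := by
      refine hker _ ?_
      rw [Subgroup.coe_mul, Subgroup.coe_inv, Subgroup.coe_mul, Subgroup.coe_mul, map_mul,
        map_mul ρ (m₀ : G), hcomm _ m₀.2 _ m.2, ← map_mul, ← map_mul, inv_mul_cancel, map_one]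
    have h2 : σ (m₀ * m) = σ (m * m₀) := by
      calc σ (m₀ * m) = σ ((m * m₀) * ((m * m₀)⁻¹ * (m₀ * m))) := by rw [mul_inv_cancel_left]
        _ = σ (m * m₀) := by rw [map_mul _ (m * m₀), hc, mul_one]
    rwa [map_mul, map_mul] at h2
  have hnorm : ‖(θ : M → ℂ) m₀‖ = ‖(θ : M → ℂ) 1‖ := by
    rw [← hσ, (Chars.rep_norm_char_eq_iff σ m₀).2 hscal, Representation.char_one,
      Complex.norm_natCast]
  have h2 : ‖ρ.character g₀‖ = (Module.finrank ℂ (Fin d → ℂ) : ℝ) := by
    have h3 := hres 1
    simp only [Subgroup.coe_one] at h3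
    rw [show ρ.character g₀ = ρ.character (m₀ : G) from rfl, hres, norm_mul, hnorm, ← norm_mul,
      ← h3, Representation.char_one, Complex.norm_natCast]
  exact hns ((Chars.rep_norm_char_eq_iff ρ g₀).1 h2)

/-- The inertia group of a constituent below a character irreducible on `N` supplements `N`. -/
theorem inertia_sup {χ : G → ℂ} (hχ : IsIrrCharacter G χ) (N : Subgroup G) [hN : N.Normal]
    [Fintype N] (hres : IsIrrCharacter N (fun n : N => χ n)) (M : Subgroup G) [hM : M.Normal]
    [Fintype M] (hMN : M ≤ N) (θ : IrrCharacter M)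
    (hθ : classInner (fun k : M => χ k) (θ : M → ℂ) ≠ 0) :
    inertiaSub (θ : M → ℂ) ⊔ N = ⊤ := by
  classical
  set M' := M.subgroupOf N
  haveI : Fintype M' := Fintype.ofFinite _
  haveI : M'.Normal := Subgroup.normal_subgroupOf
  let q : M' ≃* M := Subgroup.subgroupOfEquivOfLe hMN
  set θ' : M' → ℂ := fun x => (θ : M → ℂ) (q x)
  have hθ' : IsIrrCharacter M' θ' := Chars.isIrrCharacter_comp_equiv θ.2 q
  have hinner : classInner (fun x : M' => χ ((x : N) : G)) θ' =
      classInner (fun k : M => χ k) (θ : M → ℂ) := by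
    rw [← classInner_comp_mulEquiv q (fun k : M => χ k)]; rfl
  set T := inertiaSub (θ : M → ℂ)
  have hTN : inertiaSub θ' = T.subgroupOf N := by
    ext k
    rw [Subgroup.mem_subgroupOf, mem_inertiaSub, mem_inertiaSub, funext_iff, funext_iff]
    constructor
    · intro h x
      have := h (q.symm x)
      simp only [θ', conjFun] at this
      rw [q.apply_symm_apply] at this
      exact this
    · intro h x
      exact h (q x)
  have h1 := clifford_degree hχ θ.2 hθ
  have h2 := clifford_degree hres hθ' (by rw [hinner]; exact hθ)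
  rw [hinner, hTN] at h2
  simp only [θ', OneMemClass.coe_one, map_one] at h2
  rw [h1, mul_assoc, mul_assoc] at h2
  have h3 := mul_right_cancel₀ (mul_ne_zero hθ (Chars.irr_apply_one_ne_zero θ.2)) h2
  rw [Nat.cast_inj] at h3
  have h4 : (T ⊔ N).index = 1 := by
    have e := card_sup_inf T N
    have e1 := Subgroup.card_mul_index T
    have e2 := Subgroup.card_mul_index (T.subgroupOf N)
    rw [show Nat.card (T.subgroupOf N) = Nat.card (T ⊓ N : Subgroup G) by
      rw [← Subgroup.card_map_of_injective (K := T.subgroupOf N) N.subtype_injective,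
        Subgroup.subgroupOf_map_subtype], ← h3] at e2
    rw [← e1, ← e2] at e
    have hpos : Nat.card T * (Nat.card (T ⊓ N : Subgroup G) * T.index) ≠ 0 :=
      mul_ne_zero Nat.card_pos.ne' (mul_ne_zero Nat.card_pos.ne' Subgroup.index_ne_zero_of_finite)
    refine mul_right_cancel₀ hpos ?_
    rw [one_mul, ← e]
    ring
  exact Subgroup.index_eq_one.1 h4

end

theorem relative_monomial_aux (m : ℕ) :
    ∀ (G : Type u) [Group G] [Fintype G], Nat.card G ≤ m → Group.IsSolvable G →
      ∀ (N : Subgroup G) [N.Normal] [Fintype N],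
        (∀ p : ℕ, p.Prime → ∀ Q : Subgroup G, Q ≤ N → IsPGroup p Q →
          ∀ a ∈ Q, ∀ b ∈ Q, a * b = b * a) →
        ∀ χ : G → ℂ, IsIrrCharacter G χ → IsIrrCharacter N (fun n : N => χ n) →
          ∃ (U : Subgroup G) (lam : U →* ℂˣ), indFun U (fun x => (lam x : ℂ)) = χ := by
  induction m with
  | zero => intro G _ _ hc; exact absurd hc (by have := Nat.card_pos (α := G); omega)
  | succ m ih =>
  intro G _ _ hcard hsolv N _ _ hA χ hχ hres
  classical
  have hχ0 := hχ
  obtain ⟨d, ρ, hirr, rfl⟩ := hχ0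
  haveI := hirr
  by_cases hd1 : d = 1
  · obtain ⟨l, hl⟩ := Chars.exists_hom_of_degree_one (Chars.isCharacter_of_rep ρ) (by
      rw [Representation.char_one, Module.finrank_fin_fun, hd1, Nat.cast_one])
    refine ⟨⊤, l.comp (⊤ : Subgroup G).subtype, funext fun g => ?_⟩
    rw [Chars.indFun_top_apply, hl]
    · rfl
    · exact Chars.isClassFunction_of_isCharacter
        (Chars.isCharacter_of_isIrr (Chars.isIrrCharacter_hom (l.comp (⊤ : Subgroup G).subtype)))
  let f : G →* (Representation.asGroupHom ρ).range := (Representation.asGroupHom ρ).rangeRestrict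
  have hf : Function.Surjective f := MonoidHom.rangeRestrict_surjective _
  have hfρ : ∀ g, ((f g : (Representation.asGroupHom ρ).range) :
      (Module.End ℂ (Fin d → ℂ))ˣ).1 = ρ g := fun g => Representation.asGroupHom_apply ρ g
  set Z := (Subgroup.center (Representation.asGroupHom ρ).range).comap f with hZ
  have hscal : ∀ g, g ∈ Z ↔ ∃ c : ℂ, ρ g = c • (1 : Module.End ℂ (Fin d → ℂ)) := by
    intro g
    constructor
    · intro hg
      refine Chars.scalar_of_commute ρ (ρ g) fun h => ?_
      have h1 := congrArg (fun z : (Representation.asGroupHom ρ).range =>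
        ((z : (Module.End ℂ (Fin d → ℂ))ˣ)).1) (Subgroup.mem_center_iff.1 hg (f h))
      simp only [Subgroup.coe_mul, Units.val_mul, hfρ] at h1
      exact h1.symm
    · rintro ⟨c, hc⟩
      refine Subgroup.mem_center_iff.2 fun r => Subtype.ext (Units.ext ?_)
      obtain ⟨h, rfl⟩ := hf r
      simp only [Subgroup.coe_mul, Units.val_mul, hfρ, hc]
      rw [mul_smul_one, smul_mul_assoc, one_mul]
  -- the chain
  let S : ℕ → Subgroup G := fun i => (derivedSeries N i).map N.subtype
  have hSn : ∀ i, (S i).Normal := fun i => inferInstanceAs ((derivedSeries N i).map N.subtype).Normal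
  obtain ⟨k, hk⟩ := (Group.isSolvable_def N).1 inferInstance
  have hex : ∃ i, S i ≤ Z := ⟨k, by simp [S, hk]⟩
  have hi0 : ¬ S 0 ≤ Z := by
    intro hle
    have hnorm : ∀ n : N, Complex.normSq (ρ.character n) = (d : ℝ) ^ 2 := by
      intro n
      obtain ⟨c, hc⟩ := (hscal n).1 (hle ⟨n, by simp, rfl⟩)
      have h := (Chars.rep_norm_char_eq_iff ρ (n : G)).2 ⟨c, hc⟩
      rw [Complex.normSq_eq_norm_sq, h, Module.finrank_fin_fun]
    have h := Chars.classInner_self_irr hres
    rw [Chars.classInner_def] at h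
    simp only [Complex.mul_conj, hnorm, Finset.sum_const, Finset.card_univ, nsmul_eq_mul,
      ← Nat.card_eq_fintype_card] at h
    rw [inv_mul_cancel_left₀ Chars.card_ne_zero] at h
    have h' : d ^ 2 = 1 := by exact_mod_cast h
    exact hd1 (pow_eq_one_iff_left (by norm_num) |>.1 h')
  obtain ⟨i, hi, hi'⟩ : ∃ i, ¬ S i ≤ Z ∧ S (i + 1) ≤ Z := by
    have hs := Nat.find_spec hex
    have hne : Nat.find hex ≠ 0 := fun h => hi0 (h ▸ hs)
    refine ⟨Nat.find hex - 1, Nat.find_min hex (by omega), ?_⟩
    rwa [Nat.sub_add_cancel (by omega)]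
  set M := S i with hMdef
  haveI : M.Normal := hSn i
  haveI : Fintype M := Fintype.ofFinite _
  have hMN : M ≤ N := Subgroup.map_subtype_le _
  -- the image is commutative
  have hcomm : ∀ a ∈ M, ∀ b ∈ M, ρ a * ρ b = ρ b * ρ a := by
    let g : M →* (Representation.asGroupHom ρ).range := f.comp M.subtype
    have hD : ∀ a b : g.range, a * b = b * a := by
      refine comm_of_sylow_comm (fun a b => ?_) fun p _ P a b => ?_
      · obtain ⟨a, x, rfl⟩ := a
        obtain ⟨b, y, rfl⟩ := b
        refine Subgroup.mem_center_iff.2 fun c => Subtype.ext ?_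
        have hmem : ⁅(x : G), (y : G)⁆ ∈ S (i + 1) := by
          obtain ⟨x', hx', hx⟩ := x.2
          obtain ⟨y', hy', hy⟩ := y.2
          refine ⟨⁅x', y'⁆, ?_, by rw [map_commutatorElement, hx, hy]⟩
          rw [derivedSeries_succ]
          exact Subgroup.commutator_mem_commutator hx' hy'
        have h1 := Subgroup.mem_center_iff.1 (show f ⁅(x : G), (y : G)⁆ ∈ Subgroup.center _ from hi' hmem) c.1
        rw [map_commutatorElement] at h1
        simp only [commutatorElement_def, Subgroup.coe_mul, Subgroup.coe_inv, g] at h1 ⊢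
        exact h1
      · obtain ⟨P₀⟩ : Nonempty (Sylow p M) := inferInstance
        let P₁ := Sylow.mapSurjective g.rangeRestrict_surjective P₀
        let e := Sylow.equiv P P₁
        apply e.injective
        rw [map_mul, map_mul]
        obtain ⟨x, hx, hxe⟩ := (e a).2
        obtain ⟨y, hy, hye⟩ := (e b).2
        apply Subtype.ext
        rw [Subgroup.coe_mul, Subgroup.coe_mul, ← hxe, ← hye, ← map_mul, ← map_mul]
        congr 1
        refine Subtype.ext ?_
        exact hA p (Fact.out) ((P₀ : Subgroup M).map M.subtype)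
          ((Subgroup.map_subtype_le _).trans hMN) (P₀.2.map _) _ ⟨x, hx, rfl⟩ _ ⟨y, hy, rfl⟩
    intro a ha b hb
    have h := congrArg (fun z : g.range => (((z : (Representation.asGroupHom ρ).range) :
      (Module.End ℂ (Fin d → ℂ))ˣ)).1) (hD ⟨g ⟨a, ha⟩, _, rfl⟩ ⟨g ⟨b, hb⟩, _, rfl⟩)
    simp only [Subgroup.coe_mul, Units.val_mul, g, MonoidHom.comp_apply, Subgroup.coe_subtype,
      hfρ] at h
    exact h
  obtain ⟨g₀, hg₀M, hg₀⟩ := SetLike.not_le_iff_exists.1 hi
  obtain ⟨θ, hθ⟩ : ∃ θ : IrrCharacter M, classInner (fun k : M => ρ.character k) (θ : M → ℂ) ≠ 0 := by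
    by_contra hc0
    push Not at hc0
    have h0 := apply_eq_sum (Chars.isClassFunction_of_isCharacter
      (Chars.isCharacter_restrict (Chars.isCharacter_of_isIrr hχ) M)) 1
    simp only [hc0, zero_mul, Finset.sum_const_zero, OneMemClass.coe_one] at h0
    exact Chars.irr_apply_one_ne_zero hχ h0
  have hT := inertia_ne_top ρ hχ M hcomm ⟨g₀, hg₀M, fun h => hg₀ ((hscal g₀).2 h)⟩ θ hθ
  have hsup := inertia_sup hχ N hres M hMN θ hθ
  set T := inertiaSub (θ : M → ℂ)
  haveI : Fintype T := Fintype.ofFinite T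
  obtain ⟨η, hη, hind, -⟩ :=
    exists_correspondent (le_inertiaSub (Chars.isClassFunction_irr θ)) θ.2 rfl hχ hθ
  set η' : T.subgroupOf N → ℂ := fun x => η ⟨((x : N) : G), Subgroup.mem_subgroupOf.1 x.2⟩
  have hη' : IsCharacter (T.subgroupOf N) η' := by
    obtain ⟨e, σ, -, hσ⟩ := hη
    exact ⟨e, σ.comp ({ toFun := fun x => ⟨((x : N) : G), Subgroup.mem_subgroupOf.1 x.2⟩,
                         map_one' := rfl, map_mul' := fun _ _ => rfl } : T.subgroupOf N →* T),
      funext fun x => congrFun hσ _⟩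
  have hη'i : IsIrrCharacter (T.subgroupOf N) η' := by
    refine irr_of_indFun_irr _ hη' ?_
    rw [show indFun (T.subgroupOf N) η' = fun n : N => ρ.character n from funext fun n => by
      rw [← hind, indFun_restrict_of_sup T N hsup
        (Chars.isClassFunction_of_isCharacter (Chars.isCharacter_of_isIrr hη)) n]]
    exact hres
  let e : N.subgroupOf T ≃* T.subgroupOf N :=
    { toFun := fun x => ⟨⟨((x : T) : G), Subgroup.mem_subgroupOf.1 x.2⟩,
        Subgroup.mem_subgroupOf.2 (x : T).2⟩
      invFun := fun x => ⟨⟨((x : N) : G), Subgroup.mem_subgroupOf.1 x.2⟩,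
        Subgroup.mem_subgroupOf.2 (x : N).2⟩
      left_inv := fun x => rfl
      right_inv := fun x => rfl
      map_mul' := fun x y => rfl }
  haveI : Fintype (N.subgroupOf T) := Fintype.ofFinite _
  have hlt : Nat.card T < Nat.card G :=
    lt_of_le_of_ne (Subgroup.card_le_card_group T) fun h => hT (Subgroup.eq_top_of_card_eq T h)
  obtain ⟨U, lam, hU⟩ := ih T (by omega) inferInstance (N.subgroupOf T)
    (fun p hp Q hQ hQp a ha b hb => Subtype.ext (hA p hp (Q.map T.subtype)
      (by rintro _ ⟨x, hx, rfl⟩; exact Subgroup.mem_subgroupOf.1 (hQ hx))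
      (hQp.map _) _ ⟨a, ha, rfl⟩ _ ⟨b, hb, rfl⟩))
    η hη (Chars.isIrrCharacter_comp_equiv hη'i e)
  refine ⟨U.map T.subtype,
    lam.comp (U.equivMapOfInjective T.subtype T.subtype_injective).symm.toMonoidHom, ?_⟩
  rw [← hind, ← hU, ← indFun_pushFun T U]
  rfl

theorem relative_monomial {G : Type u} [Group G] [Fintype G] [Group.IsSolvable G] (N : Subgroup G)
    [N.Normal] [Fintype N]
    (hA : ∀ p : ℕ, p.Prime → ∀ Q : Subgroup G, Q ≤ N → IsPGroup p Q →
      ∀ a ∈ Q, ∀ b ∈ Q, a * b = b * a)
    {χ : G → ℂ} (hχ : IsIrrCharacter G χ) (hres : IsIrrCharacter N (fun n : N => χ n)) :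
    ∃ (U : Subgroup G) (lam : U →* ℂˣ), indFun U (fun x => (lam x : ℂ)) = χ :=
  relative_monomial_aux (Nat.card G) G le_rfl inferInstance N hA χ hχ hres

end Cfsg.Agent.Chars2
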