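import Cfsg.Agent.Chars2.IntegralComb
import Cfsg.Agent.Blocks.PPart
import Cfsg.Agent.Blocks.Basic
import Mathlib.GroupTheory.Complement
import Mathlib.GroupTheory.NoncommCoprod

/-!
The Brauer–Suzuki transfer theorem for Hall subgroups.
-/

set_option autoImplicit false
set_option linter.style.haveILetI false
set_option linter.unusedSectionVars false

namespace Cfsg.Agent.Chars2

open Cfsg Cfsg.Agent
open scoped ComplexConjugate

universe u

theorem isElementary_of_mulEquiv {A B : Type u} [Group A] [Group B] (e : A ≃* B) {q : ℕ}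
    (h : IsElementary q A) : IsElementary q B := by
  obtain ⟨x, hxc, hxq, k, hk⟩ := h
  refine ⟨e x, Subgroup.mem_center_iff.2 fun b => ?_, by rwa [MulEquiv.orderOf_eq], k, ?_⟩
  · obtain ⟨a, rfl⟩ := e.surjective b
    rw [← map_mul, ← map_mul, Subgroup.mem_center_iff.1 hxc a]
  · rw [← hk, show Subgroup.zpowers (e x) = (Subgroup.zpowers x).map (e : A →* B) from
      (MonoidHom.map_zpowers (e : A →* B) x).symm]
    exact Subgroup.index_map_equiv _ e

/-- An exponent projecting onto the parts of order prime to `m`. -/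
theorem exists_proj_exp {m n : ℕ} (hcop : Nat.Coprime m n) :
    ∃ c : ℕ, c ≡ 1 [MOD n] ∧ c ≡ 0 [MOD m] := by
  obtain ⟨c, h1, h2⟩ := Nat.chineseRemainder hcop.symm 1 0
  exact ⟨c, h1, h2⟩

theorem pow_proj_self {G : Type u} [Group G] {n c : ℕ} (hc : c ≡ 1 [MOD n]) {z : G}
    (hz : orderOf z ∣ n) : z ^ c = z := by
  rw [pow_eq_pow_iff_modEq.2 (hc.of_dvd hz), pow_one]

theorem orderOf_proj_dvd {G : Type u} [Group G] [Finite G] {m n c : ℕ}
    (hG : Nat.card G ∣ m * n) (hc : c ≡ 0 [MOD m]) (x : G) : orderOf (x ^ c) ∣ n := by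
  refine orderOf_dvd_of_pow_eq_one ?_
  obtain ⟨j, rfl⟩ := Nat.modEq_zero_iff_dvd.1 hc
  rw [← pow_mul, mul_right_comm, pow_mul, orderOf_dvd_iff_pow_eq_one.1
    ((orderOf_dvd_natCard x).trans hG), one_pow]

/-- In an elementary group the projection is a homomorphism onto an elementary subgroup. -/
theorem exists_proj_hom {E : Type u} [Group E] [Finite E] {q : ℕ} (hq : q.Prime)
    (hE : IsElementary q E) {m n c : ℕ} (hcop : Nat.Coprime m n) (hEdvd : Nat.card E ∣ m * n)
    (hc1 : c ≡ 1 [MOD n]) (hc0 : c ≡ 0 [MOD m]) :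
    ∃ π : E →* E, (∀ e, π e = e ^ c) ∧ IsElementary q π.range ∧ Nat.card π.range ∣ n := by
  classical
  obtain ⟨U, hUn, hU, hUc, -⟩ := exists_coprime_part hq hE m
  obtain ⟨V, hVn, hV, -, -⟩ := exists_coprime_part hq hE n
  haveI := hVn
  have hUV : ∀ e : E, e ∈ U → e ∈ V → e = 1 := fun e h1 h2 => orderOf_eq_one_iff.1
    (Nat.eq_one_of_dvd_coprimes (((hU e).1 h1).mul_right ((hV e).1 h2)) dvd_rfl
      ((orderOf_dvd_natCard e).trans hEdvd))
  have hpU : ∀ e : E, e ^ c ∈ U := fun e => (hU _).2
    (hcop.symm.coprime_dvd_left (orderOf_proj_dvd hEdvd hc0 e))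
  have hpV : ∀ e : E, (e ^ c : E ⧸ V) = (e : E ⧸ V) := by
    intro e
    have hone : ∀ q : E ⧸ V, orderOf q ∣ n := by
      intro q
      obtain ⟨a, rfl⟩ := QuotientGroup.mk_surjective q
      refine orderOf_dvd_of_pow_eq_one ?_
      rw [← QuotientGroup.mk_pow, QuotientGroup.eq_one_iff, hV]
      refine Nat.Coprime.coprime_dvd_left (orderOf_dvd_of_pow_eq_one ?_) hcop
      rw [← pow_mul, mul_comm n m, orderOf_dvd_iff_pow_eq_one.1 ((orderOf_dvd_natCard a).trans hEdvd)]
    exact pow_proj_self hc1 (hone _)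
  let π : E →* E :=
    { toFun := fun e => e ^ c
      map_one' := one_pow c
      map_mul' := fun a b => by
        have hu : ((a * b) ^ c)⁻¹ * (a ^ c * b ^ c) ∈ U :=
          U.mul_mem (U.inv_mem (hpU _)) (U.mul_mem (hpU a) (hpU b))
        have hv : ((a * b) ^ c)⁻¹ * (a ^ c * b ^ c) ∈ V := by
          rw [← QuotientGroup.eq, QuotientGroup.mk_mul V (a ^ c) (b ^ c), QuotientGroup.mk_pow,
            QuotientGroup.mk_pow, QuotientGroup.mk_pow, hpV, hpV, hpV, QuotientGroup.mk_mul]
        exact inv_mul_eq_one.1 (hUV _ hu hv) }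
  have hπ : ∀ e, π e = e ^ c := fun _ => rfl
  have hrange : π.range = U := by
    refine le_antisymm ?_ fun u hu => ⟨u, ?_⟩
    · rintro _ ⟨e, rfl⟩; exact hpU e
    · rw [hπ]
      exact pow_proj_self hc1 (((hU u).1 hu).dvd_of_dvd_mul_left
        ((orderOf_dvd_natCard u).trans hEdvd))
  have hUcard : Nat.card U ∣ n :=
    hUc.dvd_of_dvd_mul_left (U.card_subgroup_dvd_card.trans hEdvd)
  refine ⟨π, hπ, ?_, hrange ▸ hUcard⟩
  rw [hrange]
  obtain ⟨x, hxc, hxq, k, hk⟩ := hE
  set y : U := ⟨x ^ c, hpU x⟩
  have hyc : y ∈ Subgroup.center U := Subgroup.mem_center_iff.2 fun u => Subtype.ext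
    (((show Commute (u : E) x from Subgroup.mem_center_iff.1 hxc u).pow_right c).eq)
  refine ⟨y, hyc, ?_, ?_⟩
  · rw [Subgroup.orderOf_mk]
    exact hxq.coprime_dvd_left (orderOf_pow_dvd c)
  · have hinf : U ⊓ Subgroup.zpowers x = Subgroup.zpowers (x ^ c) := by
      refine le_antisymm ?_ (Subgroup.zpowers_le.2 ⟨hpU x, Subgroup.pow_mem _ (Subgroup.mem_zpowers x) c⟩)
      rintro z ⟨hzU, i, rfl⟩
      have h1 : π (x ^ i) = x ^ i := pow_proj_self hc1 (((hU _).1 hzU).dvd_of_dvd_mul_left
        ((orderOf_dvd_natCard _).trans hEdvd))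
      rw [map_zpow, hπ] at h1
      exact ⟨i, h1⟩
    have h2 : (Subgroup.zpowers y).index = (Subgroup.zpowers x).relIndex U := by
      rw [← Subgroup.inf_relIndex_left, hinf, Subgroup.relIndex]
      congr 1
      ext z
      rw [Subgroup.mem_subgroupOf]
      constructor
      · rintro ⟨i, rfl⟩; exact ⟨i, rfl⟩
      · rintro ⟨i, hi⟩; exact ⟨i, Subtype.ext hi⟩
    haveI : (Subgroup.zpowers x).Normal := ⟨fun z hz a => by
      obtain ⟨i, rfl⟩ := hz
      refine ⟨i, ?_⟩
      have : Commute a (x ^ i) := Commute.zpow_right (Subgroup.mem_center_iff.1 hxc a) i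
      show x ^ i = a * x ^ i * a⁻¹
      rw [this.eq, mul_inv_cancel_right]⟩
    have h3 : (Subgroup.zpowers x).relIndex U ∣ q ^ k :=
      hk ▸ Subgroup.relIndex_dvd_index_of_normal _ _
    obtain ⟨j, -, hj⟩ := (Nat.dvd_prime_pow hq).1 h3
    exact ⟨j, h2.trans hj⟩

variable {G : Type u} [Group G] [Fintype G]

/-- A `π`-element and a Sylow subgroup of its centraliser lie in a small elementary subgroup. -/
theorem exists_elem_centralizer (y : G) {n : ℕ} {q : ℕ} (hq : q.Prime) (hy : orderOf y ∣ n)
    (hn : n.factorization q = (Nat.card G).factorization q) :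
    ∃ E : Subgroup G, IsElementary q E ∧ Nat.card E ∣ n ∧ y ∈ E ∧
      ∃ Q : Subgroup G, Q ≤ E ∧ (∀ z ∈ Q, Commute z y) ∧
        Nat.card Q = q ^ (Nat.card (Subgroup.centralizer ({y} : Set G))).factorization q := by
  classical
  haveI := Fact.mk hq
  set C := Subgroup.centralizer ({y} : Set G)
  obtain ⟨S⟩ : Nonempty (Sylow q C) := inferInstance
  set Q := (S : Subgroup C).map C.subtype with hQ
  have hQc : Nat.card Q = q ^ (Nat.card C).factorization q := by
    rw [hQ, Subgroup.card_map_of_injective C.subtype_injective]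
    exact S.card_eq_multiplicity
  have hQy : ∀ z ∈ Q, Commute z y := by
    rintro _ ⟨z, -, rfl⟩
    exact Subgroup.mem_centralizer_singleton_iff.1 z.2
  obtain ⟨b, hb⟩ : ∃ b : ℕ, y ^ b = Blocks.ppart q y := ⟨_, rfl⟩
  set s := Blocks.ppart q y
  obtain ⟨x, hsx, hcomm, hsq, hxq⟩ := Blocks.isPPart_ppart (p := q) y
  have hsQ : s ∈ Q := by
    have hsC : s ∈ C := Subgroup.mem_centralizer_singleton_iff.2 (by
      rw [← hb]; exact ((Commute.refl y).pow_left b).eq)
    haveI : (Subgroup.zpowers (⟨s, hsC⟩ : C)).Normal := ⟨fun z hz a => by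
      obtain ⟨i, rfl⟩ := hz
      refine ⟨i, ?_⟩
      have h1 : Commute a (⟨s, hsC⟩ : C) := Subtype.ext (by
        show (a : G) * s = s * a
        rw [← hb]
        exact ((show Commute (a : G) y from Subgroup.mem_centralizer_singleton_iff.1 a.2).pow_right b).eq)
      show (⟨s, hsC⟩ : C) ^ i = a * (⟨s, hsC⟩ : C) ^ i * a⁻¹
      rw [(h1.zpow_right i).eq, mul_inv_cancel_right]⟩
    have hp : IsPGroup q (Subgroup.zpowers (⟨s, hsC⟩ : C)) := by
      obtain ⟨j, hj⟩ := hsq
      exact IsPGroup.of_card (n := j) (by rw [Nat.card_zpowers, Subgroup.orderOf_mk, hj])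
    obtain ⟨R, hR⟩ := hp.exists_le_sylow
    obtain ⟨a, ha⟩ := MulAction.exists_smul_eq C R S
    refine ⟨⟨s, hsC⟩, ?_, rfl⟩
    rw [SetLike.mem_coe, ← ha, Sylow.coe_subgroup_smul, Subgroup.mem_pointwise_smul_iff_inv_smul_mem]
    refine hR ?_
    have := (inferInstance : (Subgroup.zpowers (⟨s, hsC⟩ : C)).Normal).conj_mem _
      (Subgroup.mem_zpowers (⟨s, hsC⟩ : C)) a⁻¹
    simpa using this
  have hxy : x = s⁻¹ * y := by rw [← hsx, inv_mul_cancel_left]
  have hxQ : ∀ (a : Subgroup.zpowers x) (z : Q), Commute (a : G) (z : G) := by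
    rintro ⟨_, i, rfl⟩ ⟨z, hz⟩
    refine Commute.zpow_left ?_ i
    rw [hxy]
    refine (Commute.inv_left ?_).mul_left (hQy z hz).symm
    rw [← hb]; exact ((hQy z hz).symm).pow_left b
  let Φ : Subgroup.zpowers x × Q →* G :=
    MonoidHom.noncommCoprod (Subgroup.zpowers x).subtype Q.subtype hxQ
  have hΦ : ∀ a, Φ a = (a.1 : G) * (a.2 : G) := fun _ => rfl
  have hcopxQ : Nat.Coprime (orderOf x) (Nat.card Q) := by
    rw [hQc]; exact ((hq.coprime_iff_not_dvd.2 hxq).symm).pow_right _
  have hinj : Function.Injective Φ := by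
    rw [injective_iff_map_eq_one]
    rintro ⟨a, z⟩ he
    rw [hΦ] at he
    have h1 : (a : G) = ((z : G))⁻¹ := eq_inv_of_mul_eq_one_left he
    have h2 : orderOf (a : G) = 1 := Nat.eq_one_of_dvd_coprimes hcopxQ
      ((Subgroup.orderOf_dvd_natCard (s := Subgroup.zpowers x) a.2).trans (Nat.card_zpowers x).dvd)
      (by rw [h1, orderOf_inv]; exact Subgroup.orderOf_dvd_natCard (s := Q) z.2)
    rw [orderOf_eq_one_iff] at h2
    rw [h2, one_mul] at he
    exact Prod.ext (Subtype.ext h2) (Subtype.ext he)
  have hcardE : Nat.card Φ.range = orderOf x * Nat.card Q := by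
    rw [← Nat.card_congr (MonoidHom.ofInjective hinj).toEquiv, Nat.card_prod, Nat.card_zpowers]
  have hxdvd : orderOf x ∣ n := by
    have h1 : orderOf x ∣ orderOf y := by
      rw [← hsx, hcomm.orderOf_mul_eq_mul_orderOf_of_coprime]
      · exact Dvd.intro_left _ rfl
      · obtain ⟨j, hj⟩ := hsq
        rw [hj]
        exact (hq.coprime_iff_not_dvd.2 hxq).pow_left j
    exact h1.trans hy
  refine ⟨Φ.range, ?_, ?_, ⟨(⟨x, Subgroup.mem_zpowers x⟩, ⟨s, hsQ⟩), ?_⟩, Q, ?_, hQy, hQc⟩
  · refine isElementary_of_mulEquiv (MonoidHom.ofInjective hinj)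
      ⟨(⟨x, Subgroup.mem_zpowers x⟩, 1), ?_, ?_, (Nat.card C).factorization q, ?_⟩
    · rw [Subgroup.mem_center_iff]
      rintro ⟨⟨_, i, rfl⟩, z⟩
      refine Prod.ext (Subtype.ext ?_) (by simp)
      exact (((Commute.refl x).zpow_left i)).eq
    · rw [← orderOf_injective Φ hinj]
      show Nat.Coprime (orderOf (Φ (⟨x, Subgroup.mem_zpowers x⟩, 1))) q
      rw [hΦ]
      simpa using (hq.coprime_iff_not_dvd.2 hxq).symm
    · set w : Subgroup.zpowers x × Q := (⟨x, Subgroup.mem_zpowers x⟩, 1)
      have hw : orderOf w = orderOf x := by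
        rw [← orderOf_injective Φ hinj, hΦ]; simp [w]
      have h := (Subgroup.zpowers w).card_mul_index
      rw [Nat.card_prod, Nat.card_zpowers, Nat.card_zpowers, hw, hQc] at h
      exact Nat.eq_of_mul_eq_mul_left (orderOf_pos x) h
  · rw [hcardE]
    refine Nat.Coprime.mul_dvd_of_dvd_of_dvd hcopxQ hxdvd ?_
    rw [hQc]
    have hn0 : n ≠ 0 → q ^ (Nat.card C).factorization q ∣ n := fun hn0 => by
      refine (hq.pow_dvd_iff_le_factorization hn0).2 ?_
      rw [hn]
      exact (Nat.factorization_le_iff_dvd Nat.card_pos.ne' Nat.card_pos.ne').2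
        C.card_subgroup_dvd_card q
    by_cases h0 : n = 0
    · rw [h0]; exact dvd_zero _
    · exact hn0 h0
  · rw [hΦ, ← hsx]
    exact (hcomm.eq).symm
  · intro z hz
    exact ⟨(1, ⟨z, hz⟩), by rw [hΦ]; simp⟩

/-- The Brauer–Suzuki transfer theorem. -/
theorem brauer_suzuki_transfer (H : Subgroup G) (hHall : Nat.Coprime (Nat.card H) H.index)
    (hfus : ∀ x ∈ H, ∀ y ∈ H, IsConj x y → ∃ h ∈ H, h * x * h⁻¹ = y)
    (helem : ∀ (E : Subgroup G) (p : ℕ), p.Prime → IsElementary p E → Nat.card E ∣ Nat.card H →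
      ∃ g : G, E.map (MulAut.conj g).toMonoidHom ≤ H) :
    ∃ K : Subgroup G, K.Normal ∧ K ⊔ H = ⊤ ∧ K ⊓ H = ⊥ := by
  classical
  haveI : Fintype H := Fintype.ofFinite _
  set n := Nat.card H with hn
  set m := H.index with hm
  have hmn : Nat.card G = m * n := by rw [mul_comm]; exact H.card_mul_index.symm
  have hcop : Nat.Coprime m n := hHall.symm
  obtain ⟨c, hc1, hc0⟩ := exists_proj_exp hcop
  have hGdvd : Nat.card G ∣ m * n := hmn ▸ dvd_rfl
  have htn : ∀ x : G, orderOf (x ^ c) ∣ n := orderOf_proj_dvd hGdvd hc0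
  have hself : ∀ x : H, (x : G) ^ c = x := fun x => pow_proj_self hc1
    ((Subgroup.orderOf_coe x).dvd.trans (orderOf_dvd_natCard x))
  -- conjugates of the projections inside `H`
  have hexh : ∀ x : G, ∃ y : H, IsConj (x ^ c) (y : G) := by
    intro x
    obtain ⟨p, hpge, hp⟩ := Nat.exists_infinite_primes (Nat.card G + 1)
    have hnd : ¬ p ∣ orderOf (x ^ c) := fun h => by
      have h1 := Nat.le_of_dvd Nat.card_pos (h.trans (orderOf_dvd_natCard (x ^ c)))
      omega
    have hE : IsElementary p (Subgroup.zpowers (x ^ c)) := by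
      refine ⟨⟨x ^ c, Subgroup.mem_zpowers _⟩, ?_, ?_, 0, ?_⟩
      · rw [Subgroup.mem_center_iff]
        rintro ⟨_, i, rfl⟩
        exact Subtype.ext ((Commute.refl (x ^ c)).zpow_left i).eq
      · rw [Subgroup.orderOf_mk]
        exact (hp.coprime_iff_not_dvd.2 hnd).symm
      · rw [pow_zero, Subgroup.index_eq_one, eq_top_iff]
        rintro ⟨_, i, rfl⟩ -
        exact ⟨i, Subtype.ext rfl⟩
    obtain ⟨g, hg⟩ := helem _ p hp hE (by rw [Nat.card_zpowers]; exact htn x)
    exact ⟨⟨g * x ^ c * g⁻¹, hg ⟨_, Subgroup.mem_zpowers _, by simp⟩⟩, isConj_iff.2 ⟨g, rfl⟩⟩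
  choose t ht using hexh
  have hfus' : ∀ a b : H, IsConj (a : G) (b : G) → IsConj a b := by
    intro a b hab
    obtain ⟨h, hh, he⟩ := hfus a a.2 b b.2 hab
    exact isConj_iff.2 ⟨⟨h, hh⟩, Subtype.ext he⟩
  -- centralisers
  have hcent : ∀ y : H, ∀ q : ℕ, q.Prime → q ∣ n →
      q ^ (Nat.card (Subgroup.centralizer ({(y : G)} : Set G))).factorization q ∣
        Nat.card (Subgroup.centralizer ({y} : Set H)) := by
    intro y q hq hqn
    have hqm : ¬ q ∣ m := fun h => hq.not_dvd_one (hcop ▸ Nat.dvd_gcd h hqn)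
    obtain ⟨E, hE, hEn, hyE, Q, hQE, hQy, hQc⟩ := exists_elem_centralizer (y : G) hq
      (n := n) ((Subgroup.orderOf_coe y).dvd.trans (orderOf_dvd_natCard y)) (by
        rw [hmn, Nat.factorization_mul (H.index_ne_zero_of_finite) Nat.card_pos.ne',
          Finsupp.add_apply, Nat.factorization_eq_zero_of_not_dvd hqm, zero_add])
    obtain ⟨g, hg⟩ := helem E q hq hE hEn
    have hgy : g * (y : G) * g⁻¹ ∈ H := hg ⟨(y : G), hyE, by simp⟩
    obtain ⟨h, hh, he⟩ := hfus _ hgy y y.2 (isConj_iff.2 ⟨g, rfl⟩ : IsConj (y : G) _).symm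
    rw [← hQc]
    have hmem : ∀ z : Q, h * g * (z : G) * (h * g)⁻¹ ∈ H := fun z => by
      rw [show h * g * (z : G) * (h * g)⁻¹ = h * (g * (z : G) * g⁻¹) * h⁻¹ by group]
      exact H.mul_mem (H.mul_mem hh (hg ⟨(z : G), hQE z.2, by simp⟩)) (H.inv_mem hh)
    have he' : MulAut.conj (h * g) (y : G) = y := by
      rw [MulAut.conj_apply, show h * g * (y : G) * (h * g)⁻¹ = h * (g * (y : G) * g⁻¹) * h⁻¹ by group]
      exact he
    let f : Q →* Subgroup.centralizer ({y} : Set H) :=
      { toFun := fun z => ⟨⟨_, hmem z⟩, Subgroup.mem_centralizer_singleton_iff.2 (Subtype.ext (by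
          show h * g * (z : G) * (h * g)⁻¹ * (y : G) = (y : G) * (h * g * (z : G) * (h * g)⁻¹)
          conv_lhs => rw [← he']
          conv_rhs => rw [← he']
          simp only [← MulAut.conj_apply, ← map_mul]
          rw [(hQy z z.2).eq]))⟩
        map_one' := by ext; simp
        map_mul' := fun a b => Subtype.ext (Subtype.ext (by
          show h * g * ((a : G) * (b : G)) * (h * g)⁻¹ =
            h * g * (a : G) * (h * g)⁻¹ * (h * g * (b : G) * (h * g)⁻¹)
          group)) }
    refine Subgroup.card_dvd_of_injective f fun a b e => ?_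
    have e' := congrArg (fun w : Subgroup.centralizer ({y} : Set H) => ((w : H) : G)) e
    exact Subtype.ext (mul_left_cancel (mul_right_cancel e'))
  -- sections
  set S : H → Finset G := fun y => Finset.univ.filter fun x => IsConj (x ^ c) (y : G)
  have hpowconj : ∀ (a x : G), (a * x * a⁻¹) ^ c = a * x ^ c * a⁻¹ := fun a x => by
    simp only [← MulAut.conj_apply, ← map_pow]
  have hSdvd : ∀ y : H, m * (Subgroup.centralizer ({y} : Set H)).index ∣ (S y).card := by
    intro y
    -- divisibility by `m`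
    have h1 : m ∣ (S y).card := by
      let P : G → Prop := fun z => ∃ v : G, IsConj v (y : G) ∧ ∃ u : G, z = u * v ∧ Commute u v ∧
        Nat.Coprime (orderOf u) n ∧ Nat.Coprime (orderOf v) m
      obtain ⟨-, hint⟩ := isIntegral_section_coeff m n hmn hcop (y : G)
        (fun z => if P z then (n : ℂ) else 0) (fun z hz => if_pos hz) (fun z hz => if_neg hz)
      have hPS : ∀ z, P z ↔ IsConj (z ^ c) (y : G) := by
        intro z
        constructor
        · rintro ⟨v, hv, u, rfl, huv, hu, hvm⟩
          have hun : orderOf u ∣ m := hu.dvd_of_dvd_mul_right (hmn ▸ orderOf_dvd_natCard u)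
          have hvn : orderOf v ∣ n := hvm.dvd_of_dvd_mul_left (hmn ▸ orderOf_dvd_natCard v)
          rw [huv.mul_pow, pow_proj_self hc1 hvn,
            pow_eq_pow_iff_modEq.2 (hc0.of_dvd hun), pow_zero, one_mul]
          exact hv
        · intro hz
          refine ⟨z ^ c, hz, z * (z ^ c)⁻¹, (inv_mul_cancel_right z _).symm,
            Commute.mul_left ((Commute.refl z).pow_right c) (Commute.inv_left (Commute.refl _)),
            ?_, hcop.symm.coprime_dvd_left (htn z)⟩
          refine hcop.coprime_dvd_left (orderOf_dvd_of_pow_eq_one ?_)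
          rw [((Commute.refl z).pow_right c).inv_right.mul_pow, inv_pow, ← pow_mul, mul_inv_eq_one,
            pow_eq_pow_iff_modEq]
          refine Nat.ModEq.of_dvd ((orderOf_dvd_natCard z).trans hmn.dvd) ?_
          have h2 := (hc1.symm).mul_left' m
          rw [mul_one, mul_comm m c] at h2
          exact h2
      have := hint (Blocks.oneChar G)
      rw [Blocks.coe_oneChar, Chars.classInner_def] at this
      simp only [map_one, mul_one, hPS] at this
      rw [← Finset.sum_filter, Finset.sum_const, nsmul_eq_mul] at this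
      refine Chars.dvd_of_isIntegral_div (Nat.pos_of_ne_zero H.index_ne_zero_of_finite) ?_
      convert this using 1
      rw [hmn]
      have : (m : ℂ) ≠ 0 := by exact_mod_cast H.index_ne_zero_of_finite
      have : (n : ℂ) ≠ 0 := Chars.subgroup_card_ne_zero H
      simp only [S]
      push_cast
      field_simp
    -- divisibility by the size of the conjugacy class
    have h2 : (Subgroup.centralizer ({(y : G)} : Set G)).index ∣ (S y).card := by
      rw [← Chars.card_filter_isConj (y : G),
        Finset.card_eq_sum_card_fiberwise (s := S y) (f := fun x : G => x ^ c)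
          (t := Finset.univ.filter fun v => IsConj (y : G) v)
          (fun x hx => by
            simp only [S, Finset.mem_coe, Finset.mem_filter, Finset.mem_univ, true_and] at hx ⊢
            exact hx.symm),
        Finset.sum_const_nat (m := ((S y).filter fun x => x ^ c = (y : G)).card)]
      · exact dvd_mul_right _ _
      intro v hv
      obtain ⟨a, rfl⟩ := isConj_iff.1 (Finset.mem_filter.1 hv).2
      refine Finset.card_bij' (fun x _ => a⁻¹ * x * a) (fun x _ => a * x * a⁻¹) ?_ ?_ ?_ ?_
      · intro x hx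
        simp only [S, Finset.mem_filter, Finset.mem_univ, true_and] at hx ⊢
        have e := hpowconj a⁻¹ x
        rw [inv_inv, hx.2] at e
        rw [e]
        refine ⟨?_, by group⟩
        rw [show a⁻¹ * (a * (y : G) * a⁻¹) * a = y by group]
      · intro x hx
        simp only [S, Finset.mem_filter, Finset.mem_univ, true_and] at hx ⊢
        rw [hpowconj, hx.2]
        exact ⟨(isConj_iff.2 ⟨a, rfl⟩ : IsConj (y : G) _).symm, rfl⟩
      · intro x _; group
      · intro x _; group
    set CG := Subgroup.centralizer ({(y : G)} : Set G)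
    set CH := Subgroup.centralizer ({y} : Set H)
    -- the class in `H` is coprime to `m`
    have hcopH : Nat.Coprime m CH.index := hcop.coprime_dvd_right CH.index_dvd_card
    have h3 : CH.index ∣ CG.index := by
      have e1 := CG.card_mul_index
      have e2 : Nat.card CH * CH.index = n := CH.card_mul_index
      have hdiv : Nat.card CG ∣ m * Nat.card CH := by
        refine (Nat.dvd_iff_prime_pow_dvd_dvd _ _).2 fun q k hq hk => ?_
        by_cases hqn : q ∣ n
        · refine Dvd.dvd.mul_left ((Nat.pow_dvd_pow q ?_).trans (hcent y q hq hqn)) _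
          exact (hq.pow_dvd_iff_le_factorization Nat.card_pos.ne').1 hk
        · refine Dvd.dvd.mul_right ?_ _
          exact ((hq.coprime_iff_not_dvd.2 hqn).pow_left k).dvd_of_dvd_mul_right
            (hk.trans (CG.card_subgroup_dvd_card.trans hGdvd))
      obtain ⟨d, hd⟩ := hdiv
      refine Dvd.intro d ?_
      refine Nat.eq_of_mul_eq_mul_left (Nat.card_pos (α := CG)) ?_
      rw [e1, hmn, ← e2, ← mul_assoc m, hd]
      ring
    exact hcopH.mul_dvd_of_dvd_of_dvd h1 (h3.trans h2)
  have hS : ∀ y : H, (S y).card = m * (Subgroup.centralizer ({y} : Set H)).index := by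
    haveI : Finite (ConjClasses H) := Finite.of_surjective ConjClasses.mk ConjClasses.exists_rep
    haveI : Fintype (ConjClasses H) := Fintype.ofFinite _
    have hrep : ∀ C : ConjClasses H, ∃ y, ConjClasses.mk y = C := ConjClasses.exists_rep
    choose r hr using hrep
    have hdisj : ∀ C D, C ≠ D → Disjoint (S (r C)) (S (r D)) := by
      intro C D hne
      rw [Finset.disjoint_left]
      intro x hx hx'
      simp only [S, Finset.mem_filter, Finset.mem_univ, true_and] at hx hx'
      refine hne ?_
      rw [← hr C, ← hr D, ConjClasses.mk_eq_mk_iff_isConj]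
      exact hfus' _ _ (hx.symm.trans hx')
    have hpos : ∀ y : H, (S y).Nonempty := fun y => ⟨y, by
      simp only [S, Finset.mem_filter, Finset.mem_univ, true_and, hself]; exact IsConj.refl _⟩
    have hclass : ∀ y : H, (S y).card = (S (r (ConjClasses.mk y))).card ∧
        (Subgroup.centralizer ({y} : Set H)).index =
          (Subgroup.centralizer ({r (ConjClasses.mk y)} : Set H)).index := by
      intro y
      have hc : IsConj y (r (ConjClasses.mk y)) :=
        (ConjClasses.mk_eq_mk_iff_isConj.1 (hr _)).symm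
      refine ⟨?_, ?_⟩
      · simp only [S]
        congr 1
        refine Finset.filter_congr fun x _ => ?_
        have hc' : IsConj (y : G) (r (ConjClasses.mk y) : G) := MonoidHom.map_isConj H.subtype hc
        exact ⟨fun h => h.trans hc', fun h => h.trans hc'.symm⟩
      · rw [← Chars.card_filter_isConj, ← Chars.card_filter_isConj]
        congr 1
        exact Finset.filter_congr fun x _ => ⟨fun h => hc.symm.trans h, fun h => hc.trans h⟩
    have hsum : ∑ C : ConjClasses H, (Subgroup.centralizer ({r C} : Set H)).index = n := by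
      rw [hn, Nat.card_eq_fintype_card, ← Finset.card_univ,
        Finset.card_eq_sum_card_fiberwise (f := ConjClasses.mk) (t := Finset.univ)
          (fun x _ => Finset.mem_univ _)]
      refine Finset.sum_congr rfl fun C _ => ?_
      rw [← Chars.card_filter_isConj]
      congr 1
      ext x
      simp only [Finset.mem_filter, Finset.mem_univ, true_and]
      conv_rhs => rw [← hr C, ConjClasses.mk_eq_mk_iff_isConj]
      exact ⟨IsConj.symm, IsConj.symm⟩
    have hle : ∑ C : ConjClasses H, (S (r C)).card ≤ m * n := by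
      rw [← Finset.card_biUnion fun C _ D _ h => hdisj C D h, ← hmn, Nat.card_eq_fintype_card]
      exact Finset.card_le_univ _
    have hge : ∀ C, m * (Subgroup.centralizer ({r C} : Set H)).index ≤ (S (r C)).card := fun C =>
      Nat.le_of_dvd (Finset.card_pos.2 (hpos _)) (hSdvd _)
    have heq : ∀ C, m * (Subgroup.centralizer ({r C} : Set H)).index = (S (r C)).card := by
      have := (Finset.sum_eq_sum_iff_of_le fun C (_ : C ∈ Finset.univ) => hge C).1
        (le_antisymm (Finset.sum_le_sum fun C _ => hge C) (by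
          rw [← Finset.mul_sum, hsum]; exact hle))
      exact fun C => this C (Finset.mem_univ C)
    intro y
    rw [(hclass y).1, (hclass y).2, heq]
  -- the extended characters
  have ht_spec : ∀ (x : G) (y : H), IsConj (x ^ c) (y : G) → IsConj (t x) y := fun x y h =>
    hfus' _ _ ((ht x).symm.trans h)
  set Θ : (H → ℂ) → G → ℂ := fun φ x => φ (t x)
  have hcls : ∀ {φ : H → ℂ}, IsClassFunction H φ → IsClassFunction G (Θ φ) := by
    intro φ hφ x a
    refine Blocks.isClassFunction_eq hφ ((ht_spec x (t (a * x * a⁻¹)) ?_))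
    refine IsConj.trans ?_ (ht (a * x * a⁻¹))
    rw [hpowconj]
    exact isConj_iff.2 ⟨a, rfl⟩
  have hgen : ∀ φ : IrrCharacter H, IsGeneralizedCharacter G (Θ φ) := by
    intro φ
    refine Chars.isGen_of_elementary (hcls (Chars.isClassFunction_irr φ)) fun E q hq hE => ?_
    have hEdvd : Nat.card E ∣ m * n := hmn ▸ E.card_subgroup_dvd_card
    obtain ⟨π, hπ, hπE, hπn⟩ := exists_proj_hom hq hE hcop hEdvd hc1 hc0
    obtain ⟨g, hg⟩ := helem (π.range.map E.subtype) q hq
      (isElementary_of_mulEquiv (π.range.equivMapOfInjective E.subtype E.subtype_injective) hπE)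
      (by rw [Subgroup.card_map_of_injective E.subtype_injective]; exact hπn)
    let ψ : E →* H := (((MulAut.conj g).toMonoidHom.comp E.subtype).comp π).codRestrict H fun e =>
      hg ⟨(π e : G), ⟨π e, ⟨e, rfl⟩, rfl⟩, rfl⟩
    have e1 : (fun e : E => Θ φ e) = fun e => (φ : H → ℂ) (ψ e) := funext fun e => by
      refine Blocks.isClassFunction_eq (Chars.isClassFunction_irr φ) (ht_spec _ (ψ e) ?_).symm
      refine isConj_iff.2 ⟨g, ?_⟩
      show g * (e : G) ^ c * g⁻¹ = g * (π e : G) * g⁻¹
      rw [hπ, Subgroup.coe_pow]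
    rw [e1]
    exact Chars.isGen_of_isCharacter (Chars.isCharacter_comp (Chars.irr_isCharacter φ) ψ)
  have hnorm : ∀ φ : IrrCharacter H, classInner (Θ φ) (Θ φ) = 1 := by
    intro φ
    rw [← Chars.classInner_self_irr φ.2, Chars.classInner_def, Chars.classInner_def, hmn, ← hn]
    set F : H → ℂ := fun y => (φ : H → ℂ) y * conj ((φ : H → ℂ) y)
    have hF : ∀ {a b : H}, IsConj a b → F a = F b := fun {a b} hab => by
      simp only [F, Blocks.isClassFunction_eq (Chars.isClassFunction_irr φ) hab]
    have hkey : ∑ x : G, F (t x) = (m : ℂ) * ∑ y : H, F y := by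
      have hterm : ∀ y : H, ((S y).card : ℂ)⁻¹ * ∑ x ∈ S y, F (t x) = F y := by
        intro y
        have h1 : ∀ x ∈ S y, F (t x) = F y := fun x hx =>
          hF (ht_spec x y (Finset.mem_filter.1 hx).2)
        rw [Finset.sum_congr rfl h1, Finset.sum_const, nsmul_eq_mul, ← mul_assoc,
          inv_mul_cancel₀ (by
            rw [hS]
            exact_mod_cast Nat.mul_ne_zero H.index_ne_zero_of_finite
              (Subgroup.index_ne_zero_of_finite)), one_mul]
      have h2 : ∀ x : G, ∑ y : H, (if IsConj (x ^ c) (y : G) then ((S y).card : ℂ)⁻¹ else 0) =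
          (m : ℂ)⁻¹ := by
        intro x
        have e1 : (Finset.univ.filter fun y : H => IsConj (x ^ c) (y : G)) =
            Finset.univ.filter fun y : H => IsConj (t x) y := Finset.filter_congr fun y _ =>
          ⟨ht_spec x y, fun h => (ht x).trans (MonoidHom.map_isConj H.subtype h)⟩
        rw [← Finset.sum_filter, e1, Finset.sum_congr rfl (fun y hy => by
          rw [hS, show (Subgroup.centralizer ({y} : Set H)).index =
            (Subgroup.centralizer ({t x} : Set H)).index by
              rw [← Chars.card_filter_isConj, ← Chars.card_filter_isConj]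
              congr 1
              exact Finset.filter_congr fun z _ => ⟨fun h => (Finset.mem_filter.1 hy).2.trans h,
                fun h => (Finset.mem_filter.1 hy).2.symm.trans h⟩]),
          Finset.sum_const, Chars.card_filter_isConj, nsmul_eq_mul]
        have h3 : ((Subgroup.centralizer ({t x} : Set H)).index : ℂ) ≠ 0 := by
          exact_mod_cast Subgroup.index_ne_zero_of_finite
        push_cast
        field_simp
      have h3 : ∑ y : H, F y = (m : ℂ)⁻¹ * ∑ x : G, F (t x) := by
        rw [← Finset.sum_congr rfl fun y (_ : y ∈ Finset.univ) => hterm y]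
        simp only [S, Finset.sum_filter, Finset.mul_sum, mul_ite, mul_zero]
        rw [Finset.sum_comm]
        refine Finset.sum_congr rfl fun x _ => ?_
        rw [← h2 x, Finset.sum_mul]
        refine Finset.sum_congr rfl fun y _ => ?_
        simp only [ite_mul, zero_mul]
        rfl
      rw [h3, ← mul_assoc, mul_inv_cancel₀ (by exact_mod_cast H.index_ne_zero_of_finite), one_mul]
    show _ * ∑ x : G, F (t x) = _ * ∑ y : H, F y
    rw [hkey]
    have : (m : ℂ) ≠ 0 := by exact_mod_cast H.index_ne_zero_of_finite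
    have : (n : ℂ) ≠ 0 := Chars.subgroup_card_ne_zero H
    push_cast
    field_simp
  have ht1 : t 1 = 1 := isConj_one_left.1 (ht_spec 1 1 (by rw [one_pow]; exact IsConj.refl _))
  have hirr : ∀ φ : IrrCharacter H, IsCharacter G (Θ φ) := by
    intro φ
    rcases Chars.isIrrCharacter_of_gen_norm_one (hgen φ) (hnorm φ) with h | h
    · exact Chars.isCharacter_of_isIrr h
    · exfalso
      obtain ⟨d, hd0, hd⟩ := Chars.exists_irr_apply_one_eq h
      obtain ⟨e, he0, he⟩ := Chars.exists_irr_apply_one_eq φ.2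
      simp only [Pi.neg_apply, Θ, ht1, he] at hd
      have h1 : ((d + e : ℕ) : ℂ) = 0 := by push_cast; linear_combination -hd
      have h2 : d + e = 0 := by exact_mod_cast h1
      omega
  set K : Subgroup G := ⨅ φ : IrrCharacter H, Chars.charKer (hirr φ)
  have hKmem : ∀ x, x ∈ K ↔ x ^ c = 1 := by
    intro x
    simp only [K, Subgroup.mem_iInf, Chars.mem_charKer, Θ, ht1]
    constructor
    · intro hall
      have h1 : IsConj (t x) (1 : H) := by
        by_contra hne
        have e := Chars.column_orth (t x) (1 : H)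
        have e' := Chars.column_orth (1 : H) (1 : H)
        rw [if_neg hne] at e
        rw [if_pos (IsConj.refl _)] at e'
        simp only [hall] at e
        rw [e] at e'
        exact Chars.subgroup_card_ne_zero _ e'.symm
      have h2 : t x = 1 := isConj_one_left.1 h1
      have h3 := ht x
      rw [h2] at h3
      exact isConj_one_left.1 (Subgroup.coe_one H ▸ h3)
    · intro hx φ
      have h1 : IsConj (t x) (1 : H) := ht_spec x 1 (by rw [hx, Subgroup.coe_one])
      rw [isConj_one_left.1 h1]
  have hKcard : Nat.card K = m := by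
    have h := hS 1
    rw [show Subgroup.centralizer ({(1 : H)} : Set H) = ⊤ from
      Subgroup.centralizer_eq_top_iff_subset.2 (by simp [Subgroup.one_mem]), Subgroup.index_top,
      mul_one] at h
    rw [← h, ← Nat.card_eq_finsetCard]
    refine Nat.card_congr (Equiv.subtypeEquivRight fun x => ?_)
    simp only [S, Finset.mem_filter, Finset.mem_univ, true_and, hKmem, Subgroup.coe_one]
    exact ⟨fun e => e ▸ IsConj.refl _, fun e => isConj_one_left.1 e⟩
  have hcompl : K.IsComplement' H := Subgroup.isComplement'_of_coprime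
    (by rw [hKcard, ← hn, hmn]) (by rw [hKcard]; exact hcop)
  exact ⟨K, Subgroup.normal_iInf_normal fun φ => Chars.charKer_normal _, hcompl.sup_eq_top,
    hcompl.disjoint.eq_bot⟩

end Cfsg.Agent.Chars2
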