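import Cfsg.Agent.Chars2.Clifford
import Cfsg.Agent.Blocks.Orth

/-!
Principal blocks of a central product with `p`-group intersection.
-/

set_option autoImplicit false
set_option linter.unusedSectionVars false

namespace Cfsg.Agent.Chars2

open Cfsg Cfsg.Agent

universe u

variable {G : Type u} [Group G] [Fintype G]

section block

variable {p : ℕ} [Fact p.Prime] {M : Ideal AlgInt} [M.IsMaximal]

/-- The principal block is detected on the `p`-regular classes. -/
theorem mem_principal_of_regular (hpM : (p : AlgInt) ∈ M) (χ : IrrCharacter G)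
    (h : ∀ g : G, ¬ p ∣ orderOf g →
      MemLocalIdeal M (centralChar (χ : G → ℂ) g - centralChar (fun _ : G => (1 : ℂ)) g)) :
    χ ∈ principalBlock M G := by
  classical
  by_contra hχ
  have hB := Blocks.isPBlock_principal (M := M) (G := G)
  have h0 := Blocks.omega_blockCoeff_not_mem (G := G) hχ
  have h1 := Blocks.omega_blockCoeff_mem (G := G) (Blocks.one_mem_principal (M := M) (G := G))
  have hec := Blocks.isClassFunction_blockCoeff (principalBlock M G)
  rw [Blocks.omega_eq_sum_clsFun (Chars.isClassFunction_irr _) hec] at h0 h1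
  have hI : MemLocalIdeal M ((0 : ℂ) - 1) := by
    rw [← h0, ← h1, ← Finset.sum_sub_distrib]
    refine Blocks.memI_sum _ _ fun C _ => ?_
    rw [← mul_sub]
    by_cases hC : p ∣ orderOf (Blocks.clsRep C)
    · rw [Blocks.blockCoeff_eq_zero_of_dvd hpM hB hC, zero_mul]; exact Blocks.memI_zero
    · exact Blocks.memI_mul_left (Blocks.rFun_blockCoeff hpM hB _) (h _ hC)
  have := Blocks.memI_neg hI
  rw [zero_sub, neg_neg] at this
  exact Blocks.not_memI_one this

end block

variable {U V : Subgroup G}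

theorem exists_mul_of_commuting (hcomm : ∀ u ∈ U, ∀ v ∈ V, u * v = v * u) (hgen : U ⊔ V = ⊤)
    (g : G) : ∃ u ∈ U, ∃ v ∈ V, u * v = g := by
  have hg : g ∈ U ⊔ V := hgen ▸ Subgroup.mem_top g
  rw [Subgroup.sup_eq_closure] at hg
  induction hg using Subgroup.closure_induction with
  | mem x hx =>
    rcases hx with hx | hx
    · exact ⟨x, hx, 1, V.one_mem, mul_one x⟩
    · exact ⟨1, U.one_mem, x, hx, one_mul x⟩
  | one => exact ⟨1, U.one_mem, 1, V.one_mem, one_mul 1⟩
  | mul x y _ _ hx hy =>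
    obtain ⟨a, ha, b, hb, rfl⟩ := hx
    obtain ⟨c, hc, d, hd, rfl⟩ := hy
    refine ⟨a * c, U.mul_mem ha hc, b * d, V.mul_mem hb hd, ?_⟩
    calc a * c * (b * d) = a * (c * b) * d := by group
      _ = a * (b * c) * d := by rw [hcomm c hc b hb]
      _ = a * b * (c * d) := by group
  | inv x _ hx =>
    obtain ⟨a, ha, b, hb, rfl⟩ := hx
    exact ⟨a⁻¹, U.inv_mem ha, b⁻¹, V.inv_mem hb, by
      rw [hcomm _ (U.inv_mem ha) _ (V.inv_mem hb), mul_inv_rev]⟩

theorem factor_normal (hcomm : ∀ u ∈ U, ∀ v ∈ V, u * v = v * u) (hgen : U ⊔ V = ⊤) :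
    U.Normal := by
  refine ⟨fun x hx g => ?_⟩
  obtain ⟨a, ha, b, hb, rfl⟩ := exists_mul_of_commuting hcomm hgen g
  have : b * x * b⁻¹ = x := by rw [← hcomm x hx b hb]; group
  have e : a * b * x * (a * b)⁻¹ = a * (b * x * b⁻¹) * a⁻¹ := by group
  rw [e, this]
  exact U.mul_mem (U.mul_mem ha hx) (U.inv_mem ha)

/-- Restriction to a factor of a central product. -/
theorem apply_factor (hcomm : ∀ u ∈ U, ∀ v ∈ V, u * v = v * u) (hgen : U ⊔ V = ⊤) [Fintype U]
    (χ : IrrCharacter G) (ψ : IrrCharacter U)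
    (h : classInner (fun u : U => (χ : G → ℂ) u) (ψ : U → ℂ) ≠ 0) (u : U) :
    (χ : G → ℂ) u / (χ : G → ℂ) 1 = (ψ : U → ℂ) u / (ψ : U → ℂ) 1 := by
  haveI := factor_normal hcomm hgen
  have hT : inertiaSub (ψ : U → ℂ) = ⊤ := by
    refine inertiaSub_eq_top fun g n => ?_
    obtain ⟨a, ha, b, hb, rfl⟩ := exists_mul_of_commuting hcomm hgen g
    have e : (⟨a, ha⟩ : U) * n * (⟨a, ha⟩ : U)⁻¹ =
        ⟨a * b * n * (a * b)⁻¹, ‹U.Normal›.conj_mem (n : G) n.2 (a * b)⟩ := by
      refine Subtype.ext ?_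
      have : b * n * b⁻¹ = n := by rw [← hcomm n n.2 b hb]; group
      show a * n * a⁻¹ = a * b * n * (a * b)⁻¹
      rw [show a * b * n * (a * b)⁻¹ = a * (b * n * b⁻¹) * a⁻¹ by group, this]
    rw [← e]
    exact Chars.isClassFunction_irr ψ n _
  have h1 := fun x : U => clifford_invariant χ.2 ψ.2 hT h x
  rw [h1 u, show (χ : G → ℂ) 1 = _ from h1 1, mul_div_mul_left _ _ h]

theorem index_centralizer_factor (hcomm : ∀ u ∈ U, ∀ v ∈ V, u * v = v * u) (hgen : U ⊔ V = ⊤)
    (u : U) :
    (Subgroup.centralizer ({(u : G)} : Set G)).index =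
      (Subgroup.centralizer ({u} : Set U)).index := by
  symm
  refine Nat.card_eq_of_bijective (Quotient.map' (fun x : U => (x : G)) fun x y hxy => ?_) ⟨?_, ?_⟩
  · rw [QuotientGroup.leftRel_apply] at hxy ⊢
    rw [Subgroup.mem_centralizer_singleton_iff] at hxy ⊢
    exact congrArg Subtype.val hxy
  · intro x y hxy
    induction x using QuotientGroup.induction_on with
    | H x =>
      induction y using QuotientGroup.induction_on with
      | H y =>
        have h : (QuotientGroup.mk (x : G) : G ⧸ Subgroup.centralizer ({(u : G)} : Set G)) =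
          QuotientGroup.mk (y : G) := hxy
        rw [QuotientGroup.eq, Subgroup.mem_centralizer_singleton_iff] at h
        exact QuotientGroup.eq.2 (Subgroup.mem_centralizer_singleton_iff.2 (Subtype.ext h))
  · intro q
    induction q using QuotientGroup.induction_on with
    | H g =>
      obtain ⟨a, ha, b, hb, rfl⟩ := exists_mul_of_commuting hcomm hgen g
      refine ⟨QuotientGroup.mk ⟨a, ha⟩, ?_⟩
      show (QuotientGroup.mk a : G ⧸ _) = QuotientGroup.mk (a * b)
      rw [QuotientGroup.eq, inv_mul_cancel_left, Subgroup.mem_centralizer_singleton_iff]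
      exact (hcomm u u.2 b hb).symm

/-- The central characters of a factor. -/
theorem centralChar_factor (hcomm : ∀ u ∈ U, ∀ v ∈ V, u * v = v * u) (hgen : U ⊔ V = ⊤) [Fintype U]
    (χ : IrrCharacter G) (ψ : IrrCharacter U)
    (h : classInner (fun u : U => (χ : G → ℂ) u) (ψ : U → ℂ) ≠ 0) (u : U) :
    centralChar (χ : G → ℂ) (u : G) = centralChar (ψ : U → ℂ) u := by
  rw [centralChar, centralChar, index_centralizer_factor hcomm hgen u, mul_div_assoc,
    mul_div_assoc, apply_factor hcomm hgen χ ψ h u]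

theorem centralChar_factor_one (hcomm : ∀ u ∈ U, ∀ v ∈ V, u * v = v * u) (hgen : U ⊔ V = ⊤)
    (u : U) :
    centralChar (fun _ : G => (1 : ℂ)) (u : G) = centralChar (fun _ : U => (1 : ℂ)) u := by
  rw [centralChar, centralChar, index_centralizer_factor hcomm hgen u]

/-- A character is multiplicative on a central product. -/
theorem apply_mul_factor (hcomm : ∀ u ∈ U, ∀ v ∈ V, u * v = v * u) (hgen : U ⊔ V = ⊤)
    (χ : IrrCharacter G) {u v : G} (hu : u ∈ U) (hv : v ∈ V) :
    (χ : G → ℂ) (u * v) = (χ : G → ℂ) u * (χ : G → ℂ) v / (χ : G → ℂ) 1 := by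
  have h := Blocks.sum_apply_mul_conj χ u v
  rw [Finset.sum_congr rfl (g := fun _ => (χ : G → ℂ) (u * v)) fun g _ => ?_, Finset.sum_const,
    Finset.card_univ, nsmul_eq_mul, ← Nat.card_eq_fintype_card, mul_assoc, mul_div_assoc] at h
  · exact mul_left_cancel₀ (Chars.card_ne_zero (G := G)) h
  · obtain ⟨a, ha, b, hb, rfl⟩ := exists_mul_of_commuting hcomm hgen g
    have e : u * (a * b * v * (a * b)⁻¹) = b * (u * v) * b⁻¹ := by
      have h1 : a * (b * v * b⁻¹) = b * v * b⁻¹ * a :=
        hcomm a ha _ (V.mul_mem (V.mul_mem hb hv) (V.inv_mem hb))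
      have h2 : a * b * v * (a * b)⁻¹ = b * v * b⁻¹ := by
        rw [show a * b * v * (a * b)⁻¹ = a * (b * v * b⁻¹) * a⁻¹ by group, h1]; group
      rw [h2, ← mul_assoc, ← mul_assoc, hcomm u hu b hb]
      group
    rw [e, Chars.isClassFunction_irr χ]

/-- Centralizers of products of `p`-regular elements. -/
theorem index_centralizer_mul {p : ℕ} [Fact p.Prime]
    (hcomm : ∀ u ∈ U, ∀ v ∈ V, u * v = v * u) (hgen : U ⊔ V = ⊤)
    (hZ : IsPGroup p ↥(U ⊓ V)) {u v : G} (hu : u ∈ U) (hv : v ∈ V) (hup : ¬ p ∣ orderOf u) :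
    (Subgroup.centralizer ({u * v} : Set G)).index =
      (Subgroup.centralizer ({u} : Set G)).index * (Subgroup.centralizer ({v} : Set G)).index := by
  have hle : Subgroup.centralizer ({u * v} : Set G) =
      Subgroup.centralizer ({u} : Set G) ⊓ Subgroup.centralizer ({v} : Set G) := by
    ext g
    simp only [Subgroup.mem_inf, Subgroup.mem_centralizer_singleton_iff]
    constructor
    · intro h
      obtain ⟨a, ha, b, hb, rfl⟩ := exists_mul_of_commuting hcomm hgen g
      set u' := a * u * a⁻¹ with hu'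
      set v' := b * v * b⁻¹ with hv'
      have hu'U : u' ∈ U := U.mul_mem (U.mul_mem ha hu) (U.inv_mem ha)
      have hv'V : v' ∈ V := V.mul_mem (V.mul_mem hb hv) (V.inv_mem hb)
      have e1 : a * b * u * (a * b)⁻¹ = u' := by
        rw [show a * b * u * (a * b)⁻¹ = a * (b * u) * b⁻¹ * a⁻¹ by group, ← hcomm u hu b hb, hu']
        group
      have e2 : a * b * v * (a * b)⁻¹ = v' := by
        rw [show a * b * v * (a * b)⁻¹ = a * (b * v * b⁻¹) * a⁻¹ by group,
          hcomm a ha _ hv'V]
        group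
      have e3 : u' * v' = u * v := by
        rw [← e1, ← e2]
        calc _ = a * b * (u * v) * (a * b)⁻¹ := by group
          _ = u * v := by rw [h]; group
      set z := u⁻¹ * u' with hz
      have hzV : z ∈ V := by
        have : z = v * v'⁻¹ := by
          calc z = u⁻¹ * (u' * v') * v'⁻¹ := by rw [hz]; group
            _ = v * v'⁻¹ := by rw [e3]; group
        rw [this]; exact V.mul_mem hv (V.inv_mem hv'V)
      have hzU : z ∈ U := U.mul_mem (U.inv_mem hu) hu'U
      obtain ⟨j, hj⟩ := hZ ⟨z, hzU, hzV⟩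
      have hj' : z ^ p ^ j = 1 := congrArg Subtype.val hj
      have hzo : z ^ orderOf u = 1 := by
        have hc : Commute u z := hcomm u hu z hzV
        have h1 : u' = u * z := by rw [hz]; group
        have h2 : u' ^ orderOf u = 1 := by rw [hu', conj_pow, pow_orderOf_eq_one]; group
        rw [h1, hc.mul_pow, pow_orderOf_eq_one, one_mul] at h2
        exact h2
      have hcop : Nat.Coprime (p ^ j) (orderOf u) :=
        (((Fact.out : p.Prime).coprime_iff_not_dvd).2 hup).pow_left j
      have hz1 : z = 1 := by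
        have := pow_gcd_eq_one.2 ⟨hj', hzo⟩
        rwa [hcop.gcd_eq_one, pow_one] at this
      have h1 : u' = u := by rw [hz, inv_mul_eq_one] at hz1; exact hz1.symm
      refine ⟨?_, ?_⟩
      · rw [← e1, mul_inv_eq_iff_eq_mul] at h1; exact h1
      · have h2 : v' = v := by
          rw [h1] at e3; exact mul_left_cancel e3
        rw [← e2, mul_inv_eq_iff_eq_mul] at h2; exact h2
    · rintro ⟨h1, h2⟩
      rw [← mul_assoc, h1, mul_assoc, h2, ← mul_assoc]
  rw [hle, Subgroup.index_eq_card, Subgroup.index_eq_card, Subgroup.index_eq_card, ← Nat.card_prod]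
  refine Nat.card_eq_of_bijective (fun q => Quotient.liftOn' q
    (fun g : G => ((QuotientGroup.mk g : G ⧸ Subgroup.centralizer ({u} : Set G)),
      (QuotientGroup.mk g : G ⧸ Subgroup.centralizer ({v} : Set G))))
    fun x y hxy => ?_) ⟨?_, ?_⟩
  · rw [QuotientGroup.leftRel_apply] at hxy
    exact Prod.ext (QuotientGroup.eq.2 hxy.1) (QuotientGroup.eq.2 hxy.2)
  · intro x y hxy
    induction x using QuotientGroup.induction_on with
    | H x =>
      induction y using QuotientGroup.induction_on with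
      | H y =>
        exact QuotientGroup.eq.2 ⟨QuotientGroup.eq.1 (congrArg Prod.fst hxy),
          QuotientGroup.eq.1 (congrArg Prod.snd hxy)⟩
  · rintro ⟨q₁, q₂⟩
    induction q₁ using QuotientGroup.induction_on with
    | H g₁ =>
      induction q₂ using QuotientGroup.induction_on with
      | H g₂ =>
        obtain ⟨a₁, ha₁, b₁, hb₁, rfl⟩ := exists_mul_of_commuting hcomm hgen g₁
        obtain ⟨a₂, ha₂, b₂, hb₂, rfl⟩ := exists_mul_of_commuting hcomm hgen g₂
        refine ⟨QuotientGroup.mk (a₁ * b₂), Prod.ext (QuotientGroup.eq.2 ?_) (QuotientGroup.eq.2 ?_)⟩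
        · rw [show (a₁ * b₂)⁻¹ * (a₁ * b₁) = b₂⁻¹ * b₁ by group,
            Subgroup.mem_centralizer_singleton_iff]
          exact (hcomm u hu _ (V.mul_mem (V.inv_mem hb₂) hb₁)).symm
        · haveI := factor_normal hcomm hgen
          rw [show (a₁ * b₂)⁻¹ * (a₂ * b₂) = b₂⁻¹ * (a₁⁻¹ * a₂) * b₂⁻¹⁻¹ by group,
            Subgroup.mem_centralizer_singleton_iff]
          exact hcomm _ (‹U.Normal›.conj_mem _ (U.mul_mem (U.inv_mem ha₁) ha₂) b₂⁻¹) v hv

variable {p : ℕ} [Fact p.Prime] {M : Ideal AlgInt} [M.IsMaximal]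

theorem exists_regular_factors (hcomm : ∀ u ∈ U, ∀ v ∈ V, u * v = v * u) (hgen : U ⊔ V = ⊤)
    {g : G} (hg : ¬ p ∣ orderOf g) :
    ∃ u ∈ U, ∃ v ∈ V, u * v = g ∧ ¬ p ∣ orderOf u ∧ ¬ p ∣ orderOf v := by
  have hpp : p.Prime := Fact.out
  set a := (Nat.card G).factorization p
  obtain ⟨n, hn1, hn2⟩ := Nat.chineseRemainder
    (((hpp.coprime_iff_not_dvd).2 hg).pow_left a).symm 1 0
  obtain ⟨x, hx, y, hy, rfl⟩ := exists_mul_of_commuting hcomm hgen g
  have hreg : ∀ x : G, ¬ p ∣ orderOf (x ^ n) := fun x h => by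
    have h1 : (x ^ n) ^ (Nat.card G / p ^ a) = 1 := by
      obtain ⟨t, ht⟩ := (Nat.modEq_zero_iff_dvd).1 hn2
      rw [← pow_mul, ht, mul_assoc, mul_comm t, ← mul_assoc,
        Nat.mul_div_cancel' (Nat.ordProj_dvd (Nat.card G) p), pow_mul, pow_card_eq_one', one_pow]
    exact Nat.not_dvd_ordCompl hpp Nat.card_pos.ne' (h.trans (orderOf_dvd_of_pow_eq_one h1))
  refine ⟨x ^ n, U.pow_mem hx n, y ^ n, V.pow_mem hy n, ?_, hreg x, hreg y⟩
  rw [← (show Commute x y from hcomm x hx y hy).mul_pow]
  conv_rhs => rw [← pow_one (x * y)]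
  exact pow_eq_pow_iff_modEq.2 hn1

/-- Principal blocks of a central product. -/
theorem mem_principal_iff_of_central_product (hpM : (p : AlgInt) ∈ M)
    (hcomm : ∀ u ∈ U, ∀ v ∈ V, u * v = v * u) (hgen : U ⊔ V = ⊤) (hZ : IsPGroup p ↥(U ⊓ V))
    [Fintype U] [Fintype V] (χ : IrrCharacter G) (ψ : IrrCharacter U) (φ : IrrCharacter V)
    (h₁ : classInner (fun u : U => (χ : G → ℂ) u) (ψ : U → ℂ) ≠ 0)
    (h₂ : classInner (fun u : V => (χ : G → ℂ) u) (φ : V → ℂ) ≠ 0) :
    χ ∈ principalBlock M G ↔ ψ ∈ principalBlock M U ∧ φ ∈ principalBlock M V := by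
  have hcomm' : ∀ v ∈ V, ∀ u ∈ U, v * u = u * v := fun v hv u hu => (hcomm u hu v hv).symm
  have hgen' : V ⊔ U = ⊤ := by rw [sup_comm]; exact hgen
  constructor
  · intro hχ
    constructor
    · intro u
      have := hχ (u : G)
      rwa [centralChar_factor hcomm hgen χ ψ h₁, centralChar_factor_one hcomm hgen] at this
    · intro v
      have := hχ (v : G)
      rwa [centralChar_factor hcomm' hgen' χ φ h₂, centralChar_factor_one hcomm' hgen'] at this
  · rintro ⟨hψ, hφ⟩
    refine mem_principal_of_regular hpM χ fun g hg => ?_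
    obtain ⟨u, hu, v, hv, rfl, hup, hvp⟩ := exists_regular_factors hcomm hgen hg
    have hi := index_centralizer_mul hcomm hgen hZ hu hv hup
    have ex : centralChar (χ : G → ℂ) (u * v) =
        centralChar (χ : G → ℂ) u * centralChar (χ : G → ℂ) v := by
      rw [centralChar, centralChar, centralChar, hi, apply_mul_factor hcomm hgen χ hu hv,
        Nat.cast_mul]
      ring
    have e1 : centralChar (fun _ : G => (1 : ℂ)) (u * v) =
        centralChar (fun _ : G => (1 : ℂ)) u * centralChar (fun _ : G => (1 : ℂ)) v := by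
      rw [centralChar, centralChar, centralChar, hi, Nat.cast_mul]
      ring
    have hx : MemLocalIdeal M
        (centralChar (χ : G → ℂ) u - centralChar (fun _ : G => (1 : ℂ)) u) := by
      have := Blocks.sameBlock_symm hψ ⟨u, hu⟩
      rwa [← centralChar_factor hcomm hgen χ ψ h₁, ← centralChar_factor_one hcomm hgen] at this
    have hy : MemLocalIdeal M
        (centralChar (χ : G → ℂ) v - centralChar (fun _ : G => (1 : ℂ)) v) := by
      have := Blocks.sameBlock_symm hφ ⟨v, hv⟩
      rwa [← centralChar_factor hcomm' hgen' χ φ h₂, ← centralChar_factor_one hcomm' hgen'] at this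
    rw [ex, e1, show ∀ x y I J : ℂ, x * y - I * J = (x - I) * y + I * (y - J) by intros; ring]
    exact Blocks.memI_add (Blocks.memI_mul_right hx (Blocks.centralChar_memR hpM χ v))
      (Blocks.memI_mul_left (Blocks.centralChar_memR hpM (Blocks.oneChar G) u) hy)

end Cfsg.Agent.Chars2
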