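import Cfsg.Agent.Chars.QuotientBlocks
import Cfsg.Agent.Blocks.PrincipalGalois
import Cfsg.Agent.Chars.Brauer

/-!
The `p`-regular elements, the principal block and the restrictions to the `p`-regular elements
through the quotient by a normal `p`-subgroup in the centre.
-/

set_option autoImplicit false
set_option linter.unusedSectionVars false
set_option linter.style.haveILetI false

namespace Cfsg.Agent.Chars2.CentralQ

open Cfsg Cfsg.Agent Cfsg.Agent.Blocks
open scoped ComplexConjugate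

universe u

variable {G : Type u} [Group G] [Fintype G] (p : ℕ) [hp : Fact p.Prime]

theorem exists_regExp : ∃ m : ℕ, m ≡ 0 [MOD p ^ (Nat.card G).factorization p] ∧
    m ≡ 1 [MOD Nat.card G / p ^ (Nat.card G).factorization p] := by
  have hc : Nat.Coprime (p ^ (Nat.card G).factorization p)
      (Nat.card G / p ^ (Nat.card G).factorization p) :=
    Nat.Coprime.pow_left _ (Nat.coprime_ordCompl hp.out Nat.card_pos.ne')
  exact ⟨(Nat.chineseRemainder hc 0 1).1, (Nat.chineseRemainder hc 0 1).2⟩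

/-- An exponent extracting the part of order prime to `p`. -/
noncomputable def regExp (G : Type u) [Group G] [Fintype G] : ℕ := (exists_regExp (G := G) p).choose

variable {p}

theorem pow_regExp_reg {y : G} (hy : ¬ p ∣ orderOf y) : y ^ regExp p G = y := by
  conv_rhs => rw [← pow_one y]
  exact pow_eq_pow_iff_modEq.2
    (Nat.ModEq.of_dvd (orderOf_dvd_pprime hy) (exists_regExp p).choose_spec.2)

theorem pow_regExp_ppow {z : G} (hz : ∃ k : ℕ, orderOf z = p ^ k) : z ^ regExp p G = 1 :=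
  orderOf_dvd_iff_pow_eq_one.1
    ((orderOf_dvd_ppow hz).trans (Nat.modEq_zero_iff_dvd.1 (exists_regExp p).choose_spec.1))

theorem not_dvd_orderOf_pow_regExp (g : G) : ¬ p ∣ orderOf (g ^ regExp p G) := by
  intro h
  have h1 : orderOf (g ^ regExp p G) ∣ Nat.card G / p ^ (Nat.card G).factorization p := by
    refine orderOf_dvd_of_pow_eq_one ?_
    rw [← pow_mul]
    refine orderOf_dvd_iff_pow_eq_one.1 ((orderOf_dvd_natCard g).trans ?_)
    refine (dvd_of_eq (Nat.mul_div_cancel' (Nat.ordProj_dvd _ _)).symm).trans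
      (Nat.mul_dvd_mul (Nat.modEq_zero_iff_dvd.1 (exists_regExp p).choose_spec.1) dvd_rfl)
  exact Nat.not_dvd_ordCompl hp.out Nat.card_pos.ne' (h.trans h1)

/-- On a subgroup that is elementary for some prime, the power map is a homomorphism. -/
theorem pow_regExp_mul {q : ℕ} (hq : q.Prime) {E : Subgroup G} (hE : IsElementary q E) (a b : E) :
    (a * b) ^ regExp p G = a ^ regExp p G * b ^ regExp p G := by
  haveI : Fact q.Prime := ⟨hq⟩
  obtain ⟨x, hx, hcop, k, hk⟩ := hE
  obtain ⟨Q⟩ := (inferInstance : Nonempty (Sylow q E))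
  haveI hn : (Subgroup.zpowers x).Normal := ⟨fun w hw g => by
    obtain ⟨i, rfl⟩ := hw
    have hxi : (x ^ i) ∈ Subgroup.center E := (Subgroup.center E).zpow_mem hx i
    rw [Subgroup.mem_center_iff.1 hxi g, mul_inv_cancel_right]
    exact ⟨i, rfl⟩⟩
  have hcard : Nat.card E = orderOf x * q ^ k := by
    rw [← hk, ← Nat.card_zpowers, Subgroup.card_mul_index]
  have hQ : Nat.card (Q : Subgroup E) = q ^ k := by
    have hv : (Nat.card E).factorization q = k := by
      rw [hcard, Nat.factorization_mul (orderOf_pos x).ne' (pow_ne_zero _ hq.ne_zero),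
        Finsupp.add_apply, hq.factorization_pow, Finsupp.single_eq_same,
        Nat.factorization_eq_zero_of_not_dvd fun h => (hq.coprime_iff_not_dvd.1 hcop.symm) h,
        zero_add]
    rw [Q.card_eq_multiplicity, hv]
  have htop : Subgroup.zpowers x ⊔ (Q : Subgroup E) = ⊤ := by
    refine (Subgroup.isComplement'_of_coprime ?_ ?_).sup_eq_top
    · rw [Nat.card_zpowers, hQ, hcard]
    · rw [Nat.card_zpowers, hQ]; exact hcop.pow_right k
  have hdec : ∀ g : E, ∃ u : E, u ∈ (Q : Subgroup E) ∧ ∃ i : ℤ, g = u * x ^ i := fun g => by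
    have hg : g ∈ (Q : Subgroup E) ⊔ Subgroup.zpowers x := by
      rw [sup_comm, htop]; exact Subgroup.mem_top g
    rw [← SetLike.mem_coe, Subgroup.mul_normal] at hg
    obtain ⟨u, hu, w, ⟨i, rfl⟩, rfl⟩ := hg
    exact ⟨u, hu, i, rfl⟩
  have hcomm : ∀ (i : ℤ) (w : E), Commute w (x ^ i) := fun i w =>
    Subgroup.mem_center_iff.1 ((Subgroup.center E).zpow_mem hx i) w
  obtain ⟨u, hu, i, rfl⟩ := hdec a
  obtain ⟨v, hv, j, rfl⟩ := hdec b
  have hprod : u * x ^ i * (v * x ^ j) = u * v * (x ^ i * x ^ j) := by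
    rw [mul_assoc u, ← mul_assoc (x ^ i), ← (hcomm i v).eq]; group
  have hQpow : ∀ w ∈ (Q : Subgroup E), ∃ t : ℕ, orderOf w = q ^ t := fun w hw => by
    obtain ⟨t, ht⟩ := IsPGroup.iff_orderOf.1 Q.isPGroup' ⟨w, hw⟩
    exact ⟨t, by rw [← ht]; exact (Subgroup.orderOf_coe ⟨w, hw⟩)⟩
  have hQm : (∀ w ∈ (Q : Subgroup E), w ^ regExp p G = 1) ∨
      ∀ w ∈ (Q : Subgroup E), w ^ regExp p G = w := by
    by_cases hqp : q = p
    · subst hqp
      refine Or.inl fun w hw => Subtype.ext ?_
      rw [SubgroupClass.coe_pow, Subgroup.coe_one]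
      obtain ⟨t, ht⟩ := hQpow w hw
      exact pow_regExp_ppow ⟨t, by rw [Subgroup.orderOf_coe]; exact ht⟩
    · refine Or.inr fun w hw => Subtype.ext ?_
      rw [SubgroupClass.coe_pow]
      refine pow_regExp_reg ?_
      rw [Subgroup.orderOf_coe]
      obtain ⟨t, ht⟩ := hQpow w hw
      rw [ht]
      exact fun h => hqp ((Nat.prime_dvd_prime_iff_eq hp.out hq).1 (hp.out.dvd_of_dvd_pow h)).symm
  rw [hprod, (hcomm i u).mul_pow, (hcomm j v).mul_pow,
    ((hcomm i (u * v)).mul_right (hcomm j (u * v))).mul_pow, (hcomm i (x ^ j)).symm.mul_pow]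
  have huv : (u * v) ^ regExp p G = u ^ regExp p G * v ^ regExp p G := by
    rcases hQm with h | h
    · rw [h _ ((Q : Subgroup E).mul_mem hu hv), h u hu, h v hv, one_mul]
    · rw [h _ ((Q : Subgroup E).mul_mem hu hv), h u hu, h v hv]
  rw [huv]
  have hc : Commute (v ^ regExp p G) ((x ^ i) ^ regExp p G) := (hcomm i v).pow_pow _ _
  rw [mul_assoc (u ^ regExp p G), ← mul_assoc (v ^ regExp p G), hc.eq]
  group

/-- A character composed with the regular part is a generalized character. -/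
theorem isGen_pow_regExp {χ : G → ℂ} (hχ : IsCharacter G χ) :
    IsGeneralizedCharacter G fun g => χ (g ^ regExp p G) := by
  refine Chars.isGen_of_elementary (fun g h => ?_) fun E q hq hE => ?_
  · show χ ((h * g * h⁻¹) ^ regExp p G) = χ (g ^ regExp p G)
    rw [conj_pow]
    exact Chars.isClassFunction_of_isCharacter hχ _ _
  · let f : E →* G :=
      { toFun := fun a => (a : G) ^ regExp p G
        map_one' := by simp
        map_mul' := fun a b => by
          have := congrArg (fun w : E => (w : G)) (pow_regExp_mul (p := p) hq hE a b)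
          simpa using this }
    exact Chars.isGen_comp (Chars.isGen_of_isCharacter hχ) f

variable {N : Subgroup G} [N.Normal]

theorem sum_regs_quot [Fintype (G ⧸ N)] (hN : IsPGroup p N) (hc : N ≤ Subgroup.center G)
    (F : G ⧸ N → ℂ) : ∑ g ∈ regs p G, F (g : G ⧸ N) = ∑ x ∈ regs p (G ⧸ N), F x := by
  refine Finset.sum_bij (fun g _ => (g : G ⧸ N)) (fun g hg => ?_) (fun a ha b hb hab => ?_)
    (fun x hx => ?_) (fun g _ => rfl)
  · rw [mem_regs] at hg ⊢
    exact fun h => hg (h.trans (orderOf_map_dvd (QuotientGroup.mk' N) g))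
  · have hd : a⁻¹ * b ∈ N := QuotientGroup.eq.1 hab
    have hcom : Commute a (a⁻¹ * b) := Subgroup.mem_center_iff.1 (hc hd) a
    have hz : ∃ k : ℕ, orderOf (a⁻¹ * b) = p ^ k := by
      obtain ⟨k, hk⟩ := IsPGroup.iff_orderOf.1 hN ⟨_, hd⟩
      exact ⟨k, by rw [← hk, Subgroup.orderOf_mk]⟩
    have h1 := congrArg (fun w : G => w ^ regExp p G) (mul_inv_cancel_left a b)
    rw [hcom.mul_pow, pow_regExp_ppow hz, mul_one, pow_regExp_reg (mem_regs.1 ha),
      pow_regExp_reg (mem_regs.1 hb)] at h1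
    exact h1
  · rw [mem_regs] at hx
    obtain ⟨g, rfl⟩ := QuotientGroup.mk_surjective x
    refine ⟨g ^ regExp p G, mem_regs.2 (not_dvd_orderOf_pow_regExp g), ?_⟩
    rw [QuotientGroup.mk_pow]
    have h1 : orderOf (g : G ⧸ N) ∣ Nat.card G / p ^ (Nat.card G).factorization p := by
      have hc' : Nat.Coprime (orderOf (g : G ⧸ N)) (p ^ (Nat.card G).factorization p) :=
        Nat.Coprime.pow_right _ ((hp.out.coprime_iff_not_dvd.2 hx).symm)
      refine hc'.dvd_of_dvd_mul_right ?_
      rw [Nat.div_mul_cancel (Nat.ordProj_dvd _ _)]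
      exact (orderOf_map_dvd (QuotientGroup.mk' N) g).trans (orderOf_dvd_natCard g)
    conv_rhs => rw [← pow_one (g : G ⧸ N)]
    exact pow_eq_pow_iff_modEq.2 (Nat.ModEq.of_dvd h1 (exists_regExp p).choose_spec.2)

theorem regInner_quot [Fintype (G ⧸ N)] (hN : IsPGroup p N) (hc : N ≤ Subgroup.center G)
    (F F' : G ⧸ N → ℂ) :
    regInner p (fun g : G => F g) (fun g : G => F' g) = (Nat.card N : ℂ)⁻¹ * regInner p F F' := by
  rw [regInner, regInner, sum_regs_quot hN hc (fun x => F x * conj (F' x)),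
    Subgroup.card_eq_card_quotient_mul_card_subgroup N]
  push_cast
  rw [mul_inv]
  ring

variable {M : Ideal AlgInt} [M.IsMaximal]

theorem infl_mem_principal_iff [Fintype (G ⧸ N)] (hpM : (p : AlgInt) ∈ M) (hN : IsPGroup p N)
    (hc : N ≤ Subgroup.center G) (φ : IrrCharacter (G ⧸ N)) :
    Chars.Quot.infl N φ ∈ principalBlock M G ↔ φ ∈ principalBlock M (G ⧸ N) := by
  rw [principal_iff_omega_ne_zero hpM, principal_iff_omega_ne_zero hpM, omega_regConj,
    omega_regConj,
    show regInner p (Chars.Quot.infl N φ : G → ℂ) ((oneChar G : IrrCharacter G) : G → ℂ) =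
      regInner p (fun g : G => (φ : G ⧸ N → ℂ) g)
        (fun g : G => ((oneChar (G ⧸ N) : IrrCharacter (G ⧸ N)) : G ⧸ N → ℂ) g) from rfl,
    regInner_quot hN hc]
  simp [Chars.irr_apply_one_ne_zero, Subtype.property, Nat.card_pos.ne']

/-- A character of the principal block is, on the `p`-regular elements, an integral combination
of the principal block of the quotient. -/
theorem exists_int_span [Fintype (G ⧸ N)] (hpM : (p : AlgInt) ∈ M) (hN : IsPGroup p N)
    (hc : N ≤ Subgroup.center G) {ψ : IrrCharacter G} (hψ : ψ ∈ principalBlock M G)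
    [DecidablePred (· ∈ principalBlock M (G ⧸ N))] :
    ∃ n : IrrCharacter (G ⧸ N) → ℤ, ∀ g : G, ¬ p ∣ orderOf g → (ψ : G → ℂ) g =
      ∑ φ ∈ Finset.univ.filter (· ∈ principalBlock M (G ⧸ N)),
        (n φ : ℂ) * (φ : G ⧸ N → ℂ) g := by
  classical
  set f : G → ℂ := fun g => (ψ : G → ℂ) (g ^ regExp p G) with hf
  have hgen : IsGeneralizedCharacter G f := isGen_pow_regExp (Chars.irr_isCharacter ψ)
  let F : G ⧸ N → ℂ := fun x => f x.out
  have hFf : ∀ g : G, F g = f g := fun g => by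
    obtain ⟨⟨n, hn⟩, h⟩ := QuotientGroup.mk_out_eq_mul N g
    have hcom : Commute g n := Subgroup.mem_center_iff.1 (hc hn) g
    have hz : ∃ k : ℕ, orderOf n = p ^ k := by
      obtain ⟨k, hk⟩ := IsPGroup.iff_orderOf.1 hN ⟨n, hn⟩
      exact ⟨k, by rw [← hk, Subgroup.orderOf_mk]⟩
    simp only [F, hf, h, hcom.mul_pow, pow_regExp_ppow hz, mul_one]
  have hFc : IsClassFunction (G ⧸ N) F := fun x y => by
    obtain ⟨a, rfl⟩ := QuotientGroup.mk_surjective x
    obtain ⟨b, rfl⟩ := QuotientGroup.mk_surjective y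
    rw [← QuotientGroup.mk_inv, ← QuotientGroup.mk_mul, ← QuotientGroup.mk_mul, hFf, hFf]
    exact Chars.isClassFunction_of_isGen hgen a b
  have hint : ∀ φ : IrrCharacter (G ⧸ N), ∃ n : ℤ, classInner F (φ : G ⧸ N → ℂ) = n := fun φ => by
    obtain ⟨n, hn⟩ := Chars.exists_classInner_eq_int hgen
      (Chars.isGen_of_isCharacter (Chars.irr_isCharacter (Chars.Quot.infl N φ)))
    refine ⟨n, ?_⟩
    rw [← hn, Chars.classInner_def, Chars.classInner_def,
      Subgroup.card_eq_card_quotient_mul_card_subgroup N]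
    have hfib : ∑ g : G, f g * conj ((Chars.Quot.infl N φ : G → ℂ) g) =
        (Nat.card N : ℂ) * ∑ x : G ⧸ N, F x * conj ((φ : G ⧸ N → ℂ) x) := by
      rw [Finset.sum_congr rfl (g := fun g : G => F (g : G ⧸ N) * conj ((φ : G ⧸ N → ℂ) g))
        fun g _ => by rw [hFf]; rfl,
        ← Finset.sum_fiberwise' Finset.univ (fun g : G => (g : G ⧸ N))
          (fun x => F x * conj ((φ : G ⧸ N → ℂ) x)), Finset.mul_sum]
      refine Finset.sum_congr rfl fun x _ => ?_
      rw [Finset.sum_const, nsmul_eq_mul]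
      congr 2
      obtain ⟨a, rfl⟩ := QuotientGroup.mk_surjective x
      rw [← Nat.card_congr (Equiv.refl N), Nat.card_eq_fintype_card, ← Finset.card_univ]
      refine Finset.card_bij (fun g hg => (⟨a⁻¹ * g,
        QuotientGroup.eq.1 (Finset.mem_filter.1 hg).2.symm⟩ : N)) (fun _ _ => Finset.mem_univ _)
        (fun g _ g' _ h => mul_left_cancel (congrArg Subtype.val h)) fun n _ => ⟨a * n, ?_, ?_⟩
      · simp [QuotientGroup.eq]
      · simp
    rw [hfib]
    push_cast
    field_simp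
  choose n hn using hint
  refine ⟨n, fun g hg => ?_⟩
  have hgx : ¬ p ∣ orderOf (g : G ⧸ N) := fun h =>
    hg (h.trans (orderOf_map_dvd (QuotientGroup.mk' N) g))
  have hval : (ψ : G → ℂ) g = ∑ φ : IrrCharacter (G ⧸ N), (n φ : ℂ) * (φ : G ⧸ N → ℂ) g := by
    have h := congrFun (Chars.eq_sum_classInner hFc) (g : G ⧸ N)
    rw [hFf, hf] at h
    simp only [pow_regExp_reg hg, Finset.sum_apply, Pi.smul_apply, smul_eq_mul, hn] at h
    exact h
  rw [hval]
  -- the characters of the other blocks drop out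
  set R : IrrCharacter (G ⧸ N) → ℂ := fun φ => regInner p F (φ : G ⧸ N → ℂ) with hR
  have hR0 : ∀ φ : IrrCharacter (G ⧸ N), φ ∉ principalBlock M (G ⧸ N) → R φ = 0 := fun φ hφ => by
    have h1 : regInner p (ψ : G → ℂ) (Chars.Quot.infl N φ : G → ℂ) = (Nat.card N : ℂ)⁻¹ * R φ := by
      rw [hR, ← regInner_quot hN hc, regInner, regInner]
      congr 1
      refine Finset.sum_congr rfl fun y hy => ?_
      simp only [hFf, hf, pow_regExp_reg (mem_regs.1 hy)]
      rfl
    have h2 : regInner p (ψ : G → ℂ) (Chars.Quot.infl N φ : G → ℂ) = 0 :=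
      regInner_eq_zero hpM fun h => hφ ((infl_mem_principal_iff hpM hN hc φ).1
        (mem_of_sameBlock isPBlock_principal hψ h))
    rw [h2, eq_comm, mul_eq_zero] at h1
    exact h1.resolve_left (inv_ne_zero (Nat.cast_ne_zero.2 Nat.card_pos.ne'))
  have hRn : ∀ φ : IrrCharacter (G ⧸ N), R φ =
      ∑ φ' : IrrCharacter (G ⧸ N), (n φ' : ℂ) * regInner p (φ' : G ⧸ N → ℂ) (φ : G ⧸ N → ℂ) := by
    intro φ
    rw [hR]
    simp only [regInner, Finset.mul_sum]
    rw [Finset.sum_comm]
    refine Finset.sum_congr rfl fun x _ => ?_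
    have h := congrFun (Chars.eq_sum_classInner hFc) x
    simp only [Finset.sum_apply, Pi.smul_apply, smul_eq_mul, hn] at h
    rw [h, Finset.sum_mul, Finset.mul_sum]
    exact Finset.sum_congr rfl fun φ' _ => by ring
  rw [← Finset.sum_filter_add_sum_filter_not Finset.univ
    (· ∈ principalBlock M (G ⧸ N)) fun φ => (n φ : ℂ) * (φ : G ⧸ N → ℂ) g, add_eq_left,
    ← Finset.sum_fiberwise_of_maps_to (g := fun φ : IrrCharacter (G ⧸ N) => blockOf M (φ : G ⧸ N → ℂ))
      (t := (Finset.univ.filter (fun φ : IrrCharacter (G ⧸ N) => φ ∉ principalBlock M (G ⧸ N))).image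
        fun φ : IrrCharacter (G ⧸ N) => blockOf M (φ : G ⧸ N → ℂ))
      (fun φ hφ => Finset.mem_image_of_mem _ hφ)]
  refine Finset.sum_eq_zero fun b hb => ?_
  obtain ⟨φ₀, hφ₀, rfl⟩ := Finset.mem_image.1 hb
  have hb0 : ∀ φ : IrrCharacter (G ⧸ N), φ ∈ blockOf M (φ₀ : G ⧸ N → ℂ) →
      φ ∉ principalBlock M (G ⧸ N) := fun φ hφ h => (Finset.mem_filter.1 hφ₀).2
        (blocks_eq_of_inter (isPBlock_blockOf φ₀) isPBlock_principal hφ h ▸ mem_blockOf_self φ₀)
  calc _ = ∑ φ ∈ Finset.univ.filter (· ∈ blockOf M (φ₀ : G ⧸ N → ℂ)),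
        (n φ : ℂ) * (φ : G ⧸ N → ℂ) g := by
        refine Finset.sum_congr ?_ fun _ _ => rfl
        ext φ
        simp only [Finset.mem_filter, Finset.mem_univ, true_and]
        exact ⟨fun h => h.2 ▸ mem_blockOf_self φ,
          fun h => ⟨hb0 φ h, blockOf_eq_of_mem h⟩⟩
    _ = ∑ φ' : IrrCharacter (G ⧸ N), (n φ' : ℂ) * ∑ φ ∈ Finset.univ.filter
          (· ∈ blockOf M (φ₀ : G ⧸ N → ℂ)),
          regInner p (φ' : G ⧸ N → ℂ) (φ : G ⧸ N → ℂ) * (φ : G ⧸ N → ℂ) g := by
        symm
        rw [Finset.sum_congr rfl (g := fun φ' : IrrCharacter (G ⧸ N) => if φ' ∈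
          blockOf M (φ₀ : G ⧸ N → ℂ) then (n φ' : ℂ) * (φ' : G ⧸ N → ℂ) g else 0)
          fun φ' _ => by
            rw [sum_regInner_mul hpM (isPBlock_blockOf φ₀) φ' hgx, mul_ite, mul_zero],
          ← Finset.sum_filter]
    _ = ∑ φ ∈ Finset.univ.filter (· ∈ blockOf M (φ₀ : G ⧸ N → ℂ)),
          R φ * (φ : G ⧸ N → ℂ) g := by
        simp only [Finset.mul_sum]
        rw [Finset.sum_comm]
        refine Finset.sum_congr rfl fun φ _ => ?_
        rw [hRn, Finset.sum_mul]
        exact Finset.sum_congr rfl fun φ' _ => by ring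
    _ = 0 := Finset.sum_eq_zero fun φ hφ => by
        rw [hR0 φ (hb0 φ (Finset.mem_filter.1 hφ).2), zero_mul]

end Cfsg.Agent.Chars2.CentralQ
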