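import Cfsg.Agent.Chars.Brauer
import Cfsg.Agent.Chars.GaloisValues
import Mathlib.Analysis.SpecialFunctions.Log.Basic

/-!
The mean of the squared absolute values of the conjugates of a non-zero element of the ring
generated by the roots of unity of order dividing the group order is at least one.
-/

set_option autoImplicit false
set_option linter.unusedSectionVars false

namespace Cfsg.Agent.Chars2

open Cfsg Cfsg.Agent
open scoped ComplexConjugate

universe u

variable {G : Type u} [Group G] [Fintype G]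

theorem conj_mem_rootRing {x : ℂ} (hx : x ∈ Chars.rootRing G) : conj x ∈ Chars.rootRing G := by
  induction hx using Algebra.adjoin_induction with
  | mem y hy =>
    refine Chars.mem_rootRing_of_pow ?_
    rw [← map_pow, show y ^ Nat.card G = 1 from hy, map_one]
  | algebraMap r => simpa using (Chars.rootRing G).algebraMap_mem r
  | add x y _ _ hx hy => rw [map_add]; exact add_mem hx hy
  | mul x y _ _ hx hy => rw [map_mul]; exact mul_mem hx hy

theorem map_conj_of_rootRing (σ : ℂ ≃+* ℂ) {x : ℂ} (hx : x ∈ Chars.rootRing G) :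
    σ (conj x) = conj (σ x) := by
  induction hx using Algebra.adjoin_induction with
  | mem y hy =>
    have hy' : y ^ Nat.card G = 1 := hy
    have h : ∀ z : ℂ, z ^ Nat.card G = 1 → conj z = z⁻¹ := fun z hz => by
      have h1 : ‖z‖ = 1 := Complex.norm_eq_one_of_pow_eq_one hz Nat.card_pos.ne'
      exact (Complex.inv_eq_conj h1).symm
    rw [h y hy', map_inv₀, h (σ y) (by rw [← map_pow, hy', map_one])]
  | algebraMap r => simp
  | add x y _ _ hx hy => simp only [map_add, hx, hy]
  | mul x y _ _ hx hy => simp only [map_mul, hx, hy]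

theorem aut_eq_of_rootRing {σ τ : ℂ ≃+* ℂ} (h : ∀ z : ℂ, z ^ Nat.card G = 1 → σ z = τ z)
    {x : ℂ} (hx : x ∈ Chars.rootRing G) : σ x = τ x := by
  induction hx using Algebra.adjoin_induction with
  | mem y hy => exact h y hy
  | algebraMap r => simp
  | add x y _ _ hx hy => simp only [map_add, hx, hy]
  | mul x y _ _ hx hy => simp only [map_mul, hx, hy]

/-- An automorphism realising a unit modulo the group order on the roots of unity. -/
noncomputable def unitAut (u : (ZMod (Nat.card G))ˣ) : ℂ ≃+* ℂ :=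
  (OddChar.exists_aut_pow Nat.card_pos.ne' (ZMod.val_coe_unit_coprime u)).choose

theorem unitAut_apply (u : (ZMod (Nat.card G))ˣ) {z : ℂ} (hz : z ^ Nat.card G = 1) :
    unitAut u z = z ^ (u : ZMod (Nat.card G)).val :=
  (OddChar.exists_aut_pow Nat.card_pos.ne' (ZMod.val_coe_unit_coprime u)).choose_spec z hz

theorem card_le_sum_normSq [Fintype (ZMod (Nat.card G))ˣ] {x : ℂ} (hx : x ∈ Chars.rootRing G)
    (hne : x ≠ 0) :
    (Fintype.card (ZMod (Nat.card G))ˣ : ℝ) ≤ ∑ u, Complex.normSq (unitAut (G := G) u x) := by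
  classical
  haveI : NeZero (Nat.card G) := ⟨Nat.card_pos.ne'⟩
  have hperm : ∀ τ : ℂ ≃+* ℂ, ∃ k : (ZMod (Nat.card G))ˣ, ∀ u : (ZMod (Nat.card G))ˣ,
      τ ((unitAut (G := G) u x) * conj (unitAut (G := G) u x)) =
        (unitAut (G := G) (k * u) x) * conj (unitAut (G := G) (k * u) x) := by
    intro τ
    have hω := Complex.isPrimitiveRoot_exp (Nat.card G) Nat.card_pos.ne'
    set ω := Complex.exp (2 * Real.pi * Complex.I / ((Nat.card G) : ℕ))
    obtain ⟨k, -, hk, hk2⟩ := (hω.isPrimitiveRoot_iff).1 (hω.map_of_injective (f := τ) τ.injective)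
    refine ⟨ZMod.unitOfCoprime k hk, fun u => ?_⟩
    have hτ : ∀ z : ℂ, z ^ (Nat.card G) = 1 → τ z = z ^ k := fun z hz => by
      obtain ⟨j, -, hj⟩ := hω.eq_pow_of_pow_eq_one hz
      rw [← hj, map_pow, ← hk2, ← pow_mul, ← pow_mul, mul_comm]
    have h1 : ∀ y ∈ Chars.rootRing G, τ (unitAut (G := G) u y) =
        unitAut (G := G) (ZMod.unitOfCoprime k hk * u) y := fun y hy => by
      refine aut_eq_of_rootRing (σ := (unitAut (G := G) u).trans τ) (fun z hz => ?_) hy
      show τ (unitAut (G := G) u z) = _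
      rw [unitAut_apply u hz, unitAut_apply _ hz, map_pow, hτ z hz, ← pow_mul]
      rw [pow_eq_pow_mod _ hz]
      conv_rhs => rw [pow_eq_pow_mod _ hz]
      congr 1
      show _ ≡ _ [MOD (Nat.card G)]
      rw [← ZMod.natCast_eq_natCast_iff]
      push_cast
      rw [ZMod.natCast_zmod_val, ZMod.natCast_zmod_val, ZMod.coe_unitOfCoprime]
    rw [← map_conj_of_rootRing _ hx, ← map_conj_of_rootRing _ hx, map_mul, h1 x hx,
      h1 _ (conj_mem_rootRing hx)]
  set P : ℝ := ∏ u : (ZMod (Nat.card G))ˣ, Complex.normSq (unitAut (G := G) u x) with hP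
  have hPc : (P : ℂ) = ∏ u : (ZMod (Nat.card G))ˣ, (unitAut (G := G) u x) * conj (unitAut (G := G) u x) := by
    rw [hP, Complex.ofReal_prod]
    simp [Complex.mul_conj]
  have hint : IsIntegral ℤ x := Chars.rootRing_isIntegral hx
  have hint' : IsIntegral ℤ (conj x) := Chars.rootRing_isIntegral (conj_mem_rootRing hx)
  obtain ⟨z, hz⟩ := Chars.exists_int_of_fixed (x := (P : ℂ)) (by
      rw [hPc]
      refine IsIntegral.prod _ fun u _ => ?_
      rw [← map_conj_of_rootRing _ hx]
      exact (hint.map (unitAut (G := G) u).toRingHom.toIntAlgHom).mul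
        (hint'.map (unitAut (G := G) u).toRingHom.toIntAlgHom))
    (fun τ => by
      obtain ⟨k, hk⟩ := hperm τ
      rw [hPc, map_prod, Finset.prod_congr rfl fun u _ => hk u]
      exact Fintype.prod_equiv (Equiv.mulLeft k) _ _ fun u => rfl)
  have hpos : ∀ u : (ZMod (Nat.card G))ˣ, 0 < Complex.normSq (unitAut (G := G) u x) := fun u =>
    Complex.normSq_pos.2 ((map_ne_zero _).2 hne)
  have hPpos : 0 < P := Finset.prod_pos fun u _ => hpos u
  have hPz : P = (z : ℝ) := by exact_mod_cast hz
  have hone : (1 : ℝ) ≤ P := by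
    rw [hPz] at hPpos ⊢
    exact_mod_cast (Int.cast_pos.mp hPpos : (0 : ℤ) < z)
  have hlog : 0 ≤ ∑ u : (ZMod (Nat.card G))ˣ, Real.log (Complex.normSq (unitAut (G := G) u x)) := by
    rw [← Real.log_prod fun u _ => (hpos u).ne']
    exact Real.log_nonneg hone
  have hle := Finset.sum_le_sum fun u (_ : u ∈ Finset.univ) => Real.log_le_sub_one_of_pos (hpos u)
  rw [Finset.sum_sub_distrib, Finset.sum_const, nsmul_eq_mul, mul_one, Finset.card_univ] at hle
  linarith

end Cfsg.Agent.Chars2
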