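import Cfsg.Agent.BlockChar.CharCount
import Cfsg.Agent.Chars.Linear
import Cfsg.Agent.Chars2.Clifford

/-!
Feit–Thompson: an abelian subgroup whose conjugates share no centralizing non-central element
bounds the degrees from below.
-/

set_option autoImplicit false
set_option linter.style.haveILetI false
set_option linter.unusedSectionVars false

namespace Cfsg.Agent.Chars2

open Cfsg Cfsg.Agent
open scoped ComplexConjugate

universe u

variable {G : Type u} [Group G] [Fintype G]

theorem classInner_self_eq (f : G → ℂ) :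
    classInner f f = (((Nat.card G : ℝ)⁻¹ * ∑ g : G, Complex.normSq (f g) : ℝ) : ℂ) := by
  rw [Chars.classInner_def]
  push_cast
  simp only [Complex.mul_conj]

theorem sum_normSq_of_classInner {f : G → ℂ} {r : ℝ} (h : classInner f f = r) :
    ∑ g : G, Complex.normSq (f g) = (Nat.card G : ℝ) * r := by
  rw [classInner_self_eq, Complex.ofReal_inj] at h
  rw [← h, mul_inv_cancel_left₀]
  exact Nat.cast_ne_zero.2 Nat.card_pos.ne'

/-- A central element acts by a scalar in an irreducible character. -/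
theorem central_mul {χ : G → ℂ} (hχ : IsIrrCharacter G χ) {z : G}
    (hz : z ∈ Subgroup.center G) (y : G) : χ (z * y) = χ z * χ y / χ 1 := by
  have h := BlockChar.sum_conj_mul hχ z y
  have e : ∀ a : G, a * z * a⁻¹ = z := fun a => by
    rw [Subgroup.mem_center_iff.1 hz a, mul_inv_cancel_right]
  simp only [e, Finset.sum_const, Finset.card_univ, nsmul_eq_mul,
    ← Nat.card_eq_fintype_card] at h
  rw [mul_assoc, mul_div_assoc] at h
  exact mul_left_cancel₀ Chars.card_ne_zero h

theorem normSq_central {χ : G → ℂ} (hχ : IsIrrCharacter G χ) {z : G}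
    (hz : z ∈ Subgroup.center G) : Complex.normSq (χ z) = Complex.normSq (χ 1) := by
  have h := central_mul hχ hz z⁻¹
  have h1 := Chars.irr_apply_one_ne_zero hχ
  rw [mul_inv_cancel, eq_div_iff h1, Chars.char_inv_eq_conj (Chars.isCharacter_of_isIrr hχ)] at h
  apply Complex.ofReal_injective
  rw [← Complex.mul_conj, ← Complex.mul_conj, ← h,
    Chars.irr_apply_one_conj (Chars.isCharacter_of_isIrr hχ)]

/-- Averaging an irreducible character over a normal subgroup. -/
theorem sum_mul_normal (K : Subgroup G) [K.Normal] [Fintype K] (φ : IrrCharacter G) :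
    (∀ g : G, ∑ x : K, (φ : G → ℂ) ((x : G) * g) = (Nat.card K : ℂ) * (φ : G → ℂ) g) ∨
      ∀ g : G, ∑ x : K, (φ : G → ℂ) ((x : G) * g) = 0 := by
  have key : ∀ g : G, ∑ x : K, (φ : G → ℂ) ((x : G) * g) =
      (∑ x : K, (φ : G → ℂ) (x : G)) * (φ : G → ℂ) g / (φ : G → ℂ) 1 := by
    intro g
    have h1 : ∀ a : G, ∑ x : K, (φ : G → ℂ) (a * (x : G) * a⁻¹ * g) =
        ∑ x : K, (φ : G → ℂ) ((x : G) * g) := fun a =>
      Fintype.sum_equiv (MulAut.conjNormal a).toEquiv _ _ fun x => by
        simp [MulAut.conjNormal_apply]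
    have h2 : ∑ a : G, ∑ x : K, (φ : G → ℂ) (a * (x : G) * a⁻¹ * g) =
        (Nat.card G : ℂ) * ((∑ x : K, (φ : G → ℂ) (x : G)) * (φ : G → ℂ) g / (φ : G → ℂ) 1) := by
      rw [Finset.sum_comm, Finset.sum_mul, Finset.sum_div, Finset.mul_sum]
      refine Finset.sum_congr rfl fun x _ => ?_
      rw [BlockChar.sum_conj_mul φ.2]
      ring
    simp only [h1, Finset.sum_const, Finset.card_univ, nsmul_eq_mul,
      ← Nat.card_eq_fintype_card] at h2
    exact mul_left_cancel₀ Chars.card_ne_zero h2
  by_cases h0 : ∑ x : K, (φ : G → ℂ) (x : G) = 0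
  · exact Or.inr fun g => by rw [key g, h0, zero_mul, zero_div]
  left
  intro g
  have hone : IsIrrCharacter K (fun _ => (1 : ℂ)) := Chars.isIrrCharacter_one
  have hcon : classInner (fun x : K => (φ : G → ℂ) x) (fun _ => (1 : ℂ)) ≠ 0 := by
    rw [Chars.classInner_def]
    simp only [map_one, mul_one]
    exact mul_ne_zero (inv_ne_zero Chars.card_ne_zero) h0
  have hinv : inertiaSub (fun _ : K => (1 : ℂ)) = ⊤ := inertiaSub_eq_top fun _ _ => rfl
  have hx : ∀ x : K, (φ : G → ℂ) x = (φ : G → ℂ) 1 := fun x => by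
    have e1 := clifford_invariant φ.2 hone hinv hcon x
    have e2 := clifford_invariant φ.2 hone hinv hcon 1
    rw [OneMemClass.coe_one] at e2
    rw [e1, e2]
  rw [key g, Finset.sum_congr rfl fun x _ => hx x, Finset.sum_const, Finset.card_univ, nsmul_eq_mul,
    ← Nat.card_eq_fintype_card]
  have := Chars.irr_apply_one_ne_zero φ.2
  field_simp

/-- A character not trivial on a normal subgroup has norm at least one above its average. -/
theorem norm_ge_average (K : Subgroup G) [K.Normal] [Fintype K] {χ : G → ℂ}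
    (hχ : IsCharacter G χ) (hK : ∃ x ∈ K, χ x ≠ χ 1) :
    (Nat.card G : ℝ) +
        ∑ g : G, Complex.normSq ((Nat.card K : ℂ)⁻¹ * ∑ x : K, χ ((x : G) * g)) ≤
      ∑ g : G, Complex.normSq (χ g) := by
  classical
  obtain ⟨c, hc⟩ := exists_multiplicities hχ
  have hcl := Chars.isClassFunction_of_isCharacter hχ
  let k : IrrCharacter G → ℕ := fun φ =>
    if ∀ g : G, ∑ x : K, (φ : G → ℂ) ((x : G) * g) = (Nat.card K : ℂ) * (φ : G → ℂ) g then c φ else 0
  set θ : G → ℂ := fun g => (Nat.card K : ℂ)⁻¹ * ∑ x : K, χ ((x : G) * g) with hθ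
  have hθe : θ = ∑ φ : IrrCharacter G, (k φ : ℂ) • (φ : G → ℂ) := by
    funext g
    have e : ∑ x : K, χ ((x : G) * g) =
        ∑ φ : IrrCharacter G, (c φ : ℂ) * ∑ x : K, (φ : G → ℂ) ((x : G) * g) := by
      simp only [apply_eq_sum hcl ((_ : G) * g), hc, Finset.mul_sum]
      exact Finset.sum_comm
    simp only [hθ]
    rw [e, Finset.mul_sum, Finset.sum_apply]
    refine Finset.sum_congr rfl fun φ _ => ?_
    simp only [k, Pi.smul_apply, smul_eq_mul]
    split_ifs with h
    · rw [h g, mul_left_comm, inv_mul_cancel_left₀ Chars.card_ne_zero]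
    · rw [((sum_mul_normal K φ).resolve_left h) g, mul_zero, mul_zero, Nat.cast_zero, zero_mul]
  have hχe : χ = ∑ φ : IrrCharacter G, (c φ : ℂ) • (φ : G → ℂ) := by
    funext g
    rw [apply_eq_sum hcl g, Finset.sum_apply]
    simp only [hc, Pi.smul_apply, smul_eq_mul]
  have hsq : ∀ w : IrrCharacter G → ℕ,
      classInner (∑ φ : IrrCharacter G, (w φ : ℂ) • (φ : G → ℂ))
        (∑ φ : IrrCharacter G, (w φ : ℂ) • (φ : G → ℂ)) = ((∑ φ, (w φ : ℝ) * w φ : ℝ) : ℂ) := by
    intro w
    rw [Chars.classInner_sum_left]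
    simp only [Chars.classInner_sum_right, Chars.classInner_smul_left, Chars.classInner_smul_right,
      Chars.classInner_irrCharacter, map_natCast, mul_ite, mul_one, mul_zero,
      Finset.sum_ite_eq, Finset.mem_univ, if_true]
    push_cast
    rfl
  have h1 := sum_normSq_of_classInner (hsq c)
  have h2 := sum_normSq_of_classInner (hsq k)
  rw [← hχe] at h1
  rw [← hθe] at h2
  obtain ⟨φ₀, hφ₀⟩ : ∃ φ, k φ ≠ c φ := by
    by_contra hne
    push Not at hne
    have hk : k = c := funext hne
    rw [hk, ← hχe] at hθe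
    obtain ⟨x₀, hx₀, hne₀⟩ := hK
    refine hne₀ ?_
    rw [← hθe]
    simp only [hθ, mul_one]
    congr 1
    exact Fintype.sum_equiv (Equiv.mulRight (⟨x₀, hx₀⟩ : K)) _ _ fun x => rfl
  have hle : 1 + ∑ φ, (k φ : ℝ) * k φ ≤ ∑ φ, (c φ : ℝ) * c φ := by
    rw [← sub_nonneg, add_comm, ← sub_sub, ← Finset.sum_sub_distrib, sub_nonneg]
    refine le_trans ?_ (Finset.single_le_sum (f := fun φ => (c φ : ℝ) * c φ - (k φ : ℝ) * k φ)
      (fun φ _ => ?_) (Finset.mem_univ φ₀))
    · have hk0 : k φ₀ = 0 := by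
        by_contra h
        exact hφ₀ (if_pos (by by_contra h'; exact h (if_neg h')))
      have hc0 : (1 : ℝ) ≤ c φ₀ := Nat.one_le_cast.2 (Nat.one_le_iff_ne_zero.2 (hk0 ▸ hφ₀.symm))
      rw [hk0, Nat.cast_zero, mul_zero, sub_zero]
      nlinarith
    · simp only [k]
      split_ifs
      · rw [sub_self]
      · rw [Nat.cast_zero, mul_zero, sub_zero]; exact mul_self_nonneg _
  change (Nat.card G : ℝ) + ∑ g : G, Complex.normSq (θ g) ≤ _
  rw [h1, h2]
  have := mul_le_mul_of_nonneg_left hle (Nat.cast_nonneg (Nat.card G))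
  linarith

/-- An element inducing an automorphism of an abelian normal subgroup without fixed points
conjugates onto its whole coset. -/
theorem exists_conj_mul {N : Type*} [Group N] [Finite N] (K : Subgroup N) [K.Normal]
    (hab : ∀ a ∈ K, ∀ b ∈ K, a * b = b * a) {g : N}
    (hg : ∀ y ∈ K, y * g = g * y → y = 1) (x : K) : ∃ y : N, y * g * y⁻¹ = (x : N) * g := by
  let f : K → K := fun y => ⟨(y : N) * (g * (y : N)⁻¹ * g⁻¹),
    K.mul_mem y.2 (‹K.Normal›.conj_mem _ (K.inv_mem y.2) g)⟩
  have hf : Function.Injective f := by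
    intro a b h
    have h' : (a : N) * (g * (a : N)⁻¹ * g⁻¹) = (b : N) * (g * (b : N)⁻¹ * g⁻¹) :=
      congrArg Subtype.val h
    have h2 : (b : N)⁻¹ * (a : N) = g * ((b : N)⁻¹ * (a : N)) * g⁻¹ := by
      have hc := hab _ (K.inv_mem b.2) _ a.2
      calc (b : N)⁻¹ * (a : N) = (b : N)⁻¹ * ((a : N) * (g * (a : N)⁻¹ * g⁻¹)) *
            (g * (a : N) * g⁻¹) := by group
        _ = (b : N)⁻¹ * ((b : N) * (g * (b : N)⁻¹ * g⁻¹)) * (g * (a : N) * g⁻¹) := by rw [h']
        _ = _ := by group
    have h3 := hg _ (K.mul_mem (K.inv_mem b.2) a.2) (by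
      calc (b : N)⁻¹ * (a : N) * g = g * ((b : N)⁻¹ * (a : N)) * g⁻¹ * g := by rw [← h2]
        _ = _ := by group)
    exact Subtype.ext (inv_mul_eq_one.1 h3).symm
  obtain ⟨y, hy⟩ := (Finite.injective_iff_surjective.1 hf) x
  refine ⟨y, ?_⟩
  rw [← hy]
  show _ = (y : N) * (g * (y : N)⁻¹ * g⁻¹) * g
  group

set_option maxHeartbeats 1000000 in
/-- Feit–Thompson: the degree of a character nontrivial on `H`. -/
theorem ft_bound (H : Subgroup G) [Fintype H] (hab : ∀ a ∈ H, ∀ b ∈ H, a * b = b * a)
    (hZ : H ⊓ Subgroup.center G = ⊥)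
    (hone : ∀ g : G, g ∉ Subgroup.center G → ∀ a b : G,
      Subgroup.centralizer ({g} : Set G) ⊓ H.map (MulAut.conj a).toMonoidHom ≠ ⊥ →
      Subgroup.centralizer ({g} : Set G) ⊓ H.map (MulAut.conj b).toMonoidHom ≠ ⊥ →
      H.map (MulAut.conj a).toMonoidHom = H.map (MulAut.conj b).toMonoidHom)
    {χ : G → ℂ} (hχ : IsIrrCharacter G χ) (hker : ∃ h ∈ H, χ h ≠ χ 1) {n c : ℕ}
    (hn : χ 1 = n) (hc : classInner (fun h : H => χ h) (fun _ => 1) = c) :
    Nat.card H * c ^ 2 < n ^ 2 := by
  classical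
  set N := Subgroup.normalizer (H : Set G) with hN
  haveI : Fintype N := Fintype.ofFinite _
  set K := H.subgroupOf N with hK
  haveI : K.Normal := Subgroup.normal_in_normalizer
  haveI : Fintype K := Fintype.ofFinite _
  have hHN : H ≤ N := Subgroup.le_normalizer
  let eK : K ≃* H := Subgroup.subgroupOfEquivOfLe hHN
  set h := Nat.card H with hh
  have hKc : Nat.card K = h := Nat.card_congr eK.toEquiv
  set Z := Subgroup.center G
  set θ : N → ℂ := fun g => (Nat.card K : ℂ)⁻¹ * ∑ x : K, χ (((x : N) * g : N) : G) with hθ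
  set S := Finset.univ.filter fun g : N =>
    Subgroup.centralizer ({(g : G)} : Set G) ⊓ H ≠ ⊥ with hS
  have hres := Chars.isCharacter_restrict (Chars.isCharacter_of_isIrr hχ) N
  have hKne : ∃ x ∈ K, χ ((x : N) : G) ≠ χ ((1 : N) : G) := by
    obtain ⟨x, hx, hne⟩ := hker
    exact ⟨⟨x, hHN hx⟩, hx, hne⟩
  have h1 : (Nat.card N : ℝ) + ∑ g : N, Complex.normSq (θ g) ≤
      ∑ g : N, Complex.normSq (χ g) := by
    simp only [hθ]
    exact @norm_ge_average N _ _ K _ _ (fun g : N => χ g) hres hKne
  have hout : ∀ g ∉ S, θ g = χ g := by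
    intro g hg
    have hg' : Subgroup.centralizer ({(g : G)} : Set G) ⊓ H = ⊥ := by
      simpa [hS] using hg
    have hfix : ∀ y ∈ K, y * g = g * y → y = 1 := by
      intro y hy hyg
      have : (y : G) ∈ Subgroup.centralizer ({(g : G)} : Set G) ⊓ H :=
        ⟨Subgroup.mem_centralizer_singleton_iff.2 (congrArg Subtype.val hyg), hy⟩
      rw [hg', Subgroup.mem_bot] at this
      exact Subtype.ext this
    have e : ∀ x : K, χ (((x : N) * g : N) : G) = χ g := fun x => by
      obtain ⟨y, hy⟩ := exists_conj_mul K (fun a ha b hb => Subtype.ext (hab _ ha _ hb)) hfix x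
      rw [← hy]
      exact Chars.isClassFunction_of_isCharacter (Chars.isCharacter_of_isIrr hχ) (g : G) (y : G)
    simp only [hθ, e, Finset.sum_const, Finset.card_univ, nsmul_eq_mul,
      ← Nat.card_eq_fintype_card]
    rw [inv_mul_cancel_left₀ Chars.card_ne_zero]
  have h2 : (Nat.card N : ℝ) + ∑ g ∈ S, Complex.normSq (θ g) ≤
      ∑ g ∈ S, Complex.normSq (χ g) := by
    rw [← Finset.sum_sdiff (Finset.subset_univ S) (f := fun g : N => Complex.normSq (θ g)),
      ← Finset.sum_sdiff (Finset.subset_univ S) (f := fun g : N => Complex.normSq (χ g)),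
      Finset.sum_congr rfl fun g hg => by rw [hout g (Finset.mem_sdiff.1 hg).2]] at h1
    linarith
  have hHne : H ≠ ⊥ := fun he => by
    obtain ⟨x, hx, hne⟩ := hker
    rw [he, Subgroup.mem_bot] at hx
    exact hne (by rw [hx])
  have hHC : ∀ y : G, y ∈ Z → ∀ x ∈ H, H ≤ Subgroup.centralizer ({y * x} : Set G) := by
    intro y hy x hx z hz
    rw [Subgroup.mem_centralizer_singleton_iff]
    calc z * (y * x) = y * (z * x) := by rw [← mul_assoc, Subgroup.mem_center_iff.1 hy z, mul_assoc]
      _ = y * x * z := by rw [hab z hz x hx, mul_assoc]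
  have hZN : Z ≤ N := fun z hz =>
    Subgroup.center_le_normalizer (H : Set G) hz
  -- the sum over the centre times H
  have h3 : (Nat.card Z : ℝ) * h * (c : ℝ) ^ 2 ≤ ∑ g ∈ S, Complex.normSq (θ g) := by
    let i : Z × K → N := fun v => ⟨v.1, hZN v.1.2⟩ * (v.2 : N)
    have hi : Function.Injective i := by
      intro v w hvw
      have e : (v.1 : G) * ((v.2 : N) : G) = (w.1 : G) * ((w.2 : N) : G) :=
        congrArg Subtype.val hvw
      have e2 : ((v.2 : N) : G) * ((w.2 : N) : G)⁻¹ = (v.1 : G)⁻¹ * (w.1 : G) := by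
        rw [eq_inv_mul_iff_mul_eq, ← mul_assoc, e, mul_inv_cancel_right]
      have hm : (v.1 : G)⁻¹ * (w.1 : G) ∈ H ⊓ Z :=
        ⟨e2 ▸ H.mul_mem v.2.2 (H.inv_mem w.2.2), Z.mul_mem (Z.inv_mem v.1.2) w.1.2⟩
      rw [hZ, Subgroup.mem_bot] at hm
      rw [hm, mul_inv_eq_one] at e2
      exact Prod.ext (Subtype.ext (inv_mul_eq_one.1 hm)) (Subtype.ext (Subtype.ext e2))
    have hval : ∀ v : Z × K, Complex.normSq (θ (i v)) = (c : ℝ) ^ 2 := by
      intro v
      have e : θ (i v) = χ (v.1 : G) * c / χ 1 := by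
        have e1 : ∀ x : K, χ (((x : N) * i v : N) : G) =
            χ (v.1 : G) * χ (((x * v.2 : K) : N) : G) / χ 1 := fun x => by
          rw [← central_mul hχ v.1.2]
          congr 1
          show ((x : N) : G) * ((v.1 : G) * ((v.2 : N) : G)) =
            (v.1 : G) * (((x : N) : G) * ((v.2 : N) : G))
          rw [← mul_assoc, Subgroup.mem_center_iff.1 v.1.2, mul_assoc]
        have e2 : ∑ x : K, χ (((x : N) : N) : G) = (h : ℂ) * c := by
          rw [← hc, Chars.classInner_def, ← hh, mul_inv_cancel_left₀ (by exact Chars.card_ne_zero)]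
          simp only [map_one, mul_one]
          exact Fintype.sum_equiv eK.toEquiv _ _ fun x => rfl
        simp only [hθ, e1]
        rw [← Finset.sum_div, ← Finset.mul_sum, Fintype.sum_equiv (Equiv.mulRight v.2)
          (fun x : K => χ (((x * v.2 : K) : N) : G)) (fun x : K => χ ((x : N) : G)) (fun x => rfl),
          e2, hKc]
        have : (h : ℂ) ≠ 0 := Nat.cast_ne_zero.2 Nat.card_pos.ne'
        field_simp
      rw [e, map_div₀, map_mul, normSq_central hχ v.1.2, mul_div_assoc,
        Complex.normSq_natCast, sq]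
      have : Complex.normSq (χ 1) ≠ 0 :=
        (Complex.normSq_pos.2 (Chars.irr_apply_one_ne_zero hχ)).ne'
      field_simp
    calc (Nat.card Z : ℝ) * h * (c : ℝ) ^ 2 = ∑ v : Z × K, Complex.normSq (θ (i v)) := by
          simp only [hval, Finset.sum_const, Finset.card_univ, nsmul_eq_mul]
          rw [← Nat.card_eq_fintype_card, Nat.card_prod, hKc, Nat.cast_mul]
      _ = ∑ g ∈ Finset.univ.image i, Complex.normSq (θ g) :=
          (Finset.sum_image (f := fun g => Complex.normSq (θ g)) fun v _ w _ hvw => hi hvw).symm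
      _ ≤ _ := by
          refine Finset.sum_le_sum_of_subset_of_nonneg ?_ fun g _ _ => Complex.normSq_nonneg _
          intro g hg
          obtain ⟨v, -, rfl⟩ := Finset.mem_image.1 hg
          refine Finset.mem_filter.2 ⟨Finset.mem_univ _, fun he => hHne ?_⟩
          rw [eq_bot_iff, ← he]
          exact le_inf (hHC _ v.1.2 _ v.2.2) le_rfl
  -- counting
  have h4 : (Nat.card G : ℝ) * (∑ g ∈ S, Complex.normSq (χ g) - (Nat.card Z : ℝ) * (n : ℝ) ^ 2) ≤
      (Nat.card N : ℝ) * ((Nat.card G : ℝ) - (Nat.card Z : ℝ) * (n : ℝ) ^ 2) := by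
    set T := S.filter fun g : N => (g : G) ∉ Z with hT
    have hsn : Complex.normSq (χ 1) = (n : ℝ) ^ 2 := by rw [hn, Complex.normSq_natCast, sq]
    have hle : ∑ g ∈ S, Complex.normSq (χ g) - (Nat.card Z : ℝ) * (n : ℝ) ^ 2 ≤
        ∑ g ∈ T, Complex.normSq (χ g) := by
      rw [← Finset.sum_filter_not_add_sum_filter S (fun g : N => (g : G) ∈ Z), sub_le_iff_le_add]
      refine add_le_add le_rfl ?_
      rw [Finset.sum_congr rfl fun g hg => by
        rw [normSq_central hχ (Finset.mem_filter.1 hg).2, hsn], Finset.sum_const, nsmul_eq_mul]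
      refine mul_le_mul_of_nonneg_right ?_ (by positivity)
      rw [Nat.cast_le, Nat.card_eq_fintype_card, ← Finset.card_univ]
      refine Finset.card_le_card_of_injOn (fun g => if hg : (g : G) ∈ Z then ⟨g, hg⟩ else 1)
        (fun g _ => Finset.mem_coe.2 (Finset.mem_univ _)) fun a ha b hb hab' => ?_
      rw [Finset.mem_coe, Finset.mem_filter] at ha hb
      simp only [dif_pos ha.2, dif_pos hb.2] at hab'
      exact Subtype.ext (congrArg (Subtype.val : Z → G) hab')
    refine le_trans (mul_le_mul_of_nonneg_left hle (Nat.cast_nonneg _)) ?_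
    have hconj : ∀ a : G, ∑ g ∈ T, Complex.normSq (χ g) =
        ∑ y : G, if ∃ g ∈ T, a * (g : G) * a⁻¹ = y then Complex.normSq (χ y) else 0 := by
      intro a
      rw [← Finset.sum_filter]
      refine Finset.sum_bij (fun g _ => a * (g : G) * a⁻¹)
        (fun g hg => Finset.mem_filter.2 ⟨Finset.mem_univ _, g, hg, rfl⟩)
        (fun g _ g' _ e => Subtype.ext (by simpa using e))
        (fun y hy => by
          obtain ⟨g, hg, e⟩ := (Finset.mem_filter.1 hy).2
          exact ⟨g, hg, e⟩)
        fun g _ => ?_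
      rw [Chars.isClassFunction_of_isCharacter (Chars.isCharacter_of_isIrr hχ)]
    have htot : ∑ y ∈ Finset.univ.filter (fun y : G => y ∉ Z), Complex.normSq (χ y) =
        (Nat.card G : ℝ) - (Nat.card Z : ℝ) * (n : ℝ) ^ 2 := by
      have hG := sum_normSq_of_classInner (f := χ) (r := 1)
        (by rw [Chars.classInner_self_irr hχ, Complex.ofReal_one])
      rw [mul_one, ← Finset.sum_filter_not_add_sum_filter Finset.univ (fun y : G => y ∈ Z)] at hG
      rw [← hG, eq_sub_iff_add_eq]
      congr 1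
      rw [Finset.sum_congr rfl fun y hy => by
        rw [normSq_central hχ (Finset.mem_filter.1 hy).2, hsn], Finset.sum_const, nsmul_eq_mul]
      congr 2
      rw [Nat.card_eq_fintype_card, Fintype.card_subtype]
    calc (Nat.card G : ℝ) * ∑ g ∈ T, Complex.normSq (χ g)
        = ∑ a : G, ∑ y : G,
            if ∃ g ∈ T, a * (g : G) * a⁻¹ = y then Complex.normSq (χ y) else 0 := by
          rw [Finset.sum_congr rfl fun a _ => (hconj a).symm, Finset.sum_const, Finset.card_univ,
            nsmul_eq_mul, ← Nat.card_eq_fintype_card]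
      _ = ∑ y : G, ((Finset.univ.filter fun a : G => ∃ g ∈ T, a * (g : G) * a⁻¹ = y).card : ℝ) *
            Complex.normSq (χ y) := by
          rw [Finset.sum_comm]
          refine Finset.sum_congr rfl fun y _ => ?_
          rw [← Finset.sum_filter, Finset.sum_const, nsmul_eq_mul]
      _ ≤ ∑ y ∈ Finset.univ.filter (fun y : G => y ∉ Z),
            (Nat.card N : ℝ) * Complex.normSq (χ y) := by
          rw [Finset.sum_filter]
          refine Finset.sum_le_sum fun y _ => ?_
          set A := Finset.univ.filter fun a : G => ∃ g ∈ T, a * (g : G) * a⁻¹ = y with hA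
          rcases A.eq_empty_or_nonempty with h0 | ⟨b, hb⟩
          · rw [h0, Finset.card_empty, Nat.cast_zero, zero_mul]
            split_ifs <;> positivity [Complex.normSq_nonneg (χ y)]
          have hyZ : y ∉ Z := by
            obtain ⟨g, hg, rfl⟩ := (Finset.mem_filter.1 hb).2
            intro hyZ
            refine (Finset.mem_filter.1 hg).2 ?_
            have := (inferInstance : Z.Normal).conj_mem _ hyZ b⁻¹
            simpa [mul_assoc] using this
          rw [if_pos hyZ]
          refine mul_le_mul_of_nonneg_right (Nat.cast_le.2 ?_) (Complex.normSq_nonneg _)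
          have hcl : ∀ a ∈ A,
              Subgroup.centralizer ({y} : Set G) ⊓ H.map (MulAut.conj a).toMonoidHom ≠ ⊥ := by
            intro a ha he
            obtain ⟨g, hg, rfl⟩ := (Finset.mem_filter.1 ha).2
            refine (Finset.mem_filter.1 (Finset.mem_filter.1 hg).1).2 ?_
            rw [eq_bot_iff]
            intro z hz
            have : MulAut.conj a z ∈ Subgroup.centralizer ({a * (g : G) * a⁻¹} : Set G) ⊓
                H.map (MulAut.conj a).toMonoidHom := by
              refine ⟨?_, Subgroup.mem_map_of_mem _ hz.2⟩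
              show MulAut.conj a z ∈ Subgroup.centralizer _
              rw [Subgroup.mem_centralizer_singleton_iff, MulAut.conj_apply]
              have := Subgroup.mem_centralizer_singleton_iff.1 hz.1
              calc a * z * a⁻¹ * (a * (g : G) * a⁻¹) = a * (z * g) * a⁻¹ := by group
                _ = a * ((g : G) * z) * a⁻¹ := by rw [this]
                _ = _ := by group
            rw [he, Subgroup.mem_bot] at this
            rw [Subgroup.mem_bot]
            exact (MulAut.conj a).injective (this.trans (map_one _).symm)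
          rw [Nat.card_eq_fintype_card, ← Finset.card_univ]
          refine Finset.card_le_card_of_injOn
            (fun a => if ha : b⁻¹ * a ∈ N then (⟨b⁻¹ * a, ha⟩ : N) else 1)
            (fun a _ => Finset.mem_coe.2 (Finset.mem_univ _)) fun a ha a' ha' e => ?_
          rw [Finset.mem_coe] at ha ha'
          have hmem : ∀ a ∈ A, b⁻¹ * a ∈ N := by
            intro a ha
            rw [hN, Subgroup.mem_normalizer_iff_map_conj_eq]
            have e := hone y hyZ a b (hcl a ha) (hcl b hb)
            have e' := congrArg (Subgroup.map (MulAut.conj b⁻¹).toMonoidHom) e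
            rw [Subgroup.map_map, Subgroup.map_map] at e'
            convert e' using 1 <;> ext z <;> simp [mul_assoc]
          simp only [dif_pos (hmem a ha), dif_pos (hmem a' ha')] at e
          exact mul_left_cancel (congrArg (Subtype.val : N → G) e)
      _ = _ := by rw [← Finset.mul_sum, htot]
  -- conclusion
  have hG0 : (0 : ℝ) < Nat.card G := by exact_mod_cast Nat.card_pos
  have hN0 : (0 : ℝ) < Nat.card N := by exact_mod_cast Nat.card_pos
  have hn0 : (0 : ℝ) < (n : ℝ) ^ 2 := by
    have : n ≠ 0 := fun e => Chars.irr_apply_one_ne_zero hχ (by rw [hn, e, Nat.cast_zero])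
    positivity
  have hZ0 : (0 : ℝ) < Nat.card Z := by exact_mod_cast Nat.card_pos
  have h5 : (Nat.card G : ℝ) * ((Nat.card N : ℝ) + (Nat.card Z : ℝ) * h * (c : ℝ) ^ 2 -
      (Nat.card Z : ℝ) * (n : ℝ) ^ 2) ≤
      (Nat.card N : ℝ) * ((Nat.card G : ℝ) - (Nat.card Z : ℝ) * (n : ℝ) ^ 2) := by
    refine le_trans (mul_le_mul_of_nonneg_left ?_ hG0.le) h4
    linarith
  have h6 : (Nat.card Z : ℝ) * ((Nat.card G : ℝ) * ((h : ℝ) * (c : ℝ) ^ 2)) ≤
      (Nat.card Z : ℝ) * (((Nat.card G : ℝ) - Nat.card N) * (n : ℝ) ^ 2) := by nlinarith [h5]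
  have h7 := le_of_mul_le_mul_left h6 hZ0
  have h8 : (h : ℝ) * (c : ℝ) ^ 2 < (n : ℝ) ^ 2 := by nlinarith [h7]
  exact_mod_cast h8

/-- Feit–Thompson: the second bound. -/
theorem ft_bound_succ (H : Subgroup G) [Fintype H] (hab : ∀ a ∈ H, ∀ b ∈ H, a * b = b * a)
    (hZ : H ⊓ Subgroup.center G = ⊥)
    (hone : ∀ g : G, g ∉ Subgroup.center G → ∀ a b : G,
      Subgroup.centralizer ({g} : Set G) ⊓ H.map (MulAut.conj a).toMonoidHom ≠ ⊥ →
      Subgroup.centralizer ({g} : Set G) ⊓ H.map (MulAut.conj b).toMonoidHom ≠ ⊥ →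
      H.map (MulAut.conj a).toMonoidHom = H.map (MulAut.conj b).toMonoidHom)
    {χ : G → ℂ} (hχ : IsIrrCharacter G χ) {n : ℕ} (hn : χ 1 = n) (hn1 : n ≠ 1)
    (hnorm : ∀ K : Subgroup G, K.Normal → H ≤ K → K = ⊤) :
    Nat.card H < (1 + n) ^ 2 := by
  classical
  by_contra hle
  rw [not_lt] at hle
  set ρ : G → ℂ := χ * fun g => conj (χ g) with hρ
  have hρc : IsCharacter G ρ := Chars.isCharacter_mul (Chars.isCharacter_of_isIrr hχ)
    (Chars.isCharacter_star (Chars.isCharacter_of_isIrr hχ))
  obtain ⟨a, ha⟩ := exists_multiplicities hρc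
  choose d hd0 hd using fun φ : IrrCharacter G => Chars.exists_irr_apply_one_eq φ.2
  choose b hb using fun φ : IrrCharacter G => Chars.exists_classInner_eq_nat
    (Chars.isCharacter_restrict (Chars.irr_isCharacter φ) H) Chars.isCharacter_one
  let e1 : IrrCharacter G := ⟨fun _ => 1, Chars.isIrrCharacter_one⟩
  have hb1 : b e1 = 1 := by
    have := hb e1
    rw [Chars.classInner_def] at this
    simp only [e1, map_one, mul_one, Finset.sum_const, Finset.card_univ, nsmul_eq_mul] at this
    rw [← Nat.card_eq_fintype_card, inv_mul_cancel₀ Chars.card_ne_zero] at this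
    exact_mod_cast this.symm
  have hd1 : d e1 = 1 := Nat.cast_injective (R := ℂ) (by rw [← hd e1, Nat.cast_one])
  have ha1 : a e1 = 1 := by
    have := ha e1
    rw [Chars.classInner_def] at this
    simp only [e1, map_one, mul_one] at this
    have h2 := Chars.classInner_self_irr hχ
    rw [Chars.classInner_def] at h2
    simp only [hρ, Pi.mul_apply] at this
    rw [h2] at this
    exact_mod_cast this.symm
  have hdeg : ∑ φ, a φ * d φ = n * n := by
    apply Nat.cast_injective (R := ℂ)
    push_cast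
    have := apply_eq_sum (Chars.isClassFunction_of_isCharacter hρc) 1
    simp only [ha, hd] at this
    rw [← this, hρ, Pi.mul_apply, hn, map_natCast]
  have hres : ∑ φ, a φ * b φ ≥ n := by
    have e : classInner (fun x : H => ρ x) (fun _ => (1 : ℂ)) = ((∑ φ, a φ * b φ : ℕ) : ℂ) := by
      have e' : (fun x : H => ρ x) =
          ∑ φ : IrrCharacter G, (a φ : ℂ) • fun x : H => (φ : G → ℂ) x := by
        funext x
        rw [Finset.sum_apply, apply_eq_sum (Chars.isClassFunction_of_isCharacter hρc) (x : G)]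
        simp only [ha, Pi.smul_apply, smul_eq_mul]
      rw [e', Chars.classInner_sum_left]
      simp only [Chars.classInner_smul_left, hb]
      push_cast
      rfl
    obtain ⟨m, hm⟩ := exists_multiplicities
      (Chars.isCharacter_restrict (Chars.isCharacter_of_isIrr hχ) H)
    have hcl := Chars.isClassFunction_of_isCharacter
      (Chars.isCharacter_restrict (Chars.isCharacter_of_isIrr hχ) H)
    have hsum : ∑ ψ : IrrCharacter H, m ψ = n := by
      apply Nat.cast_injective (R := ℂ)
      push_cast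
      have := apply_eq_sum hcl 1
      simp only [hm, Chars.irr_apply_one_of_comm (fun x y : H => Subtype.ext (hab _ x.2 _ y.2))
        (Subtype.property _), mul_one, OneMemClass.coe_one, hn] at this
      exact this.symm
    have hsq : classInner (fun x : H => χ x) (fun x : H => χ x) =
        ((∑ ψ, m ψ * m ψ : ℕ) : ℂ) := by
      rw [Chars.classInner_eq_sum hcl]
      push_cast
      refine Finset.sum_congr rfl fun ψ _ => ?_
      rw [← Chars.classInner_conj_symm (fun x : H => χ x) (ψ : H → ℂ), hm, map_natCast]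
    have hsame : classInner (fun x : H => ρ x) (fun _ => (1 : ℂ)) =
        classInner (fun x : H => χ x) (fun x : H => χ x) := by
      simp only [Chars.classInner_def, hρ, Pi.mul_apply, map_one, mul_one]
    rw [hsame, hsq, Nat.cast_inj] at e
    rw [← e]
    exact le_of_eq_of_le hsum.symm (Finset.sum_le_sum fun ψ _ => Nat.le_mul_self _)
  have hstep : ∀ φ, φ ≠ e1 → (n + 1) * b φ < d φ := by
    intro φ hφ
    have hkerφ : ∃ x ∈ H, (φ : G → ℂ) x ≠ (φ : G → ℂ) 1 := by
      by_contra hall
      push Not at hall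
      have htop := hnorm (Chars.charKer (Chars.irr_isCharacter φ)) ⟨fun k hk g => by
          rw [Chars.mem_charKer] at hk ⊢
          rw [Chars.isClassFunction_irr φ k g]
          exact hk⟩ (fun x hx => (Chars.mem_charKer _).2 (hall x hx))
      have hconst : ∀ g : G, (φ : G → ℂ) g = (φ : G → ℂ) 1 := fun g =>
        (Chars.mem_charKer (Chars.irr_isCharacter φ)).1 (htop ▸ Subgroup.mem_top g)
      have h1 := Chars.classInner_irr φ.2 e1.2
      rw [if_neg (fun he => hφ (Subtype.ext he)), Chars.classInner_def] at h1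
      simp only [hconst, e1, map_one, mul_one, Finset.sum_const, Finset.card_univ, nsmul_eq_mul,
        ← Nat.card_eq_fintype_card] at h1
      rw [inv_mul_cancel_left₀ Chars.card_ne_zero] at h1
      exact Chars.irr_apply_one_ne_zero φ.2 h1
    have h := ft_bound H hab hZ hone φ.2 hkerφ (hd φ) (hb φ)
    have : ((n + 1) * b φ) ^ 2 < d φ ^ 2 := by
      refine lt_of_le_of_lt ?_ h
      rw [mul_pow, add_comm n 1]
      exact Nat.mul_le_mul_right _ hle
    exact lt_of_pow_lt_pow_left₀ 2 (Nat.zero_le _) this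
  have hn0 : n ≠ 0 := fun e => Chars.irr_apply_one_ne_zero hχ (by rw [hn, e, Nat.cast_zero])
  rw [← Finset.add_sum_erase _ _ (Finset.mem_univ e1), ha1, hd1] at hdeg
  rw [← Finset.add_sum_erase _ _ (Finset.mem_univ e1), ha1, hb1] at hres
  obtain ⟨φ₀, hφ₀, hφ₀'⟩ : ∃ φ ∈ Finset.univ.erase e1, a φ * b φ ≠ 0 := by
    by_contra hne
    push Not at hne
    rw [Finset.sum_eq_zero hne] at hres
    omega
  have hlt : ∑ φ ∈ Finset.univ.erase e1, (n + 1) * (a φ * b φ) <
      ∑ φ ∈ Finset.univ.erase e1, a φ * d φ := by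
    refine Finset.sum_lt_sum (fun φ hφ => ?_) ⟨φ₀, hφ₀, ?_⟩
    · rw [mul_left_comm]
      exact Nat.mul_le_mul_left _ (hstep φ (Finset.ne_of_mem_erase hφ)).le
    · rw [mul_left_comm]
      exact Nat.mul_lt_mul_of_pos_left (hstep φ₀ (Finset.ne_of_mem_erase hφ₀))
        (Nat.pos_of_ne_zero (left_ne_zero_of_mul hφ₀'))
  rw [← Finset.mul_sum] at hlt
  set X := ∑ φ ∈ Finset.univ.erase e1, a φ * b φ
  set Y := ∑ φ ∈ Finset.univ.erase e1, a φ * d φ
  nlinarith

end Cfsg.Agent.Chars2
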