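import Cfsg.Agent.Chars2.DefectOneLattice
import Cfsg.Agent.Chars2.CentralQuotientReg
import Cfsg.Agent.Chars2.RootMean
import Cfsg.Agent.Blocks.NormSum
import Cfsg.Agent.Blocks.BlockPartInduced
import Cfsg.Agent.Transfer.Burnside
import Cfsg.Agent.Chars2.SmallDegree

/-!
The characters of degree prime to `p` in the principal block, bounded through a column at a
`p`-element whose centraliser has small `p`-part.
-/

set_option autoImplicit false
set_option linter.unusedSectionVars false
set_option linter.style.haveILetI false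

namespace Cfsg.Agent.Chars2.ColumnBound

open Cfsg Cfsg.Agent Cfsg.Agent.Blocks
open scoped ComplexConjugate

universe u

variable {G : Type u} [Group G] [Fintype G] {p : ℕ} [hp : Fact p.Prime] {M : Ideal AlgInt}
  [M.IsMaximal]

theorem value_mem_rootRing {χ : G → ℂ} (hχ : IsCharacter G χ) (g : G) :
    χ g ∈ Chars.rootRing G := by
  obtain ⟨n, ρ, rfl⟩ := hχ
  obtain ⟨z, hz, hc, -, -⟩ := Chars.exists_eigenvalues ρ g
  rw [show ρ.character g = ∑ i, z i by simpa using hc 1]
  refine sum_mem fun i _ => Chars.mem_rootRing_of_pow ?_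
  obtain ⟨c, hc⟩ := orderOf_dvd_natCard g
  rw [hc, pow_mul, hz i, one_pow]

/-- The characters of degree prime to `p` of the principal block. -/
noncomputable def prime' (p : ℕ) (M : Ideal AlgInt) [M.IsMaximal] (G : Type u) [Group G]
    [Fintype G] : Finset (IrrCharacter G) :=
  @Finset.filter _ (fun χ => χ ∈ principalBlock M G ∧ ¬ p ∣ charDegree (χ : G → ℂ))
    (Classical.decPred _) Finset.univ

theorem mem_prime' {χ : IrrCharacter G} : χ ∈ prime' p M G ↔
    χ ∈ principalBlock M G ∧ ¬ p ∣ charDegree (χ : G → ℂ) := by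
  simp [prime']

theorem apply_ne_zero (hpM : (p : AlgInt) ∈ M) {z : G} (hz : ∃ k : ℕ, orderOf z = p ^ k)
    {χ : IrrCharacter G} (hχ : χ ∈ prime' p M G) : (χ : G → ℂ) z ≠ 0 := by
  obtain ⟨j, hj⟩ := hz
  intro h0
  have h := char_ppower_congr hpM χ hj
  rw [h0, zero_sub, (charDegree_eq χ.2).1] at h
  have h' := memI_neg h
  rw [neg_neg] at h'
  exact (mem_prime'.1 hχ).2 ((memI_natCast_iff hpM _).1 h')

/-- The action of an automorphism on the characters. -/
noncomputable def mapChar (σ : ℂ ≃+* ℂ) (χ : IrrCharacter G) : IrrCharacter G :=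
  ⟨_, OddChar.isIrrCharacter_map σ χ.2⟩

@[simp] theorem mapChar_apply (σ : ℂ ≃+* ℂ) (χ : IrrCharacter G) (g : G) :
    (mapChar σ χ : G → ℂ) g = σ ((χ : G → ℂ) g) := rfl

/-- The counting: weights with large Galois sums and small total. -/
theorem card_mul_le (hpM : (p : AlgInt) ∈ M) [Fintype (ZMod (Nat.card G))ˣ]
    (w : IrrCharacter G → ℝ) (a b : ℝ)
    (hlow : ∀ χ ∈ prime' p M G, (Fintype.card (ZMod (Nat.card G))ˣ : ℝ) * a ≤
      ∑ u, w (mapChar (unitAut (G := G) u) χ))
    (htot : ∑ χ ∈ prime' p M G, w χ ≤ b) : ((prime' p M G).card : ℝ) * a ≤ b := by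
  classical
  haveI : NeZero (Nat.card G) := ⟨Nat.card_pos.ne'⟩
  have hperm : ∀ u : (ZMod (Nat.card G))ˣ,
      ∑ χ ∈ prime' p M G, w (mapChar (unitAut (G := G) u) χ) = ∑ χ ∈ prime' p M G, w χ := by
    intro u
    have hinj : Function.Injective (mapChar (G := G) (unitAut (G := G) u)) := fun x y h => by
      apply Subtype.ext
      funext g
      exact (unitAut (G := G) u).injective (congrFun (congrArg Subtype.val h) g)
    have hmaps : ∀ χ ∈ prime' p M G, mapChar (unitAut (G := G) u) χ ∈ prime' p M G := by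
      intro χ hχ
      obtain ⟨h1, h2⟩ := mem_prime'.1 hχ
      refine mem_prime'.2 ⟨principal_map hpM _ h1, ?_⟩
      have hd : charDegree (mapChar (unitAut (G := G) u) χ : G → ℂ) = charDegree (χ : G → ℂ) := by
        have h := (charDegree_eq (mapChar (unitAut (G := G) u) χ).2).1
        rw [mapChar_apply, (charDegree_eq χ.2).1, map_natCast] at h
        exact_mod_cast h.symm
      rwa [hd]
    rw [← Finset.sum_image (fun x _ y _ h => hinj h) (f := w)]
    refine Finset.sum_congr (Finset.eq_of_subset_of_card_le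
      (fun x hx => by obtain ⟨y, hy, rfl⟩ := Finset.mem_image.1 hx; exact hmaps y hy)
      (by rw [Finset.card_image_of_injective _ hinj])) fun _ _ => rfl
  have h := Finset.sum_le_sum hlow
  rw [Finset.sum_comm, Finset.sum_congr rfl fun u _ => hperm u, Finset.sum_const, Finset.sum_const,
    nsmul_eq_mul, nsmul_eq_mul, Finset.card_univ] at h
  have hU : (0 : ℝ) < Fintype.card (ZMod (Nat.card G))ˣ := Nat.cast_pos.2 Fintype.card_pos
  nlinarith

/-- The case of a centraliser with a normal `p`-complement. -/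
theorem card_le_of_complement (hpM : (p : AlgInt) ∈ M) {z : G} (hz : ∃ k : ℕ, orderOf z = p ^ k)
    [Fintype (Subgroup.centralizer ({z} : Set G))]
    (hC : HasNormalPComplement p (Subgroup.centralizer ({z} : Set G))) :
    (prime' p M G).card ≤ p ^ (Nat.card (Subgroup.centralizer ({z} : Set G))).factorization p := by
  classical
  haveI : NeZero (Nat.card G) := ⟨Nat.card_pos.ne'⟩
  set C := Subgroup.centralizer ({z} : Set G)
  obtain ⟨P, N, hN, hc⟩ := hC
  haveI := Fintype.ofFinite N
  have hidx : N.index = p ^ (Nat.card C).factorization p := by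
    rw [hc.symm.index_eq_card, P.card_eq_multiplicity]
  have hNp : ¬ p ∣ Nat.card N := by
    have h := hc.card_mul
    rw [P.card_eq_multiplicity] at h
    intro hd
    refine Nat.not_dvd_ordCompl hp.out (Nat.card_pos (α := C)).ne' ?_
    rwa [Nat.div_eq_of_eq_mul_left (pow_pos hp.out.pos _) h.symm]
  obtain ⟨hsum, -⟩ := sum_sq_principal (G := C) (y := 1) hpM hNp hidx
    (by rw [orderOf_one]; exact hp.out.not_dvd_one)
  have hnorm := norm_sum_principal hpM hz (y := (1 : C)) (by rw [orderOf_one]; exact hp.out.not_dvd_one)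
  rw [hsum] at hnorm
  simp only [OneMemClass.coe_one, mul_one] at hnorm
  have htot : ∑ χ ∈ prime' p M G, Complex.normSq ((χ : G → ℂ) z) ≤
      ((p ^ (Nat.card C).factorization p : ℕ) : ℝ) := by
    refine le_trans (Finset.sum_le_sum_of_subset_of_nonneg
      (t := Finset.univ.filter (· ∈ principalBlock M G))
      (fun χ hχ => by simp [(mem_prime'.1 hχ).1]) fun χ _ _ => Complex.normSq_nonneg _) (le_of_eq ?_)
    apply Complex.ofReal_injective
    push_cast
    rw [← hnorm]
    exact Finset.sum_congr rfl fun χ _ => (Complex.mul_conj _).symm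
  have hlow : ∀ χ ∈ prime' p M G, (Fintype.card (ZMod (Nat.card G))ˣ : ℝ) * 1 ≤
      ∑ u, (fun χ : IrrCharacter G => Complex.normSq ((χ : G → ℂ) z))
        (mapChar (unitAut (G := G) u) χ) := fun χ hχ => by
    rw [mul_one]
    exact card_le_sum_normSq (value_mem_rootRing (Chars.irr_isCharacter χ) z)
      (apply_ne_zero hpM hz hχ)
  have h := card_mul_le hpM _ 1 _ hlow htot
  rw [mul_one] at h
  exact_mod_cast h

/-- The real identity behind the norm of a combination. -/
theorem norm_combination {e t : ℕ} {q : ℂ} (hq : q = (t : ℂ) * e + 1) (d : Fin e → ℂ) :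
    q * (∑ i, (Complex.normSq (d i) : ℂ)) - (t : ℂ) * ((∑ i, d i) * conj (∑ i, d i)) =
      ((∑ i, Complex.normSq (d i) +
        (t : ℝ) / 2 * ∑ i, ∑ j, Complex.normSq (d i - d j) : ℝ) : ℂ) := by
  push_cast
  have h : ∑ i, ∑ j, (Complex.normSq (d i - d j) : ℂ) =
      2 * (e : ℂ) * ∑ i, (Complex.normSq (d i) : ℂ) - 2 * ((∑ i, d i) * conj (∑ i, d i)) := by
    have h2 : ∀ i j, (Complex.normSq (d i - d j) : ℂ) =
        d i * conj (d i) + d j * conj (d j) - d i * conj (d j) - d j * conj (d i) := fun i j => by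
      rw [← Complex.mul_conj, map_sub]; ring
    simp only [h2, Finset.sum_sub_distrib, Finset.sum_add_distrib, Finset.sum_const,
      Finset.card_univ, Fintype.card_fin, nsmul_eq_mul, ← Finset.mul_sum, ← Finset.sum_mul,
      map_sum, ← Complex.mul_conj]
    ring
  rw [h, hq]
  ring

/-- The case of an element of order `p` whose centraliser has `p`-part `p²`. -/
theorem card_le_of_order_p (hpM : (p : AlgInt) ∈ M) {z : G} (hz : orderOf z = p)
    [Fintype (Subgroup.centralizer ({z} : Set G))]
    (hv : (Nat.card (Subgroup.centralizer ({z} : Set G))).factorization p = 2) :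
    (prime' p M G).card ≤ p ^ 2 := by
  classical
  haveI : NeZero (Nat.card G) := ⟨Nat.card_pos.ne'⟩
  have hzp : ∃ k : ℕ, orderOf z = p ^ k := ⟨1, by rw [hz, pow_one]⟩
  set C := Subgroup.centralizer ({z} : Set G) with hC
  have hzC : z ∈ C := mem_centralizer_of_commute (Commute.refl z)
  set z' : C := ⟨z, hzC⟩
  have hz' : z' ∈ Subgroup.center C := Subgroup.mem_center_iff.2 fun c =>
    Subtype.ext (commute_of_mem_centralizer c).eq.symm
  set N : Subgroup C := Subgroup.zpowers z'
  haveI : N.Normal := ⟨fun w hw g => by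
    rw [Subgroup.mem_center_iff.1 ((Subgroup.zpowers_le.2 hz') hw) g, mul_inv_cancel_right]
    exact hw⟩
  haveI : Fintype (C ⧸ N) := Fintype.ofFinite _
  have hNc : N ≤ Subgroup.center C := Subgroup.zpowers_le.2 hz'
  have hNcard : Nat.card N = p := by
    rw [Nat.card_zpowers, ← Subgroup.orderOf_coe]; exact hz
  have hN : IsPGroup p N := IsPGroup.of_card (n := 1) (by rw [hNcard, pow_one])
  have hJcard : Nat.card C = Nat.card (C ⧸ N) * p := by
    rw [Subgroup.card_eq_card_quotient_mul_card_subgroup N, hNcard]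
  have hJv : (Nat.card (C ⧸ N)).factorization p = 1 := by
    have h := congrArg (fun k : ℕ => k.factorization p) hJcard
    simp only [Nat.factorization_mul Nat.card_pos.ne' hp.out.ne_zero, Finsupp.add_apply,
      hp.out.factorization_self] at h
    omega
  obtain ⟨e, t, r, s, he, ht, hte, hrank, hr, hs, hspan, hgram⟩ :=
    Cyc.exists_regular_basis (G := C ⧸ N) (M := M) hpM
      (Nat.dvd_of_factorization_pos (by omega))
      (fun h => by
        have := (hp.out.pow_dvd_iff_le_factorization Nat.card_pos.ne').1 h; omega)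
      isPBlock_principal (by rw [Cyc.blockDefect_principal]; omega)
  -- the principal block of the centraliser on its regular elements
  have hspanC : ∀ ψ : IrrCharacter C, ∃ n : Fin e → ℤ, ψ ∈ principalBlock M C → ∀ y : C,
      ¬ p ∣ orderOf y → (ψ : C → ℂ) y = ∑ i, (n i : ℂ) * (r i : C ⧸ N → ℂ) y := by
    intro ψ
    by_cases hψ : ψ ∈ principalBlock M C
    · obtain ⟨n, hn⟩ := CentralQ.exists_int_span hpM hN hNc hψ
      choose m hm using fun φ : {φ : IrrCharacter (C ⧸ N) // φ ∈ principalBlock M (C ⧸ N)} =>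
        hspan φ.1 φ.2
      let mm : IrrCharacter (C ⧸ N) → Fin e → ℤ := fun φ =>
        if h : φ ∈ principalBlock M (C ⧸ N) then m ⟨φ, h⟩ else 0
      refine ⟨fun i => ∑ φ ∈ Finset.univ.filter (· ∈ principalBlock M (C ⧸ N)), n φ * mm φ i,
        fun _ y hy => ?_⟩
      rw [hn y hy]
      push_cast
      simp only [Finset.sum_mul]
      rw [Finset.sum_comm]
      refine Finset.sum_congr rfl fun φ hφ => ?_
      have hm' := hm ⟨φ, (Finset.mem_filter.1 hφ).2⟩ (y : C ⧸ N) fun h =>
        hy (h.trans (orderOf_map_dvd (QuotientGroup.mk' N) y))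
      simp only at hm'
      rw [hm', Finset.mul_sum]
      refine Finset.sum_congr rfl fun i _ => ?_
      simp only [mm, dif_pos (Finset.mem_filter.1 hφ).2]
      ring
    · exact ⟨0, fun h => absurd h hψ⟩
  choose nC hnC using hspanC
  have hlC : blockRank p (principalBlock M C) ≤ e := by
    rw [blockRank]
    refine le_trans (Submodule.finrank_mono (t := Submodule.span ℂ (Set.range fun i =>
      pRegularPart p fun y : C => (r i : C ⧸ N → ℂ) y)) (Submodule.span_le.2 ?_))
      ((finrank_range_le_card _).trans_eq (Fintype.card_fin e))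
    rintro _ ⟨ψ, hψ, rfl⟩
    have : pRegularPart p (ψ : C → ℂ) =
        ∑ i, (nC ψ i : ℂ) • pRegularPart p fun y : C => (r i : C ⧸ N → ℂ) y := by
      funext y
      by_cases hy : p ∣ orderOf y
      · simp [pRegularPart, IsPRegular, hy, Finset.sum_apply]
      · simp [pRegularPart, IsPRegular, hy, Finset.sum_apply, hnC ψ hψ y hy]
    rw [SetLike.mem_coe]
    show pRegularPart p (ψ : C → ℂ) ∈ _
    rw [this]
    exact Submodule.sum_mem _ fun i _ =>
      Submodule.smul_mem _ _ (Submodule.subset_span ⟨i, rfl⟩)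
  -- the norms
  let Nf : IrrCharacter G → ℝ := fun χ => ((Nat.card C : ℕ) : ℝ)⁻¹ *
    ∑ y ∈ regs p C, Complex.normSq ((χ : G → ℂ) (z * (y : G)))
  have hNf : ∀ χ : IrrCharacter G, (Nf χ : ℂ) =
      regInner p (fun y : C => (χ : G → ℂ) (z * (y : G))) fun y : C => (χ : G → ℂ) (z * (y : G)) := by
    intro χ
    simp only [Nf, regInner, Complex.ofReal_mul, Complex.ofReal_inv, Complex.ofReal_natCast,
      Complex.ofReal_sum, Complex.mul_conj]
  have htot : ∑ χ ∈ prime' p M G, (p : ℝ) ^ 2 * Nf χ ≤ (p : ℝ) ^ 2 * e := by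
    rw [← Finset.mul_sum]
    refine mul_le_mul_of_nonneg_left ?_ (by positivity)
    refine le_trans (Finset.sum_le_sum_of_subset_of_nonneg
      (t := Finset.univ.filter (· ∈ principalBlock M G))
      (fun χ hχ => by simp [(mem_prime'.1 hχ).1]) fun χ _ _ => mul_nonneg (by positivity)
        (Finset.sum_nonneg fun y _ => Complex.normSq_nonneg _)) ?_
    refine le_trans (le_of_eq ?_) (Nat.cast_le.2 hlC)
    apply Complex.ofReal_injective
    rw [Complex.ofReal_sum, Complex.ofReal_natCast, Finset.sum_congr rfl fun χ _ => hNf χ]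
    simp only [regInner, ← Finset.mul_sum]
    rw [Finset.sum_comm, inv_mul_eq_iff_eq_mul₀ Chars.card_ne_zero,
      BlockChar.card_mul_blockRank hpM isPBlock_principal]
    refine Finset.sum_congr rfl fun y hy => ?_
    rw [norm_sum_principal hpM hzp (mem_regs.1 hy), BlockChar.kerB, ← BlockChar.filter_eq_bf]
  -- the coordinates
  have hcoord : ∀ χ ∈ prime' p M G, ∃ d : Fin e → ℂ, (∀ i, d i ∈ Chars.rootRing G) ∧
      (∃ i, d i ≠ 0) ∧ (((p : ℝ) ^ 2 * Nf χ : ℝ) : ℂ) =
        ((∑ i, Complex.normSq (d i) +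
          (t : ℝ) / 2 * ∑ i, ∑ j, Complex.normSq (d i - d j) : ℝ) : ℂ) := by
    intro χ hχ
    set θ : C → ℂ := fun c => (χ : G → ℂ) (z * (c : G)) with hθ
    obtain ⟨a, -, ha⟩ := Chars.exists_eq_sum_nsmul
      (Chars.isCharacter_restrict (Chars.irr_isCharacter χ) C)
    have hω : ∀ φ : IrrCharacter C,
        (φ : C → ℂ) z' / (φ : C → ℂ) 1 ∈ Chars.rootRing G := by
      intro φ
      refine Chars.mem_rootRing_of_pow ?_
      have hpow : ∀ k : ℕ, ((φ : C → ℂ) z' / (φ : C → ℂ) 1) ^ k * (φ : C → ℂ) 1 =
          (φ : C → ℂ) (z' ^ k) := by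
        intro k
        induction k with
        | zero => simp
        | succ k ih =>
          rw [pow_succ', pow_succ', central_mul φ.2 hz' (z' ^ k), ← ih]
          field_simp
      have h := hpow (Nat.card G)
      rw [show z' ^ Nat.card G = 1 from Subtype.ext (by simp [z'])] at h
      exact (mul_eq_right₀ (Chars.irr_apply_one_ne_zero φ.2)).1 h
    have hθsum : θ = ∑ φ : IrrCharacter C,
        ((a φ : ℂ) * ((φ : C → ℂ) z' / (φ : C → ℂ) 1)) • (φ : C → ℂ) := by
      funext c
      have h := congrFun ha (z' * c)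
      rw [Finset.sum_apply] at h ⊢
      refine h.trans (Finset.sum_congr rfl fun φ _ => ?_)
      rw [Pi.smul_apply, Pi.smul_apply, nsmul_eq_mul, central_mul φ.2 hz' c, smul_eq_mul]
      ring
    have hci : ∀ ψ : IrrCharacter C, classInner θ (ψ : C → ℂ) ∈ Chars.rootRing G := by
      intro ψ
      rw [hθsum, Chars.classInner_sum_left]
      refine sum_mem fun φ _ => ?_
      rw [Chars.classInner_smul_left, Chars.classInner_irrCharacter, mul_ite, mul_one, mul_zero]
      split_ifs
      · exact mul_mem (natCast_mem _ _) (hω φ)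
      · exact zero_mem _
    let c : Fin e → ℂ := fun i =>
      ∑ ψ ∈ Finset.univ.filter (· ∈ principalBlock M C), classInner θ (ψ : C → ℂ) * (nC ψ i : ℂ)
    have hc : ∀ i, c i ∈ Chars.rootRing G := fun i =>
      sum_mem fun ψ _ => mul_mem (hci ψ) (intCast_mem _ _)
    have hval : ∀ y : C, ¬ p ∣ orderOf y → θ y = ∑ i, c i * (r i : C ⧸ N → ℂ) y := by
      intro y hy
      show (χ : G → ℂ) (z * (y : G)) = _
      rw [second_main_principal hpM hzp (fun g => Subgroup.mem_centralizer_singleton_iff.trans
        ⟨fun h => h, fun h => h⟩) (mem_prime'.1 hχ).1 hy]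
      simp only [c, Finset.sum_mul]
      rw [Finset.sum_comm]
      refine Finset.sum_congr rfl fun ψ hψ => ?_
      rw [hnC ψ (Finset.mem_filter.1 hψ).2 y hy, Finset.mul_sum]
      exact Finset.sum_congr rfl fun i _ => by ring
    have hss : ∀ i, (s i : ℂ) * s i = 1 := fun i => by rcases hs i with h | h <;> simp [h]
    refine ⟨fun i => (s i : ℂ) * c i, fun i => mul_mem (intCast_mem _ _) (hc i), ?_, ?_⟩
    · by_contra hall
      push Not at hall
      refine apply_ne_zero hpM hzp hχ ?_
      have h1 := hval 1 (by rw [orderOf_one]; exact hp.out.not_dvd_one)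
      rw [hθ] at h1
      simp only [OneMemClass.coe_one, mul_one] at h1
      rw [h1, Finset.sum_eq_zero]
      intro i _
      rcases mul_eq_zero.1 (hall i) with h | h
      · rcases hs i with h' | h' <;> simp [h'] at h
      · rw [h, zero_mul]
    · rw [← norm_combination (q := (p : ℂ)) (by exact_mod_cast hte.symm)]
      push_cast
      rw [hNf]
      have h1 : regInner p θ θ = regInner p
          (fun y : C => (fun x : C ⧸ N => ∑ i, c i * (r i : C ⧸ N → ℂ) x) y)
          (fun y : C => (fun x : C ⧸ N => ∑ i, c i * (r i : C ⧸ N → ℂ) x) y) := by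
        simp only [regInner]
        congr 1
        exact Finset.sum_congr rfl fun y hy => by rw [hval y (mem_regs.1 hy)]
      have h2 : regInner p (fun x : C ⧸ N => ∑ i, c i * (r i : C ⧸ N → ℂ) x)
          (fun x : C ⧸ N => ∑ i, c i * (r i : C ⧸ N → ℂ) x) =
          ∑ i, ∑ j, c i * conj (c j) * regInner p (r i : C ⧸ N → ℂ) (r j : C ⧸ N → ℂ) := by
        simp only [regInner, map_sum, map_mul, Finset.mul_sum, Finset.sum_mul]
        rw [Finset.sum_comm_cycle, Finset.sum_comm, Finset.sum_comm]
        refine Finset.sum_congr rfl fun i _ => ?_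
        rw [Finset.sum_comm]
        exact Finset.sum_congr rfl fun j _ => Finset.sum_congr rfl fun x _ => by ring
      rw [show regInner p (fun y : C => (χ : G → ℂ) (z * (y : G)))
          (fun y : C => (χ : G → ℂ) (z * (y : G))) = regInner p θ θ from rfl, h1,
        CentralQ.regInner_quot hN hNc (fun x : C ⧸ N => ∑ i, c i * (r i : C ⧸ N → ℂ) x)
          (fun x : C ⧸ N => ∑ i, c i * (r i : C ⧸ N → ℂ) x), h2, hNcard]
      have hp0 : (p : ℂ) ≠ 0 := Nat.cast_ne_zero.2 hp.out.ne_zero
      have h3 : ∀ i, (Complex.normSq ((s i : ℂ) * c i) : ℂ) = c i * conj (c i) := fun i => by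
        rw [← Complex.mul_conj, map_mul, map_intCast]
        linear_combination (c i * conj (c i)) * hss i
      simp only [h3, hgram, mul_sub, Finset.sum_sub_distrib, mul_ite, mul_one, mul_zero,
        Finset.sum_ite_eq, Finset.mem_univ, if_true, map_sum, map_mul, map_intCast,
        Finset.sum_mul_sum]
      simp only [Finset.mul_sum]
      congr 1
      · refine Finset.sum_congr rfl fun i _ => ?_
        field_simp
        rcases hs i with h | h <;> simp [h, Complex.mul_conj]
      · refine Finset.sum_congr rfl fun i _ => Finset.sum_congr rfl fun j _ => ?_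
        field_simp
  have hlow : ∀ χ ∈ prime' p M G, (Fintype.card (ZMod (Nat.card G))ˣ : ℝ) * (e : ℝ) ≤
      ∑ u, (p : ℝ) ^ 2 * Nf (mapChar (unitAut (G := G) u) χ) := by
    intro χ hχ
    obtain ⟨d, hd, ⟨i₀, hi₀⟩, heq⟩ := hcoord χ hχ
    set U : ℝ := (Fintype.card (ZMod (Nat.card G))ˣ : ℝ)
    have hsig : ∀ u : (ZMod (Nat.card G))ˣ, (p : ℝ) ^ 2 * Nf (mapChar (unitAut (G := G) u) χ) =
        ∑ i, Complex.normSq (unitAut (G := G) u (d i)) + (t : ℝ) / 2 *
          ∑ i, ∑ j, Complex.normSq (unitAut (G := G) u (d i - d j)) := by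
      intro u
      set σ := unitAut (G := G) u
      have hσn : ∀ x ∈ Chars.rootRing G, σ (Complex.normSq x : ℂ) = (Complex.normSq (σ x) : ℂ) :=
        fun x hx => by rw [← Complex.mul_conj, map_mul, map_conj_of_rootRing σ hx, Complex.mul_conj]
      have h1 : (((p : ℝ) ^ 2 * Nf (mapChar σ χ) : ℝ) : ℂ) =
          σ (((p : ℝ) ^ 2 * Nf χ : ℝ) : ℂ) := by
        simp only [Nf, mapChar_apply]
        push_cast
        simp only [map_mul, map_pow, map_natCast, map_inv₀, map_sum]
        congr 2
        exact Finset.sum_congr rfl fun y _ =>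
          (hσn _ (value_mem_rootRing (Chars.irr_isCharacter χ) _)).symm
      apply Complex.ofReal_injective
      rw [h1, heq]
      push_cast
      simp only [map_add, map_mul, map_div₀, map_natCast, map_ofNat, map_sum]
      congr 1
      · exact Finset.sum_congr rfl fun i _ => hσn _ (hd i)
      · congr 1
        exact Finset.sum_congr rfl fun i _ => Finset.sum_congr rfl fun j _ =>
          hσn _ (sub_mem (hd i) (hd j))
    rw [Finset.sum_congr rfl fun u _ => hsig u, Finset.sum_add_distrib, ← Finset.mul_sum,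
      Finset.sum_comm]
    conv_rhs =>
      arg 2; arg 2
      rw [Finset.sum_comm]
      arg 2; ext i
      rw [Finset.sum_comm]
    set T := Finset.univ.filter fun i : Fin e => d i ≠ 0 with hT
    set T' := Finset.univ.filter fun i : Fin e => ¬ d i ≠ 0 with hT'
    have hk : 1 ≤ T.card := Finset.card_pos.2 ⟨i₀, by simp [hT, hi₀]⟩
    have hTT : T.card + T'.card = e := by
      rw [hT, hT', Finset.card_filter_add_card_filter_not, Finset.card_univ, Fintype.card_fin]
    have hA : U * T.card ≤ ∑ i, ∑ u, Complex.normSq (unitAut (G := G) u (d i)) := by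
      refine le_trans ?_ (Finset.sum_le_sum_of_subset_of_nonneg (Finset.subset_univ T)
        fun i _ _ => Finset.sum_nonneg fun u _ => Complex.normSq_nonneg _)
      rw [mul_comm, ← nsmul_eq_mul, ← Finset.sum_const]
      exact Finset.sum_le_sum fun i hi => card_le_sum_normSq (hd i) (Finset.mem_filter.1 hi).2
    have hB : U * (2 * ((T.card : ℝ) * T'.card)) ≤
        ∑ i, ∑ j, ∑ u, Complex.normSq (unitAut (G := G) u (d i - d j)) := by
      rw [← Finset.sum_product']
      refine le_trans ?_ (Finset.sum_le_sum_of_subset_of_nonneg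
        (Finset.subset_univ (T ×ˢ T' ∪ T' ×ˢ T))
        fun q _ _ => Finset.sum_nonneg fun u _ => Complex.normSq_nonneg _)
      have hcard : ((T ×ˢ T' ∪ T' ×ˢ T).card : ℝ) = 2 * ((T.card : ℝ) * T'.card) := by
        rw [Finset.card_union_of_disjoint, Finset.card_product, Finset.card_product]
        · push_cast; ring
        · rw [Finset.disjoint_left]
          rintro ⟨a, b⟩ h1 h2
          exact (Finset.mem_filter.1 (Finset.mem_product.1 h2).1).2
            (Finset.mem_filter.1 (Finset.mem_product.1 h1).1).2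
      rw [← hcard, mul_comm, ← nsmul_eq_mul, ← Finset.sum_const]
      refine Finset.sum_le_sum fun q hq => ?_
      refine card_le_sum_normSq (sub_mem (hd _) (hd _)) ?_
      rcases Finset.mem_union.1 hq with h | h <;> obtain ⟨h1, h2⟩ := Finset.mem_product.1 h <;>
        simp only [hT, hT', Finset.mem_filter, not_not] at h1 h2
      · rw [h2.2, sub_zero]; exact h1.2
      · rw [h1.2, zero_sub, neg_ne_zero]; exact h2.2
    have hkT' : (e : ℝ) ≤ T.card + (t : ℝ) * ((T.card : ℝ) * T'.card) := by
      have : e ≤ T.card + t * (T.card * T'.card) := by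
        have h1 : T'.card ≤ t * (T.card * T'.card) := by
          calc T'.card = 1 * (1 * T'.card) := by ring
            _ ≤ t * (T.card * T'.card) := Nat.mul_le_mul ht (Nat.mul_le_mul hk le_rfl)
        omega
      exact_mod_cast this
    have ht0 : (0 : ℝ) ≤ (t : ℝ) / 2 := by positivity
    have hU0 : (0 : ℝ) ≤ U := Nat.cast_nonneg _
    have := mul_le_mul_of_nonneg_left hB ht0
    nlinarith
  have h := card_mul_le hpM (fun χ => (p : ℝ) ^ 2 * Nf χ) (e : ℝ) _ hlow htot
  have he' : (0 : ℝ) < e := Nat.cast_pos.2 he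
  have : ((prime' p M G).card : ℝ) ≤ (p : ℝ) ^ 2 := le_of_mul_le_mul_right (by linarith) he'
  exact_mod_cast this

/-- A central `p`-element generating a Sylow subgroup gives a normal complement. -/
theorem complement_of_generator {z : G} [Fintype (Subgroup.centralizer ({z} : Set G))] {j : ℕ}
    (hz : orderOf z = p ^ j)
    (hv : (Nat.card (Subgroup.centralizer ({z} : Set G))).factorization p = j) :
    HasNormalPComplement p (Subgroup.centralizer ({z} : Set G)) := by
  set C := Subgroup.centralizer ({z} : Set G)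
  have hzC : z ∈ C := mem_centralizer_of_commute (Commute.refl z)
  obtain ⟨P, hP⟩ := (IsPGroup.of_card (n := j)
    (show Nat.card (Subgroup.zpowers (⟨z, hzC⟩ : C)) = p ^ j by
      rw [Nat.card_zpowers, ← Subgroup.orderOf_coe]; exact hz)).exists_le_sylow
  have he : Subgroup.zpowers (⟨z, hzC⟩ : C) = (P : Subgroup C) := by
    refine Subgroup.eq_of_le_of_card_ge hP ?_
    rw [P.card_eq_multiplicity, hv, Nat.card_zpowers, ← Subgroup.orderOf_coe]
    exact le_of_eq hz.symm
  refine Transfer.hasNormalPComplement_of_normalizer_le_centralizer P fun g _ => ?_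
  rw [Subgroup.mem_centralizer_iff]
  intro w hw
  have hw' : w ∈ Subgroup.zpowers (⟨z, hzC⟩ : C) := he ▸ hw
  obtain ⟨i, rfl⟩ := hw'
  have hcg : Commute g (⟨z, hzC⟩ : C) := Subtype.ext (commute_of_mem_centralizer g).eq.symm
  exact (hcg.zpow_right i).eq.symm

/-- The bound. -/
theorem card_prime'_le (hpM : (p : AlgInt) ∈ M) {x : G} (hx : ∃ k : ℕ, orderOf x = p ^ k)
    (hv : (Nat.card (Subgroup.centralizer ({x} : Set G))).factorization p ≤ 2) :
    (prime' p M G).card ≤ p ^ 2 := by
  classical
  have main : ∀ (z : G) (j : ℕ), orderOf z = p ^ j →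
      (Nat.card (Subgroup.centralizer ({z} : Set G))).factorization p ≤ 2 →
      (1 ≤ j ∨ (Nat.card G).factorization p = 0) → (prime' p M G).card ≤ p ^ 2 := by
    intro z j hj hv hj0
    haveI := Fintype.ofFinite (Subgroup.centralizer ({z} : Set G))
    have hjv : j ≤ (Nat.card (Subgroup.centralizer ({z} : Set G))).factorization p := by
      refine (hp.out.pow_dvd_iff_le_factorization Nat.card_pos.ne').1 ?_
      rw [← hj, ← Nat.card_zpowers]
      exact Subgroup.card_dvd_of_le
        (Subgroup.zpowers_le.2 (mem_centralizer_of_commute (Commute.refl z)))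
    have hvG : (Nat.card (Subgroup.centralizer ({z} : Set G))).factorization p ≤
        (Nat.card G).factorization p :=
      (Nat.factorization_le_iff_dvd Nat.card_pos.ne' Nat.card_pos.ne').2
        (Subgroup.card_subgroup_dvd_card _) p
    rcases eq_or_lt_of_le hjv with h | h
    · refine (card_le_of_complement hpM ⟨j, hj⟩ (complement_of_generator hj h.symm)).trans
        (Nat.pow_le_pow_right hp.out.pos hv)
    · have : j = 1 := by omega
      subst this
      exact card_le_of_order_p hpM (by rw [hj, pow_one]) (by omega)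
  obtain ⟨k, hk⟩ := hx
  rcases Nat.eq_zero_or_pos k with rfl | hk0
  · rw [pow_zero, orderOf_eq_one_iff] at hk
    subst hk
    have hC : Subgroup.centralizer ({(1 : G)} : Set G) = ⊤ :=
      eq_top_iff.2 fun g _ => Subgroup.mem_centralizer_singleton_iff.2 (by simp)
    rw [hC, Subgroup.card_top] at hv
    rcases Nat.eq_zero_or_pos ((Nat.card G).factorization p) with h | h
    · exact main 1 0 (by simp) (by rw [hC, Subgroup.card_top]; exact hv) (Or.inr h)
    · obtain ⟨w, hw⟩ := exists_prime_orderOf_dvd_card' (G := G) p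
        (Nat.dvd_of_factorization_pos h.ne')
      exact main w 1 (by rw [hw, pow_one]) (le_trans ((Nat.factorization_le_iff_dvd
        Nat.card_pos.ne' Nat.card_pos.ne').2 (Subgroup.card_subgroup_dvd_card _) p) hv)
        (Or.inl le_rfl)
  · exact main x k hk hv (Or.inl hk0)

end Cfsg.Agent.Chars2.ColumnBound
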