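import Cfsg.Agent.Chars2.FixedParity
import Cfsg.Agent.Chars2.OddIndexPrincipal
import Cfsg.Agent.Chars.CanonicalExt
import Cfsg.Agent.Blocks.Covering
import Cfsg.Agent.Blocks.PrincipalGalois
import Cfsg.Agent.BlockChar.PrincipalKer
import Cfsg.Agent.Transfer.Basic
import Cfsg.Agent.Chars.GaloisValues

/-!
A normal `2`-complement from the characters of odd degree in the principal `2`-block fixed by the
automorphism cubing the `2`-power roots of unity.
-/

set_option autoImplicit false
set_option linter.unusedSectionVars false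
set_option linter.style.haveILetI false

namespace Cfsg.Agent.Chars2

open Cfsg Cfsg.Agent Cfsg.Agent.Blocks
open scoped ComplexConjugate

universe u

variable {G : Type u} [Group G] [Fintype G]

/-- An invariant character whose degree and determinantal order are prime to the index has exactly
one extension whose determinantal order is prime to the index. -/
theorem existsUnique_ext_detOrder (K : Subgroup G) [hK : K.Normal] {θ : K → ℂ}
    (hθ : IsIrrCharacter K θ) (hinv : Chars2.inertiaSub θ = ⊤) {d : ℕ} (hd : θ 1 = d)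
    (hcopd : Nat.Coprime K.index d) (hcopl : Nat.Coprime K.index (detOrder θ)) :
    ∃! χ : G → ℂ, IsIrrCharacter G χ ∧ (∀ k : K, χ k = θ k) ∧ (detOrder χ).Coprime K.index := by
  have hθ0 := hθ
  obtain ⟨d', ρ, hirr, rfl⟩ := hθ
  haveI := hirr
  obtain rfl : d' = d := by
    rw [Representation.char_one, Module.finrank_fin_fun] at hd
    exact_mod_cast hd
  rw [Chars2.detOrder_eq ρ _ rfl] at hcopl
  have hinv' := Chars.inv_of_inertia_top hinv
  set lam := Chars2.detHom ρ with hlamdef
  have hlam : ∀ (g : G) (n : K), lam (MulAut.conjNormal g n) = lam n := by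
    intro g n
    obtain ⟨e⟩ := Chars2.equiv_of_character_eq ρ (ρ.comp (MulAut.conjNormal (H := K) g).toMonoidHom)
      (funext fun k => (Chars2.inv_conjNormal ρ.character hinv' g k).symm)
    refine Units.ext ?_
    rw [hlamdef, Chars2.detHom_apply, Chars2.detHom_apply]
    have h := e.conj_apply_self n
    simp only [MonoidHom.coe_comp, MulEquiv.coe_toMonoidHom, Function.comp_apply] at h
    rw [← h]
    exact LinearMap.det_conj _ _
  obtain ⟨μ, hμ, hμo⟩ := Chars2.exists_ext_same_order lam hlam hcopl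
  obtain ⟨χ₀, hχ₀, hχ₀r⟩ := (Chars2.extends_iff_det _ hθ0 hinv' d' hd hcopd).2
    ⟨Chars2.linFun μ, (Chars2.linFun_isCharacter μ).1, (Chars2.linFun_isCharacter μ).2, fun n => by
      rw [Chars2.detChar_eq ρ _ rfl, Chars2.linFun_apply, Chars2.linFun_apply, hμ]⟩
  obtain ⟨m, σ, hσ, hσc⟩ := hχ₀
  haveI := hσ
  obtain ⟨η₀, hη₀⟩ : ∃ η₀ : Representation ℂ G (Fin d' → ℂ), ∀ n : K, η₀ n = ρ n := by
    obtain ⟨e⟩ := Chars2.equiv_of_character_eq ρ (σ.comp K.subtype)
      (funext fun n => ((congrFun hσc (n : G)).trans (hχ₀r n)).symm)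
    exact ⟨(e.symm.toLinearEquiv.conjAlgEquiv ℂ).toMonoidHom.comp σ,
      fun n => e.symm.conj_apply_self n⟩
  obtain ⟨χ, ⟨hχ, hχr, hχd⟩, huniq⟩ := Chars2.existsUnique_ext_det ρ hcopd η₀ hη₀ μ hμ
  refine ⟨χ, ⟨hχ, hχr, ?_⟩, fun χ' ⟨hχ', hχ'r, hχ'o⟩ => huniq χ' ⟨hχ', hχ'r, ?_⟩⟩
  · rw [detOrder, hχd, Chars2.orderOf_linFun, hμo]
    exact hcopl.symm
  · obtain ⟨m', σ', hσ', rfl⟩ := hχ'
    haveI := hσ'
    rw [Chars2.detOrder_eq σ' _ rfl] at hχ'o
    rw [Chars2.detChar_eq σ' _ rfl]
    refine congrArg Chars2.linFun (Chars2.ext_unique_of_coprime (N := K) _ _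
      (fun n => ?_) hχ'o.symm (hμo ▸ hcopl))
    rw [hμ, hlamdef]
    refine Units.ext ?_
    rw [Chars2.detHom_apply, Chars2.detHom_apply]
    obtain ⟨e⟩ := Chars2.equiv_of_character_eq ρ (σ'.comp K.subtype) (funext fun n => (hχ'r n).symm)
    have h := e.conj_apply_self n
    simp only [MonoidHom.coe_comp, Subgroup.coe_subtype, Function.comp_apply] at h
    rw [← h]
    exact LinearMap.det_conj _ _

variable {M : Ideal AlgInt} [M.IsMaximal]

/-- The principal block of a normal subgroup is stable under conjugation. -/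
theorem conjIrr_mem_principal {p : ℕ} [Fact p.Prime] (hpM : (p : AlgInt) ∈ M) {N : Subgroup G}
    [N.Normal] [Fintype N] {φ : IrrCharacter N} (h : φ ∈ principalBlock M N) (g : G) :
    conjIrr φ g ∈ principalBlock M N := by
  classical
  rw [principal_iff_omega_ne_zero hpM, omega_regConj, regInner] at h ⊢
  have h1 : (conjIrr φ g : N → ℂ) 1 = (φ : N → ℂ) 1 := by
    show (φ : N → ℂ) _ = _
    congr 1
    simp
  have h2 : ∑ n ∈ regs p N,
      (conjIrr φ g : N → ℂ) n * conj (((oneChar N : IrrCharacter N) : N → ℂ) n) =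
      ∑ n ∈ regs p N, (φ : N → ℂ) n * conj (((oneChar N : IrrCharacter N) : N → ℂ) n) := by
    refine Finset.sum_equiv (MulAut.conjNormal g⁻¹ : MulAut N).toEquiv (fun n => ?_) fun n _ => rfl
    rw [mem_regs, mem_regs]
    exact not_congr (by rw [show orderOf ((MulAut.conjNormal g⁻¹ : MulAut N).toEquiv n) = orderOf n
      from (MulAut.conjNormal g⁻¹ : MulAut N).orderOf_eq n])
  rwa [h1, h2]

set_option maxHeartbeats 1000000 in
/-- A normal `2`-complement from the fixed characters. -/
theorem complement_of_cubing_fixed (h2M : ((2 : ℕ) : AlgInt) ∈ M) (k : ℕ)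
    (hk₁ : ∀ g : G, (∃ j : ℕ, orderOf g = 2 ^ j) → g ^ k = g ^ 3)
    (hk₂ : ∀ g : G, Odd (orderOf g) → g ^ k = g)
    (h : ∀ χ ∈ principalBlock M G, Odd (charDegree (χ : G → ℂ)) →
      (∀ g : G, (χ : G → ℂ) (g ^ k) = (χ : G → ℂ) g) → charDegree (χ : G → ℂ) = 1) :
    HasNormalPComplement 2 G := by
  classical
  haveI : Fact (Nat.Prime 2) := ⟨Nat.prime_two⟩
  set K := Cfsg.pResidual 2 G with hK
  haveI : K.Normal := Transfer.pResidual_normal
  haveI := Fintype.ofFinite K
  haveI := Fintype.ofFinite (G ⧸ K)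
  obtain ⟨P⟩ := (inferInstance : Nonempty (Sylow 2 G))
  by_cases hodd : Even (Nat.card K)
  swap
  · refine Transfer.hasNormalPComplement_iff_coprime_pResidual.2 ?_
    exact (Nat.prime_two.coprime_iff_not_dvd.2 fun h2 => hodd (even_iff_two_dvd.2 h2)).symm
  exfalso
  obtain ⟨a, ha⟩ : ∃ a : ℕ, K.index = 2 ^ a := by
    obtain ⟨a, ha⟩ := IsPGroup.iff_card.1 (Transfer.isPGroup_quotient_pResidual (G := G) (p := 2))
    exact ⟨a, K.index_eq_card.trans ha⟩
  have hkK₁ : ∀ x : K, (∃ j : ℕ, orderOf x = 2 ^ j) → x ^ k = x ^ 3 := fun x hx => Subtype.ext (by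
    rw [SubgroupClass.coe_pow, SubgroupClass.coe_pow]
    exact hk₁ x (by simpa [Subgroup.orderOf_coe] using hx))
  have hkK₂ : ∀ x : K, Odd (orderOf x) → x ^ k = x := fun x hx => Subtype.ext (by
    rw [SubgroupClass.coe_pow]
    exact hk₂ x (by rwa [Subgroup.orderOf_coe]))
  let T := {θ : IrrCharacter K // θ ∈ principalBlock M K ∧ Odd (charDegree (θ : K → ℂ)) ∧
    ∀ x : K, (θ : K → ℂ) (x ^ k) = (θ : K → ℂ) x}
  have hTeven : Even (Nat.card T) := even_card_fixed_odd_principal h2M hodd k hkK₁ hkK₂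
  have hcdeg : ∀ (θ : IrrCharacter K) (g : G),
      charDegree (conjIrr θ g : K → ℂ) = charDegree (θ : K → ℂ) := fun θ g => by
    show charDegree (fun n : K => (θ : K → ℂ) _) = _
    simp [charDegree]
  letI : MulAction (P : Subgroup G) T :=
    { smul := fun g θ => ⟨conjIrr θ.1 (g : G), conjIrr_mem_principal h2M θ.2.1 _,
        (hcdeg _ _).symm ▸ θ.2.2.1, fun x => by
          show (θ.1 : K → ℂ) (MulAut.conjNormal (g : G)⁻¹ (x ^ k)) =
            (θ.1 : K → ℂ) (MulAut.conjNormal (g : G)⁻¹ x)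
          rw [map_pow]
          exact θ.2.2.2 _⟩
      one_smul := fun θ => Subtype.ext (by
        show conjIrr θ.1 ((1 : (P : Subgroup G)) : G) = θ.1
        rw [OneMemClass.coe_one, conjIrr_one])
      mul_smul := fun g g' θ => Subtype.ext (by
        show conjIrr θ.1 ((g * g' : (P : Subgroup G)) : G) = conjIrr (conjIrr θ.1 (g' : G)) (g : G)
        rw [conjIrr_conjIrr, Subgroup.coe_mul]) }
  have hmod : Nat.card T ≡ Nat.card (MulAction.fixedPoints (P : Subgroup G) T) [MOD 2] :=
    P.isPGroup'.card_modEq_card_fixedPoints T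
  -- fixed points are invariant
  have hinv : ∀ θ ∈ MulAction.fixedPoints (P : Subgroup G) T, inertiaSub (θ.1 : K → ℂ) = ⊤ := by
    intro θ hθ
    rw [eq_top_iff, ← Transfer.sylow_sup_pResidual P, sup_le_iff]
    refine ⟨fun g hg => mem_inertiaSub.2 ?_, fun g hg => mem_inertiaSub.2 ?_⟩
    · exact congrArg Subtype.val (congrArg Subtype.val (hθ ⟨g, hg⟩))
    · funext n
      rw [conjFun_apply]
      have hcl := Chars.isClassFunction_irr θ.1 n (⟨g, hg⟩⁻¹ : K)
      rw [← hcl]
      congr 1
  -- the determinant has odd order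
  have hdet : ∀ θ : IrrCharacter K, inertiaSub (θ : K → ℂ) = ⊤ →
      ¬ 2 ∣ detOrder (θ : K → ℂ) := by
    intro θ hθ
    obtain ⟨d, ρ, hirr, hρ⟩ := θ.2
    haveI := hirr
    rw [Chars2.detOrder_eq ρ _ hρ]
    intro h2
    set lam := Chars2.detHom ρ
    set m := Nat.card G / 2 ^ (Nat.card G).factorization 2 with hm
    let f : K →* ℂˣ := lam ^ m
    have hker : f.ker = ⊤ := by
      rw [eq_top_iff]
      have hle : K ≤ f.ker.map K.subtype := by
        refine (Subgroup.closure_le _).2 ?_
        intro g hg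
        have hgK : g ∈ K := Transfer.mem_pResidual_of_coprime hg
        refine ⟨⟨g, hgK⟩, ?_, rfl⟩
        rw [SetLike.mem_coe, MonoidHom.mem_ker]
        show (lam ^ m) (⟨g, hgK⟩ : K) = 1
        have hgm : g ^ m = 1 := by
          refine orderOf_dvd_iff_pow_eq_one.1 (orderOf_dvd_pprime (p := 2) fun h2' => ?_)
          exact Nat.prime_two.not_dvd_one (hg.gcd_eq_one ▸ Nat.dvd_gcd h2' dvd_rfl)
        rw [MonoidHom.pow_apply, ← map_pow, show (⟨g, hgK⟩ : K) ^ m = 1 from Subtype.ext hgm,
          map_one]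
      intro x _
      obtain ⟨y, hy, hyx⟩ := hle x.2
      rwa [Subtype.ext hyx] at hy
    have hdvd : orderOf lam ∣ m := orderOf_dvd_of_pow_eq_one (MonoidHom.ext fun x => by
      have hx : x ∈ f.ker := by rw [hker]; exact Subgroup.mem_top x
      rw [MonoidHom.mem_ker] at hx
      exact hx)
    exact Nat.not_dvd_ordCompl Nat.prime_two Nat.card_pos.ne' (h2.trans hdvd)
  -- some fixed point is not linear
  obtain ⟨θ, hθ, hθ1⟩ : ∃ θ ∈ MulAction.fixedPoints (P : Subgroup G) T,
      charDegree (θ.1 : K → ℂ) ≠ 1 := by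
    by_contra hall
    push Not at hall
    let mapIrrStar : IrrCharacter K → IrrCharacter K := fun θ =>
      ⟨fun x => conj ((θ : K → ℂ) x), Chars.isIrrCharacter_star θ.2⟩
    obtain ⟨σ, hσ⟩ : ∃ σ : ℂ ≃+* ℂ, σ = (starRingAut : ℂ ≃+* ℂ) := ⟨_, rfl⟩
    have hσc : ∀ z : ℂ, σ z = conj z := fun z => by rw [hσ]; rfl
    set F := MulAction.fixedPoints (P : Subgroup G) T
    have hmap : ∀ θ : T, mapIrrStar θ.1 ∈ principalBlock M K := fun θ => by
      have h := principal_map (p := 2) h2M σ θ.2.1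
      convert h using 1
      exact Subtype.ext (funext fun x => (hσc _).symm)
    let c : T → T := fun θ => ⟨mapIrrStar θ.1, hmap θ, by
      have : charDegree (mapIrrStar θ.1 : K → ℂ) = charDegree (θ.1 : K → ℂ) := by
        show charDegree (fun x => conj ((θ.1 : K → ℂ) x)) = _
        simp [charDegree]
      rw [this]; exact θ.2.2.1, fun x => congrArg conj (θ.2.2.2 x)⟩
    have hcF : ∀ θ ∈ F, c θ ∈ F := fun θ hθ g => by
      apply Subtype.ext; apply Subtype.ext; funext x
      exact congrArg conj (congrArg (fun t : T => (t.1 : K → ℂ) x) (hθ g))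
    let cF : F → F := fun θ => ⟨c θ.1, hcF θ.1 θ.2⟩
    have hcc : cF^[2 ^ 1] = id := funext fun θ => Subtype.ext (Subtype.ext (Subtype.ext (funext
      fun x => Complex.conj_conj _)))
    have hfix := Equiv.Perm.card_fixedPoints_modEq (p := 2) (n := 1) hcc
    have hone : Fintype.card (Function.fixedPoints cF) = 1 := by
      let e1 : T := ⟨oneChar K, one_mem_principal, by simp [charDegree, coe_oneChar],
        fun x => rfl⟩
      have he1 : e1 ∈ F := fun g => Subtype.ext (Subtype.ext (funext fun x => rfl))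
      rw [Fintype.card_eq_one_iff]
      refine ⟨⟨⟨e1, he1⟩, Subtype.ext (Subtype.ext (Subtype.ext (funext fun x => map_one conj)))⟩,
        fun θ => ?_⟩
      obtain ⟨⟨θ, hθF⟩, hθc⟩ := θ
      have hreal : ∀ x : K, conj ((θ.1 : K → ℂ) x) = (θ.1 : K → ℂ) x := fun x =>
        congrArg (fun t : F => (t.1.1 : K → ℂ) x) hθc
      refine Subtype.ext (Subtype.ext (Subtype.ext (Subtype.ext (funext fun x => ?_))))
      have h1 : (θ.1 : K → ℂ) 1 = 1 := by
        rw [(charDegree_eq θ.1.2).1, hall θ hθF, Nat.cast_one]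
      obtain ⟨f, hf⟩ := exists_linFun (θ.1 : K → ℂ) ⟨Chars.irr_isCharacter θ.1, h1⟩
      have hval : (θ.1 : K → ℂ) x = (f x : ℂ) := by rw [← hf]; rfl
      show (θ.1 : K → ℂ) x = 1
      obtain ⟨d, ρ, hirr, hρ⟩ := θ.1.2
      haveI := hirr
      -- the order of the linear character is odd
      have hcop := hdet θ.1 (hinv θ hθF)
      have hd1 : d = 1 := by
        have h2 := h1
        rw [← hρ, Representation.char_one, Module.finrank_fin_fun] at h2
        exact_mod_cast h2
      subst hd1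
      have hfd : (f : K →* ℂˣ) = Chars2.detHom ρ := MonoidHom.ext fun y => Units.ext (by
        rw [Chars2.detHom_apply, ← Chars2.trace_eq_det_one]
        show _ = ρ.character y
        rw [congrFun hρ y, ← hf]
        rfl)
      rw [Chars2.detOrder_eq ρ _ hρ, ← hfd] at hcop
      have hxo : f x ^ orderOf f = 1 := by
        rw [← MonoidHom.pow_apply, pow_orderOf_eq_one]; rfl
      have hx2 : f x ^ 2 = 1 := by
        apply Units.ext
        rw [Units.val_pow_eq_pow_val, Units.val_one]
        have hnorm : ‖(f x : ℂ)‖ = 1 :=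
          Complex.norm_eq_one_of_pow_eq_one (n := Nat.card K) (by
            rw [← Units.val_pow_eq_pow_val, ← map_pow, pow_card_eq_one', map_one, Units.val_one])
            Nat.card_pos.ne'
        have h3 := hreal x
        rw [hval] at h3
        rw [pow_two]
        nth_rewrite 2 [← h3]
        rw [Complex.mul_conj, Complex.normSq_eq_norm_sq, hnorm]
        norm_num
      have hcop2 : Nat.Coprime 2 (orderOf f) := Nat.prime_two.coprime_iff_not_dvd.2 hcop
      rw [hval]
      have := pow_gcd_eq_one.mpr ⟨hx2, hxo⟩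
      rw [hcop2.gcd_eq_one, pow_one] at this
      rw [this, Units.val_one]
    rw [hone] at hfix
    have hTF : Nat.card F % 2 = 0 := by
      rw [← hmod]
      exact Nat.even_iff.1 hTeven
    rw [Nat.card_eq_fintype_card] at hTF
    unfold Nat.ModEq at hfix
    omega
  -- its extension
  have hθinv := hinv θ hθ
  have hdodd := θ.2.2.1
  obtain ⟨χ, ⟨hχ, hχr, hχd⟩, huniq⟩ := existsUnique_ext_detOrder K θ.1.2 hθinv
    (charDegree_eq θ.1.2).1
    (ha ▸ Nat.Coprime.pow_left _ (Nat.coprime_two_left.2 hdodd))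
    (ha ▸ Nat.Coprime.pow_left _ (Nat.prime_two.coprime_iff_not_dvd.2 (hdet θ.1 hθinv)))
  have hχdeg : charDegree (⟨χ, hχ⟩ : IrrCharacter G).1 = charDegree (θ.1 : K → ℂ) := by
    have h1 := (charDegree_eq hχ).1
    rw [← OneMemClass.coe_one K, hχr 1, (charDegree_eq θ.1.2).1] at h1
    exact_mod_cast h1.symm
  have hσk : ∀ g : G, χ (g ^ k) = χ g := by
    have hcop : Nat.Coprime k (Nat.card G) := by
      refine Nat.coprime_of_dvd fun q hq hqk hqG => ?_
      haveI := Fact.mk hq
      obtain ⟨g, hg⟩ := exists_prime_orderOf_dvd_card' q hqG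
      have hk0 : g ^ k = 1 := orderOf_dvd_iff_pow_eq_one.1 (hg ▸ hqk)
      rcases hq.eq_two_or_odd' with h2 | hodd
      · subst h2
        rw [hk₁ g ⟨1, by rw [hg, pow_one]⟩] at hk0
        have := orderOf_dvd_of_pow_eq_one hk0
        rw [hg] at this
        norm_num at this
      · rw [hk₂ g (hg ▸ hodd)] at hk0
        rw [hk0, orderOf_one] at hg
        exact hq.one_lt.ne hg
    obtain ⟨σ, hσ⟩ := Chars.exists_aut_of_coprime hcop
    intro g
    have hχ' := OddChar.isIrrCharacter_map σ hχ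
    have h1 := huniq χ ⟨hχ, hχr, hχd⟩
    have h2 := huniq (fun g => σ (χ g)) ⟨hχ', fun x => by
      show σ (χ x) = _
      rw [hσ χ (Chars.isCharacter_of_isIrr hχ), ← SubgroupClass.coe_pow, hχr, θ.2.2.2 x],
      by rw [Chars.detOrder_map σ hχ]; exact hχd⟩
    rw [← hσ χ (Chars.isCharacter_of_isIrr hχ)]
    exact congrFun (h2.trans h1.symm) g
  have hχB : (⟨χ, hχ⟩ : IrrCharacter G) ∈ principalBlock M G := by
    have h0 := existsUnique_covering h2M ha (isPBlock_principal (M := M) (G := K))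
    let X : IrrCharacter G := ⟨χ, hχ⟩
    have e := h0.unique (y₁ := blockOf M (X : G → ℂ)) (y₂ := principalBlock M G)
      ⟨isPBlock_blockOf X, X, mem_blockOf_self X, θ.1, θ.2.1, by
        show classInner (fun x : K => χ x) _ ≠ 0
        rw [show (fun x : K => χ x) = (θ.1 : K → ℂ) from funext hχr,
          Chars.classInner_irrCharacter, if_pos rfl]
        exact one_ne_zero⟩
      ⟨isPBlock_principal, oneChar G, one_mem_principal, oneChar K, one_mem_principal, by
        rw [show (fun x : K => ((oneChar G : IrrCharacter G) : G → ℂ) x) =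
          ((oneChar K : IrrCharacter K) : K → ℂ) from rfl, Chars.classInner_irrCharacter, if_pos rfl]
        exact one_ne_zero⟩
    have hX : X ∈ blockOf M (X : G → ℂ) := mem_blockOf_self X
    rw [e] at hX
    exact hX
  exact hθ1 (hχdeg ▸ h ⟨χ, hχ⟩ hχB (hχdeg.symm ▸ hdodd) hσk)

/-- With a normal `2`-complement the odd-degree principal characters are linear. -/
theorem linear_of_complement (h2M : ((2 : ℕ) : AlgInt) ∈ M) (hG : HasNormalPComplement 2 G)
    {χ : IrrCharacter G} (hχ : χ ∈ principalBlock M G) (hodd : Odd (charDegree (χ : G → ℂ))) :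
    charDegree (χ : G → ℂ) = 1 := by
  classical
  haveI : Fact (Nat.Prime 2) := ⟨Nat.prime_two⟩
  obtain ⟨P, N, hN, hc⟩ := hG
  haveI := Fintype.ofFinite N
  haveI := Fintype.ofFinite (P : Subgroup G)
  have hNp : ¬ 2 ∣ Nat.card N := by
    have h := hc.card_mul
    rw [P.card_eq_multiplicity] at h
    intro hd
    refine Nat.not_dvd_ordCompl Nat.prime_two (Nat.card_pos (α := G)).ne' ?_
    rwa [Nat.div_eq_of_eq_mul_left (pow_pos two_pos _) h.symm]
  have hker : ∀ g ∈ N, (χ : G → ℂ) g = (χ : G → ℂ) 1 := fun g hg =>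
    BlockChar.apply_eq_one_of_mem_principal h2M hχ hNp hg
  have hmul : ∀ n ∈ N, ∀ x : G, (χ : G → ℂ) (n * x) = (χ : G → ℂ) x := fun n hn x => by
    exact Chars.apply_mul_of_mem_charKer (Chars.irr_isCharacter χ) x (hker n hn)
  have hres : IsIrrCharacter (P : Subgroup G) (fun x : (P : Subgroup G) => (χ : G → ℂ) x) := by
    refine Chars.isIrrCharacter_of_norm_one
      (Chars.isCharacter_restrict (Chars.irr_isCharacter χ) _) ?_
    have h1 := Chars.classInner_irrCharacter χ χ
    rw [if_pos rfl, Chars.classInner_def] at h1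
    rw [Chars.classInner_def, ← h1]
    have hsum : ∑ g : G, (χ : G → ℂ) g * conj ((χ : G → ℂ) g) =
        (Nat.card N : ℂ) * ∑ x : (P : Subgroup G), (χ : G → ℂ) x * conj ((χ : G → ℂ) x) := by
      rw [← (Equiv.ofBijective _ hc).sum_comp, Fintype.sum_prod_type, Finset.sum_congr rfl
        fun n _ => Finset.sum_congr rfl fun x _ => by
          show (χ : G → ℂ) ((n : G) * (x : G)) * conj ((χ : G → ℂ) ((n : G) * (x : G))) = _
          rw [hmul n n.2],
        Finset.sum_const, Finset.card_univ, nsmul_eq_mul, ← Nat.card_eq_fintype_card]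
      rfl
    rw [hsum, ← hc.card_mul]
    push_cast
    have hN0 : (Nat.card N : ℂ) ≠ 0 := Nat.cast_ne_zero.2 Nat.card_pos.ne'
    field_simp
  obtain ⟨d, -, hd, hdvd⟩ := Chars.irr_degree_dvd_card hres
  have hd' : charDegree (χ : G → ℂ) = d := by
    have h1 : (χ : G → ℂ) 1 = d := by simpa using hd
    rw [(charDegree_eq χ.2).1] at h1
    exact_mod_cast h1
  rw [P.card_eq_multiplicity] at hdvd
  obtain ⟨i, -, rfl⟩ := (Nat.dvd_prime_pow Nat.prime_two).1 hdvd
  rw [hd'] at hodd ⊢
  rcases i with _ | i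
  · rw [pow_zero]
  · exact absurd hodd (by simp [pow_succ, parity_simps])

end Cfsg.Agent.Chars2
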