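import Cfsg.Agent.Chars2.DefectOneApps
import Cfsg.Agent.BlockChar.RankBounds

/-!
The lattice of the restrictions to the `p`-regular elements of a block, when `p` divides the
group order only once: a basis with explicit inner products.
-/

set_option autoImplicit false
set_option linter.unusedSectionVars false
set_option linter.style.haveILetI false

namespace Cfsg.Agent.Chars2.Cyc

open Cfsg Cfsg.Agent Cfsg.Agent.Blocks Cfsg.Agent.BlockChar Function
open scoped ComplexConjugate

universe u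

variable {G : Type u} [Group G] [Fintype G] {p : ℕ} [hp : Fact p.Prime] {M : Ideal AlgInt}
  [M.IsMaximal]

/-- A basis of the restrictions to the `p`-regular elements, with its Gram matrix. -/
theorem exists_regular_basis (hpM : (p : AlgInt) ∈ M) (hdiv : p ∣ Nat.card G)
    (hsq : ¬ p ^ 2 ∣ Nat.card G) {B : Set (IrrCharacter G)} (hB : IsPBlock M B)
    (hd : 0 < blockDefect p B) :
    ∃ (e t : ℕ) (r : Fin e → IrrCharacter G) (s : Fin e → ℤ), 0 < e ∧ 0 < t ∧ t * e + 1 = p ∧
      blockRank p B = e ∧ (∀ i, r i ∈ B) ∧ (∀ i, s i = 1 ∨ s i = -1) ∧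
      (∀ ψ ∈ B, ∃ n : Fin e → ℤ, ∀ g : G, ¬ p ∣ orderOf g →
        (ψ : G → ℂ) g = ∑ i, (n i : ℂ) * (r i : G → ℂ) g) ∧
      ∀ i j, regInner p (r i : G → ℂ) (r j : G → ℂ) =
        (if i = j then 1 else 0) - (t : ℂ) / p * ((s i : ℂ) * (s j : ℂ)) := by
  classical
  obtain ⟨x, hx⟩ := exists_prime_orderOf_dvd_card' p hdiv
  obtain ⟨K, σ, S⟩ := exists_once hpM hdiv hsq hx
  haveI := Fintype.ofFinite (Subgroup.centralizer ({x} : Set G))
  obtain ⟨b₀, hind⟩ := S.exists_induced hB hd
  obtain ⟨θ₀, hθ₀⟩ := block_nonempty hind.1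
  obtain ⟨O⟩ := S.exists_shape hd hind hθ₀
  haveI : Fintype (B \ O.Y : Set (IrrCharacter G)) := Fintype.ofFinite _
  set e := (p - 1) / O.t with he
  have hte : O.t * e + 1 = p := by
    rw [he, Nat.mul_div_cancel' O.t_dvd]; have := hp.out.two_le; omega
  have he0 : 0 < e := by
    rcases Nat.eq_zero_or_pos e with h | h
    · rw [h, mul_zero] at hte; have := hp.out.two_le; omega
    · exact h
  have hX : Fintype.card (B \ O.Y : Set (IrrCharacter G)) = e := by
    rw [← Nat.card_eq_fintype_card, O.card_X]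
  let eq : Fin e ≃ (B \ O.Y : Set (IrrCharacter G)) := (Fintype.equivFinOfCardEq hX).symm
  let r : Fin e → IrrCharacter G := fun i => (eq i).1
  let s : Fin e → ℤ := fun i => O.W (r i)
  have hrB : ∀ i, r i ∈ B := fun i => (eq i).2.1
  have hrY : ∀ i, r i ∉ O.Y := fun i => (eq i).2.2
  have hs : ∀ i, s i = 1 ∨ s i = -1 := fun i => O.sign _ (hrB i)
  have hrel : ∀ θ ∈ O.Y, ∀ g : G, ¬ p ∣ orderOf g →
      (θ : G → ℂ) g = -(O.W θ : ℂ) * ∑ i, (s i : ℂ) * (r i : G → ℂ) g := by
    intro θ hθ g hg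
    have h := O.relation g hg θ hθ
    rw [finsum_mem_eq_toFinset_sum] at h
    rw [show ∑ i, (s i : ℂ) * (r i : G → ℂ) g =
      ∑ χ ∈ (B \ O.Y : Set (IrrCharacter G)).toFinset, (O.W χ : ℂ) * (χ : G → ℂ) g from
        Finset.sum_bij (fun i _ => r i) (fun i _ => Set.mem_toFinset.2 (eq i).2)
          (fun i _ j _ hij => eq.injective (Subtype.ext hij))
          (fun χ hχ => ⟨eq.symm ⟨χ, Set.mem_toFinset.1 hχ⟩, Finset.mem_univ _, by simp [r]⟩)
          fun i _ => rfl]
    rcases O.sign θ (O.Y_sub hθ) with hW | hW <;> rw [hW] at h ⊢ <;> push_cast at h ⊢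
    · linear_combination h
    · linear_combination -1 * h
  have hspan : ∀ ψ ∈ B, ∃ n : Fin e → ℤ, ∀ g : G, ¬ p ∣ orderOf g →
      (ψ : G → ℂ) g = ∑ i, (n i : ℂ) * (r i : G → ℂ) g := by
    intro ψ hψ
    by_cases hY : ψ ∈ O.Y
    · refine ⟨fun i => -O.W ψ * s i, fun g hg => ?_⟩
      rw [hrel ψ hY g hg, Finset.mul_sum]
      exact Finset.sum_congr rfl fun i _ => by push_cast; ring
    · refine ⟨fun i => if i = eq.symm ⟨ψ, hψ, hY⟩ then 1 else 0, fun g _ => ?_⟩
      simp [r, ite_mul, apply_ite (fun z : ℤ => (z : ℂ))]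
  have hLI : LinearIndependent ℂ fun i => pRegularPart p (r i : G → ℂ) := by
    refine linearIndependent_iff_card_eq_finrank_span.2 (le_antisymm ?_ (finrank_range_le_card _))
    rw [Fintype.card_fin]
    refine le_trans (le_of_eq (O.rank.trans he.symm).symm) ?_
    rw [blockRank, Set.finrank]
    refine Submodule.finrank_mono (Submodule.span_le.2 ?_)
    rintro _ ⟨ψ, hψ, rfl⟩
    obtain ⟨n, hn⟩ := hspan ψ hψ
    have : pRegularPart p (ψ : G → ℂ) = ∑ i, (n i : ℂ) • pRegularPart p (r i : G → ℂ) := by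
      funext g
      by_cases hg : p ∣ orderOf g
      · simp [pRegularPart, IsPRegular, hg, Finset.sum_apply]
      · simp [pRegularPart, IsPRegular, hg, Finset.sum_apply, hn g hg]
    rw [SetLike.mem_coe]
    show pRegularPart p (ψ : G → ℂ) ∈ _
    rw [this]
    exact Submodule.sum_mem _ fun i _ =>
      Submodule.smul_mem _ _ (Submodule.subset_span ⟨i, rfl⟩)
  refine ⟨e, O.t, r, s, he0, O.t_pos, hte, O.rank, hrB, hs, hspan, fun a b => ?_⟩
  set Gm : Fin e → ℂ := fun i => regInner p (r a : G → ℂ) (r i : G → ℂ) with hGm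
  set Sa : ℂ := ∑ i, (s i : ℂ) * Gm i with hSa
  have hYreg : ∀ θ ∈ O.Y, regInner p (r a : G → ℂ) (θ : G → ℂ) = -(O.W θ : ℂ) * Sa := by
    intro θ hθ
    rw [regInner, Finset.sum_congr rfl fun g hg => by rw [hrel θ hθ g (mem_regs.1 hg)], hSa]
    simp only [hGm, regInner, Finset.mul_sum, map_mul, map_sum, map_neg, map_intCast]
    rw [Finset.sum_comm]
    exact Finset.sum_congr rfl fun i _ => Finset.sum_congr rfl fun g _ => by ring
  have hWW : ∀ θ ∈ O.Y, (O.W θ : ℂ) * O.W θ = 1 := fun θ hθ => by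
    rcases O.sign θ (O.Y_sub hθ) with h | h <;> simp [h]
  have hss : ∀ i, (s i : ℂ) * s i = 1 := fun i => by rcases hs i with h | h <;> simp [h]
  have key : ∀ i, Gm i + (O.t : ℂ) * Sa * s i = if i = a then 1 else 0 := by
    have hzero : ∀ i, (Gm i + (O.t : ℂ) * Sa * s i - if i = a then 1 else 0) = 0 := by
      apply Fintype.linearIndependent_iff.1 hLI
      funext g
      by_cases hg : p ∣ orderOf g
      · simp [pRegularPart, IsPRegular, hg, Finset.sum_apply]
      simp only [Finset.sum_apply, Pi.smul_apply, smul_eq_mul, pRegularPart, IsPRegular, hg,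
        not_false_eq_true, if_true, Pi.zero_apply, sub_mul, ite_mul, one_mul, zero_mul,
        Finset.sum_sub_distrib, Finset.sum_ite_eq', Finset.mem_univ, sub_eq_zero]
      have h := sum_regInner_mul hpM hB (r a) hg
      rw [if_pos (hrB a), ← Finset.sum_filter_add_sum_filter_not _ (fun ψ => ψ ∈ O.Y)] at h
      have hYs : ∑ ψ ∈ (Finset.univ.filter (· ∈ B)).filter (fun ψ => ψ ∈ O.Y),
          regInner p (r a : G → ℂ) (ψ : G → ℂ) * (ψ : G → ℂ) g =
          (O.t : ℂ) * Sa * ∑ i, (s i : ℂ) * (r i : G → ℂ) g := by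
        rw [Finset.sum_congr rfl (g := fun _ => Sa * ∑ i, (s i : ℂ) * (r i : G → ℂ) g)
          fun θ hθ => ?_, Finset.sum_const, nsmul_eq_mul]
        · rw [mul_assoc]
          congr 2
          rw [← O.card_Y, Nat.card_coe_set_eq, Set.ncard_eq_toFinset_card']
          congr 1
          ext ψ
          simpa using fun h => O.Y_sub h
        · obtain ⟨-, hθ⟩ := Finset.mem_filter.1 hθ
          rw [hYreg θ hθ, hrel θ hθ g hg]
          linear_combination Sa * (∑ i, (s i : ℂ) * (r i : G → ℂ) g) * hWW θ hθ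
      have hXs : ∑ ψ ∈ (Finset.univ.filter (· ∈ B)).filter (fun ψ => ψ ∉ O.Y),
          regInner p (r a : G → ℂ) (ψ : G → ℂ) * (ψ : G → ℂ) g =
          ∑ i, Gm i * (r i : G → ℂ) g := by
        refine (Finset.sum_bij (fun i _ => r i) (fun i _ => ?_) (fun i _ j _ hij => ?_)
          (fun ψ hψ => ?_) fun i _ => rfl).symm
        · simp [hrB i, hrY i]
        · exact eq.injective (Subtype.ext hij)
        · obtain ⟨h1, h2⟩ := Finset.mem_filter.1 hψ
          exact ⟨eq.symm ⟨ψ, (Finset.mem_filter.1 h1).2, h2⟩, Finset.mem_univ _, by simp [r]⟩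
      rw [hYs, hXs] at h
      refine Eq.trans ?_ h
      simp only [add_mul, Finset.sum_add_distrib, Finset.mul_sum]
      rw [add_comm]
      congr 1
      exact Finset.sum_congr rfl fun i _ => by ring
    exact fun i => sub_eq_zero.1 (hzero i)
  have hSp : Sa * p = s a := by
    have h := Finset.sum_congr (s₁ := Finset.univ) rfl
      fun i _ => congrArg (fun z : ℂ => (s i : ℂ) * z) (key i)
    simp only [mul_add, Finset.sum_add_distrib, mul_ite, mul_one, mul_zero, Finset.sum_ite_eq',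
      Finset.mem_univ, if_true] at h
    rw [← hSa, Finset.sum_congr rfl (g := fun _ => (O.t : ℂ) * Sa)
      (fun i _ => by linear_combination (O.t : ℂ) * Sa * hss i), Finset.sum_const, Finset.card_univ,
      Fintype.card_fin, nsmul_eq_mul] at h
    have hp' : (p : ℂ) = (O.t : ℂ) * e + 1 := by exact_mod_cast hte.symm
    rw [hp']
    linear_combination h
  have hp0 : (p : ℂ) ≠ 0 := Nat.cast_ne_zero.2 hp.out.ne_zero
  have h := key b
  show Gm b = _
  rw [if_congr eq_comm rfl rfl] at h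
  rw [← hSp]
  field_simp
  linear_combination h

end Cfsg.Agent.Chars2.Cyc
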