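import Cfsg.Agent.Chars2.Ramified
import Cfsg.Agent.FGS3.Extraspecial

/-!
The irreducible characters of extraspecial groups.
-/

set_option autoImplicit false
set_option linter.style.haveILetI false
set_option linter.unusedSectionVars false

namespace Cfsg.Agent.Chars2

open Cfsg Cfsg.Agent
open scoped ComplexConjugate commutatorElement

universe u

variable {P : Type u} [Group P] [Fintype P]

theorem eq_one_of_faithful_prime {Z : Subgroup P} {p : ℕ} [hp : Fact p.Prime] (hZ : Nat.card Z = p)
    (φ : Z →* ℂˣ) {z₀ : Z} (h0 : φ z₀ ≠ 1) {z : Z} (hz : φ z = 1) : z = 1 := by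
  have hker : φ.ker = ⊥ := by
    rcases Nat.dvd_prime hp.out |>.1 (hZ ▸ Subgroup.card_subgroup_dvd_card φ.ker) with h | h
    · exact Subgroup.card_eq_one.1 h
    · exact absurd ((φ.ker).eq_top_of_card_eq (h.trans hZ.symm) ▸ Subgroup.mem_top z₀ : z₀ ∈ φ.ker) h0
  exact (Subgroup.eq_bot_iff_forall _).1 hker z (MonoidHom.mem_ker.2 hz)

/-- An irreducible character of an extraspecial group is linear or fully ramified over the centre. -/
theorem extraspecial_irr_cases {p n : ℕ} [hp : Fact p.Prime] (hP : IsExtraspecial p P)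
    (hcard : Nat.card P = p ^ (2 * n + 1)) {χ : P → ℂ} (hχ : IsIrrCharacter P χ) :
    (χ 1 = 1 ∧ ∀ z ∈ Subgroup.center P, χ z = 1) ∨
      (χ 1 = (p : ℂ) ^ n ∧ ∀ x, x ∉ Subgroup.center P → χ x = 0) := by
  classical
  haveI : Fintype (Subgroup.center P) := Fintype.ofFinite _
  obtain ⟨φ, hφ⟩ := exists_central_hom hχ (le_refl (Subgroup.center P))
  have hcomm := hP.1.2.2
  by_cases htriv : ∀ z, φ z = 1
  · left
    obtain ⟨m, ρ, htr⟩ := Blocks.exists_matrixRep hχ
    have hirr : IsIrrCharacter P (fun g => (ρ g).trace) := by rw [funext htr]; exact hχ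
    have hne := Chars.irr_apply_one_ne_zero hχ
    have hscal : ∀ z ∈ Subgroup.center P, ρ z = 1 := by
      intro z hz
      obtain ⟨c, hc⟩ := Blocks.matrix_scalar_of_commute ρ hirr (ρ z)
        (fun g => by rw [← map_mul, ← map_mul, (Subgroup.mem_center_iff.1 hz g)])
      have h1 : χ (z * 1) = c * χ 1 := by
        rw [← htr, map_mul, hc, Matrix.smul_mul, one_mul, Matrix.trace_smul, htr, smul_eq_mul]
      rw [hφ ⟨z, hz⟩ 1, htriv, Units.val_one] at h1
      rw [hc, mul_right_cancel₀ hne h1.symm, one_smul]
    have hone : χ 1 = 1 := by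
      have hsc : ∀ x, ∃ c : ℂ, ρ x = c • 1 ∧ c * conj c = 1 := by
        intro x
        obtain ⟨c, hc⟩ := Blocks.matrix_scalar_of_commute ρ hirr (ρ x) (fun g => by
          have h1 : ρ ⁅x, g⁆ = 1 :=
            hscal _ (hcomm ▸ Subgroup.commutator_mem_commutator (Subgroup.mem_top x)
              (Subgroup.mem_top g))
          have h2 : x * g = ⁅x, g⁆ * (g * x) := by simp [commutatorElement_def, mul_assoc]
          rw [← map_mul, ← map_mul, h2, map_mul, h1, one_mul])
        refine ⟨c, hc, ?_⟩
        have h3 : c ^ orderOf x = 1 := by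
          have h4 : ρ x ^ orderOf x = 1 := by rw [← map_pow, pow_orderOf_eq_one, map_one]
          rw [hc, smul_pow, one_pow] at h4
          have h5 := congrArg Matrix.trace h4
          rw [Matrix.trace_smul, smul_eq_mul, show Matrix.trace (1 : Matrix (Fin m) (Fin m) ℂ) = χ 1
            by rw [← htr, map_one]] at h5
          exact mul_right_cancel₀ hne (h5.trans (one_mul _).symm)
        rw [Complex.mul_conj', Complex.norm_eq_one_of_pow_eq_one h3 (orderOf_pos x).ne']
        simp
      have hnorm := Chars.classInner_self_irr hχ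
      rw [Chars.classInner_def] at hnorm
      have hterm : ∀ x, χ x * conj (χ x) = χ 1 * χ 1 := by
        intro x
        obtain ⟨c, hc, hc1⟩ := hsc x
        have h1 : χ x = c * χ 1 := by
          rw [← htr x, hc, Matrix.trace_smul, smul_eq_mul, ← htr 1, map_one]
        rw [h1, map_mul, Chars.irr_apply_one_conj (Chars.isCharacter_of_isIrr hχ)]
        linear_combination χ 1 * χ 1 * hc1
      rw [Finset.sum_congr rfl fun x _ => hterm x, Finset.sum_const, Finset.card_univ, nsmul_eq_mul,
        ← Nat.card_eq_fintype_card, ← mul_assoc, inv_mul_cancel₀ Chars.card_ne_zero, one_mul] at hnorm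
      obtain ⟨d, -, hd⟩ := Chars.exists_irr_apply_one_eq hχ
      rw [hd] at hnorm ⊢
      have : d * d = 1 := by exact_mod_cast hnorm
      rw [Nat.eq_one_of_mul_eq_one_left this, Nat.cast_one]
    refine ⟨hone, fun z hz => ?_⟩
    rw [← hone, ← htr z, hscal z hz, ← htr 1, map_one]
  · right
    push Not at htriv
    obtain ⟨z₀, hz₀⟩ := htriv
    have hvan : ∀ x, x ∉ Subgroup.center P → χ x = 0 := by
      intro x hx
      obtain ⟨y, hy⟩ : ∃ y, y * x ≠ x * y := by
        by_contra hall
        push Not at hall
        exact hx (Subgroup.mem_center_iff.2 hall)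
      have hmem : y⁻¹ * x⁻¹ * y * x ∈ Subgroup.center P := by
        rw [← hcomm]
        have := Subgroup.commutator_mem_commutator (Subgroup.mem_top y⁻¹) (Subgroup.mem_top x⁻¹)
        simpa [commutator, commutatorElement_def] using this
      have hne : y⁻¹ * x⁻¹ * y * x ≠ 1 := fun e => hy (by
        rw [mul_assoc, mul_assoc, inv_mul_eq_one, eq_inv_mul_iff_mul_eq] at e
        exact e.symm)
      have hψ : IsIrrCharacter (Subgroup.center P) (fun z => (φ z : ℂ)) :=
        Chars.isIrrCharacter_hom φ
      have hres : (fun z : Subgroup.center P => χ z) = χ 1 • fun z => (φ z : ℂ) :=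
        funext fun z => by
          have := hφ z 1
          rw [mul_one] at this
          rw [this, Pi.smul_apply, smul_eq_mul, mul_comm]
      refine apply_eq_zero_of_commutator hχ (le_refl _) hψ ?_ ?_ hmem hne
      · intro z hz
        simp only [map_one, Units.val_one] at hz
        exact eq_one_of_faithful_prime hP.2 φ hz₀ (Units.ext (by rw [hz, Units.val_one]))
      · rw [hres, Chars.classInner_smul_left, Chars.classInner_self_irr hψ, mul_one]
        exact Chars.irr_apply_one_ne_zero hχ
    refine ⟨?_, hvan⟩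
    have h := (norm_restrict_eq_index_iff (N := Subgroup.center P) hχ).2 hvan
    obtain ⟨d, -, hd⟩ := Chars.exists_irr_apply_one_eq hχ
    have hres : (fun z : Subgroup.center P => χ z) = (d : ℂ) • fun z => (φ z : ℂ) :=
      funext fun z => by
        have := hφ z 1
        rw [mul_one] at this
        rw [this, hd, Pi.smul_apply, smul_eq_mul, mul_comm]
    rw [hres, Chars.classInner_smul_left, Chars.classInner_smul_right,
      Chars.classInner_self_irr (Chars.isIrrCharacter_hom φ), Complex.conj_natCast, mul_one] at h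
    have h2 : d * d = (Subgroup.center P).index := by exact_mod_cast h
    have h3 := (Subgroup.center P).card_mul_index
    rw [hP.2, ← h2, hcard, pow_succ'] at h3
    have h4 : d * d = p ^ n * p ^ n := by
      rw [← pow_add, ← two_mul]
      exact Nat.eq_of_mul_eq_mul_left hp.out.pos h3
    rw [hd, show d = p ^ n from Nat.mul_self_inj.1 h4, Nat.cast_pow]

theorem extraspecial_center_le {p : ℕ} [hp : Fact p.Prime] (hP : IsExtraspecial p P)
    {A : Subgroup P} {a : P} (ha : a ∈ A) (haZ : a ∈ Subgroup.center P) (ha1 : a ≠ 1) :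
    Subgroup.center P ≤ A := by
  have h : Subgroup.zpowers (⟨a, haZ⟩ : Subgroup.center P) = ⊤ := by
    rcases Nat.dvd_prime hp.out |>.1
      (hP.2 ▸ Subgroup.card_subgroup_dvd_card (Subgroup.zpowers (⟨a, haZ⟩ : Subgroup.center P)))
      with h | h
    · exact absurd (congrArg Subtype.val ((Subgroup.zpowers_eq_bot).1 (Subgroup.card_eq_one.1 h))) ha1
    · exact Subgroup.eq_top_of_card_eq _ (h.trans hP.2.symm)
  intro z hz
  obtain ⟨j, hj⟩ := (show (⟨z, hz⟩ : Subgroup.center P) ∈ Subgroup.zpowers _ from
    h ▸ Subgroup.mem_top _)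
  rw [← show a ^ j = z from congrArg Subtype.val hj]
  exact A.zpow_mem ha j

end Cfsg.Agent.Chars2
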