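import Cfsg.Agent.Blocks.Lattice
import Cfsg.Agent.Chars.Eigen

/-!
The Frobenius–Schur indicator of a real-valued irreducible character and invariant bilinear forms.
-/

set_option autoImplicit false
set_option linter.style.haveILetI false
set_option linter.unusedSectionVars false

namespace Cfsg.Agent.Chars2

open Cfsg Cfsg.Agent
open scoped ComplexConjugate Matrix

universe u

variable {G : Type u} [Group G] [Fintype G] {n : ℕ} {ρ : G →* Matrix (Fin n) (Fin n) ℂ}

local notation "Mat" => Matrix (Fin n) (Fin n) ℂ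

/-- A nonzero invariant bilinear form of an irreducible representation is nondegenerate. -/
theorem exists_mul_invariant_eq_one (hirr : IsIrrCharacter G (fun g => (ρ g).trace)) {M : Mat}
    (hM : ∀ g, (ρ g)ᵀ * M * ρ g = M) (hne : M ≠ 0) : ∃ Y : Mat, Y * M = 1 := by
  classical
  obtain ⟨i, j, hij⟩ : ∃ i j, M i j ≠ 0 := by
    by_contra hc
    push Not at hc
    exact hne (Matrix.ext fun i j => hc i j)
  set X : Mat := Matrix.single j i 1
  set Y : Mat := ∑ g, ρ g * X * (ρ g)ᵀ with hY
  have hinv : ∀ h, ρ h * Y * (ρ h)ᵀ = Y := fun h => by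
    rw [hY, Finset.mul_sum, Finset.sum_mul]
    refine Fintype.sum_equiv (Equiv.mulLeft h) _ _ fun g => ?_
    simp only [Equiv.coe_mulLeft, map_mul, Matrix.transpose_mul, mul_assoc]
  have hcomm : ∀ h, (Y * M) * ρ h = ρ h * (Y * M) := fun h => by
    have h1 : M * ρ h = (ρ h⁻¹)ᵀ * M := by
      conv_rhs => rw [← hM h]
      rw [← mul_assoc, ← mul_assoc, ← Matrix.transpose_mul, ← map_mul, mul_inv_cancel, map_one,
        Matrix.transpose_one, one_mul]
    calc (Y * M) * ρ h = Y * (ρ h⁻¹)ᵀ * M := by rw [mul_assoc, h1, mul_assoc]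
      _ = ρ h * Y * (ρ h)ᵀ * (ρ h⁻¹)ᵀ * M := by rw [hinv]
      _ = ρ h * (Y * M) := by
        rw [mul_assoc (ρ h * Y), ← Matrix.transpose_mul, ← map_mul, inv_mul_cancel, map_one,
          Matrix.transpose_one, mul_one, mul_assoc]
  obtain ⟨s, hs⟩ := Blocks.matrix_scalar_of_commute ρ hirr (Y * M) hcomm
  have htr : (Y * M).trace = (Nat.card G : ℂ) * M i j := by
    rw [hY, Finset.sum_mul, Matrix.trace_sum]
    have hterm : ∀ g, (ρ g * X * (ρ g)ᵀ * M).trace = M i j := fun g => by
      rw [mul_assoc, mul_assoc, Matrix.trace_mul_comm, mul_assoc, hM]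
      simp [X, Matrix.trace_single_mul]
    rw [Finset.sum_congr rfl fun g _ => hterm g, Finset.sum_const, Finset.card_univ,
      Nat.card_eq_fintype_card, nsmul_eq_mul]
  have hs0 : s ≠ 0 := fun e => by
    rw [e, zero_smul] at hs
    rw [hs, Matrix.trace_zero] at htr
    exact mul_ne_zero Chars.card_ne_zero hij htr.symm
  exact ⟨s⁻¹ • Y, by rw [Matrix.smul_mul, hs, smul_smul, inv_mul_cancel₀ hs0, one_smul]⟩

/-- The space of invariant bilinear forms has dimension at most one. -/
theorem exists_smul_invariant (hirr : IsIrrCharacter G (fun g => (ρ g).trace)) {M M' : Mat}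
    (hM : ∀ g, (ρ g)ᵀ * M * ρ g = M) (hne : M ≠ 0) (hM' : ∀ g, (ρ g)ᵀ * M' * ρ g = M') :
    ∃ c : ℂ, M' = c • M := by
  obtain ⟨Y, hY⟩ := exists_mul_invariant_eq_one hirr hM hne
  have hY' : M * Y = 1 := mul_eq_one_comm.1 hY
  have hcomm : ∀ h, (Y * M') * ρ h = ρ h * (Y * M') := fun h => by
    have h1 : ∀ N : Mat, (ρ h)ᵀ * N * ρ h = N → N * ρ h = (ρ h⁻¹)ᵀ * N := fun N hN => by
      conv_rhs => rw [← hN]
      rw [← mul_assoc, ← mul_assoc, ← Matrix.transpose_mul, ← map_mul, mul_inv_cancel, map_one,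
        Matrix.transpose_one, one_mul]
    have h2 : Y * (ρ h⁻¹)ᵀ = ρ h * Y := by
      calc Y * (ρ h⁻¹)ᵀ = Y * (ρ h⁻¹)ᵀ * (M * Y) := by rw [hY', mul_one]
        _ = Y * (M * ρ h) * Y := by rw [h1 M (hM h)]; simp only [mul_assoc]
        _ = (Y * M) * ρ h * Y := by simp only [mul_assoc]
        _ = ρ h * Y := by rw [hY, one_mul]
    rw [mul_assoc, h1 M' (hM' h), ← mul_assoc, h2, mul_assoc]
  obtain ⟨c, hc⟩ := Blocks.matrix_scalar_of_commute ρ hirr (Y * M') hcomm
  refine ⟨c, ?_⟩
  have := congrArg (fun A => M * A) hc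
  simpa [← mul_assoc, hY', Matrix.mul_smul] using this

/-- The averaging operator on bilinear forms. -/
noncomputable def avgForm (ρ : G →* Matrix (Fin n) (Fin n) ℂ) (A : Matrix (Fin n) (Fin n) ℂ) :
    Matrix (Fin n) (Fin n) ℂ :=
  (Nat.card G : ℂ)⁻¹ • ∑ g, (ρ g)ᵀ * A * ρ g

theorem avgForm_invariant (A : Mat) (h : G) : (ρ h)ᵀ * avgForm ρ A * ρ h = avgForm ρ A := by
  rw [avgForm, Matrix.mul_smul, Matrix.smul_mul, Finset.mul_sum, Finset.sum_mul]
  congr 1
  refine Fintype.sum_equiv (Equiv.mulRight h) _ _ fun g => ?_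
  simp only [Equiv.coe_mulRight, map_mul, Matrix.transpose_mul, mul_assoc]

theorem avgForm_single_apply (i j a b : Fin n) :
    avgForm ρ (Matrix.single i j 1) a b = (Nat.card G : ℂ)⁻¹ * ∑ g, ρ g i a * ρ g j b := by
  classical
  rw [avgForm, Matrix.smul_apply, Matrix.sum_apply, smul_eq_mul]
  congr 1
  refine Finset.sum_congr rfl fun g _ => ?_
  rw [Matrix.mul_apply, Finset.sum_eq_single j]
  · rw [Matrix.mul_apply, Finset.sum_eq_single i]
    · simp
    · intro k _ hk; simp [Matrix.single, hk.symm]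
    · simp
  · intro k _ hk
    rw [Matrix.mul_apply, Finset.sum_eq_zero, zero_mul]
    intro l _
    simp [Matrix.single, hk.symm]
  · simp

/-- A real-valued irreducible representation has an invariant form, whose symmetry is the
Frobenius–Schur indicator. -/
theorem exists_form_of_real (hirr : IsIrrCharacter G (fun g => (ρ g).trace))
    (hreal : ∀ g, ((ρ g).trace).im = 0) :
    ∃ M : Mat, M ≠ 0 ∧ (∀ g, (ρ g)ᵀ * M * ρ g = M) ∧
      Mᵀ = ((Nat.card G : ℂ)⁻¹ * ∑ s : G, (ρ (s * s)).trace) • M := by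
  classical
  have hconj : ∀ g, conj ((ρ g).trace) = (ρ g).trace := fun g => Complex.conj_eq_iff_im.2 (hreal g)
  have h1 : ∑ i, ∑ j, avgForm ρ (Matrix.single i j 1) i j = 1 := by
    have h2 := Chars.classInner_self_irr hirr
    rw [Chars.classInner_def] at h2
    simp only [hconj] at h2
    simp only [avgForm_single_apply, ← Finset.mul_sum]
    rw [← h2]
    congr 1
    rw [Finset.sum_congr rfl (fun i _ => Finset.sum_comm), Finset.sum_comm]
    refine Finset.sum_congr rfl fun g _ => ?_
    simp only [Matrix.trace, Matrix.diag_apply, Finset.sum_mul, Finset.mul_sum]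
    exact Finset.sum_comm
  obtain ⟨i₀, j₀, h0⟩ : ∃ i j, avgForm ρ (Matrix.single i j 1) ≠ 0 := by
    by_contra hc
    push Not at hc
    simp [hc] at h1
  set M := avgForm ρ (Matrix.single i₀ j₀ 1) with hMdef
  have hM : ∀ g, (ρ g)ᵀ * M * ρ g = M := avgForm_invariant _
  have hMt : ∀ g, (ρ g)ᵀ * Mᵀ * ρ g = Mᵀ := fun g => by
    conv_rhs => rw [← hM g]
    simp only [Matrix.transpose_mul, Matrix.transpose_transpose, mul_assoc]
  obtain ⟨ε, hε⟩ := exists_smul_invariant hirr hM h0 hMt
  refine ⟨M, h0, hM, ?_⟩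
  have hc := fun i j => exists_smul_invariant hirr hM h0 (avgForm_invariant (ρ := ρ) (Matrix.single i j 1))
  choose c hc using hc
  have hsum : ∑ i, ∑ j, c i j * M i j = 1 := by
    rw [← h1]
    exact Finset.sum_congr rfl fun i _ => Finset.sum_congr rfl fun j _ => by
      rw [hc i j, Matrix.smul_apply, smul_eq_mul]
  have hsym : ∀ i j, M j i = ε * M i j := fun i j => by
    have := congrFun (congrFun hε i) j
    simpa using this
  have hν : (Nat.card G : ℂ)⁻¹ * ∑ s : G, (ρ (s * s)).trace = ε := by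
    calc (Nat.card G : ℂ)⁻¹ * ∑ s : G, (ρ (s * s)).trace
        = ∑ i, ∑ j, avgForm ρ (Matrix.single i j 1) j i := by
          simp only [avgForm_single_apply, ← Finset.mul_sum]
          congr 1
          rw [Finset.sum_congr rfl (fun i _ => Finset.sum_comm), Finset.sum_comm]
          refine Finset.sum_congr rfl fun g _ => ?_
          simp only [map_mul, Matrix.trace, Matrix.diag_apply, Matrix.mul_apply]
      _ = ∑ i, ∑ j, ε * (c i j * M i j) := Finset.sum_congr rfl fun i _ =>
          Finset.sum_congr rfl fun j _ => by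
            rw [hc i j, Matrix.smul_apply, smul_eq_mul, hsym i j]; ring
      _ = ε := by simp only [← Finset.mul_sum]; rw [hsum, mul_one]
  rw [hν, hε]

/-- In odd degree the indicator of a real-valued irreducible character is one. -/
theorem indicator_eq_one_of_odd {χ : G → ℂ} (hχ : IsIrrCharacter G χ) (hreal : ∀ g, (χ g).im = 0)
    {d : ℕ} (hd : χ 1 = d) (hodd : Odd d) :
    (Nat.card G : ℂ)⁻¹ * ∑ s : G, χ (s * s) = 1 := by
  classical
  obtain ⟨m, ρ, htr⟩ := Blocks.exists_matrixRep hχ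
  have hirr : IsIrrCharacter G (fun g => (ρ g).trace) := by rw [funext htr]; exact hχ
  obtain ⟨M, hM0, hM, hsym⟩ := exists_form_of_real hirr (fun g => by rw [htr]; exact hreal g)
  simp only [htr] at hsym
  set ν := (Nat.card G : ℂ)⁻¹ * ∑ s : G, χ (s * s)
  have hm : m = d := by
    have h1 := htr 1
    rw [map_one, Matrix.trace_one, Fintype.card_fin, hd] at h1
    exact_mod_cast h1
  obtain ⟨i, j, hij⟩ : ∃ i j, M i j ≠ 0 := by
    by_contra hc
    push Not at hc
    exact hM0 (Matrix.ext fun i j => hc i j)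
  have h2 : ν * ν = 1 := by
    have e1 := congrFun (congrFun hsym i) j
    have e2 := congrFun (congrFun hsym j) i
    simp only [Matrix.transpose_apply, Matrix.smul_apply, smul_eq_mul] at e1 e2
    exact mul_right_cancel₀ hij (by rw [one_mul, mul_assoc, ← e1, ← e2])
  obtain ⟨Y, hY⟩ := exists_mul_invariant_eq_one hirr hM hM0
  have hdet : M.det ≠ 0 := fun e => by
    have := congrArg Matrix.det hY
    rw [Matrix.det_mul, e, mul_zero, Matrix.det_one] at this
    exact zero_ne_one this
  have h3 := congrArg Matrix.det hsym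
  rw [Matrix.det_transpose, Matrix.det_smul, Fintype.card_fin] at h3
  subst hm
  have h4 : ν ^ m = 1 := mul_right_cancel₀ hdet (by rw [one_mul]; exact h3.symm)
  obtain ⟨k, rfl⟩ := hodd
  rwa [pow_succ, pow_mul, sq, h2, one_pow, one_mul] at h4

end Cfsg.Agent.Chars2
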