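import Cfsg.Agent.Chars2.KleinBlock
import Cfsg.Agent.S1493

/-!
Parity of the number of fixed odd-degree characters of the principal `2`-block.
-/

set_option autoImplicit false
set_option linter.unusedSectionVars false
set_option linter.style.haveILetI false

namespace Cfsg.Agent.Chars2

open Cfsg Cfsg.Agent Cfsg.Agent.Blocks
open scoped ComplexConjugate

universe u

variable {G : Type u} [Group G] [Fintype G] {M : Ideal AlgInt} [M.IsMaximal]

/-- The value at an involution has the parity of the degree. -/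
theorem int_value_parity (χ : IrrCharacter G) {t : G} (ht : t ^ 2 = 1) :
    ∃ z : ℤ, (χ : G → ℂ) t = (z : ℂ) ∧ (2 : ℤ) ∣ z - charDegree (χ : G → ℂ) := by
  obtain ⟨n, ρ, -, hρ⟩ := χ.2
  obtain ⟨z, hz, hc, -, -⟩ := Chars.exists_eigenvalues ρ t
  have hpm : ∀ i, z i = 1 ∨ z i = -1 := fun i => by
    have h1 : z i ^ 2 = 1 := by
      obtain ⟨j, hj⟩ := orderOf_dvd_of_pow_eq_one ht
      rw [hj, pow_mul, hz i, one_pow]
    rcases mul_self_eq_one_iff.1 (show z i * z i = 1 by rw [← pow_two]; exact h1) with h | h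
    · exact Or.inl h
    · exact Or.inr h
  refine ⟨∑ i, if z i = 1 then (1 : ℤ) else -1, ?_, ?_⟩
  · rw [← hρ, ← pow_one t, hc 1, Int.cast_sum]
    refine Finset.sum_congr rfl fun i _ => ?_
    rcases hpm i with h | h
    · simp [h]
    · rw [h, if_neg (by norm_num)]; simp
  · have hdeg : (charDegree (χ : G → ℂ) : ℤ) = ∑ _i : Fin (Module.finrank ℂ (Fin n → ℂ)), (1 : ℤ) := by
      have h1 := (charDegree_eq χ.2).1
      rw [← hρ, Representation.char_one] at h1
      have h2 : charDegree (χ : G → ℂ) = Module.finrank ℂ (Fin n → ℂ) := by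
        rw [← hρ]; exact_mod_cast h1.symm
      rw [h2]; simp
    rw [hdeg, ← Finset.sum_sub_distrib]
    refine Finset.dvd_sum fun i _ => ?_
    split_ifs <;> norm_num

/-- An even number of odd-degree characters in the principal block. -/
theorem even_card_odd_principal (h2M : ((2 : ℕ) : AlgInt) ∈ M) (hev : Even (Nat.card G))
    [DecidablePred (· ∈ principalBlock M G)] :
    Even (Finset.univ.filter fun χ : IrrCharacter G =>
      χ ∈ principalBlock M G ∧ Odd (charDegree (χ : G → ℂ))).card := by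
  classical
  haveI : Fact (Nat.Prime 2) := ⟨Nat.prime_two⟩
  obtain ⟨t, ht⟩ := exists_prime_orderOf_dvd_card' 2 (G := G) (even_iff_two_dvd.1 hev)
  have h := block_orth_weak (M := M) h2M isPBlock_principal (x := (1 : G))
    (by rw [orderOf_one]; norm_num) (y := t) (by rw [ht])
  have hv := fun χ : IrrCharacter G => int_value_parity χ (t := t) (by rw [← ht, pow_orderOf_eq_one])
  choose v hv hpar using hv
  set S := Finset.univ.filter (· ∈ principalBlock M G) with hS
  have h0 : ∑ χ ∈ S, (charDegree (χ : G → ℂ) : ℤ) * v χ = 0 := by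
    have h1 : ((∑ χ ∈ S, (charDegree (χ : G → ℂ) : ℤ) * v χ : ℤ) : ℂ) = 0 := by
      rw [Int.cast_sum, ← h]
      refine Finset.sum_congr rfl fun χ _ => ?_
      rw [Int.cast_mul, Int.cast_natCast, ← (charDegree_eq χ.2).1, hv χ, map_intCast]
    exact_mod_cast h1
  have h2 : ((∑ χ ∈ S, (charDegree (χ : G → ℂ) : ℤ) * v χ : ℤ) : ZMod 2) =
      ((S.filter fun χ : IrrCharacter G => Odd (charDegree (χ : G → ℂ))).card : ZMod 2) := by
    rw [Int.cast_sum, Finset.card_filter, Nat.cast_sum]
    refine Finset.sum_congr rfl fun χ _ => ?_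
    have hvd : (v χ : ZMod 2) = (charDegree (χ : G → ℂ) : ZMod 2) := by
      have := (ZMod.intCast_zmod_eq_zero_iff_dvd _ 2).2 (hpar χ)
      push_cast at this
      exact sub_eq_zero.1 this
    rw [Int.cast_mul, Int.cast_natCast, hvd]
    split_ifs with ho
    · rw [(ZMod.natCast_eq_one_iff_odd).2 ho]; simp
    · rw [(ZMod.natCast_eq_zero_iff_even).2 (Nat.not_odd_iff_even.1 ho)]; simp
  rw [h0, Int.cast_zero, eq_comm, ZMod.natCast_eq_zero_iff_even, hS, Finset.filter_filter] at h2
  exact h2

/-- An even number of fixed odd-degree characters. -/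
theorem even_card_fixed_odd_principal (h2M : ((2 : ℕ) : AlgInt) ∈ M) (hev : Even (Nat.card G))
    (k : ℕ) (hk₁ : ∀ g : G, (∃ j : ℕ, orderOf g = 2 ^ j) → g ^ k = g ^ 3)
    (hk₂ : ∀ g : G, Odd (orderOf g) → g ^ k = g) :
    Even (Nat.card {χ : IrrCharacter G // χ ∈ principalBlock M G ∧
      Odd (charDegree (χ : G → ℂ)) ∧ ∀ g : G, (χ : G → ℂ) (g ^ k) = (χ : G → ℂ) g}) := by
  classical
  haveI : Fact (Nat.Prime 2) := ⟨Nat.prime_two⟩
  have hcop : Nat.Coprime k (Nat.card G) := by
    refine Nat.coprime_of_dvd fun q hq hqk hqG => ?_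
    haveI := Fact.mk hq
    obtain ⟨g, hg⟩ := exists_prime_orderOf_dvd_card' q hqG
    have hk0 : g ^ k = 1 := orderOf_dvd_iff_pow_eq_one.1 (hg ▸ hqk)
    rcases hq.eq_two_or_odd' with h2 | hodd
    · subst h2
      rw [hk₁ g ⟨1, by rw [hg, pow_one]⟩] at hk0
      have := orderOf_dvd_of_pow_eq_one hk0
      rw [hg] at this
      norm_num at this
    · rw [hk₂ g (hg ▸ hodd)] at hk0
      rw [hk0, orderOf_one] at hg
      exact hq.one_lt.ne hg
  set a := (Nat.card G).factorization 2
  have hper : ∀ g : G, g ^ k ^ 2 ^ a = g := by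
    intro g
    obtain ⟨y, hy, hxy, ⟨j, hj⟩, hyr⟩ := isPPart_ppart (p := 2) g
    set x := ppart 2 g
    have hy1 : ∀ i, y ^ k ^ i = y := fun i => by
      induction i with
      | zero => simp
      | succ i ih =>
        rw [pow_succ, pow_mul, ih, hk₂ y (Nat.not_even_iff_odd.1 fun h => hyr (even_iff_two_dvd.1 h))]
    have hx1 : ∀ i, x ^ k ^ i = x ^ 3 ^ i := fun i => by
      induction i with
      | zero => simp
      | succ i ih =>
        rw [pow_succ, pow_mul, ih, ← pow_mul, mul_comm, pow_mul, hk₁ x ⟨j, hj⟩, ← pow_mul, ← pow_succ']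
    have hx2 : x ^ 3 ^ 2 ^ a = x := by
      have hja : j ≤ a := by
        have h1 : 2 ^ j ∣ Nat.card G := hj ▸ orderOf_dvd_natCard x
        exact (Nat.prime_two.pow_dvd_iff_le_factorization Nat.card_pos.ne').1 h1
      conv_rhs => rw [← pow_one x]
      rw [pow_eq_pow_iff_modEq, hj]
      rcases Nat.eq_zero_or_pos j with h | h
      · subst h; exact Nat.modEq_one
      have h1 := Nat.ModEq.pow_totient (x := 3) (n := 2 ^ j) ((by norm_num : Nat.Coprime 3 2).pow_right j)
      rw [Nat.totient_prime_pow Nat.prime_two h, show (2 : ℕ) - 1 = 1 from rfl, mul_one] at h1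
      have h2 := h1.pow (2 ^ (a - (j - 1)))
      rw [← pow_mul, ← pow_add, one_pow, show j - 1 + (a - (j - 1)) = a by omega] at h2
      exact h2
    rw [← hy, hxy.mul_pow, hy1, hx1, hx2]
  have hex : ∀ χ : IrrCharacter G, ∃ χ' : IrrCharacter G,
      ∀ g : G, (χ' : G → ℂ) g = (χ : G → ℂ) (g ^ k) := fun χ => by
    obtain ⟨χ', -, h2, h3, -⟩ := S1493.result (G := G) (Nat.card G) 1 k (mul_one _).symm
      (Nat.coprime_one_right _) hcop χ (Chars.irr_isCharacter χ)
    exact ⟨⟨χ', h2 χ.2⟩, fun g => h3 g (orderOf_dvd_natCard g)⟩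
  choose s hs using hex
  have hiter : ∀ (i : ℕ) (χ : IrrCharacter G) (g : G),
      (s^[i] χ : G → ℂ) g = (χ : G → ℂ) (g ^ k ^ i) := by
    intro i
    induction i with
    | zero => intro χ g; simp
    | succ i ih => intro χ g; rw [Function.iterate_succ_apply', hs, ih, ← pow_mul, pow_succ']
  let T := {χ : IrrCharacter G // χ ∈ principalBlock M G ∧ Odd (charDegree (χ : G → ℂ))}
  have hT : ∀ χ : T, s χ.1 ∈ principalBlock M G ∧ Odd (charDegree (s χ.1 : G → ℂ)) := by
    intro χ
    constructor
    · intro g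
      have h := χ.2.1 (g ^ k)
      have hc : Subgroup.centralizer ({g ^ k} : Set G) = Subgroup.centralizer ({g} : Set G) := by
        ext w
        simp only [Subgroup.mem_centralizer_singleton_iff]
        refine ⟨fun hw => ?_, fun hw => ((show Commute w g from hw).pow_right k).eq⟩
        obtain ⟨l, hl⟩ := exists_pow_eq_self_of_coprime (x := g)
          (hcop.coprime_dvd_right (orderOf_dvd_natCard g))
        have h5 := (show Commute w (g ^ k) from hw).pow_right l
        rw [hl] at h5
        exact h5.eq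
      rw [centralChar, centralChar, hc] at h
      rw [centralChar, centralChar, hs, hs, one_pow]
      exact h
    · have : charDegree (s χ.1 : G → ℂ) = charDegree (χ.1 : G → ℂ) := by
        simp [charDegree, hs]
      rw [this]; exact χ.2.2
  let σ : T → T := fun χ => ⟨s χ.1, hT χ⟩
  have hσi : ∀ (i : ℕ) (χ : T), (σ^[i] χ).1 = s^[i] χ.1 := by
    intro i
    induction i with
    | zero => intro χ; rfl
    | succ i ih => intro χ; rw [Function.iterate_succ_apply', Function.iterate_succ_apply', ← ih]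
  have hσ : σ^[2 ^ a] = id := funext fun χ => Subtype.ext (Subtype.ext (funext fun g => by
    rw [hσi, hiter, hper]; rfl))
  have hmod := Equiv.Perm.card_fixedPoints_modEq (p := 2) (n := a)
    (show σ ^[2 ^ a] = id from hσ) (f := σ)
  have hTc : Even (Fintype.card T) := by
    rw [Fintype.card_subtype]; exact even_card_odd_principal h2M hev
  have e : Nat.card {χ : IrrCharacter G // χ ∈ principalBlock M G ∧
      Odd (charDegree (χ : G → ℂ)) ∧ ∀ g : G, (χ : G → ℂ) (g ^ k) = (χ : G → ℂ) g} =
      Fintype.card (Function.fixedPoints σ) := by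
    rw [← Nat.card_eq_fintype_card]
    exact Nat.card_congr
      { toFun := fun χ => ⟨⟨χ.1, χ.2.1, χ.2.2.1⟩, Subtype.ext (Subtype.ext (funext fun g => by
          show (s χ.1 : G → ℂ) g = _
          rw [hs]; exact χ.2.2.2 g))⟩
        invFun := fun χ => ⟨χ.1.1, χ.1.2.1, χ.1.2.2, fun g => by
          have h := congrArg (fun y : T => ((y.1 : IrrCharacter G) : G → ℂ) g) χ.2
          rw [← hs]; exact h⟩
        left_inv := fun χ => rfl
        right_inv := fun χ => rfl }
  rw [e, Nat.even_iff]
  rw [Nat.even_iff] at hTc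
  have := hmod
  unfold Nat.ModEq at this
  omega

end Cfsg.Agent.Chars2
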