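import Cfsg.Agent.Chars2.Ramified
import Cfsg.Agent.Chars.RegularPart
import Mathlib.GroupTheory.Sylow

/-!
Integrality of the coefficients of class functions constant on the sections of Hall type.
-/

set_option autoImplicit false
set_option linter.style.haveILetI false
set_option linter.unusedSectionVars false

namespace Cfsg.Agent.Chars2

open Cfsg Cfsg.Agent
open scoped ComplexConjugate

universe u

/-- In an elementary group the elements of order prime to `n` form a normal subgroup of index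
divisible only by the primes of `n`. -/
theorem exists_coprime_part {E : Type u} [Group E] [Finite E] {q : ℕ} (hq : q.Prime)
    (hE : IsElementary q E) (n : ℕ) :
    ∃ U : Subgroup E, U.Normal ∧ (∀ e, e ∈ U ↔ Nat.Coprime (orderOf e) n) ∧
      Nat.Coprime (Nat.card U) n ∧ ∀ s : ℕ, s.Prime → s ∣ U.index → s ∣ n := by
  classical
  have hR : ∀ r : {r : ℕ // r.Prime ∧ r ∣ n}, ∃ H : Subgroup E, ∀ e, e ∈ H ↔ ¬ r.1 ∣ orderOf e :=
    fun r => by
      obtain ⟨H, hH, -⟩ := Chars.exists_regular_subgroup hq hE r.2.1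
      exact ⟨H, hH⟩
  choose H hH using hR
  have hmem : ∀ e, e ∈ (⨅ r, H r) ↔ Nat.Coprime (orderOf e) n := by
    intro e
    rw [Subgroup.mem_iInf]
    constructor
    · intro h
      exact Nat.coprime_of_dvd fun k hk h1 h2 => (hH ⟨k, hk, h2⟩ e).1 (h ⟨k, hk, h2⟩) h1
    · intro h r
      rw [hH]
      intro hd
      exact r.2.1.not_dvd_one (h ▸ Nat.dvd_gcd hd r.2.2)
  refine ⟨⨅ r, H r, ⟨fun e he g => ?_⟩, hmem, ?_, ?_⟩
  · rw [hmem] at he ⊢
    rwa [← MulAut.conj_apply, MulEquiv.orderOf_eq]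
  · refine Nat.coprime_of_dvd fun k hk h1 h2 => ?_
    haveI := Fact.mk hk
    obtain ⟨⟨e, he⟩, ho⟩ := exists_prime_orderOf_dvd_card' k h1
    rw [Subgroup.orderOf_mk] at ho
    have h3 := (hmem e).1 he
    rw [ho] at h3
    exact hk.not_dvd_one (h3 ▸ Nat.dvd_gcd dvd_rfl h2)
  · intro s hs hd
    by_contra hn
    haveI := Fact.mk hs
    obtain ⟨S⟩ : Nonempty (Sylow s E) := inferInstance
    have hle : (S : Subgroup E) ≤ ⨅ r, H r := fun e he => by
      rw [hmem]
      obtain ⟨k, hk⟩ := (IsPGroup.iff_orderOf.1 S.2) ⟨e, he⟩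
      rw [Subgroup.orderOf_mk] at hk
      rw [hk]
      exact (hs.coprime_iff_not_dvd.2 hn).pow_left k
    exact S.not_dvd_index (hd.trans (Subgroup.index_dvd_of_le hle))

/-- Averages of a character over a coset of a normal subgroup are algebraic integers. -/
theorem isIntegral_coset_avg {E : Type u} [Group E] [Fintype E] {U : Subgroup E} [U.Normal]
    [Fintype U] {μ : E → ℂ} (hμ : IsIrrCharacter E μ) (v : E) :
    IsIntegral ℤ ((Nat.card U : ℂ)⁻¹ * ∑ u : U, μ ((u : E) * v)) := by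
  have hs := sum_coset (N := U) hμ v
  have hμ1 := Chars.irr_apply_one_ne_zero hμ
  by_cases hc : classInner (fun n : U => μ n) (fun _ => 1) = 0
  · rw [hc, mul_zero, zero_mul] at hs
    rw [(mul_eq_zero.1 hs).resolve_right hμ1, mul_zero]
    exact isIntegral_zero
  · rw [restrict_eq_one_of_over hμ hc] at hs
    have e : (Nat.card U : ℂ)⁻¹ * ∑ u : U, μ ((u : E) * v) = μ v := by
      rw [inv_mul_eq_iff_eq_mul₀ (Chars.subgroup_card_ne_zero U)]
      exact mul_right_cancel₀ hμ1 (by rw [hs]; ring)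
    rw [e]
    exact Chars.isIntegral_of_isCharacter (Chars.isCharacter_of_isIrr hμ) v

variable {G : Type u} [Group G] [Fintype G]

/-- A class function whose restrictions to elementary subgroups have integral coefficients has
integral coefficients. -/
theorem isIntegral_coeff_of_elementary {θ : G → ℂ} (hθ : IsClassFunction G θ)
    (hE : ∀ (E : Subgroup G) [Fintype E] (p : ℕ), p.Prime → IsElementary p E →
      ∀ φ : IrrCharacter E, IsIntegral ℤ (classInner (fun e : E => θ e) (φ : E → ℂ)))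
    (χ : IrrCharacter G) : IsIntegral ℤ (classInner θ (χ : G → ℂ)) := by
  classical
  obtain ⟨k, a, f, hf, hone⟩ := Chars.brauer_one (G := G)
  have h : θ = ∑ i, (a i : ℂ) • (θ * f i) := by
    conv_lhs => rw [← mul_one θ, show (1 : G → ℂ) = _ from hone, Finset.mul_sum]
    simp only [mul_smul_comm]
  rw [h, Chars.classInner_sum_left]
  refine IsIntegral.sum _ fun i _ => ?_
  rw [Chars.classInner_smul_left]
  refine (isIntegral_algebraMap (x := a i)).mul ?_
  obtain ⟨E, p, hp, hel, ψ, hψ, he⟩ := hf i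
  haveI : Fintype E := Fintype.ofFinite _
  rw [he, Chars.mul_indFun E ψ hθ, Chars.classInner_indFun E _ (Chars.isClassFunction_irr χ)]
  have e1 : classInner ((fun e : E => θ e) * ψ) (fun e : E => (χ : G → ℂ) e) =
      classInner (fun e : E => θ e) ((fun e : E => (χ : G → ℂ) e) * fun e => conj (ψ e)) := by
    simp only [Chars.classInner_def, Pi.mul_apply, map_mul, Complex.conj_conj]
    congr 1
    exact Finset.sum_congr rfl fun e _ => by ring
  have hchar : IsCharacter E ((fun e : E => (χ : G → ℂ) e) * fun e => conj (ψ e)) :=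
    Chars.isCharacter_mul (Chars.isCharacter_restrict (Chars.irr_isCharacter χ) E)
      (Chars.isCharacter_star hψ)
  obtain ⟨c, hc⟩ := exists_multiplicities hchar
  rw [e1, funext fun x => apply_eq_sum (Chars.isClassFunction_of_isCharacter hchar) x]
  rw [show (fun x => ∑ φ : IrrCharacter E,
      classInner ((fun e : E => (χ : G → ℂ) e) * fun e => conj (ψ e)) (φ : E → ℂ) * (φ : E → ℂ) x) =
      ∑ φ : IrrCharacter E, (c φ : ℂ) • (φ : E → ℂ) from funext fun x => by simp [hc],
    Chars.classInner_sum_right]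
  refine IsIntegral.sum _ fun φ _ => ?_
  rw [Chars.classInner_smul_right, Complex.conj_natCast]
  exact (isIntegral_algebraMap (x := (c φ : ℤ))).mul (hE E p hp hel φ)

/-- The indicator of a section, multiplied by the coprime part of the order, has integral
coefficients. -/
theorem isIntegral_section_coeff (m n : ℕ) (hmn : Nat.card G = m * n) (hcop : Nat.Coprime m n)
    (g : G) (ϑ : G → ℂ)
    (hϑ1 : ∀ x : G, (∃ v : G, IsConj v g ∧ ∃ u : G, x = u * v ∧ Commute u v ∧
      Nat.Coprime (orderOf u) n ∧ Nat.Coprime (orderOf v) m) → ϑ x = n)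
    (hϑ0 : ∀ x : G, (¬ ∃ v : G, IsConj v g ∧ ∃ u : G, x = u * v ∧ Commute u v ∧
      Nat.Coprime (orderOf u) n ∧ Nat.Coprime (orderOf v) m) → ϑ x = 0) :
    IsClassFunction G ϑ ∧ ∀ χ : IrrCharacter G, IsIntegral ℤ (classInner ϑ (χ : G → ℂ)) := by
  classical
  set P : G → Prop := fun x => ∃ v : G, IsConj v g ∧ ∃ u : G, x = u * v ∧ Commute u v ∧
    Nat.Coprime (orderOf u) n ∧ Nat.Coprime (orderOf v) m
  have hPconj : ∀ x a, P x → P (a * x * a⁻¹) := by
    rintro x a ⟨v, hv, u, rfl, hc, h1, h2⟩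
    refine ⟨a * v * a⁻¹, ((isConj_iff.2 ⟨a, rfl⟩ : IsConj v (a * v * a⁻¹)).symm).trans hv,
      a * u * a⁻¹, by group, hc.map (MulAut.conj a).toMonoidHom, ?_, ?_⟩
    · rwa [← MulAut.conj_apply, MulEquiv.orderOf_eq]
    · rwa [← MulAut.conj_apply, MulEquiv.orderOf_eq]
  have hcl : IsClassFunction G ϑ := by
    intro x a
    have hiff : P (a * x * a⁻¹) ↔ P x := ⟨fun h => by
      have := hPconj _ a⁻¹ h
      simpa [mul_assoc] using this, hPconj x a⟩
    by_cases hx : P x
    · rw [hϑ1 _ (hiff.2 hx), hϑ1 x hx]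
    · rw [hϑ0 _ (fun h => hx (hiff.1 h)), hϑ0 x hx]
  refine ⟨hcl, isIntegral_coeff_of_elementary hcl fun E _ p hp hel φ => ?_⟩
  obtain ⟨U, hUn, hU, hUc, hUi⟩ := exists_coprime_part hp hel n
  obtain ⟨V, hVn, hV, hVc, hVi⟩ := exists_coprime_part hp hel m
  haveI := hUn
  haveI : Fintype U := Fintype.ofFinite _
  haveI : Fintype V := Fintype.ofFinite _
  have hEdvd : Nat.card E ∣ m * n := hmn ▸ Subgroup.card_subgroup_dvd_card E
  have hUV : ∀ e : E, e ∈ U → e ∈ V → e = 1 := by
    intro e h1 h2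
    rw [← orderOf_eq_one_iff]
    exact Nat.eq_one_of_dvd_coprimes (((hU e).1 h1).mul_right ((hV e).1 h2)) dvd_rfl
      (((orderOf_dvd_natCard e).trans hEdvd).trans (by rw [mul_comm]))
  have hcomm : ∀ (a : U) (b : V), Commute (a : E) (b : E) := fun a b => by
    have h1 : (a : E) * b * (a : E)⁻¹ * (b : E)⁻¹ = 1 := by
      refine hUV _ ?_ (V.mul_mem (hVn.conj_mem _ b.2 _) (V.inv_mem b.2))
      rw [mul_assoc (a : E), mul_assoc (a : E)]
      exact U.mul_mem a.2 (hUn.conj_mem _ (U.inv_mem a.2) _)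
    rwa [mul_inv_eq_one, mul_inv_eq_iff_eq_mul] at h1
  have hinj : Function.Injective (fun ab : U × V => (ab.1 : E) * ab.2) := by
    rintro ⟨a, b⟩ ⟨a', b'⟩ he
    simp only at he
    have h0 : (a' : E)⁻¹ * a = b' * (b : E)⁻¹ := by
      rw [inv_mul_eq_iff_eq_mul, ← mul_assoc, eq_mul_inv_iff_mul_eq]; exact he
    have h1 := hUV _ (U.mul_mem (U.inv_mem a'.2) a.2) (h0 ▸ V.mul_mem b'.2 (V.inv_mem b.2))
    have h2 := h0.symm.trans h1
    exact Prod.ext (Subtype.ext (inv_mul_eq_one.1 h1).symm) (Subtype.ext (mul_inv_eq_one.1 h2).symm)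
  have hVn' : Nat.card V ∣ n :=
    hVc.dvd_of_dvd_mul_left ((V.card_subgroup_dvd_card).trans hEdvd)
  have hbij : Function.Bijective (fun ab : U × V => (ab.1 : E) * ab.2) := by
    refine hinj.bijective_of_nat_card_le ?_
    rw [Nat.card_prod]
    have h1 : Nat.Coprime U.index (Nat.card U) := Nat.coprime_of_dvd fun k hk a b =>
      hk.not_dvd_one (hUc ▸ Nat.dvd_gcd b (hUi k hk a))
    have h2 : Nat.Coprime U.index V.index := Nat.coprime_of_dvd fun k hk a b =>
      hk.not_dvd_one (hcop ▸ Nat.dvd_gcd (hVi k hk b) (hUi k hk a))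
    have h3 : U.index ∣ Nat.card V * V.index := by rw [V.card_mul_index]; exact U.index_dvd_card
    conv_lhs => rw [← U.card_mul_index]
    exact Nat.mul_le_mul_left _ (Nat.le_of_dvd Nat.card_pos (h2.dvd_of_dvd_mul_right h3))
  obtain ⟨c, hc1, hc0⟩ := Nat.chineseRemainder hcop.symm 1 0
  have hm' : ∀ z : G, Nat.Coprime (orderOf z) m → z ^ c = z := fun z hz => by
    have hzn : orderOf z ∣ n := hz.dvd_of_dvd_mul_left (hmn ▸ orderOf_dvd_natCard z)
    rw [pow_eq_pow_iff_modEq.2 (hc1.of_dvd hzn), pow_one]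
  have hn' : ∀ z : G, Nat.Coprime (orderOf z) n → z ^ c = 1 := fun z hz => by
    have hzm : orderOf z ∣ m := hz.dvd_of_dvd_mul_right (hmn ▸ orderOf_dvd_natCard z)
    rw [pow_eq_pow_iff_modEq.2 (hc0.of_dvd hzm), pow_zero]
  have hval : ∀ (a : U) (b : V),
      ϑ (((a : E) * b : E) : G) = if IsConj ((b : E) : G) g then (n : ℂ) else 0 := by
    intro a b
    have hab : Commute ((a : E) : G) ((b : E) : G) := (hcomm a b).map E.subtype
    have hca : Nat.Coprime (orderOf ((a : E) : G)) n := by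
      rw [Subgroup.orderOf_coe]; exact (hU _).1 a.2
    have hcb : Nat.Coprime (orderOf ((b : E) : G)) m := by
      rw [Subgroup.orderOf_coe]; exact (hV _).1 b.2
    split_ifs with hb
    · exact hϑ1 _ ⟨_, hb, ((a : E) : G), rfl, hab, hca, hcb⟩
    · refine hϑ0 _ ?_
      rintro ⟨v, hv, u, he, huv, hu1, hv1⟩
      have e2 := congrArg (· ^ c) he
      simp only [Subgroup.coe_mul, hab.mul_pow, huv.mul_pow, hn' _ hca, hm' _ hcb, hn' _ hu1,
        hm' _ hv1, one_mul] at e2
      exact hb (e2 ▸ hv)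
  obtain ⟨t, ht⟩ := hVn'
  have hcard : Nat.card E = Nat.card U * Nat.card V := by
    rw [← Nat.card_eq_of_bijective _ hbij, Nat.card_prod]
  rw [Chars.classInner_def, ← Fintype.sum_bijective _ hbij
    (fun ab : U × V => ϑ (((ab.1 : E) * ab.2 : E) : G) * conj ((φ : E → ℂ) ((ab.1 : E) * ab.2)))
    (fun e : E => ϑ (e : G) * conj ((φ : E → ℂ) e)) (fun _ => rfl),
    Fintype.sum_prod_type_right, Finset.mul_sum]
  refine IsIntegral.sum _ fun b _ => ?_
  simp only [hval]
  split_ifs with hb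
  · have e : (Nat.card E : ℂ)⁻¹ * ∑ x : U, (n : ℂ) * conj ((φ : E → ℂ) ((x : E) * b)) =
        (t : ℂ) * conj ((Nat.card U : ℂ)⁻¹ * ∑ x : U, (φ : E → ℂ) ((x : E) * b)) := by
      rw [← Finset.mul_sum, map_mul, map_inv₀, Complex.conj_natCast, map_sum, hcard, ht]
      have h1 : (Nat.card U : ℂ) ≠ 0 := Chars.subgroup_card_ne_zero U
      have h2 : (Nat.card V : ℂ) ≠ 0 := Chars.subgroup_card_ne_zero V
      push_cast
      field_simp
    rw [e]
    exact (isIntegral_algebraMap (x := (t : ℤ))).mul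
      ((isIntegral_coset_avg φ.2 _).map ((starRingEnd ℂ).toIntAlgHom))
  · simp [isIntegral_zero]

end Cfsg.Agent.Chars2
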