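/-
Core library: the Frobenius–Schur indicator of a real irreducible character is one as soon as the
trivial character has odd multiplicity in its restriction to some subgroup.
-/
import Cfsg.Agent.Chars2.FSIndicator
import Cfsg.Agent.DegreeGraph.Indicator

set_option autoImplicit false
set_option linter.style.haveILetI false

namespace Cfsg.Agent.Chars2

open Cfsg Matrix
open scoped ComplexConjugate

universe u

/-- A rectangular splitting of an idempotent matrix. -/
theorem exists_split_idem {n : ℕ} {e : Matrix (Fin n) (Fin n) ℂ} (he : e * e = e) :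
    ∃ (r : ℕ) (C : Matrix (Fin n) (Fin r) ℂ) (D : Matrix (Fin r) (Fin n) ℂ),
      C * D = e ∧ D * C = 1 := by
  classical
  set f := Matrix.toLin' e with hf
  let b := Module.finBasis ℂ (LinearMap.range f)
  refine ⟨_, LinearMap.toMatrix' ((LinearMap.range f).subtype ∘ₗ b.equivFun.symm.toLinearMap),
    LinearMap.toMatrix' (b.equivFun.toLinearMap ∘ₗ f.rangeRestrict), ?_, ?_⟩
  · rw [← LinearMap.toMatrix'_comp]
    conv_rhs => rw [← LinearMap.toMatrix'_toLin' e]
    congr 1
    refine LinearMap.ext fun v => ?_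
    simp [← hf]
  · rw [← LinearMap.toMatrix'_comp, ← LinearMap.toMatrix'_id]
    congr 1
    refine LinearMap.ext fun v => ?_
    obtain ⟨w, hw⟩ := (b.equivFun.symm v).2
    have h1 : f.rangeRestrict (b.equivFun.symm v : Fin n → ℂ) = b.equivFun.symm v := by
      refine Subtype.ext ?_
      change f (b.equivFun.symm v : Fin n → ℂ) = _
      rw [← hw, ← LinearMap.comp_apply, hf, ← Matrix.toLin'_mul, he]
    simp only [LinearMap.comp_apply, LinearEquiv.coe_coe, Submodule.subtype_apply, h1,
      LinearMap.id_apply, LinearEquiv.apply_symm_apply]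

/-- An odd multiplicity of the trivial character forces the indicator one. -/
theorem indicator_eq_one_of_odd_mult {G : Type u} [Group G] [Fintype G] {χ : G → ℂ}
    (hχ : IsIrrCharacter G χ) (hreal : ∀ g, (χ g).im = 0) (P : Subgroup G) [Fintype P] {r : ℕ}
    (hr : classInner (fun x : P => χ x) (fun _ => 1) = (r : ℂ)) (hodd : Odd r) :
    (Nat.card G : ℂ)⁻¹ * ∑ s : G, χ (s * s) = 1 := by
  classical
  obtain ⟨m, ρ, htr⟩ := Blocks.exists_matrixRep hχ
  have hirr : IsIrrCharacter G (fun g => (ρ g).trace) := by rw [funext htr]; exact hχ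
  obtain ⟨M, hM0, hM, hsym⟩ := exists_form_of_real hirr (fun g => by rw [htr]; exact hreal g)
  simp only [htr] at hsym
  obtain ⟨Y, hY⟩ := exists_mul_invariant_eq_one hirr hM hM0
  rcases DegreeGraph.indicator_of_real hχ (funext fun g => Complex.conj_eq_iff_im.2 (hreal g)) with
    h | h
  · exact h
  exfalso
  rw [h] at hsym
  have hMY : M * Y = 1 := by
    exact mul_eq_one_comm.mp hY
  have hY' : Y * M = 1 := mul_eq_one_comm.mp hMY
  set e : Matrix (Fin m) (Fin m) ℂ := (Nat.card P : ℂ)⁻¹ • ∑ x : P, ρ x with he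
  have hPc : (Nat.card P : ℂ) ≠ 0 := Chars.card_ne_zero
  have hee : e * e = e := by
    have h1 : (∑ x : P, ρ x) * (∑ x : P, ρ x) = (Nat.card P : ℂ) • ∑ x : P, ρ x := by
      conv_lhs => rw [Finset.sum_mul]
      simp only [Finset.mul_sum, ← map_mul]
      have : ∀ x : P, ∑ y : P, ρ ((x : G) * y) = ∑ y : P, ρ y := fun x =>
        Fintype.sum_equiv (Equiv.mulLeft x) _ _ fun y => rfl
      simp only [this, Finset.sum_const, Finset.card_univ, Nat.card_eq_fintype_card,
        ← Nat.cast_smul_eq_nsmul ℂ]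
    rw [he, Matrix.smul_mul, Matrix.mul_smul, h1, smul_smul, smul_smul, mul_assoc,
      inv_mul_cancel₀ hPc, mul_one]
  obtain ⟨s, C, D, hCD, hDC⟩ := exists_split_idem hee
  have htre : e.trace = (r : ℂ) := by
    rw [← hr, he, Matrix.trace_smul, Matrix.trace_sum, smul_eq_mul, Chars.classInner_def]
    simp only [htr, map_one, mul_one]
  have hsr : s = r := by
    have h2 : (C * D).trace = (D * C).trace := Matrix.trace_mul_comm C D
    rw [hDC, Matrix.trace_one, Fintype.card_fin, hCD, htre] at h2
    exact_mod_cast h2.symm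
  have hswap : eᵀ * M = M * e := by
    have h1 : ∀ x : P, (ρ x)ᵀ * M = M * ρ ((x⁻¹ : P) : G) := fun x => by
      calc (ρ x)ᵀ * M = ((ρ x)ᵀ * M) * (ρ x * ρ ((x⁻¹ : P) : G)) := by
            rw [← map_mul, ← Subgroup.coe_mul, mul_inv_cancel, Subgroup.coe_one, map_one, mul_one]
        _ = M * ρ ((x⁻¹ : P) : G) := by rw [← mul_assoc, hM]
    rw [he, Matrix.transpose_smul, Matrix.transpose_sum, Matrix.smul_mul, Matrix.mul_smul,
      Finset.sum_mul, Finset.mul_sum]
    congr 1
    simp only [h1]
    exact Fintype.sum_equiv (Equiv.inv P) _ _ fun x => rfl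
  set B : Matrix (Fin s) (Fin s) ℂ := Cᵀ * M * C with hB
  have hBt : Bᵀ = (-1 : ℂ) • B := by
    rw [hB, Matrix.transpose_mul, Matrix.transpose_mul, Matrix.transpose_transpose, hsym,
      Matrix.smul_mul, Matrix.mul_smul, Matrix.mul_assoc]
  have hBinv : B * (D * Y * Dᵀ) = 1 := by
    calc B * (D * Y * Dᵀ) = Cᵀ * (M * (C * D)) * Y * Dᵀ := by rw [hB]; simp only [Matrix.mul_assoc]
      _ = Cᵀ * eᵀ * (M * Y) * Dᵀ := by rw [hCD, ← hswap]; simp only [Matrix.mul_assoc]
      _ = (D * e * C)ᵀ := by
          rw [hMY, Matrix.mul_one, Matrix.transpose_mul, Matrix.transpose_mul, Matrix.mul_assoc]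
      _ = 1 := by
          rw [← hCD, Matrix.mul_assoc, Matrix.mul_assoc, hDC, Matrix.mul_one, hDC,
            Matrix.transpose_one]
  have hdet : B.det ≠ 0 := fun h0 => by
    have := congrArg Matrix.det hBinv
    rw [Matrix.det_mul, h0, zero_mul, Matrix.det_one] at this
    exact zero_ne_one this
  have h3 := congrArg Matrix.det hBt
  rw [Matrix.det_transpose, Matrix.det_smul, Fintype.card_fin,
    Odd.neg_one_pow (show Odd s from hsr.symm ▸ hodd)] at h3
  exact hdet (by linear_combination (1 / 2 : ℂ) * h3)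

end Cfsg.Agent.Chars2
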