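/-
Core library: vanishing characters, their restrictions to intermediate normal subgroups, and
multiplicity one over cyclic inertia quotients.
-/
import Cfsg.Agent.Chars2.Ramified
import Cfsg.Agent.Chars.PrimePowerDivisor

set_option autoImplicit false
set_option linter.unusedSectionVars false

namespace Cfsg.Agent.Chars2

open Cfsg Cfsg.Agent
open scoped ComplexConjugate Classical

universe u

variable {G : Type u} [Group G] [Fintype G]

/-- Sums over a subgroup of a function vanishing outside a smaller one. -/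
theorem sum_of_vanish {N Q : Subgroup G} [Fintype N] [Fintype Q] (hNQ : N ≤ Q) (F g : G → ℂ)
    (hF : ∀ x, x ∉ N → F x = 0) :
    ∑ q : Q, F q * conj (g q) = ∑ z : N, F z * conj (g z) := by
  symm
  refine Fintype.sum_of_injective (Subgroup.inclusion hNQ) (Subgroup.inclusion_injective hNQ) _ _
    (fun q hq => ?_) (fun z => rfl)
  rw [hF _ (fun h => hq ⟨⟨q, h⟩, rfl⟩), zero_mul]

/-- A restriction to a multiple of an irreducible character has square multiplicity at most the
index. -/
theorem sq_le_index_of_restrict {χ : G → ℂ} (hχ : IsIrrCharacter G χ) {N : Subgroup G} [Fintype N]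
    {θ : N → ℂ} (hθ : IsIrrCharacter N θ) {f : ℕ} (h : ∀ n : N, χ n = f * θ n) :
    f ^ 2 ≤ N.index := by
  have h1 := Chars.classInner_self_irr hχ
  rw [Chars.classInner_def, inv_mul_eq_iff_eq_mul₀ Chars.card_ne_zero, mul_one] at h1
  have h2 : ∑ n : N, χ n * conj (χ n) = (Nat.card N : ℂ) * (f : ℂ) ^ 2 := by
    have h3 := Chars.classInner_self_irr hθ
    rw [Chars.classInner_def, inv_mul_eq_iff_eq_mul₀ (Chars.subgroup_card_ne_zero N), mul_one] at h3
    rw [← h3, Finset.sum_mul]
    refine Finset.sum_congr rfl fun n _ => ?_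
    rw [h, map_mul, Complex.conj_natCast]
    ring
  simp only [Complex.mul_conj] at h1 h2
  have hle : ∑ n : N, Complex.normSq (χ n) ≤ ∑ g : G, Complex.normSq (χ g) := by
    rw [← Finset.sum_subtype (Finset.univ.filter (· ∈ N)) (fun x => by simp)
      (fun g => Complex.normSq (χ g))]
    exact Finset.sum_le_sum_of_subset_of_nonneg (Finset.filter_subset _ _)
      (fun g _ _ => Complex.normSq_nonneg _)
  have e1 : ∑ g : G, Complex.normSq (χ g) = (Nat.card G : ℝ) := by exact_mod_cast h1
  have e2 : ∑ n : N, Complex.normSq (χ n) = (Nat.card N : ℝ) * (f : ℝ) ^ 2 := by exact_mod_cast h2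
  rw [e1, e2, ← N.card_mul_index] at hle
  push_cast at hle
  have : ((f : ℝ)) ^ 2 ≤ (N.index : ℝ) := le_of_mul_le_mul_left hle (by exact_mod_cast Nat.card_pos)
  exact_mod_cast this

/-- The square of the multiplicity times the length of the orbit is the index, for characters
vanishing outside. -/
theorem orbit_mult_of_vanish {χ : G → ℂ} (hχ : IsIrrCharacter G χ) {N : Subgroup G} [N.Normal]
    [Fintype N] {η : N → ℂ} (hη : IsIrrCharacter N η) {c : ℕ}
    (hc : classInner (fun n : N => χ n) η = c) (hc0 : c ≠ 0) (hv : ∀ g, g ∉ N → χ g = 0) :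
    c * c * (inertiaSub η).index = N.index ∧ χ 1 = (inertiaSub η).index * c * η 1 := by
  have hcon : classInner (fun n : N => χ n) η ≠ 0 := by rw [hc]; exact_mod_cast hc0
  refine ⟨?_, by rw [← hc]; exact clifford_degree hχ hη hcon⟩
  have hn := (norm_restrict_eq_index_iff (N := N) hχ).2 hv
  have hcl := Chars.isClassFunction_of_isCharacter (Chars.isCharacter_of_isIrr hχ)
  rw [show classInner (fun n : N => χ n) (fun n : N => χ n) =
      ((c * c * (inertiaSub η).index : ℕ) : ℂ) from ?_] at hn
  · exact_mod_cast hn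
  rw [Chars.classInner_def]
  calc (Nat.card N : ℂ)⁻¹ * ∑ n : N, χ n * conj (χ n)
      = ∑ φ ∈ orbitFinset hη, (c : ℂ) * ((Nat.card N : ℂ)⁻¹ * ∑ n : N, χ n * conj ((φ : N → ℂ) n)) := by
        simp only [Finset.mul_sum]
        rw [Finset.sum_comm]
        refine Finset.sum_congr rfl fun n _ => ?_
        conv_lhs => arg 2; arg 2; rw [clifford_restrict hχ hη hcon n, hc, map_mul, map_sum, Complex.conj_natCast]
        simp only [Finset.mul_sum]
        exact Finset.sum_congr rfl fun φ _ => by ring
    _ = ∑ φ ∈ orbitFinset hη, (c : ℂ) * c := by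
        refine Finset.sum_congr rfl fun φ hφ => ?_
        obtain ⟨g, hg⟩ := (mem_orbitFinset hη).1 hφ
        have h1 : classInner (fun n : N => χ n) (φ : N → ℂ) = c := by
          rw [← hg, classInner_restrict_conjFun hcl, hc]
        rw [Chars.classInner_def] at h1
        rw [h1]
    _ = _ := by
        rw [Finset.sum_const, card_orbitFinset, nsmul_eq_mul]
        push_cast
        ring

/-- Over a cyclic quotient an invariant character has multiplicity one below any irreducible
character. -/
theorem mult_one_of_cyclic {N : Subgroup G} [N.Normal] [Fintype N] [IsCyclic (G ⧸ N)] {η : N → ℂ}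
    (hη : IsIrrCharacter N η) (hinv : inertiaSub η = ⊤) {τ : G → ℂ} (hτ : IsIrrCharacter G τ)
    (hcon : classInner (fun n : N => τ n) η ≠ 0) : classInner (fun n : N => τ n) η = 1 := by
  obtain ⟨χ, hχ, hext⟩ := extends_of_cyclic η hη (fun g n => by
    have h := congrFun (mem_inertiaSub.1 (hinv ▸ Subgroup.mem_top g⁻¹ : g⁻¹ ∈ inertiaSub η)) n
    rw [conjFun_apply] at h
    simpa only [inv_inv] using h)
  have h1 : IsIrrCharacter N ((fun _ => 1) * η) := by
    rw [show ((fun _ => 1) * η : N → ℂ) = η from funext fun n => one_mul _]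
    exact hη
  have hG := gallagher (φ := fun _ : N => (1 : ℂ)) Chars.isIrrCharacter_one
    (inertiaSub_eq_top fun _ _ => rfl) hinv h1 hχ hext
  have hτcl := Chars.isClassFunction_of_isCharacter (Chars.isCharacter_of_isIrr hτ)
  obtain ⟨β, ⟨hβ, hβ1⟩, hβτ⟩ := hG.surjOn (show τ ∈ _ from ⟨hτ, by
    rw [Chars.classInner_indFun N _ hτcl, show ((fun _ => 1) * η : N → ℂ) = η from funext fun n => one_mul _]
    intro h
    exact hcon (by rw [← Chars.classInner_conj_symm, h, map_zero])⟩)
  change β * χ = τ at hβτ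
  have hβcl := Chars.isClassFunction_of_isCharacter (Chars.isCharacter_of_isIrr hβ)
  have hres : classInner (fun n : N => β n) (fun _ => 1) = β 1 := restrict_eq_one_of_over hβ (fun h => by
    rw [Chars.classInner_indFun N _ hβcl, ← Chars.classInner_conj_symm, h, map_zero] at hβ1
    exact hβ1 rfl)
  have hβN : ∀ n : N, β n = β 1 := fun n => by
    have := clifford_invariant hβ (Chars.isIrrCharacter_one (G := N)) (inertiaSub_eq_top fun _ _ => rfl)
      (by rw [hres]; exact Chars.irr_apply_one_ne_zero hβ) n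
    rw [this, hres, mul_one]
  have hβ1' : β 1 = 1 := by
    obtain ⟨K, hK, hker, β', hβ', -, hval⟩ := Chars.PrimePower.exists_faithful_irr hβ
    rw [← hval 1, QuotientGroup.mk_one]
    haveI := hK
    haveI : Fintype (G ⧸ K) := Fintype.ofFinite _
    refine Chars.irr_apply_one_of_comm ?_ hβ'
    have hle : N ≤ K := fun n hn => (hker n).2 (hβN ⟨n, hn⟩)
    letI := IsCyclic.commGroup (α := G ⧸ N)
    intro a b
    obtain ⟨a, rfl⟩ := QuotientGroup.mk_surjective a
    obtain ⟨b, rfl⟩ := QuotientGroup.mk_surjective b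
    rw [← QuotientGroup.mk_mul, ← QuotientGroup.mk_mul, QuotientGroup.eq]
    exact hle ((QuotientGroup.eq (s := N)).1 (mul_comm (a : G ⧸ N) b))
  have hτ1 := clifford_invariant hτ hη hinv hcon 1
  rw [Subgroup.coe_one, ← hβτ, Pi.mul_apply, hβ1', one_mul] at hτ1
  have hχ1 := hext 1
  rw [Subgroup.coe_one] at hχ1
  rw [hχ1] at hτ1
  exact (mul_eq_right₀ (Chars.irr_apply_one_ne_zero hη)).1 (by rw [← hβτ]; exact hτ1.symm)

end Cfsg.Agent.Chars2
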