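/-
Core library: a fully ramified character gives `p`-complements in the quotient by a normal subgroup
over which some Sylow constituent is conjugated regularly.
-/
import Cfsg.Agent.Chars2.RamifiedNorm
import Cfsg.Agent.Fusion.Group
import Cfsg.Agent.Transfer.Basic

set_option autoImplicit false
set_option linter.unusedSectionVars false
set_option linter.style.haveILetI false
set_option maxHeartbeats 1000000

namespace Cfsg.Agent.Chars2

open Cfsg Cfsg.Agent
open scoped ComplexConjugate Classical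

universe u

variable {G : Type u} [Group G] [Fintype G]

/-- A nonzero character has a constituent on every subgroup. -/
theorem exists_constituent_of_char {χ : G → ℂ} (hχ : IsCharacter G χ) (h1 : χ 1 ≠ 0)
    (N : Subgroup G) [Fintype N] :
    ∃ θ : IrrCharacter N, classInner (fun x : N => χ x) (θ : N → ℂ) ≠ 0 := by
  by_contra hall
  push Not at hall
  refine h1 ?_
  have h0 := apply_eq_sum
    (Chars.isClassFunction_of_isCharacter (Chars.isCharacter_restrict hχ N)) 1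
  simp only [hall, zero_mul, Finset.sum_const_zero, Subgroup.coe_one] at h0
  exact h0

/-- The character `θ` is invariant and `χ` is fully ramified over it. -/
structure RamData (Z : Subgroup G) (χ : G → ℂ) (θ : Z → ℂ) (e : ℕ) : Prop where
  normal : Z.Normal
  irr : IsIrrCharacter G χ
  base : IsIrrCharacter Z θ
  sq : e ^ 2 = Z.index
  res : ∀ z : Z, χ z = e * θ z

variable {Z : Subgroup G} {χ : G → ℂ} {θ : Z → ℂ} {e : ℕ}

theorem RamData.e_ne (h : RamData Z χ θ e) : e ≠ 0 := fun h0 =>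
  Z.index_ne_zero_of_finite (by rw [← h.sq, h0]; rfl)

theorem RamData.res' (h : RamData Z χ θ e) : (fun z : Z => χ z) = (e : ℂ) • θ :=
  funext fun z => h.res z

theorem RamData.inv (h : RamData Z χ θ e) (g : G) (z : Z) (hz : g * z * g⁻¹ ∈ Z) :
    θ ⟨g * z * g⁻¹, hz⟩ = θ z :=
  haveI := h.normal
  conj_restrict_invariant (Chars.isCharacter_of_isIrr h.irr) h.e_ne h.res' g z

theorem RamData.vanish (h : RamData Z χ θ e) {g : G} (hg : g ∉ Z) : χ g = 0 :=
  haveI := h.normal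
  apply_eq_zero_of_ramified h.irr h.base h.res' h.sq hg

/-- Above a Sylow subgroup the situation is again fully ramified. -/
theorem RamData.exists_sylow (h : RamData Z χ θ e) {p : ℕ} (hp : p.Prime) {P : Subgroup G}
    (hZP : Z ≤ P) (hPZ : ∃ j, Z.relIndex P = p ^ j) (hPG : ¬ p ∣ P.index) :
    ∃ (ψ : P → ℂ) (f : ℕ), IsIrrCharacter P ψ ∧ (∀ z : Z, ψ ⟨z, hZP z.2⟩ = f * θ z) ∧
      f ^ 2 = Z.relIndex P ∧ (∀ x : P, (x : G) ∉ Z → ψ x = 0) := by
  haveI := h.normal
  have hχc := Chars.isCharacter_of_isIrr h.irr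
  obtain ⟨ψ, hψ⟩ := exists_constituent_of_char hχc (Chars.irr_apply_one_ne_zero h.irr) P
  set Z' := Z.subgroupOf P with hZ'
  haveI : Z'.Normal := inferInstance
  let ι : Z' ≃* Z := Subgroup.subgroupOfEquivOfLe hZP
  have hθ' : IsIrrCharacter Z' (θ ∘ ι) := Chars.isIrrCharacter_comp_equiv h.base ι
  have honly : ∀ τ : IrrCharacter Z, classInner (fun z : Z => χ z) (τ : Z → ℂ) ≠ 0 → (τ : Z → ℂ) = θ := by
    intro τ hτ
    by_contra hne
    apply hτ
    rw [h.res', Chars.classInner_smul_left, Chars.classInner_irr_of_ne h.base τ.2 (Ne.symm hne), mul_zero]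
  obtain ⟨τ, hτ⟩ := exists_constituent_of_char (Chars.irr_isCharacter ψ)
    (Chars.irr_apply_one_ne_zero ψ.2) Z'
  have hτθ : (τ : Z' → ℂ) = θ ∘ ι := by
    have hτ' : IsIrrCharacter Z ((τ : Z' → ℂ) ∘ ι.symm) := Chars.isIrrCharacter_comp_equiv τ.2 ι.symm
    have h1 := honly ⟨_, hτ'⟩ (Chars.classInner_restrict_trans Z P hZP hχc ψ
      (Chars.isCharacter_of_isIrr hτ') hψ (by
        intro h0
        apply hτ
        rw [← classInner_comp_mulEquiv ι] at h0
        rw [← h0]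
        congr 1))
    funext x
    have h2 := congrFun h1 (ι x)
    simp only [Function.comp_apply, MulEquiv.symm_apply_apply] at h2 ⊢
    exact h2
  rw [hτθ] at hτ
  have hinv : inertiaSub (θ ∘ ι) = ⊤ := inertiaSub_eq_top fun x z => by
    have h1 := h.inv (x : G) (ι z) (h.normal.conj_mem _ (ι z).2 _)
    show θ (ι _) = θ (ι z)
    rw [← h1]
    congr 1
  obtain ⟨f, hf⟩ := Chars.exists_classInner_eq_nat
    (Chars.isCharacter_restrict (Chars.irr_isCharacter ψ) Z') (Chars.isCharacter_of_isIrr hθ')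
  have hψZ : ∀ z : Z, (ψ : P → ℂ) ⟨z, hZP z.2⟩ = f * θ z := by
    intro z
    have h1 := clifford_invariant ψ.2 hθ' hinv hτ (ι.symm z)
    rw [hf, Function.comp_apply, MulEquiv.apply_symm_apply] at h1
    exact h1
  have hle : f ^ 2 ≤ Z.relIndex P := sq_le_index_of_restrict ψ.2 hθ' (fun z => by
    have h1 := hψZ (ι z)
    exact h1)
  -- induction gives a multiple of `χ`
  have hIc := Chars.isCharacter_indFun P (Chars.irr_isCharacter ψ)
  obtain ⟨n, hn⟩ := Chars.exists_classInner_eq_nat hIc hχc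
  have hind1 : indFun P (ψ : P → ℂ) 1 = (n : ℂ) * χ 1 := by
    rw [apply_eq_sum (Chars.isClassFunction_of_isCharacter hIc) 1,
      Finset.sum_eq_single (⟨χ, h.irr⟩ : IrrCharacter G) (fun ν _ hν => ?_) (fun hh => absurd (Finset.mem_univ _) hh),
      hn]
    by_cases h0 : classInner (indFun P (ψ : P → ℂ)) (ν : G → ℂ) = 0
    · rw [h0, zero_mul]
    exfalso
    apply hν
    apply Subtype.ext
    refine eq_of_ramified h.irr h.base h.res' h.sq ν.2 ?_
    refine Chars.classInner_restrict_trans Z P hZP (Chars.irr_isCharacter ν) ψ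
      (Chars.isCharacter_of_isIrr h.base) (fun h1 => h0 ?_) ?_
    · rw [Chars.classInner_indFun P _ (Chars.isClassFunction_irr ν), ← Chars.classInner_conj_symm, h1, map_zero]
    · rw [show (fun z : Z => (ψ : P → ℂ) ⟨z, hZP z.2⟩) = (f : ℂ) • θ from funext hψZ,
        Chars.classInner_smul_left, Chars.classInner_self_irr h.base, mul_one]
      intro h1
      apply hτ
      rw [hf, h1]
  have hθ1 := Chars.irr_apply_one_ne_zero h.base
  have h1 : (P.index : ℂ) * f = (n : ℂ) * e := by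
    have hχ1 := h.res 1
    have hψ1 := hψZ 1
    rw [Subgroup.coe_one] at hχ1
    rw [Chars.indFun_apply_one, show ((1 : P)) = ⟨((1 : Z) : G), hZP (1 : Z).2⟩ from Subtype.ext rfl,
      hψ1, hχ1] at hind1
    exact mul_right_cancel₀ hθ1 (by linear_combination hind1)
  have h2 : P.index * f = n * e := by exact_mod_cast h1
  have hidx : Z.relIndex P * P.index = Z.index := Subgroup.relIndex_mul_index hZP
  have h3 : P.index * f ^ 2 = n ^ 2 * Z.relIndex P := by
    have h4 : (P.index * f) ^ 2 = n ^ 2 * (Z.relIndex P * P.index) := by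
      rw [h2, mul_pow, h.sq, hidx]
    refine Nat.eq_of_mul_eq_mul_left (Nat.pos_of_ne_zero P.index_ne_zero_of_finite) ?_
    linarith
  obtain ⟨j, hj⟩ := hPZ
  have hdvd : Z.relIndex P ∣ f ^ 2 := by
    refine Nat.Coprime.dvd_of_dvd_mul_left ?_ (Dvd.intro_left (n ^ 2) h3.symm)
    rw [hj]
    exact Nat.Coprime.pow_left _ (hp.coprime_iff_not_dvd.mpr hPG)
  have hf0 : f ≠ 0 := fun h0 => hτ (hf.trans (by rw [h0, Nat.cast_zero]))
  have heq : f ^ 2 = Z.relIndex P := le_antisymm hle (Nat.le_of_dvd (by positivity) hdvd)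
  refine ⟨ψ, f, ψ.2, hψZ, heq, fun x hx => ?_⟩
  exact apply_eq_zero_of_ramified ψ.2 hθ' (funext fun z => hψZ (ι z)) heq (N := Z') hx

/-- The function on `G` carried by a function on the trace of `K` in `P`. -/
noncomputable def hatFun {P K : Subgroup G} (η : ↥(K.subgroupOf P) → ℂ) (g : G) : ℂ :=
  if hg : g ∈ P ∧ g ∈ K then η ⟨⟨g, hg.1⟩, hg.2⟩ else 0

theorem hatFun_coe {P K : Subgroup G} (η : ↥(K.subgroupOf P) → ℂ) (q : ↥(K.subgroupOf P)) :
    hatFun η ((q : P) : G) = η q := by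
  rw [hatFun, dif_pos ⟨(q : P).2, q.2⟩]

theorem hatFun_of_not {P K : Subgroup G} (η : ↥(K.subgroupOf P) → ℂ) {g : G}
    (hg : ¬ (g ∈ P ∧ g ∈ K)) : hatFun η g = 0 := dif_neg hg

/-- The inner product with a vanishing character only sees `Z`. -/
theorem inner_eq_sum {P K : Subgroup G} (hZP : Z ≤ P) (hZK : Z ≤ K) {ψ : P → ℂ} {f : ℕ}
    (hψ : ∀ z : Z, ψ ⟨z, hZP z.2⟩ = f * θ z) (hv : ∀ x : P, (x : G) ∉ Z → ψ x = 0)
    (η : ↥(K.subgroupOf P) → ℂ) :
    classInner (fun q : ↥(K.subgroupOf P) => ψ q) η =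
      (Nat.card ↥(K.subgroupOf P) : ℂ)⁻¹ * f * ∑ z : Z, θ z * conj (hatFun η z) := by
  rw [Chars.classInner_def, mul_assoc]
  congr 1
  rw [Finset.mul_sum]
  symm
  refine Fintype.sum_of_injective
    (fun z : Z => (⟨⟨z, hZP z.2⟩, hZK z.2⟩ : ↥(K.subgroupOf P))) (fun a b hab => ?_) _ _
    (fun q hq => ?_) (fun z => ?_)
  · exact Subtype.ext (congrArg (fun w : ↥(K.subgroupOf P) => ((w : P) : G)) hab)
  · rw [hv _ (fun hqZ => hq ⟨⟨_, hqZ⟩, rfl⟩), zero_mul]
  · rw [hψ, mul_assoc]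
    congr 3
    exact hatFun_coe η ⟨⟨z, hZP z.2⟩, hZK z.2⟩

/-- **Complements from fully ramified characters**: if a constituent of the fully ramified
character of a Sylow subgroup above `Z` occurs with multiplicity one on the trace of `K`, then
`G / K` has a `p`-complement. -/
theorem exists_complement_of_mult_one (h : RamData Z χ θ e) {p : ℕ} [hp : Fact p.Prime]
    (S : Sylow p G) {K : Subgroup G} [K.Normal] (hZK : Z ≤ K) {P : Subgroup G}
    (hP : P = (S : Subgroup G) ⊔ Z) {ψ : P → ℂ} {f : ℕ} (hψi : IsIrrCharacter P ψ)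
    (hψ : ∀ z : Z, ψ ⟨z, (hP ▸ le_sup_right : Z ≤ P) z.2⟩ = f * θ z)
    (hv : ∀ x : P, (x : G) ∉ Z → ψ x = 0)
    {η : ↥(K.subgroupOf P) → ℂ} (hη : IsIrrCharacter _ η)
    (hc : classInner (fun q : ↥(K.subgroupOf P) => ψ q) η = 1) :
    ∃ M : Subgroup (G ⧸ K), ¬ p ∣ Nat.card M ∧ Nat.card (G ⧸ K) ≤
      Nat.card M * Nat.card ((S : Subgroup G).map (QuotientGroup.mk' K)) := by
  haveI := h.normal
  have hZP : Z ≤ P := hP ▸ le_sup_right
  have hSP : (S : Subgroup G) ≤ P := hP ▸ le_sup_left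
  set N := Subgroup.normalizer ((P ⊓ K : Subgroup G) : Set G) with hN
  have hPN : P ≤ N := fun x hx => Subgroup.mem_normalizer_fintype fun y hy =>
    ⟨P.mul_mem (P.mul_mem hx hy.1) (P.inv_mem hx), Subgroup.Normal.conj_mem inferInstance y hy.2 x⟩
  have hmemN : ∀ n ∈ N, ∀ y, n * y * n⁻¹ ∈ P ⊓ K ↔ y ∈ P ⊓ K := fun n hn y =>
    (Subgroup.mem_normalizer_iff.mp hn y).symm
  -- the stabilizer
  let Nη : Subgroup G :=
    { carrier := {n | n ∈ N ∧ ∀ y, hatFun η (n * y * n⁻¹) = hatFun η y}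
      one_mem' := ⟨N.one_mem, fun y => by simp⟩
      mul_mem' := fun {a b} ha hb => ⟨N.mul_mem ha.1 hb.1, fun y => by
        rw [show a * b * y * (a * b)⁻¹ = a * (b * y * b⁻¹) * a⁻¹ by group, ha.2, hb.2]⟩
      inv_mem' := fun {a} ha => ⟨N.inv_mem ha.1, fun y => by
        conv_rhs => rw [show y = a * (a⁻¹ * y * a⁻¹⁻¹) * a⁻¹ by group, ha.2]⟩ }
  have hsum : ∀ n ∈ N, ∀ ζ : (K.subgroupOf P) → ℂ, (∀ y, hatFun ζ y = hatFun η (n * y * n⁻¹)) →
      classInner (fun q : (K.subgroupOf P) => ψ q) ζ = 1 := by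
    intro n hn ζ hζ
    rw [inner_eq_sum hZP hZK hψ hv, ← hc, inner_eq_sum hZP hZK hψ hv]
    congr 1
    refine Fintype.sum_equiv (MulAut.conjNormal n).toEquiv _ _ fun z => ?_
    simp only [MulEquiv.toEquiv_eq_coe, EquivLike.coe_coe]
    rw [hζ, MulAut.conjNormal_apply]
    congr 1
    rw [show (MulAut.conjNormal n z : Z) = ⟨n * z * n⁻¹, h.normal.conj_mem _ z.2 n⟩ from
      Subtype.ext (MulAut.conjNormal_apply n z), h.inv]
  have hclaim : ∀ n ∈ N, ∃ x ∈ P, ∀ y, hatFun η (n * y * n⁻¹) = hatFun η (x * y * x⁻¹) := by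
    intro n hn
    let σ : (K.subgroupOf P) ≃* (K.subgroupOf P) :=
      { toFun := fun q => ⟨⟨n * ((q : P) : G) * n⁻¹, ((hmemN n hn _).mpr ⟨(q : P).2, q.2⟩).1⟩,
          ((hmemN n hn _).mpr ⟨(q : P).2, q.2⟩).2⟩
        invFun := fun q => ⟨⟨n⁻¹ * ((q : P) : G) * n,
            ((hmemN n hn _).mp (by simpa [mul_assoc] using
              (show ((q : P) : G) ∈ P ⊓ K from ⟨(q : P).2, q.2⟩))).1⟩,
          ((hmemN n hn _).mp (by simpa [mul_assoc] using
              (show ((q : P) : G) ∈ P ⊓ K from ⟨(q : P).2, q.2⟩))).2⟩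
        left_inv := fun q => Subtype.ext (Subtype.ext (by simp [mul_assoc]))
        right_inv := fun q => Subtype.ext (Subtype.ext (by simp [mul_assoc]))
        map_mul' := fun a b => Subtype.ext (Subtype.ext (by simp [mul_assoc])) }
    have hζ : ∀ y, hatFun (η ∘ σ) y = hatFun η (n * y * n⁻¹) := by
      intro y
      by_cases hy : y ∈ P ∧ y ∈ K
      · have hy' := (hmemN n hn y).mpr hy
        rw [hatFun, dif_pos hy, hatFun, dif_pos ⟨hy'.1, hy'.2⟩]
        rfl
      · rw [hatFun_of_not _ hy, hatFun_of_not _ (fun h' => hy ((hmemN n hn y).mp h'))]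
    obtain ⟨x, hx⟩ := clifford_constituent hψi hη (by rw [hc]; exact one_ne_zero)
      (Chars.isIrrCharacter_comp_equiv hη σ) (by rw [hsum n hn _ hζ]; exact one_ne_zero)
    refine ⟨((x⁻¹ : P) : G), (x⁻¹ : P).2, fun y => ?_⟩
    rw [← hζ]
    by_cases hy : y ∈ P ∧ y ∈ K
    · have hxy := (hmemN _ (hPN (x⁻¹ : P).2) y).mpr hy
      rw [hatFun, dif_pos hy, hatFun, dif_pos ⟨hxy.1, hxy.2⟩, hx, conjFun_apply]
      congr 1
    · rw [hatFun_of_not _ hy, hatFun_of_not _ (fun h' => hy ((hmemN _ (hPN (x⁻¹ : P).2) y).mp h'))]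
  -- `N = N_η P`
  have hfact : ∀ n ∈ N, ∃ m ∈ Nη, ∃ x ∈ P, n = m * x := by
    intro n hn
    obtain ⟨x, hx, hxy⟩ := hclaim n hn
    refine ⟨n * x⁻¹, ⟨N.mul_mem hn (N.inv_mem (hPN hx)), fun y => ?_⟩, x, hx, by group⟩
    have h1 := hxy (x⁻¹ * y * x)
    rw [show n * x⁻¹ * y * (n * x⁻¹)⁻¹ = n * (x⁻¹ * y * x) * n⁻¹ by group, h1]
    congr 1
    group
  have hpk : ∀ x ∈ P, x ∈ Nη → x ∈ K := by
    intro x hx hxη
    have hvQ : ∀ g : P, g ∉ (K.subgroupOf P) → ψ g = 0 := fun g hg => hv g fun hgZ => hg (hZK hgZ)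
    obtain ⟨h1, -⟩ := orbit_mult_of_vanish hψi hη (c := 1) (by rw [hc, Nat.cast_one]) one_ne_zero hvQ
    rw [one_mul, one_mul] at h1
    have heq : inertiaSub η = (K.subgroupOf P) := by
      have hle : (K.subgroupOf P) ≤ inertiaSub η := le_inertiaSub (Chars.isClassFunction_irr ⟨η, hη⟩)
      refine le_antisymm ?_ hle
      rw [← Subgroup.relIndex_eq_one]
      have h2 := Subgroup.relIndex_mul_index hle
      rw [h1] at h2
      exact (mul_eq_right₀ (K.subgroupOf P).index_ne_zero_of_finite).1 h2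
    have hmem : (⟨x, hx⟩ : P)⁻¹ ∈ inertiaSub η := by
      rw [mem_inertiaSub]
      funext q
      rw [conjFun_apply, ← hatFun_coe η, ← hatFun_coe η q]
      conv_rhs => rw [← hxη.2 ((q : P) : G)]
      congr 1
      simp
    rw [heq] at hmem
    exact (inv_mem_iff (H := K)).1 hmem
  have hSN : (S : Subgroup G) ≤ N := hSP.trans hPN
  -- `G = K N`
  have hfr : ∀ g : G, ∃ k ∈ K, ∃ n ∈ N, g = k * n := by
    have h1 := Sylow.normalizer_sup_eq_top (Transfer.sylowOfNormal S K)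
    rw [Transfer.coe_sylowOfNormal, Subgroup.subgroupOf_map_subtype] at h1
    have hle : Subgroup.normalizer (((S : Subgroup G) ⊓ K : Subgroup G) : Set G) ≤ N := by
      intro g hg
      refine Subgroup.mem_normalizer_fintype fun y hy => ?_
      refine ⟨?_, Subgroup.Normal.conj_mem inferInstance y hy.2 g⟩
      have hy1 : y ∈ (S : Subgroup G) ⊔ Z := hP ▸ hy.1
      obtain ⟨s, hs, z, hz, rfl⟩ := Subgroup.mem_sup_of_normal_right.mp hy1
      have hsK : s ∈ K := by
        have := K.mul_mem hy.2 (K.inv_mem (hZK hz))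
        rwa [mul_inv_cancel_right] at this
      rw [show g * (s * z) * g⁻¹ = g * s * g⁻¹ * (g * z * g⁻¹) by group]
      exact P.mul_mem (hSP ((Subgroup.mem_normalizer_iff.mp hg s).mp ⟨hs, hsK⟩).1)
        (hZP (h.normal.conj_mem z hz g))
    intro g
    have hg : g ∈ K ⊔ Subgroup.normalizer (((S : Subgroup G) ⊓ K : Subgroup G) : Set G) := by
      rw [sup_comm, h1]
      exact Subgroup.mem_top g
    obtain ⟨k, hk, n, hn, hkn⟩ := Subgroup.mem_sup_of_normal_left.mp hg
    exact ⟨k, hk, n, hle hn, hkn.symm⟩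
  set mk := QuotientGroup.mk' K
  set M := Nη.map mk
  -- `p`-elements of the stabilizer lie in `K`
  have hpel : ∀ u ∈ Nη, IsPGroup p (Subgroup.zpowers u) → u ∈ K := by
    intro u hu hup
    obtain ⟨n, hn, hcj⟩ := Fusion.exists_conj_le_of_sylow hSN S.2
      (fun hd => S.not_dvd_index (hd.trans (Subgroup.relIndex_dvd_index_of_le hSN)))
      (Subgroup.zpowers_le.mpr (show u ∈ N from hu.1)) hup
    have h1 : n * u * n⁻¹ ∈ P := hSP (hcj u (Subgroup.mem_zpowers u))
    -- write `n = x m`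
    obtain ⟨m, hm, x, hx, hnx⟩ := hfact n⁻¹ (N.inv_mem hn)
    have h2 : m⁻¹ * u * m ∈ P := by
      have : n = x⁻¹ * m⁻¹ := by rw [← inv_inv n, hnx, mul_inv_rev]
      rw [this] at h1
      have h3 := P.mul_mem (P.mul_mem hx h1) (P.inv_mem hx)
      rwa [show x * (x⁻¹ * m⁻¹ * u * (x⁻¹ * m⁻¹)⁻¹) * x⁻¹ = m⁻¹ * u * m by group] at h3
    have h4 := hpk _ h2 (Nη.mul_mem (Nη.mul_mem (Nη.inv_mem hm) hu) hm)
    have h5 := Subgroup.Normal.conj_mem (inferInstance : K.Normal) _ h4 m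
    rwa [show m * (m⁻¹ * u * m) * m⁻¹ = u by group] at h5
  refine ⟨M, fun hd => ?_, ?_⟩
  · obtain ⟨⟨_, u, hu, rfl⟩, hord⟩ := exists_prime_orderOf_dvd_card' p hd
    rw [← Subgroup.orderOf_coe] at hord
    change orderOf (mk u) = p at hord
    obtain ⟨i, r, hr, hur⟩ := Nat.exists_eq_pow_mul_and_not_dvd (orderOf_pos u).ne' p hp.out.ne_one
    have h1 : u ^ r ∈ K := hpel _ (Nη.pow_mem hu r) (by
      rintro ⟨w, hw⟩
      obtain ⟨l, rfl⟩ := hw
      refine ⟨i, Subtype.ext ?_⟩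
      show ((u ^ r) ^ l) ^ p ^ i = 1
      rw [← zpow_natCast, ← zpow_mul, mul_comm, zpow_mul, zpow_natCast, ← pow_mul, mul_comm r,
        ← hur, pow_orderOf_eq_one, one_zpow])
    have h2 : mk u ^ r = 1 := by
      rw [← map_pow]
      exact (QuotientGroup.eq_one_iff _).mpr h1
    have h3 := orderOf_dvd_of_pow_eq_one h2
    rw [hord] at h3
    exact hr h3
  · set T := (S : Subgroup G).map mk
    have hsurj : Function.Surjective (fun w : M × T => (w.1 : G ⧸ K) * (w.2 : G ⧸ K)) := by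
      intro q
      obtain ⟨g, rfl⟩ := QuotientGroup.mk'_surjective K q
      obtain ⟨k, hk, n, hn, rfl⟩ := hfr g
      obtain ⟨m, hm, x, hx, rfl⟩ := hfact n hn
      have hx' : x ∈ (S : Subgroup G) ⊔ Z := hP ▸ hx
      obtain ⟨s, hs, z, hz, rfl⟩ := Subgroup.mem_sup_of_normal_right.mp hx'
      refine ⟨(⟨mk m, m, hm, rfl⟩, ⟨mk s, s, hs, rfl⟩), ?_⟩
      have hz1 : mk z = 1 := (QuotientGroup.eq_one_iff z).mpr (hZK hz)
      have hk1 : mk k = 1 := (QuotientGroup.eq_one_iff k).mpr hk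
      show mk m * mk s = mk (k * (m * (s * z)))
      rw [map_mul, map_mul, map_mul, hz1, hk1, mul_one, one_mul]
    have := Nat.card_le_card_of_surjective _ hsurj
    rwa [Nat.card_prod] at this

/-- A `p'`-subgroup and a Sylow subgroup covering the group give a complement. -/
theorem isComplement'_of_card_le {Q : Type*} [Group Q] [Finite Q] {p : ℕ} [hp : Fact p.Prime]
    {M T : Subgroup Q} (hT : IsPGroup p T) (hM : ¬ p ∣ Nat.card M)
    (hle : Nat.card Q ≤ Nat.card M * Nat.card T) : M.IsComplement' T := by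
  obtain ⟨i, hi⟩ := IsPGroup.iff_card.mp hT
  have hco : (Nat.card M).Coprime (Nat.card T) := by
    rw [hi]
    exact ((hp.out.coprime_iff_not_dvd.mpr hM).symm).pow_right i
  have hdvd : Nat.card M * Nat.card T ∣ Nat.card Q :=
    hco.mul_dvd_of_dvd_of_dvd (Subgroup.card_subgroup_dvd_card M) (Subgroup.card_subgroup_dvd_card T)
  exact Subgroup.isComplement'_of_card_mul_and_disjoint
    (le_antisymm (Nat.le_of_dvd Nat.card_pos hdvd) hle)
    (disjoint_iff.mpr (Subgroup.inf_eq_bot_of_coprime hco))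

end Cfsg.Agent.Chars2
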