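/-
Core library: `p`-complements in quotients for fully ramified characters that are induced or have
cyclic Sylow quotients.
-/
import Cfsg.Agent.Chars2.RamifiedComplement

set_option autoImplicit false
set_option linter.unusedSectionVars false
set_option linter.style.haveILetI false
set_option maxHeartbeats 1000000

namespace Cfsg.Agent.Chars2

open Cfsg Cfsg.Agent
open scoped ComplexConjugate Classical

universe u

variable {G : Type u} [Group G] [Fintype G] {Z : Subgroup G} {χ : G → ℂ} {θ : Z → ℂ} {e : ℕ}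
  {p : ℕ} [hp : Fact p.Prime]

/-- The degree data of the subgroup generated by a Sylow subgroup and `Z`. -/
theorem RamData.sylowData (h : RamData Z χ θ e) (S : Sylow p G) :
    (∃ j, Z.relIndex ((S : Subgroup G) ⊔ Z) = p ^ j) ∧ ¬ p ∣ ((S : Subgroup G) ⊔ Z).index := by
  haveI := h.normal
  refine ⟨?_, fun hd => S.not_dvd_index (hd.trans (Subgroup.index_dvd_of_le le_sup_left))⟩
  obtain ⟨i, hi⟩ := IsPGroup.iff_card.mp S.2
  obtain ⟨j, -, hj⟩ := (Nat.dvd_prime_pow hp.out).mp (hi ▸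
    Subgroup.relIndex_dvd_card Z (S : Subgroup G) : Z.relIndex (S : Subgroup G) ∣ p ^ i)
  exact ⟨j, by rw [Subgroup.relIndex_sup_right, hj]⟩

theorem map_sup_eq {K : Subgroup G} [K.Normal] (hZK : Z ≤ K) (S : Subgroup G) :
    (S ⊔ Z).map (QuotientGroup.mk' K) = S.map (QuotientGroup.mk' K) := by
  rw [Subgroup.map_sup, sup_eq_left]
  rintro _ ⟨z, hz, rfl⟩
  rw [show QuotientGroup.mk' K z = 1 from (QuotientGroup.eq_one_iff z).mpr (hZK hz)]
  exact one_mem _

/-- Cyclic Sylow quotient: multiplicity one. -/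
theorem RamData.complement_of_cyclic (h : RamData Z χ θ e) {K : Subgroup G} [K.Normal] (hZK : Z ≤ K)
    (S : Sylow p G) (hcyc : IsCyclic ((S : Subgroup G).map (QuotientGroup.mk' K))) :
    ∃ M : Subgroup (G ⧸ K), ¬ p ∣ Nat.card M ∧ Nat.card (G ⧸ K) ≤
      Nat.card M * Nat.card ((S : Subgroup G).map (QuotientGroup.mk' K)) := by
  obtain ⟨hPZ, hPG⟩ := h.sylowData S
  obtain ⟨ψ, f, hψi, hψ, -, hv⟩ := h.exists_sylow hp.out (P := (S : Subgroup G) ⊔ Z) le_sup_right hPZ hPG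
  obtain ⟨η, hη⟩ := exists_constituent_of_char (Chars.isCharacter_of_isIrr hψi)
    (Chars.irr_apply_one_ne_zero hψi) (K.subgroupOf ((S : Subgroup G) ⊔ Z))
  refine exists_complement_of_mult_one h S hZK rfl hψi hψ hv η.2 ?_
  obtain ⟨T, hT⟩ : ∃ T, T = inertiaSub (η : ↥(K.subgroupOf ((S : Subgroup G) ⊔ Z)) → ℂ) := ⟨_, rfl⟩
  have hNT : K.subgroupOf ((S : Subgroup G) ⊔ Z) ≤ T :=
    hT ▸ le_inertiaSub (Chars.isClassFunction_irr η)
  obtain ⟨τ, hτ, -, hτm⟩ := exists_correspondent hNT η.2 hT hψi hη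
  rw [← hτm] at hη ⊢
  let ι : (K.subgroupOf ((S : Subgroup G) ⊔ Z)).subgroupOf T ≃* K.subgroupOf ((S : Subgroup G) ⊔ Z) :=
    Subgroup.subgroupOfEquivOfLe hNT
  have hinv : inertiaSub ((η : ↥(K.subgroupOf ((S : Subgroup G) ⊔ Z)) → ℂ) ∘ ι) = ⊤ := by
    refine inertiaSub_eq_top fun t m => ?_
    have h1 := congrFun (mem_inertiaSub.1 (hT ▸ inv_mem t.2 :
      ((t : ↥((S : Subgroup G) ⊔ Z)))⁻¹ ∈ inertiaSub (η : ↥(K.subgroupOf ((S : Subgroup G) ⊔ Z)) → ℂ))) (ι m)
    rw [conjFun_apply] at h1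
    refine Eq.trans ?_ h1
    show (η : ↥(K.subgroupOf ((S : Subgroup G) ⊔ Z)) → ℂ) (ι _) = _
    refine congrArg (η : ↥(K.subgroupOf ((S : Subgroup G) ⊔ Z)) → ℂ) (Subtype.ext (Subtype.ext ?_))
    simp [ι]
  haveI : IsCyclic (T ⧸ (K.subgroupOf ((S : Subgroup G) ⊔ Z)).subgroupOf T) := by
    let g : T →* ((S : Subgroup G) ⊔ Z).map (QuotientGroup.mk' K) :=
      ((QuotientGroup.mk' K).subgroupMap ((S : Subgroup G) ⊔ Z)).comp T.subtype
    have hker : g.ker = (K.subgroupOf ((S : Subgroup G) ⊔ Z)).subgroupOf T := by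
      ext t
      rw [MonoidHom.mem_ker, Subgroup.mem_subgroupOf, Subgroup.mem_subgroupOf, ← QuotientGroup.eq_one_iff]
      exact Subtype.ext_iff
    haveI : IsCyclic (((S : Subgroup G) ⊔ Z).map (QuotientGroup.mk' K)) := by
      rw [map_sup_eq hZK]; exact hcyc
    exact isCyclic_of_injective ((QuotientGroup.kerLift g).comp
      (QuotientGroup.quotientMulEquivOfEq hker.symm).toMonoidHom)
      ((QuotientGroup.kerLift_injective g).comp (MulEquiv.injective _))
  have hinner : classInner (fun m : (K.subgroupOf ((S : Subgroup G) ⊔ Z)).subgroupOf T => τ m)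
      ((η : ↥(K.subgroupOf ((S : Subgroup G) ⊔ Z)) → ℂ) ∘ ι) = classInner (resSub (K.subgroupOf ((S : Subgroup G) ⊔ Z)) T hNT τ) η := by
    rw [← classInner_comp_mulEquiv ι (resSub _ T hNT τ)]
    rfl
  rw [← hinner] at hη ⊢
  exact mult_one_of_cyclic (Chars.isIrrCharacter_comp_equiv η.2 ι) hinv hτ hη

/-- A character induced from a normal subgroup: multiplicity one. -/
theorem RamData.complement_of_induced (h : RamData Z χ θ e) {K : Subgroup G} [K.Normal] [Fintype K]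
    (hZK : Z ≤ K) (S : Sylow p G) {φ : K → ℂ} (hφ : IsCharacter K φ) (hind : indFun K φ = χ) :
    ∃ M : Subgroup (G ⧸ K), ¬ p ∣ Nat.card M ∧ Nat.card (G ⧸ K) ≤
      Nat.card M * Nat.card ((S : Subgroup G).map (QuotientGroup.mk' K)) := by
  obtain ⟨hPZ, hPG⟩ := h.sylowData S
  obtain ⟨ψ, f, hψi, hψ, hf, hv⟩ := h.exists_sylow hp.out (P := (S : Subgroup G) ⊔ Z) le_sup_right hPZ hPG
  obtain ⟨η, hη⟩ := exists_constituent_of_char (Chars.isCharacter_of_isIrr hψi)
    (Chars.irr_apply_one_ne_zero hψi) (K.subgroupOf ((S : Subgroup G) ⊔ Z))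
  refine exists_complement_of_mult_one h S hZK rfl hψi hψ hv η.2 ?_
  obtain ⟨c, hc⟩ := Chars.exists_classInner_eq_nat
    (Chars.isCharacter_restrict (Chars.isCharacter_of_isIrr hψi) (K.subgroupOf ((S : Subgroup G) ⊔ Z)))
    (Chars.irr_isCharacter η)
  have hc0 : c ≠ 0 := fun h0 => hη (hc.trans (by rw [h0, Nat.cast_zero]))
  obtain ⟨hck, hdeg⟩ := orbit_mult_of_vanish hψi η.2 hc hc0
    (fun g hg => hv g fun hgZ => hg (hZK hgZ))
  obtain ⟨d, -, hd⟩ := Chars.exists_irr_apply_one_eq η.2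
  -- all constituents of `φ` on the trace have degree `d`
  let ι : K.subgroupOf ((S : Subgroup G) ⊔ Z) ≃* (((S : Subgroup G) ⊔ Z) ⊓ K : Subgroup G) :=
    { toFun := fun q => ⟨((q : ↥((S : Subgroup G) ⊔ Z)) : G), (q : ↥((S : Subgroup G) ⊔ Z)).2, q.2⟩
      invFun := fun q => ⟨⟨(q : G), q.2.1⟩, q.2.2⟩
      left_inv := fun q => rfl
      right_inv := fun q => rfl
      map_mul' := fun a b => rfl }
  set φN : ↥(((S : Subgroup G) ⊔ Z) ⊓ K) → ℂ := fun q => φ ⟨(q : G), q.2.2⟩ with hφN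
  have hφNc : IsCharacter _ φN := Chars.isCharacter_comp hφ (Subgroup.inclusion inf_le_right)
  have hdeg1 : ∀ ζ : IrrCharacter ↥(((S : Subgroup G) ⊔ Z) ⊓ K), classInner φN (ζ : ↥(((S : Subgroup G) ⊔ Z) ⊓ K) → ℂ) ≠ 0 →
      (ζ : ↥(((S : Subgroup G) ⊔ Z) ⊓ K) → ℂ) 1 = d := by
    intro ζ hζ
    -- `ζ` lies under `χ`
    have hstep : ∃ μ : IrrCharacter K, classInner φ (μ : K → ℂ) ≠ 0 ∧
        classInner (fun q : ↥(((S : Subgroup G) ⊔ Z) ⊓ K) => (μ : K → ℂ) ⟨(q : G), q.2.2⟩) (ζ : ↥(((S : Subgroup G) ⊔ Z) ⊓ K) → ℂ) ≠ 0 := by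
      by_contra hall
      push Not at hall
      apply hζ
      rw [show φN = ∑ μ : IrrCharacter K, classInner φ (μ : K → ℂ) •
          (fun q : ↥(((S : Subgroup G) ⊔ Z) ⊓ K) => (μ : K → ℂ) ⟨(q : G), q.2.2⟩) from funext fun q => by
            rw [Finset.sum_apply]
            exact apply_eq_sum (Chars.isClassFunction_of_isCharacter hφ) _,
        Chars.classInner_sum_left]
      refine Finset.sum_eq_zero fun μ _ => ?_
      rw [Chars.classInner_smul_left]
      by_cases h0 : classInner φ (μ : K → ℂ) = 0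
      · rw [h0, zero_mul]
      · rw [hall μ h0, mul_zero]
    obtain ⟨μ, hμ, hμζ⟩ := hstep
    have hχμ : classInner (fun k : K => χ k) (μ : K → ℂ) ≠ 0 := by
      intro h0
      have hcl := Chars.isClassFunction_of_isCharacter (Chars.isCharacter_of_isIrr h.irr)
      have hμc := Chars.isCharacter_indFun K (Chars.irr_isCharacter μ)
      have e0 : classInner χ (indFun K (μ : K → ℂ)) = 0 := by
        rw [Chars.classInner_indFun_right K _ hcl, h0]
      obtain ⟨m, hm⟩ := exists_multiplicities hφ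
      choose r hr using fun ν : IrrCharacter K => Chars.exists_classInner_eq_nat
        (Chars.isCharacter_indFun K (Chars.irr_isCharacter ν)) hμc
      have e1 : classInner χ (indFun K (μ : K → ℂ)) = ((∑ ν : IrrCharacter K, m ν * r ν : ℕ) : ℂ) := by
        rw [← hind, show indFun K φ = ∑ ν : IrrCharacter K, classInner φ (ν : K → ℂ) • indFun K (ν : K → ℂ) from by
          conv_lhs => rw [Chars.eq_sum_classInner (Chars.isClassFunction_of_isCharacter hφ)]
          rw [Chars.indFun_sum]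
          exact Finset.sum_congr rfl fun ν _ => Chars.indFun_smul K _ _,
          Chars.classInner_sum_left]
        push_cast
        refine Finset.sum_congr rfl fun ν _ => ?_
        rw [Chars.classInner_smul_left, hm, hr]
      rw [e1] at e0
      have hsum : ∑ ν : IrrCharacter K, m ν * r ν = 0 := by exact_mod_cast e0
      rcases Nat.mul_eq_zero.1 (Finset.sum_eq_zero_iff.1 hsum μ (Finset.mem_univ _)) with h1 | h1
      · exact hμ (by rw [hm, h1, Nat.cast_zero])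
      · have h2 : classInner (indFun K (μ : K → ℂ)) (indFun K (μ : K → ℂ)) = 0 := by
          rw [hr, h1, Nat.cast_zero]
        have h3 := congrFun (eq_zero_of_norm_zero h2) 1
        rw [Chars.indFun_apply_one, Pi.zero_apply, mul_eq_zero] at h3
        rcases h3 with h3 | h3
        · exact K.index_ne_zero_of_finite (by exact_mod_cast h3)
        · exact Chars.irr_apply_one_ne_zero μ.2 h3
    have hχζ := Chars.classInner_restrict_trans (((S : Subgroup G) ⊔ Z) ⊓ K) K inf_le_right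
      (Chars.isCharacter_of_isIrr h.irr) μ (Chars.irr_isCharacter ζ) hχμ hμζ
    have hsum : ∑ z : Z, θ z * conj (hatFun ((ζ : ↥(((S : Subgroup G) ⊔ Z) ⊓ K) → ℂ) ∘ ι) z) ≠ 0 := by
      intro h0
      apply hχζ
      rw [Chars.classInner_def]
      have h4 : ∑ q : ↥(((S : Subgroup G) ⊔ Z) ⊓ K), χ q * conj ((ζ : ↥(((S : Subgroup G) ⊔ Z) ⊓ K) → ℂ) q) =
          (e : ℂ) * ∑ z : Z, θ z * conj (hatFun ((ζ : ↥(((S : Subgroup G) ⊔ Z) ⊓ K) → ℂ) ∘ ι) z) := by
        rw [Finset.mul_sum]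
        symm
        refine Fintype.sum_of_injective (Subgroup.inclusion (le_inf le_sup_right hZK))
          (Subgroup.inclusion_injective _) _ _ (fun q hq => ?_) (fun z => ?_)
        · rw [h.vanish (fun hgZ => hq ⟨⟨q, hgZ⟩, rfl⟩), zero_mul]
        · show _ = χ z * _
          rw [h.res, mul_assoc]
          congr 3
          exact hatFun_coe ((ζ : ↥(((S : Subgroup G) ⊔ Z) ⊓ K) → ℂ) ∘ ι) ⟨⟨z, (le_sup_right : Z ≤ _) z.2⟩, hZK z.2⟩
      rw [h4, h0, mul_zero, mul_zero]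
    have hψζ : classInner (fun q : K.subgroupOf ((S : Subgroup G) ⊔ Z) => ψ q) ((ζ : ↥(((S : Subgroup G) ⊔ Z) ⊓ K) → ℂ) ∘ ι) ≠ 0 := by
      rw [inner_eq_sum le_sup_right hZK hψ hv]
      refine mul_ne_zero (mul_ne_zero (inv_ne_zero (Chars.subgroup_card_ne_zero _)) ?_) hsum
      intro h0
      have : f ^ 2 = 0 := by
        rw [show f = 0 by exact_mod_cast h0]; rfl
      rw [hf] at this
      exact Subgroup.index_ne_zero_of_finite this
    obtain ⟨x, hx⟩ := clifford_constituent hψi η.2 hη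
      (Chars.isIrrCharacter_comp_equiv ζ.2 ι) hψζ
    have h5 := congrFun hx 1
    rw [Function.comp_apply, map_one, conjFun, map_one, hd] at h5
    exact h5
  obtain ⟨a, ha⟩ := exists_multiplicities hφNc
  have hA : φN 1 = ((∑ ζ : IrrCharacter ↥(((S : Subgroup G) ⊔ Z) ⊓ K), a ζ : ℕ) : ℂ) * d := by
    rw [apply_eq_sum (Chars.isClassFunction_of_isCharacter hφNc) 1]
    push_cast
    rw [Finset.sum_mul]
    refine Finset.sum_congr rfl fun ζ _ => ?_
    rw [ha]
    by_cases h0 : a ζ = 0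
    · simp [h0]
    · rw [hdeg1 ζ (by rw [ha]; exact_mod_cast h0)]
  set A := ∑ ζ : IrrCharacter ↥(((S : Subgroup G) ⊔ Z) ⊓ K), a ζ with hAdef
  have hφ1 : φ 1 = (A : ℂ) * d := hA
  have hθ1 := Chars.irr_apply_one_ne_zero h.base
  have hχ1 := h.res 1
  rw [Subgroup.coe_one] at hχ1
  have hψ1 := hψ 1
  have e2 : (K.index : ℂ) * ((A : ℂ) * d) = e * θ 1 := by
    rw [← hχ1, ← hind, Chars.indFun_apply_one, hφ1]
  have e3 : ((inertiaSub (η : ↥(K.subgroupOf ((S : Subgroup G) ⊔ Z)) → ℂ)).index : ℂ) * c * d = f * θ 1 := by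
    rw [← hd, ← hdeg, ← hψ1]
    rfl
  have e4 : (e : ℂ) * ((inertiaSub (η : ↥(K.subgroupOf ((S : Subgroup G) ⊔ Z)) → ℂ)).index * c) = K.index * A * f := by
    refine mul_right_cancel₀ hθ1 ?_
    linear_combination (-((inertiaSub (η : ↥(K.subgroupOf ((S : Subgroup G) ⊔ Z)) → ℂ)).index * c) : ℂ) * e2 + ((K.index : ℂ) * A) * e3
  have e5 : e * ((inertiaSub (η : ↥(K.subgroupOf ((S : Subgroup G) ⊔ Z)) → ℂ)).index * c) = K.index * A * f := by exact_mod_cast e4
  obtain ⟨m', hm'⟩ : (K.subgroupOf ((S : Subgroup G) ⊔ Z)).index ∣ K.index :=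
    Subgroup.relIndex_dvd_index_of_normal K _
  have e6 : e = c * (m' * A * f) := by
    refine Nat.eq_of_mul_eq_mul_right (Nat.pos_of_ne_zero (mul_ne_zero
      (inertiaSub (η : ↥(K.subgroupOf ((S : Subgroup G) ⊔ Z)) → ℂ)).index_ne_zero_of_finite hc0)) ?_
    rw [e5, hm', ← hck]
    ring
  have hPZ' : f ^ 2 * ((S : Subgroup G) ⊔ Z).index = e ^ 2 := by
    rw [hf, Subgroup.relIndex_mul_index le_sup_right, h.sq]
  have hpc : ¬ p ∣ c := fun hdc => hPG (by
    have hf0 : f ^ 2 ≠ 0 := by rw [hf]; exact Subgroup.index_ne_zero_of_finite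
    have : ((S : Subgroup G) ⊔ Z).index = (c * (m' * A)) ^ 2 := by
      refine Nat.eq_of_mul_eq_mul_left (Nat.pos_of_ne_zero hf0) ?_
      rw [hPZ', e6]
      ring
    rw [this, pow_two]
    exact (hdc.mul_right _).mul_right _)
  obtain ⟨j, hj⟩ : ∃ j, (K.subgroupOf ((S : Subgroup G) ⊔ Z)).index = p ^ j := by
    obtain ⟨j, hj⟩ := hPZ
    obtain ⟨j', -, hj'⟩ := (Nat.dvd_prime_pow hp.out).mp (hj ▸
      Subgroup.relIndex_dvd_of_le_left _ hZK :
        K.relIndex ((S : Subgroup G) ⊔ Z) ∣ p ^ j)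
    exact ⟨j', hj'⟩
  rw [hc]
  have hcdvd : c ∣ p ^ j := by
    rw [← hj, ← hck]
    exact Dvd.intro _ (mul_assoc c c _).symm
  obtain ⟨i, -, rfl⟩ := (Nat.dvd_prime_pow hp.out).mp hcdvd
  rcases i with _ | i
  · simp
  · exact absurd (dvd_pow_self p (Nat.succ_ne_zero i)) hpc

end Cfsg.Agent.Chars2
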