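/-
Core library: embedding soluble groups into central quotients of groups with a fully ramified
faithful character, by iterating a wreath product fused with an elementary Heisenberg group.
-/
import Mathlib.LinearAlgebra.Matrix.Trace
import Mathlib.RingTheory.RootsOfUnity.Complex
import Mathlib.GroupTheory.Index
import Mathlib.GroupTheory.Solvable
import Mathlib.GroupTheory.SpecificGroups.Cyclic
import Mathlib.Algebra.BigOperators.Fin
import Mathlib.Order.Atoms.Finite
import Mathlib.GroupTheory.Perm.Cycle.Type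

set_option autoImplicit false
set_option linter.style.haveILetI false
set_option linter.unusedSectionVars false

namespace Cfsg.Agent.Chars2.RamEmbed

open Matrix

/-- A matrix model: a finite group of matrices whose scalars are the `n`-th roots of one, whose
other elements have trace zero, of central index the square of the degree. -/
def HasModel (n : ℕ) (G : Type*) [Group G] : Prop :=
  ∃ (ι : Type) (_ : Fintype ι) (_ : DecidableEq ι) (H : Type) (_ : Group H) (_ : Finite H)
    (ρ : H →* Matrix ι ι ℂ) (Z : Subgroup H) (_ : Z.Normal),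
    Nonempty ι ∧ Function.Injective ρ ∧ (∀ h, h ∈ Z ↔ ∃ c : ℂ, c ^ n = 1 ∧ ρ h = c • 1) ∧
      (∀ c : ℂ, c ^ n = 1 → ∃ h, ρ h = c • 1) ∧ (∀ h, h ∉ Z → (ρ h).trace = 0) ∧
      Z.index = Fintype.card ι ^ 2 ∧ (∀ q : ℕ, q.Prime → q ∣ Fintype.card ι → q ∣ n) ∧
      ∃ f : G →* H ⧸ Z, Function.Injective f

variable {H : Type} [Group H] {p : ℕ}

/-- The wreath product of `H` with a cyclic group, fused with a Heisenberg group. -/
@[ext]
structure Wr (H : Type) (p : ℕ) where
  h : ZMod p → H
  a : ZMod p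
  b : ZMod p
  c : ZMod p

instance : Mul (Wr H p) :=
  ⟨fun x y => ⟨fun k => x.h k * y.h (k + x.a), x.a + y.a, x.b + y.b, x.c + y.c - y.b * x.a⟩⟩

instance : One (Wr H p) := ⟨⟨fun _ => 1, 0, 0, 0⟩⟩

instance : Inv (Wr H p) :=
  ⟨fun x => ⟨fun k => (x.h (k - x.a))⁻¹, -x.a, -x.b, -x.c - x.b * x.a⟩⟩

@[simp] theorem mul_h (x y : Wr H p) (k : ZMod p) : (x * y).h k = x.h k * y.h (k + x.a) := rfl
@[simp] theorem mul_a (x y : Wr H p) : (x * y).a = x.a + y.a := rfl
@[simp] theorem mul_b (x y : Wr H p) : (x * y).b = x.b + y.b := rfl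
@[simp] theorem mul_c (x y : Wr H p) : (x * y).c = x.c + y.c - y.b * x.a := rfl
@[simp] theorem one_h (k : ZMod p) : (1 : Wr H p).h k = 1 := rfl
@[simp] theorem one_a : (1 : Wr H p).a = 0 := rfl
@[simp] theorem one_b : (1 : Wr H p).b = 0 := rfl
@[simp] theorem one_c : (1 : Wr H p).c = 0 := rfl
@[simp] theorem inv_h (x : Wr H p) (k : ZMod p) : x⁻¹.h k = (x.h (k - x.a))⁻¹ := rfl
@[simp] theorem inv_a (x : Wr H p) : x⁻¹.a = -x.a := rfl
@[simp] theorem inv_b (x : Wr H p) : x⁻¹.b = -x.b := rfl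
@[simp] theorem inv_c (x : Wr H p) : x⁻¹.c = -x.c - x.b * x.a := rfl

instance : Group (Wr H p) where
  mul_assoc x y z := by
    ext k
    · simp [mul_assoc, add_assoc]
    · simp [add_assoc]
    · simp [add_assoc]
    · simp; ring
  one_mul x := by ext k <;> simp
  mul_one x := by ext k <;> simp
  inv_mul_cancel x := by
    ext k
    · simp [sub_eq_add_neg]
    · simp
    · simp
    · simp; ring

/-- The underlying data. -/
def toProd : Wr H p ≃ (ZMod p → H) × ZMod p × ZMod p × ZMod p where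
  toFun x := (x.h, x.a, x.b, x.c)
  invFun x := ⟨x.1, x.2.1, x.2.2.1, x.2.2.2⟩
  left_inv _ := rfl
  right_inv _ := rfl

theorem card_wr [Finite H] [Fact p.Prime] : Nat.card (Wr H p) = Nat.card H ^ p * p ^ 3 := by
  rw [Nat.card_congr toProd, Nat.card_prod, Nat.card_prod, Nat.card_prod, Nat.card_fun,
    Nat.card_zmod]
  ring

instance [Finite H] [Fact p.Prime] : Finite (Wr H p) := Finite.of_equiv _ toProd.symm

variable [Fact p.Prime] {ι : Type} [Fintype ι] [DecidableEq ι] (ρ : H →* Matrix ι ι ℂ) {ζ : ℂ}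
  (hζ : IsPrimitiveRoot ζ p)

/-- A power of a root of unity indexed by residues. -/
noncomputable def ev (ζ : ℂ) (t : ZMod p) : ℂ := ζ ^ t.val

include hζ in
theorem ev_add (s t : ZMod p) : ev ζ (s + t) = ev ζ s * ev ζ t := by
  rw [ev, ev, ev, ← pow_add, ZMod.val_add, ← pow_eq_pow_mod _ hζ.pow_eq_one]

theorem ev_zero : ev ζ (0 : ZMod p) = 1 := by simp [ev]

include hζ in
theorem ev_eq_one_iff (t : ZMod p) : ev ζ t = 1 ↔ t = 0 := by
  constructor
  · intro h
    have := hζ.pow_inj (ZMod.val_lt t) (Fact.out : p.Prime).pos (h.trans (pow_zero ζ).symm)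
    exact (ZMod.val_eq_zero t).1 this
  · rintro rfl
    exact ev_zero

include hζ in
theorem sum_ev (b : ZMod p) (hb : b ≠ 0) : ∑ i : ZMod p, ev ζ (b * i) = 0 := by
  have h1 : ev ζ b * ∑ i : ZMod p, ev ζ (b * i) = ∑ i : ZMod p, ev ζ (b * i) := by
    rw [Finset.mul_sum]
    exact Fintype.sum_equiv (Equiv.addLeft 1) _ _ fun i => by
      rw [← ev_add hζ]
      congr 1
      simp only [Equiv.coe_addLeft]
      ring
  have h2 : (ev ζ b - 1) * ∑ i : ZMod p, ev ζ (b * i) = 0 := by rw [sub_mul, one_mul, h1, sub_self]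
  exact (mul_eq_zero.1 h2).resolve_left (sub_ne_zero.2 fun h => hb ((ev_eq_one_iff hζ b).1 h))

/-- The entries of the monomial tensor representation. -/
noncomputable def tens (ζ : ℂ) (x : Wr H p) :
    Matrix ((ZMod p → ι) × ZMod p) ((ZMod p → ι) × ZMod p) ℂ :=
  Matrix.of fun u v => if u.2 = v.2 + x.a then
    ev ζ (x.c + x.b * u.2) * ∏ k, ρ (x.h k) (u.1 k) (v.1 (k + x.a)) else 0

include hζ in
theorem tens_mul (x y : Wr H p) : tens ρ ζ x * tens ρ ζ y = tens ρ ζ (x * y) := by
  ext ⟨u, i⟩ ⟨w, j⟩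
  simp only [Matrix.mul_apply, tens, Matrix.of_apply, mul_a, mul_b, mul_c, mul_h]
  rw [Fintype.sum_prod_type]
  by_cases hij : i = j + (x.a + y.a)
  · rw [if_pos hij]
    calc _ = ∑ v : ZMod p → ι, ev ζ (x.c + x.b * i) * ev ζ (y.c + y.b * (j + y.a)) *
          ((∏ k, ρ (x.h k) (u k) (v (k + x.a))) * ∏ k, ρ (y.h k) (v k) (w (k + y.a))) := by
          refine Finset.sum_congr rfl fun v _ => ?_
          rw [Finset.sum_eq_single (j + y.a) (fun l _ hl => ?_) (by simp)]
          · rw [if_pos (by rw [hij]; ring), if_pos rfl]; ring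
          · rw [if_neg hl, mul_zero]
      _ = ev ζ (x.c + y.c - y.b * x.a + (x.b + y.b) * i) *
          ∑ v : ZMod p → ι, ∏ k, ρ (x.h k) (u k) (v (k + x.a)) *
            ρ (y.h (k + x.a)) (v (k + x.a)) (w (k + x.a + y.a)) := by
          rw [Finset.mul_sum]
          refine Finset.sum_congr rfl fun v _ => ?_
          rw [← ev_add hζ, Finset.prod_mul_distrib]
          congr 2
          · rw [hij]; ring
          · exact (Fintype.prod_equiv (Equiv.addRight x.a) _ _ fun k => rfl).symm
      _ = _ := by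
          congr 1
          rw [Fintype.sum_equiv (Equiv.arrowCongr (Equiv.addRight x.a).symm (Equiv.refl ι))
            (fun v : ZMod p → ι => ∏ k, ρ (x.h k) (u k) (v (k + x.a)) *
              ρ (y.h (k + x.a)) (v (k + x.a)) (w (k + x.a + y.a)))
            (fun v : ZMod p → ι => ∏ k, ρ (x.h k) (u k) (v k) *
              ρ (y.h (k + x.a)) (v k) (w (k + x.a + y.a))) (fun v => by
              simp [Equiv.arrowCongr, Function.comp_def]),
            ← Fintype.prod_sum (fun k l => ρ (x.h k) (u k) l *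
              ρ (y.h (k + x.a)) l (w (k + x.a + y.a)))]
          refine Finset.prod_congr rfl fun k _ => ?_
          rw [map_mul, Matrix.mul_apply, add_assoc]
  · rw [if_neg hij]
    refine Finset.sum_eq_zero fun v _ => Finset.sum_eq_zero fun l _ => ?_
    by_cases h1 : l = j + y.a
    · rw [if_neg, zero_mul]
      subst h1
      intro h2
      exact hij (by rw [h2]; ring)
    · rw [if_neg h1, mul_zero]

theorem tens_one : tens ρ ζ (1 : Wr H p) = 1 := by
  ext ⟨u, i⟩ ⟨w, j⟩
  simp only [tens, Matrix.of_apply, one_a, one_b, one_c, one_h, add_zero, zero_mul, zero_add,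
    map_one, ev_zero, one_mul, Matrix.one_apply, Prod.mk.injEq]
  rw [Fintype.prod_boole]
  by_cases h : i = j <;> simp [h, funext_iff]

/-- The monomial tensor representation. -/
noncomputable def tensHom : Wr H p →* Matrix ((ZMod p → ι) × ZMod p) ((ZMod p → ι) × ZMod p) ℂ where
  toFun := tens ρ ζ
  map_one' := tens_one ρ
  map_mul' x y := (tens_mul ρ hζ x y).symm

theorem tensHom_apply (x : Wr H p) : tensHom ρ hζ x = tens ρ ζ x := rfl

include hζ in
theorem trace_tens (x : Wr H p) : (tens ρ ζ x).trace =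
    if x.a = 0 ∧ x.b = 0 then (p : ℂ) * ev ζ x.c * ∏ k, (ρ (x.h k)).trace else 0 := by
  simp only [Matrix.trace, Matrix.diag, tens, Matrix.of_apply]
  by_cases ha : x.a = 0
  · simp only [ha, add_zero, if_true, true_and]
    rw [Fintype.sum_prod_type, Finset.sum_comm]
    simp only [← Finset.mul_sum]
    rw [← Finset.sum_mul, ← Fintype.prod_sum (fun k l => ρ (x.h k) l l)]
    by_cases hb : x.b = 0
    · rw [if_pos hb]
      simp [hb]
    · rw [if_neg hb]
      simp only [ev_add hζ, ← Finset.mul_sum, sum_ev hζ _ hb, mul_zero, zero_mul]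
  · rw [if_neg fun h => ha h.1]
    refine Finset.sum_eq_zero fun u _ => if_neg fun h => ha ?_
    exact left_eq_add.1 h

theorem tens_scalar (x : Wr H p) (ha : x.a = 0) (hb : x.b = 0) (z : ZMod p → ℂ)
    (hz : ∀ k, ρ (x.h k) = z k • 1) : tens ρ ζ x = (ev ζ x.c * ∏ k, z k) • 1 := by
  ext ⟨u, i⟩ ⟨w, j⟩
  simp only [tens, Matrix.of_apply, ha, hb, add_zero, zero_mul, hz, Matrix.smul_apply,
    Matrix.one_apply, smul_eq_mul, Prod.mk.injEq]
  rw [Finset.prod_mul_distrib, Fintype.prod_boole]
  by_cases h : i = j <;> simp [h, funext_iff]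

/-- The step of the induction. -/
theorem hasModel_of_index_prime {n : ℕ} (hn : n ≠ 0) {G : Type*} [Group G] [Finite G]
    (K : Subgroup G) [K.Normal] (hK : K.index = p) (hpn : p ∣ n) (hmod : HasModel n K) :
    HasModel n G := by
  classical
  obtain ⟨ι, _, _, H, _, _, ρ, Z, _, ⟨i₀⟩, hinj, hZ, hroot, hvan, hidx, hprimes, f, hf⟩ := hmod
  have hζ := Complex.isPrimitiveRoot_exp p (Fact.out : p.Prime).ne_zero
  set ζ := Complex.exp (2 * Real.pi * Complex.I / p)
  set R := tensHom ρ hζ
  -- the scalar part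
  let E₀ : Subgroup (Wr H p) :=
    { carrier := {x | x.a = 0 ∧ x.b = 0 ∧ ∀ k, x.h k ∈ Z}
      one_mem' := ⟨rfl, rfl, fun _ => one_mem _⟩
      mul_mem' := fun {x y} hx hy => ⟨by simp [hx.1, hy.1], by simp [hx.2.1, hy.2.1],
        fun k => mul_mem (hx.2.2 k) (hy.2.2 _)⟩
      inv_mem' := fun {x} hx => ⟨by simp [hx.1], by simp [hx.2.1], fun k => inv_mem (hx.2.2 _)⟩ }
  have hev : ∀ t : ZMod p, ev ζ t ^ n = 1 := fun t => by
    obtain ⟨d, hd⟩ := hpn
    rw [ev, ← pow_mul, mul_comm, hd, mul_assoc, pow_mul, hζ.pow_eq_one, one_pow]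
  have hscal : ∀ x ∈ E₀, ∃ c : ℂ, c ^ n = 1 ∧ R x = c • 1 := by
    rintro x ⟨ha, hb, hh⟩
    choose z hz1 hz2 using fun k => (hZ _).1 (hh k)
    refine ⟨_, ?_, tens_scalar ρ x ha hb z hz2⟩
    rw [mul_pow, hev, one_mul, ← Finset.prod_pow]
    exact Finset.prod_eq_one fun k _ => hz1 k
  have hvan' : ∀ x, x ∉ E₀ → (R x).trace = 0 := by
    intro x hx
    rw [tensHom_apply, trace_tens ρ hζ]
    split_ifs with h
    · obtain ⟨k, hk⟩ : ∃ k, x.h k ∉ Z := by
        by_contra hc
        push Not at hc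
        exact hx ⟨h.1, h.2, hc⟩
      rw [Finset.prod_eq_zero (Finset.mem_univ k) (hvan _ hk), mul_zero]
    · rfl
  -- the image group
  let u : Wr H p →* (Matrix ((ZMod p → ι) × ZMod p) ((ZMod p → ι) × ZMod p) ℂ)ˣ := R.toHomUnits
  let q := u.rangeRestrict
  have hq : ∀ x, (q x).1.val = R x := fun x => rfl
  have hne : ∀ c : ℂ, c ^ n = 1 → c ≠ 0 := fun c hc h => by
    rw [h, zero_pow hn] at hc; exact zero_ne_one hc
  have hmem : ∀ x, x ∈ E₀ ↔ ∃ c : ℂ, c ^ n = 1 ∧ R x = c • 1 := by
    refine fun x => ⟨hscal x, fun ⟨c, hc, he⟩ => ?_⟩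
    by_contra hx
    have h := hvan' x hx
    haveI : Nonempty ((ZMod p → ι) × ZMod p) := ⟨(fun _ => i₀, 0)⟩
    rw [he, Matrix.trace_smul, Matrix.trace_one, smul_eq_mul, mul_eq_zero] at h
    exact h.elim (hne c hc) (by exact_mod_cast Fintype.card_ne_zero)
  have hker : q.ker ≤ E₀ := fun x hx => (hmem x).2 ⟨1, one_pow n, by
    rw [one_smul, ← hq, MonoidHom.mem_ker.1 hx]; rfl⟩
  haveI hE₀ : E₀.Normal := by
    refine ⟨fun x hx y => (hmem _).2 ?_⟩
    obtain ⟨c, hc, he⟩ := hscal x hx
    refine ⟨c, hc, ?_⟩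
    rw [map_mul, map_mul, he, mul_smul_comm, mul_one, smul_mul_assoc, ← map_mul, mul_inv_cancel,
      map_one]
  let Z' : Subgroup u.range := E₀.map q
  have hcomap : Z'.comap q = E₀ := Subgroup.comap_map_eq_self hker
  haveI : Z'.Normal := hE₀.map q u.rangeRestrict_surjective
  refine ⟨(ZMod p → ι) × ZMod p, inferInstance, inferInstance, u.range, inferInstance,
    Finite.of_surjective q u.rangeRestrict_surjective, (Units.coeHom _).comp u.range.subtype, Z',
    inferInstance, ⟨(fun _ => i₀, 0)⟩, fun a b h => Subtype.ext (Units.ext h), ?_, ?_, ?_, ?_, ?_, ?_⟩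
  · intro g
    obtain ⟨x, rfl⟩ := u.rangeRestrict_surjective g
    rw [← Subgroup.mem_comap, hcomap, hmem]
    rfl
  · intro c hc
    obtain ⟨z, hz⟩ := hroot c hc
    refine ⟨q ⟨Function.update (fun _ => 1) 0 z, 0, 0, 0⟩, ?_⟩
    show tens ρ ζ _ = _
    rw [tens_scalar ρ _ rfl rfl (Function.update (fun _ => (1 : ℂ)) 0 c) fun k => ?_]
    · rw [Finset.prod_update_of_mem (Finset.mem_univ _)]
      simp [ev_zero]
    · by_cases hk : k = 0
      · subst hk; simp [hz]
      · simp [hk]
  · intro g hg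
    obtain ⟨x, rfl⟩ := u.rangeRestrict_surjective g
    exact hvan' x fun h => hg (Subgroup.mem_map_of_mem q h)
  · rw [← Subgroup.index_comap_of_surjective Z' u.rangeRestrict_surjective, hcomap]
    have hc0 : Nat.card E₀ = Nat.card Z ^ p * p := by
      let e : E₀ ≃ (ZMod p → Z) × ZMod p :=
        { toFun := fun x => (fun k => ⟨x.1.h k, x.2.2.2 k⟩, x.1.c)
          invFun := fun y => ⟨⟨fun k => y.1 k, 0, 0, y.2⟩, rfl, rfl, fun k => (y.1 k).2⟩
          left_inv := fun x => Subtype.ext (Wr.ext rfl x.2.1.symm x.2.2.1.symm rfl)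
          right_inv := fun _ => rfl }
      rw [Nat.card_congr e, Nat.card_prod, Nat.card_fun, Nat.card_zmod]
    have h1 := E₀.card_mul_index
    rw [hc0, card_wr, ← Z.card_mul_index, hidx, mul_pow, Nat.mul_assoc, Nat.mul_assoc] at h1
    have h2 := Nat.eq_of_mul_eq_mul_left (pow_pos Nat.card_pos p) h1
    rw [Fintype.card_prod, Fintype.card_fun, ZMod.card]
    refine Nat.eq_of_mul_eq_mul_left (Fact.out : p.Prime).pos (h2.trans ?_)
    ring
  · intro r hr hdvd
    rw [Fintype.card_prod, Fintype.card_fun, ZMod.card] at hdvd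
    rcases hr.dvd_mul.1 hdvd with h | h
    · exact hprimes r hr (hr.dvd_of_dvd_pow h)
    · exact ((Nat.prime_dvd_prime_iff_eq hr Fact.out).1 h) ▸ hpn
  -- the embedding
  haveI : IsCyclic (G ⧸ K) := isCyclic_of_prime_card (p := p) (by rw [← Subgroup.index_eq_card, hK])
  let e := zmodCyclicMulEquiv (inferInstance : IsCyclic (G ⧸ K))
  have hcard : Nat.card (G ⧸ K) = p := by rw [← Subgroup.index_eq_card, hK]
  let φ : G →* Multiplicative (ZMod p) :=
    ((AddEquiv.toMultiplicative ((ZMod.ringEquivCongr hcard).toAddEquiv)).toMonoidHom.comp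
      e.symm.toMonoidHom).comp (QuotientGroup.mk' K)
  have hφker : ∀ g, φ g = 1 → g ∈ K := fun g hg => by
    have h1 : e.symm (QuotientGroup.mk' K g) = 1 := by
      apply (AddEquiv.toMultiplicative ((ZMod.ringEquivCongr hcard).toAddEquiv)).injective
      simpa [φ] using hg
    rw [← QuotientGroup.eq_one_iff]
    exact e.symm.injective (h1.trans (map_one _).symm)
  have hφsur : Function.Surjective φ :=
    ((AddEquiv.toMultiplicative ((ZMod.ringEquivCongr hcard).toAddEquiv)).surjective.comp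
      e.symm.surjective).comp (QuotientGroup.mk'_surjective K)
  let A : G → ZMod p := fun g => (φ g).toAdd
  have hA : ∀ g g', A (g * g') = A g + A g' := fun g g' => by simp [A]
  choose s hs using fun k : ZMod p => hφsur (Multiplicative.ofAdd k)
  have hν : ∀ g k, s k * g * (s (k + A g))⁻¹ ∈ K := fun g k => hφker _ (by
    rw [map_mul, map_mul, map_inv, hs, hs, ofAdd_add, ofAdd_toAdd, mul_inv_cancel])
  let ν : G → ZMod p → K := fun g k => ⟨_, hν g k⟩
  let lift : G → Wr H p := fun g => ⟨fun k => (f (ν g k)).out, A g, 0, 0⟩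
  let F : G → u.range ⧸ Z' := fun g => QuotientGroup.mk' Z' (q (lift g))
  have hF : ∀ g g', F (g * g') = F g * F g' := by
    intro g g'
    show QuotientGroup.mk' Z' _ = QuotientGroup.mk' Z' _ * QuotientGroup.mk' Z' _
    rw [← map_mul, ← map_mul, QuotientGroup.mk'_apply, QuotientGroup.mk'_apply, QuotientGroup.eq,
      ← map_inv, ← map_mul, ← Subgroup.mem_comap, hcomap]
    refine ⟨?_, ?_, fun k => ?_⟩
    · simp [lift, hA]
    · simp [lift]
    · rw [← QuotientGroup.eq_one_iff]
      simp only [lift, mul_h, inv_h, inv_a, QuotientGroup.mk_mul, QuotientGroup.mk_inv,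
        QuotientGroup.out_eq']
      rw [inv_mul_eq_one, ← map_mul]
      congr 1
      refine Subtype.ext ?_
      show s _ * (g * g') * (s _)⁻¹ = s _ * g * (s _)⁻¹ * (s _ * g' * (s _)⁻¹)
      rw [hA, ← add_assoc]
      group
  refine ⟨MonoidHom.mk' F hF, (injective_iff_map_eq_one _).2 fun g hg => ?_⟩
  have h1 : lift g ∈ E₀ := by
    rw [← hcomap, Subgroup.mem_comap, ← QuotientGroup.eq_one_iff]
    exact hg
  have h2 : f (ν g 0) = 1 := by
    rw [← QuotientGroup.out_eq' (f (ν g 0)), QuotientGroup.eq_one_iff]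
    exact h1.2.2 0
  have h3 : (ν g 0 : G) = 1 := congrArg Subtype.val ((injective_iff_map_eq_one f).1 hf _ h2)
  have h4 : A g = 0 := h1.1
  simp only [ν, h4, add_zero] at h3
  exact conj_eq_one_iff.1 h3

/-- A nontrivial soluble group has a normal subgroup of prime index. -/
theorem exists_normal_prime_index {G : Type*} [Group G] [Finite G] [Nontrivial G]
    [Group.IsSolvable G] : ∃ K : Subgroup G, K.Normal ∧ K.index.Prime := by
  haveI : Finite (Subgroup G) := Finite.of_injective _ (SetLike.coe_injective (A := Subgroup G))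
  obtain hC | hC := eq_top_or_exists_le_coatom (commutator G)
  · exact absurd hC (IsSolvable.commutator_lt_top_of_nontrivial G).ne
  obtain ⟨K, hK, hle⟩ := hC
  haveI hKn : K.Normal := Subgroup.Normal.of_commutator_le (h := hle)
  refine ⟨K, hKn, ?_⟩
  haveI : Nontrivial (G ⧸ K) := by
    rw [QuotientGroup.nontrivial_iff]
    exact hK.1
  rw [Subgroup.index_eq_card]
  set m := Nat.card (G ⧸ K)
  obtain ⟨r, hr, hrm⟩ := Nat.exists_prime_and_dvd (Finite.one_lt_card (α := G ⧸ K)).ne'
  haveI : Fact r.Prime := ⟨hr⟩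
  obtain ⟨x, hx⟩ := exists_prime_orderOf_dvd_card' (G := G ⧸ K) r hrm
  obtain htop | hbot : (Subgroup.zpowers x).comap (QuotientGroup.mk' K) = ⊤ ∨
      (Subgroup.zpowers x).comap (QuotientGroup.mk' K) = K := by
    refine (hK.le_iff.1 ?_)
    intro y hy
    rw [Subgroup.mem_comap, QuotientGroup.mk'_apply, (QuotientGroup.eq_one_iff y).2 hy]
    exact one_mem _
  · have h : Subgroup.zpowers x = ⊤ := by
      rw [← Subgroup.map_comap_eq_self_of_surjective (QuotientGroup.mk'_surjective K)
        (Subgroup.zpowers x), htop, Subgroup.map_top_of_surjective _ (QuotientGroup.mk'_surjective K)]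
    show m.Prime
    rw [show m = r by
      rw [← hx, ← Nat.card_zpowers, h, Subgroup.card_top]]
    exact hr
  · obtain ⟨y, rfl⟩ := QuotientGroup.mk'_surjective K x
    have hy : y ∈ K := hbot ▸ (show y ∈ (Subgroup.zpowers (QuotientGroup.mk' K y)).comap
      (QuotientGroup.mk' K) from Subgroup.mem_zpowers _)
    rw [QuotientGroup.mk'_apply, (QuotientGroup.eq_one_iff y).2 hy, orderOf_one] at hx
    exact absurd hx.symm hr.ne_one

/-- Every finite soluble group has a model. -/
theorem hasModel {n : ℕ} (hn : n ≠ 0) : ∀ (N : ℕ) (G : Type*) [Group G] [Finite G]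
    [Group.IsSolvable G], Nat.card G = N → (∀ r : ℕ, r.Prime → r ∣ N → r ∣ n) → HasModel n G := by
  intro N
  induction N using Nat.strong_induction_on with
  | _ N ih =>
    intro G _ _ _ hN hpr
    rcases subsingleton_or_nontrivial G with h | h
    · haveI : NeZero n := ⟨hn⟩
      refine ⟨Unit, inferInstance, inferInstance, rootsOfUnity n ℂ, inferInstance, inferInstance,
        ((Matrix.scalar Unit : ℂ →+* Matrix Unit Unit ℂ) : ℂ →* Matrix Unit Unit ℂ).comp
          ((Units.coeHom ℂ).comp (rootsOfUnity n ℂ).subtype), ⊤, inferInstance, ⟨()⟩, ?_, ?_, ?_,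
        ?_, ?_, ?_, 1, Function.injective_of_subsingleton _⟩
      · intro a b hab
        exact Subtype.ext (Units.ext (Matrix.scalar_inj.1 hab))
      · intro z
        simp only [Subgroup.mem_top, true_iff]
        refine ⟨((z : ℂˣ) : ℂ), ?_, ?_⟩
        · rw [← Units.val_pow_eq_pow_val, (mem_rootsOfUnity n (z : ℂˣ)).1 z.2, Units.val_one]
        · exact (Matrix.smul_one_eq_diagonal _).symm
      · intro c hc
        refine ⟨rootsOfUnity.mkOfPowEq c hc, ?_⟩
        exact (Matrix.smul_one_eq_diagonal c).symm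
      · exact fun z hz => absurd (Subgroup.mem_top z) hz
      · simp
      · intro r hr h
        rw [Fintype.card_unit, Nat.dvd_one] at h
        exact absurd h hr.ne_one
    · obtain ⟨K, hK, hKp⟩ := exists_normal_prime_index (G := G)
      haveI : Fact K.index.Prime := ⟨hKp⟩
      have hc := K.card_mul_index
      have hlt : Nat.card K < N := by
        rw [← hN, ← hc]
        exact lt_mul_of_one_lt_right Nat.card_pos hKp.one_lt
      exact hasModel_of_index_prime hn K rfl (hpr _ hKp (hN ▸ K.index_dvd_card))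
        (ih _ hlt K rfl fun r hr hd => hpr r hr (hd.trans (hN ▸ K.card_subgroup_dvd_card)))

end Cfsg.Agent.Chars2.RamEmbed
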