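import Cfsg.Agent.BlockChar.SubsectionHeight
import Cfsg.Agent.Chars2.BrauerCount

/-!
The inner products of the parts over a section as central character values.
-/

set_option autoImplicit false
set_option linter.unusedSectionVars false
set_option linter.style.haveILetI false

namespace Cfsg.Agent.Chars2

open Cfsg Cfsg.Agent Cfsg.Agent.Blocks Cfsg.Agent.BlockChar
open scoped ComplexConjugate

universe u

variable {G : Type u} [Group G] [Fintype G] {p : ℕ} [Fact p.Prime] {M : Ideal AlgInt}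
  [M.IsMaximal] {y : G} {H : Subgroup G} [Fintype H]

theorem secPart_expand (b : Set (IrrCharacter H)) (χ : IrrCharacter G) (s : H) :
    secPart y b χ s = ∑ φ ∈ bf b,
      classInner (fun c : H => (χ : G → ℂ) (y * (c : G))) (φ : H → ℂ) * (φ : H → ℂ) s := by
  rw [secPart, blockPart, finsum_mem_bf]
  refine Finset.sum_congr rfl fun φ _ => ?_
  congr 1
  exact congrArg (fun i => @classInner _ _ i _ _) (Subsingleton.elim _ _)

/-- The parts in different blocks are orthogonal on the regular elements. -/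
theorem sum_regs_sec_cross (hpM : (p : AlgInt) ∈ M) {b b' : Set (IrrCharacter H)}
    (hb : IsPBlock M b) (hb' : IsPBlock M b') (hne : b' ≠ b) (χ ψ : IrrCharacter G) :
    ∑ s ∈ regs p H, secPart y b' χ s * conj (secPart y b ψ s) = 0 := by
  simp only [secPart_expand, map_sum, map_mul, Finset.sum_mul, Finset.mul_sum]
  rw [Finset.sum_comm]
  refine Finset.sum_eq_zero fun φ hφ => ?_
  rw [Finset.sum_comm]
  refine Finset.sum_eq_zero fun φ' hφ' => ?_
  have h0 := regInner_eq_zero hpM (χ := φ') (ψ := φ) fun h => hne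
    (blocks_eq_of_inter hb' hb (mem_bf.1 hφ') (mem_of_sameBlock hb (mem_bf.1 hφ) (sameBlock_symm h)))
  have h0' := regInner_eq_zero hpM (χ := φ) (ψ := φ') fun h => hne
    (blocks_eq_of_inter hb' hb (mem_bf.1 hφ') (mem_of_sameBlock hb (mem_bf.1 hφ) h))
  simp only [regInner, mul_eq_zero, inv_eq_zero, Chars.card_ne_zero, false_or] at h0 h0'
  first
    | (rw [← mul_zero (classInner (fun c : H => (χ : G → ℂ) (y * (c : G))) (φ' : H → ℂ) *
          conj (classInner (fun c : H => (ψ : G → ℂ) (y * (c : G))) (φ : H → ℂ))), ← h0,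
          Finset.mul_sum]
       exact Finset.sum_congr rfl fun s _ => by ring)
    | (rw [← mul_zero (classInner (fun c : H => (χ : G → ℂ) (y * (c : G))) (φ : H → ℂ) *
          conj (classInner (fun c : H => (ψ : G → ℂ) (y * (c : G))) (φ' : H → ℂ))), ← h0',
          Finset.mul_sum]
       exact Finset.sum_congr rfl fun s _ => by ring)

theorem memR_secPart (hpM : (p : AlgInt) ∈ M) (hH : H = Subgroup.centralizer ({y} : Set G))
    {b : Set (IrrCharacter H)} (hb : IsPBlock M b) (ψ : IrrCharacter G) (s : H) :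
    MemLocalRing M (secPart y b ψ s) := by
  rw [secPart_eq_coeff hH]
  exact memR_sum _ _ fun k _ =>
    memR_mul (rFun_blockCoeff hpM hb k) (memR_of_isIntegral (Chars.isIntegral_of_isCharacter (Chars.irr_isCharacter ψ) _))

theorem sec_memR_conj (hpM : (p : AlgInt) ∈ M) (hH : H = Subgroup.centralizer ({y} : Set G))
    (hy : ∃ k : ℕ, orderOf y = p ^ k)
    {b : Set (IrrCharacter H)} (hb : IsPBlock M b) (ψ : IrrCharacter G) (s : H) :
    MemLocalRing M (conj (secPart y b ψ s)) := by
  obtain ⟨k, hk⟩ := hy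
  have hyH : y ∈ H := hH ▸ Subgroup.mem_centralizer_singleton_iff.2 rfl
  have hyk : (⟨y, hyH⟩ : H) ^ p ^ k = 1 := Subtype.ext (by
    show y ^ p ^ k = 1
    rw [← hk]; exact pow_orderOf_eq_one y)
  have hc : ∀ c : H, (⟨y, hyH⟩ : H) * c = c * ⟨y, hyH⟩ := fun c =>
    Subtype.ext (commute_sec hH c).eq
  have hres : IsCharacter H (fun h : H => (ψ : G → ℂ) h) :=
    Chars.isCharacter_restrict (Chars.irr_isCharacter ψ) H
  rw [secPart_expand, map_sum]
  refine memR_sum _ _ fun φ _ => ?_
  obtain ⟨c, hck, hcφ⟩ := exists_central_scalar hpM hyk hc φ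
  obtain ⟨n, hn⟩ := Chars.exists_classInner_eq_nat hres (Chars.irr_isCharacter φ)
  have hp0 : p ^ k ≠ 0 := pow_ne_zero _ (Fact.out : p.Prime).ne_zero
  have hc0 : c ≠ 0 := fun h => by simpa [h, zero_pow hp0] using hck
  have ha : classInner (fun d : H => (ψ : G → ℂ) (y * (d : G))) (φ : H → ℂ) = (n : ℂ) * c := by
    rw [← hn, Chars.classInner_def, Chars.classInner_def, mul_assoc, Finset.sum_mul]
    congr 1
    refine Fintype.sum_equiv (Equiv.mulLeft (⟨y, hyH⟩ : H)) _ _ fun d => ?_
    show (ψ : G → ℂ) (y * (d : G)) * conj ((φ : H → ℂ) d) =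
      (ψ : G → ℂ) (y * (d : G)) * conj ((φ : H → ℂ) ((⟨y, hyH⟩ : H) * d)) * c
    rw [hcφ, map_mul, ← Complex.inv_eq_conj (Complex.norm_eq_one_of_pow_eq_one hck hp0)]
    field_simp [hc0]
  rw [map_mul, ha, map_mul, map_natCast,
    ← Complex.inv_eq_conj (Complex.norm_eq_one_of_pow_eq_one hck hp0),
    ← Chars.char_inv_eq_conj (Chars.irr_isCharacter φ)]
  refine memR_mul (memR_mul (memR_natCast _) (memR_of_isIntegral ?_))
    (memR_of_isIntegral (Chars.isIntegral_of_isCharacter (Chars.irr_isCharacter φ) _))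
  exact IsIntegral.of_pow (Nat.pos_of_ne_zero hp0) (by rw [inv_pow, hck, inv_one]; exact isIntegral_one)

/-- The inner product of two parts over the regular elements is a central character value. -/
theorem exists_section_fun (hpM : (p : AlgInt) ∈ M) (hH : H = Subgroup.centralizer ({y} : Set G))
    (hy : ∃ k : ℕ, orderOf y = p ^ k) {b : Set (IrrCharacter H)} (hb : IsPBlock M b)
    (ψ : IrrCharacter G) : ∃ F : G → ℂ, IsClassFunction G F ∧ RFun M F ∧
      ∀ χ : IrrCharacter G, (Nat.card H : ℂ)⁻¹ *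
          ∑ s ∈ regs p H, secPart y b χ s * conj (secPart y b ψ s) =
        (χ : G → ℂ) 1 / (Nat.card G : ℂ) * omega (χ : G → ℂ) F := by
  classical
  have hmem : ∀ g : G, g ∈ H ↔ g * y = y * g := fun g => by
    rw [hH, Subgroup.mem_centralizer_singleton_iff]
  have hcf : ∀ (g : H) (s : H), secPart y b ψ (g * s * g⁻¹) = secPart y b ψ s := fun g s => by
    simp only [secPart_expand]
    exact Finset.sum_congr rfl fun φ _ => by rw [Chars.isClassFunction_irr φ s g]
  have hgood : ∀ (g c : G), c * ppart p g * c⁻¹ = y → y⁻¹ * (c * g * c⁻¹) ∈ H := by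
    intro g c hc
    obtain ⟨z, hz, hcz, -, -⟩ := isPPart_ppart (p := p) g
    rw [hmem]
    have hgy : Commute (c * g * c⁻¹) y := by
      rw [← hc]
      show c * g * c⁻¹ * (c * ppart p g * c⁻¹) = c * ppart p g * c⁻¹ * (c * g * c⁻¹)
      have : g * ppart p g = ppart p g * g := ((Commute.refl g).pow_right _).eq
      calc c * g * c⁻¹ * (c * ppart p g * c⁻¹) = c * (g * ppart p g) * c⁻¹ := by group
        _ = c * (ppart p g * g) * c⁻¹ := by rw [this]
        _ = _ := by group
    exact (((Commute.refl y).inv_left).mul_left hgy).eq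
  let F : G → ℂ := fun g =>
    if h : ∃ c : G, c * ppart p g * c⁻¹ = y then
      conj (secPart y b ψ ⟨y⁻¹ * (h.choose * g * h.choose⁻¹), hgood g _ h.choose_spec⟩) else 0
  have hF : ∀ (g c : G) (hc : c * ppart p g * c⁻¹ = y),
      F g = conj (secPart y b ψ ⟨y⁻¹ * (c * g * c⁻¹), hgood g c hc⟩) := by
    intro g c hc
    have h : ∃ c : G, c * ppart p g * c⁻¹ = y := ⟨c, hc⟩
    simp only [F, dif_pos h]
    set c' := h.choose
    have hc' : c' * ppart p g * c'⁻¹ = y := h.choose_spec
    have ht : c' * c⁻¹ ∈ H := by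
      rw [hmem]
      calc c' * c⁻¹ * y = c' * ppart p g * c⁻¹ := by rw [← hc]; group
        _ = c' * ppart p g * c'⁻¹ * (c' * c⁻¹) := by group
        _ = y * (c' * c⁻¹) := by rw [hc']
    rw [← hcf ⟨c' * c⁻¹, ht⟩ ⟨y⁻¹ * (c * g * c⁻¹), hgood g c hc⟩]
    congr 2
    refine Subtype.ext ?_
    show y⁻¹ * (c' * g * c'⁻¹) = c' * c⁻¹ * (y⁻¹ * (c * g * c⁻¹)) * (c' * c⁻¹)⁻¹
    have hty : c' * c⁻¹ * y⁻¹ = y⁻¹ * (c' * c⁻¹) :=
      ((show Commute (c' * c⁻¹) y from (hmem _).1 ht).inv_right).eq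
    rw [← mul_assoc (c' * c⁻¹) y⁻¹, hty]; group
  have hF0 : ∀ g : G, ¬ IsConj (ppart p g) y → F g = 0 := fun g hg => by
    simp only [F]
    rw [dif_neg fun ⟨c, hc⟩ => hg (isConj_iff.2 ⟨c, hc⟩)]
  have hFc : ∀ c g : G, F (c * g * c⁻¹) = F g := by
    intro c g
    by_cases h : IsConj (ppart p g) y
    · obtain ⟨a, ha⟩ := isConj_iff.1 h
      have ha' : a * c⁻¹ * ppart p (c * g * c⁻¹) * (a * c⁻¹)⁻¹ = y := by
        rw [ppart_conj, ← ha]; group
      rw [hF _ _ ha', hF g a ha]
      congr 2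
      exact Subtype.ext (by show y⁻¹ * _ = y⁻¹ * _; group)
    · rw [hF0 g h, hF0 _ fun h' => h ((isConj_iff.2 ⟨c, (ppart_conj c g).symm⟩).trans h')]
  have hFs : ∀ s : H, ¬ p ∣ orderOf s → F (y * (s : G)) = conj (secPart y b ψ s) := by
    intro s hs
    have hpp : ppart p (y * (s : G)) = y :=
      ppart_mul (commute_sec hH s) hy (by rwa [Subgroup.orderOf_coe])
    rw [hF _ 1 (by rw [hpp]; group)]
    congr 2
    exact Subtype.ext (by show y⁻¹ * _ = (s : G); group)
  refine ⟨F, fun x g => hFc g x, fun g => ?_, fun χ => ?_⟩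
  · by_cases h : IsConj (ppart p g) y
    · obtain ⟨a, ha⟩ := isConj_iff.1 h
      rw [hF g a ha]; exact sec_memR_conj hpM hH hy hb ψ _
    · rw [hF0 g h]; exact memR_zero
  · have h1 : ∑ g : G, F g * (χ : G → ℂ) g =
        ∑ g ∈ Finset.univ.filter (fun g : G => IsConj (ppart p g) y), F g * (χ : G → ℂ) g := by
      refine (Finset.sum_subset (Finset.subset_univ _) fun g _ hg => ?_).symm
      rw [hF0 g (fun h => hg (Finset.mem_filter.2 ⟨Finset.mem_univ _, h⟩)), zero_mul]
    have h2 := sum_section (p := p) (F := fun g => F g * (χ : G → ℂ) g)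
      (fun c g => by rw [hFc, Chars.isClassFunction_irr χ g c]) hy hH
    have h3 : ∑ s ∈ regs p H, F (y * (s : G)) * (χ : G → ℂ) (y * (s : G)) =
        ∑ s ∈ regs p H, secPart y b χ s * conj (secPart y b ψ s) := by
      calc _ = ∑ s ∈ regs p H, ∑ b' ∈ blockFinset M H,
            secPart y b' χ s * conj (secPart y b ψ s) :=
            Finset.sum_congr rfl fun s hs => by
              rw [hFs s (mem_regs.1 hs), ← Finset.sum_mul, sum_sec_eq hH hy hpM, mul_comm]
        _ = _ := by
            rw [Finset.sum_comm, Finset.sum_eq_single b]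
            · intro b' hb' hne
              exact sum_regs_sec_cross hpM hb (mem_blockFinset.1 hb') hne χ ψ
            · exact fun h => absurd (mem_blockFinset.2 hb) h
    rw [h3, ← h1] at h2
    have hG0 : (Nat.card G : ℂ) ≠ 0 := Chars.card_ne_zero
    have hH0 : (Nat.card H : ℂ) ≠ 0 := Chars.card_ne_zero
    have hχ0 := Chars.irr_apply_one_ne_zero χ.2
    rw [omega]
    field_simp
    linear_combination -h2

end Cfsg.Agent.Chars2
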