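import Cfsg.Agent.BlockChar.Reduce
import Cfsg.Agent.BlockChar.CharCount
import Cfsg.Agent.Blocks.Defect
import Cfsg.Agent.Chars.RegularPart

/-!
Blocks from classes with a common Sylow group of the centralizers, separated by the `p`-elements.
-/

set_option autoImplicit false
set_option linter.unusedSectionVars false
set_option linter.style.haveILetI false

namespace Cfsg.Agent.Chars2

open Cfsg Cfsg.Agent Cfsg.Agent.Blocks Cfsg.Agent.BlockChar
open scoped ComplexConjugate

universe u

variable {G : Type u} [Group G] [Fintype G] {p : ℕ} [Fact p.Prime] {M : Ideal AlgInt}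
  [M.IsMaximal]

open Classical in
/-- The `p'`-part of the order times the indicator of the `p`-elements is a generalized
character. -/
theorem isGen_indicator_pElements :
    IsGeneralizedCharacter G (fun g : G =>
      if ∃ j : ℕ, orderOf g = p ^ j then
        ((Nat.card G / p ^ (Nat.card G).factorization p : ℕ) : ℂ) else 0) := by
  have key : ∀ S : Finset ℕ, (∀ q ∈ S, q.Prime) → IsGeneralizedCharacter G (fun g : G =>
      if ∀ q ∈ S, ¬ q ∣ orderOf g then
        ((∏ q ∈ S, q ^ (Nat.card G).factorization q : ℕ) : ℂ) else 0) := by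
    intro S
    induction S using Finset.induction_on with
    | empty =>
      intro _
      simp only [Finset.notMem_empty, IsEmpty.forall_iff, implies_true, if_true,
        Finset.prod_empty, Nat.cast_one]
      exact Chars.isGen_of_isCharacter Chars.isCharacter_one
    | insert q S hq ih =>
      intro hS
      have h1 := Chars.isGen_regularPart_full (G := G) (hS q (Finset.mem_insert_self q S))
        (Chars.isGen_of_isCharacter Chars.isCharacter_one)
      have h2 := Chars.isGen_mul h1 (ih fun r hr => hS r (Finset.mem_insert_of_mem hr))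
      convert h2 using 1
      funext g
      simp only [Pi.mul_apply, Chars.regularPart, Finset.forall_mem_insert,
        Finset.prod_insert hq]
      by_cases hd : q ∣ orderOf g
      · simp [hd]
      · simp only [hd, not_false_iff, true_and, if_false, Nat.cast_mul, mul_one]
        split_ifs <;> simp
  have hn : Nat.card G ≠ 0 := Nat.card_pos.ne'
  set S := (Nat.card G).primeFactors.erase p with hS
  have hcond : ∀ g : G, (∀ q ∈ S, ¬ q ∣ orderOf g) ↔ ∃ j : ℕ, orderOf g = p ^ j := by
    intro g
    constructor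
    · intro h
      refine ⟨_, Nat.eq_prime_pow_of_unique_prime_dvd (orderOf_pos g).ne' fun {q} hq hqd => ?_⟩
      by_contra hne
      exact h q (Finset.mem_erase.2 ⟨hne, Nat.mem_primeFactors.2
        ⟨hq, hqd.trans (orderOf_dvd_natCard g), hn⟩⟩) hqd
    · rintro ⟨j, hj⟩ q hq hqd
      obtain ⟨hne, hq'⟩ := Finset.mem_erase.1 hq
      have hqp := Nat.prime_of_mem_primeFactors hq'
      exact hne ((Nat.prime_dvd_prime_iff_eq hqp Fact.out).1 (hqp.dvd_of_dvd_pow (hj ▸ hqd)))
  have hprod : ∏ q ∈ S, q ^ (Nat.card G).factorization q =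
      Nat.card G / p ^ (Nat.card G).factorization p := by
    have hall : ∏ q ∈ (Nat.card G).primeFactors, q ^ (Nat.card G).factorization q = Nat.card G := by
      conv_rhs => rw [← Nat.prod_factorization_pow_eq_self hn]
      rfl
    by_cases hp : p ∈ (Nat.card G).primeFactors
    · rw [← Finset.mul_prod_erase _ _ hp] at hall
      conv_rhs => arg 1; rw [← hall]
      rw [Nat.mul_div_cancel_left _ (pow_pos (Fact.out : p.Prime).pos _), hS]
    · rw [hS, Finset.erase_eq_of_notMem hp, hall]
      have : (Nat.card G).factorization p = 0 := Nat.factorization_eq_zero_of_not_dvd fun hd =>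
        hp (Nat.mem_primeFactors.2 ⟨Fact.out, hd, hn⟩)
      rw [this, pow_zero, Nat.div_one]
  have h := key S fun q hq => Nat.prime_of_mem_primeFactors (Finset.mem_of_mem_erase hq)
  simp only [hcond, hprod] at h
  exact h

/-- Brauer's blocks for separated classes. -/
theorem exists_separated_blocks (hpM : (p : AlgInt) ∈ M) (D : Subgroup G) {r : ℕ} (x : Fin r → G)
    (hx : ∀ i j : Fin r, IsConj (x i) (x j) → i = j)
    (hD : ∀ i : Fin r, ∃ S : Sylow p ↥(Subgroup.centralizer ({x i} : Set G)),
      (S : Subgroup ↥(Subgroup.centralizer ({x i} : Set G))).map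
        (Subgroup.centralizer ({x i} : Set G)).subtype = D)
    (hsep : ∀ i j : Fin r, ∀ g h : G, IsConj (x i) g → IsConj (x j) h → ∀ k : ℕ, 0 < k →
      orderOf (g * h⁻¹) ≠ p ^ k) :
    ∃ B : Fin r → Set (IrrCharacter G), Function.Injective B ∧
      (∀ i : Fin r, IsPBlock M (B i) ∧ IsDefectGroup p M (B i) D) ∧
      ∀ χ : Fin r → IrrCharacter G,
        (∀ i : Fin r, χ i ∈ B i ∧ blockHeight p (B i) (χ i : G → ℂ) = 0) →
        ¬ MemLocalIdeal M (Matrix.det (Matrix.of fun i j : Fin r => (χ i : G → ℂ) (x j))) := by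
  classical
  have hp : p.Prime := Fact.out
  set a := (Nat.card G).factorization p with ha
  set d := (Nat.card D).factorization p with hd
  set g' := Nat.card G / p ^ a with hg'
  have hg'p : ¬ p ∣ g' := Nat.not_dvd_ordCompl hp Nat.card_pos.ne'
  have hG : (Nat.card G : ℂ) = (p : ℂ) ^ a * (g' : ℂ) := by
    rw [← Nat.cast_pow, ← Nat.cast_mul, Nat.ordProj_mul_ordCompl_eq_self]
  have hp0 : (p : ℂ) ≠ 0 := Nat.cast_ne_zero.2 hp.ne_zero
  set K : Fin r → ℕ := fun i => (Subgroup.centralizer ({x i} : Set G)).index with hK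
  have hCd : ∀ i, (Nat.card (Subgroup.centralizer ({x i} : Set G))).factorization p = d := by
    intro i
    obtain ⟨S, hS⟩ := hD i
    rw [hd, ← hS, Subgroup.card_map_of_injective (Subgroup.subtype_injective _),
      S.card_eq_multiplicity, hp.factorization_pow, Finsupp.single_eq_same]
  have hKv : ∀ i, (K i).factorization p + d = a := fun i => by
    have := index_factorization (p := p) (x i)
    rw [hCd i] at this
    exact this
  have hK0 : ∀ i, K i ≠ 0 := fun i => Subgroup.index_ne_zero_of_finite
  have hdeg : ∀ φ : IrrCharacter G, charDegree (φ : G → ℂ) ≠ 0 := fun φ =>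
    (Blocks.charDegree_eq φ.2).2.ne'
  have hval : ∀ (φ : IrrCharacter G) (i : Fin r), (φ : G → ℂ) (x i) =
      centralChar (φ : G → ℂ) (x i) * ((charDegree (φ : G → ℂ) : ℂ) / (K i : ℂ)) := by
    intro φ i
    have h1 : (charDegree (φ : G → ℂ) : ℂ) ≠ 0 := Nat.cast_ne_zero.2 (hdeg φ)
    have h2 : (K i : ℂ) ≠ 0 := Nat.cast_ne_zero.2 (hK0 i)
    simp only [hK] at h2 ⊢
    rw [centralChar, (Blocks.charDegree_eq φ.2).1]
    field_simp
  choose n hn using fun φ : IrrCharacter G => Chars.exists_classInner_eq_int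
    (isGen_indicator_pElements (G := G) (p := p))
    (Chars.isGen_of_isCharacter (Chars.irr_isCharacter φ))
  have hexp : ∀ g : G, ∑ φ : IrrCharacter G, (n φ : ℂ) * (φ : G → ℂ) g =
      if ∃ j : ℕ, orderOf g = p ^ j then (g' : ℂ) else 0 := by
    intro g
    refine ((congrFun (Chars.eq_sum_classInner (Chars.isClassFunction_of_isGen
      (isGen_indicator_pElements (G := G) (p := p)))) g).trans ?_).symm
    rw [Finset.sum_apply]
    exact Finset.sum_congr rfl fun φ _ => by rw [hn φ]; rfl
  -- the identity
  have hid : ∀ i j : Fin r, (if i = j then (g' : ℂ) else 0) =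
      ∑ φ : IrrCharacter G, (n φ : ℂ) * (φ : G → ℂ) (x i) *
        centralChar (φ : G → ℂ) (x j)⁻¹ := by
    intro i j
    have h1 : ∀ c c' : G,
        ∑ φ : IrrCharacter G, (n φ : ℂ) * (φ : G → ℂ) (c * x i * c⁻¹ * (c' * (x j)⁻¹ * c'⁻¹)) =
          if c * x i * c⁻¹ = c' * x j * c'⁻¹ then (g' : ℂ) else 0 := by
      intro c c'
      rw [hexp]
      have e : c * x i * c⁻¹ * (c' * (x j)⁻¹ * c'⁻¹) =
          c * x i * c⁻¹ * (c' * x j * c'⁻¹)⁻¹ := by group
      by_cases heq : c * x i * c⁻¹ = c' * x j * c'⁻¹
      · rw [if_pos heq, if_pos ⟨0, by rw [e, heq, mul_inv_cancel, orderOf_one, pow_zero]⟩]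
      · rw [if_neg heq, if_neg]
        rintro ⟨k, hk⟩
        rw [e] at hk
        rcases Nat.eq_zero_or_pos k with hk0 | hk0
        · rw [hk0, pow_zero, orderOf_eq_one_iff, mul_inv_eq_one] at hk
          exact heq hk
        · exact hsep i j _ _ (isConj_iff.2 ⟨c, rfl⟩) (isConj_iff.2 ⟨c', rfl⟩) k hk0 hk
    have hL : ∑ c : G, ∑ c' : G,
        ∑ φ : IrrCharacter G, (n φ : ℂ) * (φ : G → ℂ) (c * x i * c⁻¹ * (c' * (x j)⁻¹ * c'⁻¹)) =
        (if i = j then (g' : ℂ) else 0) * ((Nat.card G : ℂ) *
          (Nat.card (Subgroup.centralizer ({x j} : Set G)) : ℂ)) := by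
      simp only [h1]
      split_ifs with hij
      · subst hij
        have h2 : ∀ c : G, ∑ c' : G, (if c * x i * c⁻¹ = c' * x i * c'⁻¹ then (g' : ℂ) else 0) =
            (Nat.card (Subgroup.centralizer ({x i} : Set G)) : ℂ) * (g' : ℂ) := by
          intro c
          rw [← Finset.sum_filter, Finset.sum_const, nsmul_eq_mul]
          congr 2
          rw [Nat.card_eq_fintype_card]
          refine Finset.card_bij' (t := (Finset.univ : Finset (Subgroup.centralizer ({x i} : Set G))))
            (fun c' hc' => ⟨c⁻¹ * c', ?_⟩) (fun s _ => c * (s : G))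
            (fun _ _ => Finset.mem_univ _) ?_ ?_ ?_
          · rw [Finset.mem_filter] at hc'
            rw [Subgroup.mem_centralizer_singleton_iff]
            calc c⁻¹ * c' * x i = c⁻¹ * (c' * x i * c'⁻¹) * c' := by group
              _ = c⁻¹ * (c * x i * c⁻¹) * c' := by rw [hc'.2]
              _ = x i * (c⁻¹ * c') := by group
          · intro s _
            rw [Finset.mem_filter]
            refine ⟨Finset.mem_univ _, ?_⟩
            have hs := Subgroup.mem_centralizer_singleton_iff.1 s.2
            calc c * x i * c⁻¹ = c * (x i * (s : G)) * (s : G)⁻¹ * c⁻¹ := by group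
              _ = c * ((s : G) * x i) * (s : G)⁻¹ * c⁻¹ := by rw [hs]
              _ = _ := by group
          · intro c' _; simp
          · intro s _; exact Subtype.ext (by simp)
        simp only [h2, Finset.sum_const, Finset.card_univ, nsmul_eq_mul, ← Nat.card_eq_fintype_card]
        ring
      · rw [zero_mul]
        refine Finset.sum_eq_zero fun c _ => Finset.sum_eq_zero fun c' _ => if_neg fun h => hij ?_
        exact hx i j ((isConj_iff.2 ⟨c, rfl⟩ : IsConj (x i) _).trans
          (h ▸ (isConj_iff.2 ⟨c', rfl⟩ : IsConj (x j) _).symm))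
    have hR : ∑ c : G, ∑ c' : G,
        ∑ φ : IrrCharacter G, (n φ : ℂ) * (φ : G → ℂ) (c * x i * c⁻¹ * (c' * (x j)⁻¹ * c'⁻¹)) =
        (∑ φ : IrrCharacter G, (n φ : ℂ) * (φ : G → ℂ) (x i) *
          centralChar (φ : G → ℂ) (x j)⁻¹) * ((Nat.card G : ℂ) *
          (Nat.card (Subgroup.centralizer ({x j} : Set G)) : ℂ)) := by
      rw [Finset.sum_mul]
      have h3 : ∀ φ : IrrCharacter G,
          ∑ c : G, ∑ c' : G, (φ : G → ℂ) (c * x i * c⁻¹ * (c' * (x j)⁻¹ * c'⁻¹)) =
          (Nat.card G : ℂ) * (Nat.card G : ℂ) * (φ : G → ℂ) (x i) * (φ : G → ℂ) (x j)⁻¹ /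
            (φ : G → ℂ) 1 := by
        intro φ
        rw [Finset.sum_comm, Finset.sum_congr rfl fun c' _ =>
          BlockChar.sum_conj_mul φ.2 (x i) (c' * (x j)⁻¹ * c'⁻¹)]
        simp only [Chars.isClassFunction_irr φ ((x j)⁻¹)]
        rw [Finset.sum_const, Finset.card_univ, nsmul_eq_mul, ← Nat.card_eq_fintype_card]
        ring
      calc _ = ∑ φ : IrrCharacter G, (n φ : ℂ) *
            ∑ c : G, ∑ c' : G, (φ : G → ℂ) (c * x i * c⁻¹ * (c' * (x j)⁻¹ * c'⁻¹)) := by
            rw [Finset.sum_comm_cycle]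
            simp only [Finset.mul_sum]
        _ = _ := by
            refine Finset.sum_congr rfl fun φ _ => ?_
            rw [h3, centralChar, centralizer_inv_singleton,
              ← (Subgroup.centralizer ({x j} : Set G)).index_mul_card, Nat.cast_mul]
            have := Chars.irr_apply_one_ne_zero φ.2
            field_simp
    refine mul_right_cancel₀ ?_ (hL.symm.trans hR)
    exact mul_ne_zero Chars.card_ne_zero Chars.card_ne_zero
  -- only the characters of the middle degree survive
  have hωR : ∀ (φ : IrrCharacter G) (g : G), MemLocalRing M (centralChar (φ : G → ℂ) g) :=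
    fun φ g => centralChar_memR hpM φ g
  have hAR : ∀ (φ : IrrCharacter G) (i : Fin r), MemLocalRing M ((n φ : ℂ) * (φ : G → ℂ) (x i)) :=
    fun φ i => memR_mul (memR_intCast _) (irr_memR φ _)
  set S := Finset.univ.filter fun φ : IrrCharacter G =>
    (charDegree (φ : G → ℂ)).factorization p = a - d with hS
  have hout : ∀ φ, φ ∉ S → ∀ i j : Fin r,
      MemLocalIdeal M ((n φ : ℂ) * (φ : G → ℂ) (x i) * centralChar (φ : G → ℂ) (x j)⁻¹) := by
    intro φ hφ i j
    have hv : (charDegree (φ : G → ℂ)).factorization p ≠ a - d := fun h =>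
      hφ (Finset.mem_filter.2 ⟨Finset.mem_univ _, h⟩)
    rcases Nat.lt_or_gt_of_ne hv with hlt | hgt
    · refine memI_mul_left (hAR φ i) ?_
      by_contra hu
      have h2 := factorization_index_le hpM φ hu
      rw [centralizer_inv_singleton] at h2
      have h3 := hKv j
      simp only [hK] at h3
      omega
    · refine memI_mul_right (memI_mul_left (memR_intCast _) ?_) (hωR φ _)
      rw [hval]
      refine memI_mul_left (hωR φ _) (natRatio_memI hpM (hdeg φ) (hK0 i) ?_)
      have := hKv i
      omega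
  set A : IrrCharacter G → Fin r → Res M := fun φ i =>
    res M ((n φ : ℂ) * (φ : G → ℂ) (x i)) with hA
  set W : IrrCharacter G → Fin r → Res M := fun φ j =>
    res M (centralChar (φ : G → ℂ) (x j)⁻¹) with hW
  have hunitg : res M (g' : ℂ) ≠ 0 := by
    rw [Ne, res_eq_zero_iff (memR_natCast _), memI_natCast_iff hpM]
    exact hg'p
  have hmat : ∀ i j : Fin r, ∑ φ ∈ S, W φ j * A φ i = if i = j then res M (g' : ℂ) else 0 := by
    intro i j
    have h := congrArg (res M) (hid i j)
    rw [res_sum _ _ fun φ _ => memR_mul (hAR φ i) (hωR φ _),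
      ← Finset.sum_subset (Finset.subset_univ S) fun φ _ hφ =>
        (res_eq_zero_iff (memR_mul (hAR φ i) (hωR φ _))).2 (hout φ hφ i j), apply_ite (res M),
      res_zero] at h
    rw [h]
    exact Finset.sum_congr rfl fun φ _ => by rw [res_mul (hAR φ i) (hωR φ _)]; exact mul_comm _ _
  have hspan : Submodule.span (Res M) (A '' (S : Set (IrrCharacter G))) = ⊤ := by
    rw [eq_top_iff]
    intro v _
    have hv : v = ∑ j : Fin r, (v j / res M (g' : ℂ)) • ∑ φ ∈ S, W φ j • A φ := by
      funext i
      simp only [Finset.sum_apply, Pi.smul_apply, smul_eq_mul, hmat]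
      rw [Finset.sum_eq_single i]
      · rw [if_pos rfl, div_mul_cancel₀ _ hunitg]
      · intro j _ hne; rw [if_neg (Ne.symm hne), mul_zero]
      · simp
    rw [hv]
    exact Submodule.sum_mem _ fun j _ => Submodule.smul_mem _ _ (Submodule.sum_mem _ fun φ hφ =>
      Submodule.smul_mem _ _ (Submodule.subset_span ⟨φ, hφ, rfl⟩))
  obtain ⟨f, hf, -, hli⟩ :=
    Submodule.exists_fun_fin_finrank_span_eq (Res M) (A '' (S : Set (IrrCharacter G)))
  have hrank : Module.finrank (Res M)
      (Submodule.span (Res M) (A '' (S : Set (IrrCharacter G)))) = r := by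
    rw [hspan, finrank_top, Module.finrank_fin_fun]
  set f' : Fin r → (Fin r → Res M) := fun i => f (Fin.cast hrank.symm i) with hf'
  have hli' : LinearIndependent (Res M) f' := hli.comp _ (Fin.cast_injective _)
  choose s hsS hsA using fun i : Fin r => hf (Fin.cast hrank.symm i)
  have hdetA : (Matrix.of fun i j => A (s i) j).det ≠ 0 := by
    have h1 : IsUnit (Matrix.of fun i j => A (s i) j) := by
      rw [← Matrix.linearIndependent_rows_iff_isUnit]
      have h2 : (Matrix.of fun i j => A (s i) j).row = f' := funext fun i => hsA i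
      rw [h2]
      exact hli'
    exact ((Matrix.isUnit_iff_isUnit_det _).1 h1).ne_zero
  -- the blocks
  refine ⟨fun i => blockOf M (s i : G → ℂ), ?_⟩
  have hsv : ∀ i, (charDegree (s i : G → ℂ)).factorization p = a - d :=
    fun i => (Finset.mem_filter.1 (hsS i)).2
  have hblk : ∀ i : Fin r, IsPBlock M (blockOf M (s i : G → ℂ)) := fun i => isPBlock_blockOf _
  have hnz : ∀ i : Fin r, ∃ j, A (s i) j ≠ 0 := by
    intro i
    by_contra hne
    push Not at hne
    exact hdetA (Matrix.det_eq_zero_of_row_eq_zero i fun j => by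
      rw [Matrix.of_apply]; exact hne j)
  have hdef : ∀ i : Fin r, blockDefect p (blockOf M (s i : G → ℂ)) = d ∧
      blockHeight p (blockOf M (s i : G → ℂ)) (s i : G → ℂ) = 0 ∧
      ∃ j, ¬ MemLocalIdeal M (centralChar (s i : G → ℂ) (x j)) := by
    intro i
    obtain ⟨j, hj⟩ := hnz i
    have hu : ¬ MemLocalIdeal M (centralChar (s i : G → ℂ) (x j)) := fun hI => hj (by
      rw [hA]
      refine (res_eq_zero_iff (hAR _ _)).2 (memI_mul_left (memR_intCast _) ?_)
      rw [hval]
      refine memI_mul_right hI (natRatio_memR hpM (hdeg _) (hK0 j) ?_)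
      have := hKv j
      have := hsv i
      omega)
    obtain ⟨η, hη, hη0⟩ := exists_height_zero (p := p) (hblk i)
    have h1 := factorization_index_le hpM η (g := x j) (fun hI => hu
      ((memI_iff_of_sub (sameBlock_of_mem (hblk i) (mem_blockOf_self _) hη (x j))).2 hI))
    have h2 := degree_eq_height hpM (hblk i) hη
    have h3 := degree_eq_height hpM (hblk i) (mem_blockOf_self (M := M) (s i))
    have h4 := hKv j
    simp only [hK] at h4
    have := hsv i
    rw [hη0] at h2
    exact ⟨by omega, by omega, j, hu⟩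
  have hgroup : ∀ i : Fin r, IsDefectGroup p M (blockOf M (s i : G → ℂ)) D := by
    intro i
    obtain ⟨hdi, -, j, hu⟩ := hdef i
    obtain ⟨E, hE⟩ := exists_isDefectGroup hpM (hblk i)
    obtain ⟨g, hg, hgE⟩ := isDefectGroup_iff.1 hE
    obtain ⟨y, hxy, hy⟩ := exists_conj_centralizing hpM (hblk i) (mem_blockOf_self _) hu hg.2.1
      hgE.2.1 (le_centralizer_singleton_iff.1 hgE.1)
    obtain ⟨c, hc⟩ := isConj_iff.1 hxy
    -- move `E` into the centralizer of `x j`
    have hle : conjSub c⁻¹ E ≤ Subgroup.centralizer ({x j} : Set G) := by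
      intro z hz
      rw [mem_conjSub, inv_inv] at hz
      rw [Subgroup.mem_centralizer_singleton_iff]
      have := Subgroup.mem_centralizer_iff.1 hy _ hz
      rw [← hc] at this
      calc z * x j = c⁻¹ * (c * z * c⁻¹ * (c * x j * c⁻¹)) * c := by group
        _ = c⁻¹ * (c * x j * c⁻¹ * (c * z * c⁻¹)) * c := by rw [this]
        _ = x j * z := by group
    set C := Subgroup.centralizer ({x j} : Set G) with hC
    have hcard : Nat.card ((conjSub c⁻¹ E).subgroupOf C) =
        p ^ (Nat.card C).factorization p := by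
      rw [Nat.card_congr (Subgroup.subgroupOfEquivOfLe hle).toEquiv, card_conjSub,
        card_defectGroup hpM (hblk i) hE, hdi, hCd j]
    obtain ⟨S₀, hS₀⟩ := hD j
    obtain ⟨m, hm⟩ := MulAction.exists_smul_eq C (Sylow.ofCard _ hcard) S₀
    have hmap : conjSub (m : G) (conjSub c⁻¹ E) = D := by
      rw [← hS₀, ← hm]
      ext z
      rw [mem_conjSub]
      simp only [Subgroup.mem_map, Sylow.coe_subgroup_smul, Sylow.coe_ofCard,
        Subgroup.mem_pointwise_smul_iff_inv_smul_mem, Subgroup.mem_subgroupOf]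
      constructor
      · intro hz
        have hzC : (m : G)⁻¹ * z * m ∈ C := hle hz
        refine ⟨⟨z, ?_⟩, ?_, rfl⟩
        · have := C.mul_mem (C.mul_mem m.2 hzC) (C.inv_mem m.2)
          simpa [mul_assoc] using this
        · simpa [MulAut.smul_def, mul_assoc] using hz
      · rintro ⟨w, hw, rfl⟩
        simpa [MulAut.smul_def, mul_assoc] using hw
    rw [← hmap]
    exact isDefectGroup_conj (isDefectGroup_conj hE _) _
  have hdet : ∀ χ : Fin r → IrrCharacter G,
      (∀ i : Fin r, χ i ∈ blockOf M (s i : G → ℂ) ∧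
        blockHeight p (blockOf M (s i : G → ℂ)) (χ i : G → ℂ) = 0) →
      ¬ MemLocalIdeal M (Matrix.det (Matrix.of fun i j : Fin r => (χ i : G → ℂ) (x j))) := by
    intro χ hχ hI
    have hentry : ∀ i j, MemLocalIdeal M ((χ i : G → ℂ) (x j) -
        ((charDegree (χ i : G → ℂ) : ℂ) / (charDegree (s i : G → ℂ) : ℂ)) *
          (s i : G → ℂ) (x j)) := by
      intro i j
      have h1 := sameBlock_of_mem (hblk i) (hχ i).1 (mem_blockOf_self _) (x j)
      have h2 : (χ i : G → ℂ) (x j) -
          ((charDegree (χ i : G → ℂ) : ℂ) / (charDegree (s i : G → ℂ) : ℂ)) *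
            (s i : G → ℂ) (x j) =
          ((charDegree (χ i : G → ℂ) : ℂ) / (K j : ℂ)) *
            (centralChar (χ i : G → ℂ) (x j) - centralChar (s i : G → ℂ) (x j)) := by
        rw [hval (χ i) j, hval (s i) j]
        have : (charDegree (s i : G → ℂ) : ℂ) ≠ 0 := Nat.cast_ne_zero.2 (hdeg _)
        field_simp
      rw [h2]
      refine memI_mul_left (natRatio_memR hpM (hdeg _) (hK0 j) ?_) h1
      have h3 := degree_eq_height hpM (hblk i) (hχ i).1
      rw [(hχ i).2, (hdef i).1] at h3
      have := hKv j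
      omega
    let Mx : Matrix (Fin r) (Fin r) (loc M) :=
      Matrix.of fun i j => ⟨(χ i : G → ℂ) (x j), mem_loc.2 (irr_memR _ _)⟩
    have hcoe : (Mx.det : ℂ) = Matrix.det (Matrix.of fun i j : Fin r => (χ i : G → ℂ) (x j)) := by
      rw [show (Mx.det : ℂ) = (loc M).subtype Mx.det from rfl, RingHom.map_det]
      rfl
    have h0 : ((Matrix.of fun i j => res M ((χ i : G → ℂ) (x j))) :
        Matrix (Fin r) (Fin r) (Res M)).det = 0 := by
      have h1 : (Matrix.of fun i j => res M ((χ i : G → ℂ) (x j))) =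
          (residue M).mapMatrix Mx := by
        funext i j
        exact res_of_mem (irr_memR _ _)
      rw [h1, ← RingHom.map_det, residue_eq_zero_iff, hcoe]
      exact hI
    have htR : ∀ i, MemLocalRing M
        ((charDegree (χ i : G → ℂ) : ℂ) / (charDegree (s i : G → ℂ) : ℂ)) := fun i => by
      refine natRatio_memR hpM (hdeg _) (hdeg _) ?_
      have h3 := degree_eq_height hpM (hblk i) (hχ i).1
      rw [(hχ i).2, (hdef i).1] at h3
      have := hsv i
      omega
    have hrow : (Matrix.of fun i j => res M ((χ i : G → ℂ) (x j))) =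
        Matrix.of fun i j => res M ((charDegree (χ i : G → ℂ) : ℂ) /
          (charDegree (s i : G → ℂ) : ℂ)) * res M ((s i : G → ℂ) (x j)) := by
      funext i j
      simp only [Matrix.of_apply]
      rw [← res_mul (htR i) (irr_memR _ _), res_eq_iff (irr_memR _ _)
        (memR_mul (htR i) (irr_memR _ _))]
      exact hentry i j
    rw [hrow] at h0
    rw [show (Matrix.of fun i j => res M ((charDegree (χ i : G → ℂ) : ℂ) /
        (charDegree (s i : G → ℂ) : ℂ)) * res M ((s i : G → ℂ) (x j))) =
        Matrix.of fun i j => (fun i => res M ((charDegree (χ i : G → ℂ) : ℂ) /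
          (charDegree (s i : G → ℂ) : ℂ))) i *
            (Matrix.of fun i j => res M ((s i : G → ℂ) (x j))) i j from rfl,
      Matrix.det_mul_column, mul_eq_zero] at h0
    rcases h0 with h0 | h0
    · obtain ⟨i, -, hi⟩ := Finset.prod_eq_zero_iff.1 h0
      rw [res_eq_zero_iff (htR i)] at hi
      have h3 := degree_eq_height hpM (hblk i) (hχ i).1
      rw [(hχ i).2, (hdef i).1] at h3
      have h4 := hsv i
      have h6 := natRatio_memR (M := M) hpM (hdeg (s i)) (hdeg (χ i)) (by omega)
      refine not_memI_one (M := M) ?_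
      convert memI_mul_right hi h6 using 1
      have : (charDegree (s i : G → ℂ) : ℂ) ≠ 0 := Nat.cast_ne_zero.2 (hdeg _)
      have : (charDegree (χ i : G → ℂ) : ℂ) ≠ 0 := Nat.cast_ne_zero.2 (hdeg _)
      field_simp
    · apply hdetA
      have : (Matrix.of fun i j => A (s i) j) = Matrix.of fun i j =>
          (fun i => res M (n (s i) : ℂ)) i *
            (Matrix.of fun i j => res M ((s i : G → ℂ) (x j))) i j := by
        funext i j
        simp only [hA, Matrix.of_apply]
        exact res_mul (memR_intCast _) (irr_memR _ _)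
      rw [this, Matrix.det_mul_column, h0, mul_zero]
  refine ⟨?_, fun i => ⟨hblk i, hgroup i⟩, hdet⟩
  intro i j hij
  by_contra hne
  let χ' : Fin r → IrrCharacter G := fun k => if k = j then s i else s k
  refine hdet χ' (fun k => ?_) ?_
  · simp only [χ']
    by_cases hk : k = j
    · subst hk
      rw [if_pos rfl]
      have hij' : blockOf M (s i : G → ℂ) = blockOf M (s k : G → ℂ) := hij
      rw [← hij']
      exact ⟨mem_blockOf_self _, (hdef i).2.1⟩
    · rw [if_neg hk]
      exact ⟨mem_blockOf_self _, (hdef k).2.1⟩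
  · rw [Matrix.det_zero_of_row_eq hne (by funext l; simp [χ', hne])]
    exact memI_zero

end Cfsg.Agent.Chars2
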