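import Cfsg.Agent.Blocks.Local
import Mathlib.Algebra.Polynomial.Taylor
import Mathlib.RingTheory.Trace.Basic
import Mathlib.RingTheory.Polynomial.Cyclotomic.Eval
import Mathlib.RingTheory.Polynomial.Cyclotomic.Roots
import Mathlib.RingTheory.RootsOfUnity.Complex
import Mathlib.Analysis.Complex.Polynomial.Basic

/-!
Sums of roots of unity of two-power order: divisibility by two and traces.
-/

set_option autoImplicit false
set_option linter.unusedSectionVars false
set_option linter.style.haveILetI false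

namespace Cfsg.Agent.Chars2

open Cfsg Cfsg.Agent Cfsg.Agent.Blocks
open Polynomial

/-- The rational part of a root of unity of two-power order. -/
noncomputable def rootSign (ρ : ℂ) : ℤ := if ρ = 1 then 1 else if ρ = -1 then -1 else 0

theorem rootSign_congr (ρ : ℂ) (h : ρ = 1 ∨ ρ = -1) : (rootSign ρ : ℂ) = ρ := by
  rcases h with rfl | rfl <;> norm_num [rootSign]

/-- The trace of a root of unity of two-power order. -/
theorem sum_embeddings_root (L : IntermediateField ℚ ℂ) [FiniteDimensional ℚ L] (ρ : L) {k : ℕ}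
    (hρ : ρ ^ 2 ^ k = 1) :
    ∑ σ : L →ₐ[ℚ] ℂ, σ ρ = (Fintype.card (L →ₐ[ℚ] ℂ) : ℂ) * (rootSign (ρ : ℂ) : ℂ) := by
  rcases eq_or_ne (ρ : ℂ) 1 with h | h
  · have : ρ = 1 := Subtype.ext (by simpa using h)
    subst this
    simp [rootSign, map_one]
  rcases eq_or_ne (ρ : ℂ) (-1) with h' | h'
  · have : ρ = -1 := Subtype.ext (by simpa using h')
    subst this
    simp [rootSign, map_neg, map_one]
    norm_num
  rw [rootSign, if_neg h, if_neg h', Int.cast_zero, mul_zero,
    ← trace_eq_sum_embeddings ℂ (K := ℚ) (x := ρ)]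
  obtain ⟨j, -, hj⟩ := (Nat.dvd_prime_pow Nat.prime_two).1 (orderOf_dvd_of_pow_eq_one hρ)
  have hj2 : 2 ≤ j := by
    rcases Nat.lt_or_ge j 2 with hlt | hge
    · exfalso
      have h2 : ρ ^ 2 = 1 := by
        rw [← orderOf_dvd_iff_pow_eq_one, hj]
        calc 2 ^ j ∣ 2 ^ 1 := pow_dvd_pow 2 (by omega)
          _ = 2 := rfl
      rcases mul_self_eq_one_iff.1 (show ρ * ρ = 1 by rw [← pow_two]; exact h2) with e | e
      · exact h (by rw [e]; simp)
      · exact h' (by rw [e]; simp)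
    · exact hge
  obtain ⟨i, rfl⟩ : ∃ i, j = i + 2 := ⟨j - 2, by omega⟩
  have hprim : IsPrimitiveRoot ρ (2 ^ (i + 2)) := by rw [← hj]; exact IsPrimitiveRoot.orderOf ρ
  have hmin : (minpoly ℚ ρ).nextCoeff = 0 := by
    rw [← Polynomial.cyclotomic_eq_minpoly_rat hprim (by positivity),
      show i + 2 = (i + 1) + 1 from rfl, cyclotomic_prime_pow_eq_geom_sum Nat.prime_two]
    simp only [Finset.sum_range_succ, Finset.sum_range_zero, zero_add, pow_zero, pow_one]
    rw [add_comm, ← C_1, nextCoeff, natDegree_X_pow_add_C, if_neg (by positivity)]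
    rw [coeff_add, coeff_X_pow, coeff_C, if_neg (by
      have : 0 < 2 ^ (i + 1) := by positivity
      omega), if_neg (by
      have : 2 ≤ 2 ^ (i + 1) := le_self_pow₀ (by norm_num) (by omega)
      omega), add_zero]
  rw [trace_eq_finrank_mul_minpoly_nextCoeff, hmin, neg_zero, mul_zero, map_zero]

variable {M : Ideal AlgInt} [M.IsMaximal]

theorem two_eq_pow_mul (h2M : ((2 : ℕ) : AlgInt) ∈ M) {K : ℕ} {ζ : ℂ}
    (hζ : IsPrimitiveRoot ζ (2 ^ (K + 1))) :
    ∃ v : ℂ, MemLocalRing M v ∧ (2 : ℂ) = (1 - ζ) ^ 2 ^ K * v := by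
  classical
  haveI : Fact (Nat.Prime 2) := ⟨Nat.prime_two⟩
  have hR : MemLocalRing M ζ := memR_of_isIntegral (hζ.isIntegral (by positivity))
  have h := congrArg (Polynomial.eval (1 : ℂ)) (cyclotomic_eq_prod_X_sub_primitiveRoots hζ)
  rw [eval_one_cyclotomic_prime_pow, eval_prod] at h
  simp only [eval_sub, eval_X, eval_C] at h
  have hdiv : ∀ μ ∈ primitiveRoots (2 ^ (K + 1)) ℂ,
      ∃ v : ℂ, MemLocalRing M v ∧ 1 - μ = (1 - ζ) * v := by
    intro μ hμ
    rw [mem_primitiveRoots (by positivity)] at hμ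
    obtain ⟨a, -, rfl⟩ := hζ.eq_pow_of_pow_eq_one hμ.pow_eq_one
    exact ⟨∑ i ∈ Finset.range a, ζ ^ i, memR_sum _ _ fun i _ => memR_pow hR i,
      (mul_neg_geom_sum ζ a).symm⟩
  choose! v hv hvμ using hdiv
  refine ⟨∏ μ ∈ primitiveRoots (2 ^ (K + 1)) ℂ, v μ, memR_prod _ _ hv, ?_⟩
  have hcard : (primitiveRoots (2 ^ (K + 1)) ℂ).card = 2 ^ K := by
    rw [hζ.card_primitiveRoots, Nat.totient_prime_pow_succ Nat.prime_two]
    simp
  rw [← hcard, ← Finset.prod_const, ← Finset.prod_mul_distrib, ← Finset.prod_congr rfl hvμ, ← h]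
  norm_num

/-- A combination of low powers of a root of unity divisible by two has even coefficients. -/
theorem exists_half (h2M : ((2 : ℕ) : AlgInt) ∈ M) {K : ℕ} {ζ : ℂ}
    (hζ : IsPrimitiveRoot ζ (2 ^ (K + 1))) (f : ℤ[X]) (hf : f.natDegree < 2 ^ K)
    (hx : MemLocalRing M (aeval ζ f / 2)) : ∃ g : ℤ[X], f = C 2 * g ∧ g.natDegree < 2 ^ K := by
  classical
  haveI : Fact (Nat.Prime 2) := ⟨Nat.prime_two⟩
  have hpow : ζ ^ 2 ^ (K + 1) = 1 := hζ.pow_eq_one
  have hR : MemLocalRing M ζ := memR_of_isIntegral (hζ.isIntegral (by positivity))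
  set π : ℂ := ζ - 1 with hπ
  have hπR : MemLocalRing M π := memR_sub hR memR_one
  have hπI : MemLocalIdeal M π := root_congr_one h2M hpow
  have hπ0 : π ≠ 0 := sub_ne_zero.2 (hζ.ne_one (Nat.one_lt_two_pow (by omega)))
  obtain ⟨v, hvR, hv⟩ := two_eq_pow_mul h2M hζ
  obtain ⟨v', hvR', hv'⟩ : ∃ v' : ℂ, MemLocalRing M v' ∧ (2 : ℂ) = π ^ 2 ^ K * v' := by
    refine ⟨(-1) ^ 2 ^ K * v, memR_mul (memR_pow (memR_neg memR_one) _) hvR, ?_⟩
    rw [hv, ← mul_assoc, ← mul_pow, hπ]; congr 2; ring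
  set e := taylor 1 f with he
  have hedeg : e.natDegree < 2 ^ K := by rw [he, natDegree_taylor]; exact hf
  have heval : aeval ζ f = ∑ i ∈ Finset.range (2 ^ K), (e.coeff i : ℂ) * π ^ i := by
    have h1 : aeval ζ f = aeval π e := by
      have hm : (taylor 1 f).map (Int.castRingHom ℂ) = taylor 1 (f.map (Int.castRingHom ℂ)) := by
        simp [taylor_apply, Polynomial.map_comp]
      rw [aeval_def, aeval_def, algebraMap_int_eq, ← eval_map, ← eval_map, he, hm, taylor_eval, hπ,
        sub_add_cancel]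
    rw [h1, aeval_eq_sum_range' hedeg]
    simp [zsmul_eq_mul]
  have heven : ∀ j, 2 ∣ e.coeff j := by
    intro j
    induction j using Nat.strong_induction_on with
    | _ j ih =>
      by_cases hjm : 2 ^ K ≤ j
      · rw [coeff_eq_zero_of_natDegree_lt (by omega)]; exact dvd_zero _
      push Not at hjm
      refine (memI_intCast_iff (p := 2) (M := M) h2M _).1 ?_
      obtain ⟨t, ht⟩ : ∃ t, 2 ^ K = j + 1 + t := ⟨2 ^ K - (j + 1), by omega⟩
      have hsplit : ∀ i ∈ (Finset.range (2 ^ K)).erase j,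
          ∃ r, MemLocalRing M r ∧ (e.coeff i : ℂ) * π ^ i = π ^ (j + 1) * r := by
        intro i hi
        rw [Finset.mem_erase] at hi
        rcases Nat.lt_or_gt_of_ne hi.1 with h | h
        · obtain ⟨c, hc⟩ := ih i h
          refine ⟨π ^ t * (v' * c * π ^ i), memR_mul (memR_pow hπR _)
            (memR_mul (memR_mul hvR' (memR_intCast _)) (memR_pow hπR _)), ?_⟩
          rw [hc, Int.cast_mul, Int.cast_ofNat, hv', ht, pow_add]
          ring
        · obtain ⟨s, rfl⟩ : ∃ s, i = j + 1 + s := ⟨i - (j + 1), by omega⟩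
          exact ⟨(e.coeff (j + 1 + s) : ℂ) * π ^ s, memR_mul (memR_intCast _) (memR_pow hπR _),
            by rw [pow_add]; ring⟩
      choose! r hr hri using hsplit
      have hkey : (e.coeff j : ℂ) = π * (π ^ t * (v' * (aeval ζ f / 2)) -
          ∑ i ∈ (Finset.range (2 ^ K)).erase j, r i) := by
        apply mul_right_cancel₀ (pow_ne_zero j hπ0)
        have h1 : (e.coeff j : ℂ) * π ^ j =
            aeval ζ f - ∑ i ∈ (Finset.range (2 ^ K)).erase j, π ^ (j + 1) * r i := by
          rw [heval, ← Finset.add_sum_erase _ _ (Finset.mem_range.2 hjm),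
            Finset.sum_congr rfl hri, add_sub_cancel_right]
        rw [h1, ← Finset.mul_sum]
        have h2 : aeval ζ f = π ^ (j + 1) * π ^ t * v' * (aeval ζ f / 2) := by
          rw [← pow_add, ← ht, ← hv']; ring
        conv_lhs => rw [h2]
        ring
      rw [hkey]
      exact memI_mul_right hπI (memR_sub (memR_mul (memR_pow hπR _) (memR_mul hvR' hx))
        (memR_sum _ _ hr))
  obtain ⟨e', he'⟩ := (C_dvd_iff_dvd_coeff (2 : ℤ) e).2 heven
  refine ⟨taylor (-1) e', ?_, ?_⟩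
  · have h1 : taylor (-1) e = f := by rw [he, taylor_taylor]; simp [taylor_zero]
    rw [← h1, he', taylor_mul, taylor_C]
  · rw [natDegree_taylor]
    have : e.natDegree = e'.natDegree := by rw [he', natDegree_C_mul (by norm_num)]
    omega

theorem exists_div_pow (h2M : ((2 : ℕ) : AlgInt) ∈ M) {K : ℕ} {ζ : ℂ}
    (hζ : IsPrimitiveRoot ζ (2 ^ (K + 1))) : ∀ (h : ℕ) (f : ℤ[X]), f.natDegree < 2 ^ K →
      MemLocalRing M (aeval ζ f / 2 ^ h) → ∃ g : ℤ[X], f = C (2 ^ h : ℤ) * g := by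
  intro h
  induction h with
  | zero => intro f _ _; exact ⟨f, by simp⟩
  | succ h ih =>
    intro f hf hx
    have h2 : MemLocalRing M (aeval ζ f / 2) := by
      have := memR_mul hx (memR_pow (memR_natCast (M := M) 2) h)
      convert this using 1
      rw [pow_succ]
      push_cast
      field_simp
    obtain ⟨g, rfl, hg⟩ := exists_half h2M hζ f hf h2
    obtain ⟨g', hg'⟩ := ih g hg (by
      convert hx using 1
      rw [map_mul, aeval_C, pow_succ]
      simp only [algebraMap_int_eq, eq_intCast, Int.cast_ofNat]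
      field_simp)
    exact ⟨g', by rw [hg', ← mul_assoc, ← map_mul, pow_succ']⟩

/-- A symmetric combination of roots of unity of two-power order divisible by `2 ^ h`. -/
theorem two_pow_sum (h2M : ((2 : ℕ) : AlgInt) ∈ M) {ι : Type*} (s : Finset ι) (w : ι → ℤ)
    (ρ : ι → ℂ) {k : ℕ} (hρ : ∀ i ∈ s, ρ i ^ 2 ^ k = 1) {h : ℕ}
    (hx : MemLocalRing M ((∑ i ∈ s, (w i : ℂ) * ρ i) / 2 ^ h)) :
    ∃ y : ℂ, IsIntegral ℤ y ∧ (∑ i ∈ s, (w i : ℂ) * ρ i) = 2 ^ h * y ∧
      ∀ τ : ι → ι, (∀ i ∈ s, τ i ∈ s) → (∀ i ∈ s, τ (τ i) = i) → (∀ i ∈ s, w (τ i) = w i) →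
        (∀ i ∈ s, ρ (τ i) * ρ i = 1) →
        ∃ z : ℤ, (∑ i ∈ s, w i * rootSign (ρ i)) = 2 ^ h * z ∧ MemLocalIdeal M (y - z) := by
  classical
  haveI : Fact (Nat.Prime 2) := ⟨Nat.prime_two⟩
  have hn : (2 : ℕ) ^ (k + 1) ≠ 0 := by positivity
  haveI : NeZero ((2 : ℕ) ^ (k + 1)) := ⟨hn⟩
  obtain ⟨ζ, hζ⟩ : ∃ ζ : ℂ, IsPrimitiveRoot ζ (2 ^ (k + 1)) :=
    ⟨_, Complex.isPrimitiveRoot_exp _ hn⟩
  set m := 2 ^ k with hm
  have h2m : 2 ^ (k + 1) = 2 * m := by rw [hm, pow_succ]; ring
  have hm0 : 0 < m := by positivity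
  have hex : ∀ i ∈ s, ∃ e, e < 2 * m ∧ ζ ^ e = ρ i := by
    intro i hi
    obtain ⟨e, he, he'⟩ := hζ.eq_pow_of_pow_eq_one (ξ := ρ i) (by
      rw [pow_succ, pow_mul, hρ i hi, one_pow])
    exact ⟨e, h2m ▸ he, he'⟩
  choose! e he hee using hex
  have hζm : ζ ^ m = -1 := by
    have h1 : ζ ^ m * ζ ^ m = 1 := by rw [← pow_add, ← two_mul, ← h2m, hζ.pow_eq_one]
    exact (mul_self_eq_one_iff.1 h1).resolve_left
      (hζ.pow_ne_one_of_pos_of_lt hm0.ne' (by omega))
  set sgn : ι → ℤ := fun i => if e i < m then 1 else -1 with hsgn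
  have hterm : ∀ i ∈ s, (sgn i : ℂ) * ζ ^ (e i % m) = ρ i := by
    intro i hi
    rw [hsgn, ← hee i hi]
    beta_reduce
    split_ifs with h1
    · rw [Nat.mod_eq_of_lt h1, Int.cast_one, one_mul]
    · have h2 : e i % m = e i - m := by
        rw [Nat.mod_eq_sub_mod (by omega), Nat.mod_eq_of_lt (by have := he i hi; omega)]
      have h3 : ζ ^ e i = ζ ^ (e i - m) * ζ ^ m := by rw [← pow_add]; congr 1; omega
      rw [h2, h3, hζm]; push_cast; ring
  set f : ℤ[X] := ∑ i ∈ s, C (w i * sgn i) * X ^ (e i % m) with hf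
  have hfdeg : f.natDegree < m := by
    refine lt_of_le_of_lt (natDegree_sum_le_of_forall_le _ _ (n := m - 1) fun i _ => ?_) (by omega)
    refine (natDegree_C_mul_X_pow_le _ _).trans ?_
    have := Nat.mod_lt (e i) hm0
    omega
  have hfx : aeval ζ f = ∑ i ∈ s, (w i : ℂ) * ρ i := by
    rw [hf, map_sum]
    refine Finset.sum_congr rfl fun i hi => ?_
    rw [map_mul, aeval_C, map_pow, aeval_X, ← hterm i hi]
    simp only [algebraMap_int_eq, eq_intCast, Int.cast_mul]
    ring
  obtain ⟨g, hg⟩ := exists_div_pow h2M hζ h f hfdeg (by rwa [hfx])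
  refine ⟨aeval ζ g, ?_, ?_, fun τ hτ hττ hτw hτρ => ?_⟩
  · rw [aeval_eq_sum_range]
    refine IsIntegral.sum _ fun i _ => ?_
    exact ((hζ.isIntegral (Nat.pos_of_ne_zero hn)).pow i).smul _
  · rw [← hfx, hg, map_mul, aeval_C]
    simp
  · have hf1 : f.eval 1 = ∑ i ∈ s, w i * rootSign (ρ i) := by
      rw [hf, eval_finsetSum]
      simp only [eval_mul, eval_C, eval_pow, eval_X, one_pow, mul_one]
      have hanti : ∀ i ∈ s, sgn (τ i) - rootSign (ρ (τ i)) = -(sgn i - rootSign (ρ i)) := by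
        intro i hi
        have hi' := hτ i hi
        have hprod : ζ ^ (e (τ i) + e i) = 1 := by
          rw [pow_add, hee _ hi', hee i hi]; exact hτρ i hi
        have hdvd := (hζ.pow_eq_one_iff_dvd _).1 hprod
        rw [h2m] at hdvd
        have b1 := he i hi
        have b2 := he _ hi'
        have hcases : (e i = 0 ∧ e (τ i) = 0) ∨ (0 < e i ∧ e (τ i) + e i = 2 * m) := by
          obtain ⟨c, hc⟩ := hdvd
          have hc2 : c < 2 := by
            by_contra hcc
            have : 2 * m * 2 ≤ 2 * m * c := Nat.mul_le_mul_left _ (Nat.le_of_not_lt hcc)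
            omega
          interval_cases c <;> omega
        have hval : ∀ j ∈ s, rootSign (ρ j) = if e j = 0 then 1 else if e j = m then -1 else 0 := by
          intro j hj
          have bj := he j hj
          have i1 : ρ j = 1 ↔ e j = 0 := by
            rw [← hee j hj, ← pow_zero ζ]
            exact ⟨fun h => hζ.pow_inj (by omega) (by omega) h, fun h => by rw [h]⟩
          have i2 : ρ j = -1 ↔ e j = m := by
            rw [← hee j hj, ← hζm]
            exact ⟨fun h => hζ.pow_inj (by omega) (by omega) h, fun h => by rw [h]⟩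
          simp only [rootSign, i1, i2]
        rw [hval i hi, hval _ hi', hsgn]
        beta_reduce
        rcases hcases with ⟨c1, c2⟩ | ⟨c1, c2⟩
        · simp [c1, c2, hm0]
        · split_ifs <;> omega
      have hzero : ∑ i ∈ s, w i * (sgn i - rootSign (ρ i)) = 0 := by
        have h1 : ∑ i ∈ s, w i * (sgn i - rootSign (ρ i)) =
            ∑ i ∈ s, -(w i * (sgn i - rootSign (ρ i))) := by
          refine Finset.sum_nbij' τ τ hτ hτ hττ hττ fun i hi => ?_
          rw [hτw i hi, hanti i hi]; ring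
        rw [Finset.sum_neg_distrib] at h1
        omega
      simp only [mul_sub, Finset.sum_sub_distrib, sub_eq_zero] at hzero
      exact hzero
    refine ⟨g.eval 1, by rw [← hf1, hg, eval_mul, eval_C], ?_⟩
    have e1 : ((g.eval 1 : ℤ) : ℂ) = aeval (1 : ℂ) g := by
      rw [aeval_def, eval₂_at_one, algebraMap_int_eq]; rfl
    rw [e1, aeval_eq_sum_range, aeval_eq_sum_range, ← Finset.sum_sub_distrib]
    refine memI_sum _ _ fun i _ => ?_
    rw [← smul_sub, zsmul_eq_mul]
    refine memI_mul_left (memR_intCast _) ?_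
    rw [one_pow]
    exact root_congr_one h2M (k := k + 1) (by rw [pow_right_comm, hζ.pow_eq_one, one_pow])

end Cfsg.Agent.Chars2
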