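import Cfsg.Agent.Chars2.SectionOmega
import Cfsg.Agent.Chars2.TwoPowerRoots

/-!
The diagonal of the contributions of a subsection of a `2`-block.
-/

set_option autoImplicit false
set_option linter.unusedSectionVars false
set_option linter.style.haveILetI false
set_option maxHeartbeats 1000000

namespace Cfsg.Agent.Chars2

open Cfsg Cfsg.Agent Cfsg.Agent.Blocks Cfsg.Agent.BlockChar
open scoped ComplexConjugate

universe u

/-- Algebraic integers of mean square absolute value at least one. -/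
theorem card_embeddings_le (L : IntermediateField ℚ ℂ) [FiniteDimensional ℚ L] (x : L)
    (hx : x ≠ 0) (hint : IsIntegral ℤ (x : ℂ)) :
    (Fintype.card (L →ₐ[ℚ] ℂ) : ℝ) ≤ ∑ σ : L →ₐ[ℚ] ℂ, ‖σ x‖ ^ 2 := by
  classical
  have hxi : IsIntegral ℤ x :=
    (isIntegral_algebraMap_iff (B := ℂ) (algebraMap L ℂ).injective).1 hint
  obtain ⟨z, hz⟩ := IsIntegrallyClosed.isIntegral_iff.mp (Algebra.isIntegral_norm ℚ hxi)
  have hz0 : z ≠ 0 := by
    rintro rfl
    rw [map_zero] at hz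
    exact hx (Algebra.norm_eq_zero_iff.1 hz.symm)
  have hprod := Algebra.norm_eq_prod_embeddings ℚ ℂ x
  rw [← hz] at hprod
  have hn : (1 : ℝ) ≤ ∏ σ : L →ₐ[ℚ] ℂ, ‖σ x‖ := by
    rw [← norm_prod, ← hprod]
    simp only [algebraMap_int_eq, eq_intCast, map_intCast, Complex.norm_intCast]
    exact_mod_cast Int.one_le_abs hz0
  have hpos : ∀ σ : L →ₐ[ℚ] ℂ, 0 < ‖σ x‖ ^ 2 := fun σ =>
    pow_pos (norm_pos_iff.2 fun h => hx ((map_eq_zero σ).1 h)) 2
  have hlog : 0 ≤ ∑ σ : L →ₐ[ℚ] ℂ, Real.log (‖σ x‖ ^ 2) := by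
    rw [← Real.log_prod fun σ _ => (hpos σ).ne', Finset.prod_pow]
    exact Real.log_nonneg (one_le_pow₀ hn)
  have h1 : ∑ σ : L →ₐ[ℚ] ℂ, Real.log (‖σ x‖ ^ 2) ≤
      ∑ σ : L →ₐ[ℚ] ℂ, (‖σ x‖ ^ 2 - 1) :=
    Finset.sum_le_sum fun σ _ => Real.log_le_sub_one_of_pos (hpos σ)
  rw [Finset.sum_sub_distrib, Finset.sum_const, nsmul_eq_mul, mul_one, Finset.card_univ] at h1
  linarith

variable {G : Type u} [Group G] [Fintype G] {M : Ideal AlgInt} [M.IsMaximal]
  {y : G} {H : Subgroup G} [Fintype H]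

/-- The diagonal contributions of a `2`-subsection. -/
theorem subsection_data (h2M : ((2 : ℕ) : AlgInt) ∈ M) {B : Set (IrrCharacter G)}
    (hH : H = Subgroup.centralizer ({y} : Set G)) (hy : ∃ k : ℕ, orderOf y = 2 ^ k)
    {b : Set (IrrCharacter H)} (hind : IsInducedBlock M H b B) :
    ∃ T : IrrCharacter G → ℤ,
      ∑ χ ∈ bf B, T χ = ((2 ^ blockDefect 2 b * blockRank 2 b : ℕ) : ℤ) ∧
      (∀ χ ∈ B, 0 ≤ T χ) ∧
      (∀ η ∈ B, blockHeight 2 B (η : G → ℂ) = 0 → Odd (T η) ∧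
        T η ^ 2 + (((bf B).filter fun ψ : IrrCharacter G => blockHeight 2 B (ψ : G → ℂ) = 0).card : ℤ) - 1 ≤
          2 ^ blockDefect 2 b * T η) ∧
      (blockDefect 2 b = blockDefect 2 B →
        (∀ η ∈ B, blockHeight 2 B (η : G → ℂ) = 0 →
          T η ^ 2 + ∑ ψ ∈ (bf B).filter (· ≠ η), (4 : ℤ) ^ blockHeight 2 B (ψ : G → ℂ) ≤
            2 ^ blockDefect 2 b * T η) ∧
        ∀ χ ∈ B, blockHeight 2 B (χ : G → ℂ) ≠ 0 →
          (2 : ℤ) ^ (blockHeight 2 B (χ : G → ℂ) + 1) ∣ T χ ∧ 0 < T χ ∧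
            T χ < 2 ^ blockDefect 2 b) := by
  classical
  haveI : Fact (Nat.Prime 2) := ⟨Nat.prime_two⟩
  have hu := hy
  obtain ⟨k, hk⟩ := hy
  have hyH : y ∈ H := hH ▸ Subgroup.mem_centralizer_singleton_iff.2 rfl
  have hyk : (⟨y, hyH⟩ : H) ^ 2 ^ k = 1 := Subtype.ext (by
    show y ^ 2 ^ k = 1
    rw [← hk]; exact pow_orderOf_eq_one y)
  have hc : ∀ c : H, (⟨y, hyH⟩ : H) * c = c * ⟨y, hyH⟩ := fun c =>
    Subtype.ext (commute_sec hH c).eq
  choose ζ hζk hζ using fun φ : IrrCharacter H => exists_central_scalar (p := 2) h2M hyk hc φ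
  have hres : ∀ χ : IrrCharacter G, IsCharacter H (fun h : H => (χ : G → ℂ) h) := fun χ =>
    Chars.isCharacter_restrict (Chars.irr_isCharacter χ) H
  choose n hn using fun (χ : IrrCharacter G) (φ : IrrCharacter H) =>
    Chars.exists_classInner_eq_nat (hres χ) (Chars.irr_isCharacter φ)
  have hp0 : (2 : ℕ) ^ k ≠ 0 := pow_ne_zero _ two_ne_zero
  have hζ0 : ∀ φ, ζ φ ≠ 0 := fun φ h => by simpa [h, zero_pow hp0] using hζk φ
  have ha : ∀ (χ : IrrCharacter G) (φ : IrrCharacter H),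
      classInner (fun c : H => (χ : G → ℂ) (y * (c : G))) (φ : H → ℂ) = (n χ φ : ℂ) * ζ φ := by
    intro χ φ
    rw [← hn χ φ, Chars.classInner_def, Chars.classInner_def, mul_assoc, Finset.sum_mul]
    congr 1
    refine Fintype.sum_equiv (Equiv.mulLeft (⟨y, hyH⟩ : H)) _ _ fun c => ?_
    show (χ : G → ℂ) (y * (c : G)) * conj ((φ : H → ℂ) c) =
      (χ : G → ℂ) (y * (c : G)) * conj ((φ : H → ℂ) ((⟨y, hyH⟩ : H) * c)) * ζ φ
    rw [hζ φ, map_mul, ← Complex.inv_eq_conj (Complex.norm_eq_one_of_pow_eq_one (hζk φ) hp0)]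
    field_simp [hζ0 φ]
  have hsec : ∀ (χ : IrrCharacter G) (s : H), secPart y b χ s =
      ∑ φ ∈ bf b, (n χ φ : ℂ) * ζ φ * (φ : H → ℂ) s := fun χ s => by
    rw [secPart_expand]
    exact Finset.sum_congr rfl fun φ _ => by rw [ha χ φ]
  obtain ⟨A, hA, hsym, -, -⟩ := exists_contribution h2M hind.1
  set d := blockDefect 2 b with hd
  have hNH : (Nat.card H : ℂ) ≠ 0 := Chars.card_ne_zero
  let Q : IrrCharacter G → IrrCharacter G → ℂ := fun χ ψ =>
    ∑ φ ∈ bf b, ∑ φ' ∈ bf b, (n χ φ : ℂ) * n ψ φ' * A φ φ' * (ζ φ * (ζ φ')⁻¹)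
  have hQ : ∀ χ ψ, Q χ ψ = (2 : ℂ) ^ d * ((Nat.card H : ℂ)⁻¹ *
      ∑ s ∈ regs 2 H, secPart y b χ s * conj (secPart y b ψ s)) := by
    intro χ ψ
    simp only [hsec, map_sum, map_mul, map_natCast,
      ← fun φ => Complex.inv_eq_conj (Complex.norm_eq_one_of_pow_eq_one (hζk φ) hp0)]
    simp only [Q, Finset.mul_sum, Finset.sum_mul]
    rw [Finset.sum_comm_cycle]
    refine Finset.sum_congr rfl fun φ hφ => ?_
    rw [Finset.sum_comm]
    refine Finset.sum_congr rfl fun φ' _ => ?_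
    rw [hA φ (mem_bf.1 hφ), regInner]
    simp only [Finset.mul_sum, Finset.sum_mul]
    exact Finset.sum_congr rfl fun s _ => by push_cast; ring
  -- a row of the matrix
  have hrow : ∀ χ : IrrCharacter G, ∑ ψ ∈ bf B, Q χ ψ * Q ψ χ = (2 : ℂ) ^ d * Q χ χ := by
    intro χ
    calc _ = ((2 : ℂ) ^ d * (Nat.card H : ℂ)⁻¹) ^ 2 * ∑ s ∈ regs 2 H, ∑ t ∈ regs 2 H,
          secPart y b χ s * conj (secPart y b χ t) *
          (∑ ψ ∈ bf B, secPart y b ψ t * conj (secPart y b ψ s)) := by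
          simp only [hQ, Finset.mul_sum, Finset.sum_mul]
          conv_lhs => rw [Finset.sum_comm]; enter [2, a]; rw [Finset.sum_comm]
          rw [Finset.sum_comm]
          refine Finset.sum_congr rfl fun s _ => ?_
          refine Finset.sum_congr rfl fun t _ => Finset.sum_congr rfl fun ψ _ => by ring
      _ = ((2 : ℂ) ^ d * (Nat.card H : ℂ)⁻¹) ^ 2 * ∑ s ∈ regs 2 H,
          secPart y b χ s * ((Nat.card H : ℂ) * conj (secPart y b χ s)) := by
          congr 1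
          refine Finset.sum_congr rfl fun s hs => ?_
          have e : ∑ t ∈ regs 2 H, conj (secPart y b χ t) * kerB b t s =
              (Nat.card H : ℂ) * conj (secPart y b χ s) := by
            simp only [hsec, map_sum, map_mul, map_natCast, kerB, Finset.mul_sum, Finset.sum_mul]
            rw [Finset.sum_comm_cycle]
            refine Finset.sum_congr rfl fun φ hφ => ?_
            have h1 := congrArg conj (sum_regInner_bf h2M hind.1 (mem_bf.1 hφ) (mem_regs.1 hs))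
            simp only [map_sum, map_mul, regInner_conj] at h1
            rw [← h1]
            simp only [Finset.mul_sum, regInner, Finset.sum_mul]
            rw [Finset.sum_comm]
            refine Finset.sum_congr rfl fun φ' _ => Finset.sum_congr rfl fun t _ => ?_
            field_simp
          rw [← e, Finset.mul_sum]
          refine Finset.sum_congr rfl fun t ht => ?_
          rw [sum_sec_block hH hu h2M hind hind.1 (mem_regs.1 ht) (mem_regs.1 hs), if_pos rfl]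
          ring
      _ = _ := by
          rw [hQ, Finset.mul_sum, Finset.mul_sum, Finset.mul_sum, Finset.mul_sum]
          refine Finset.sum_congr rfl fun s _ => ?_
          field_simp
  have htr : ∑ χ ∈ bf B, Q χ χ = ((2 ^ d * blockRank 2 b : ℕ) : ℂ) := by
    simp only [hQ, ← Finset.mul_sum]
    rw [sum_sec_norm hH hu h2M hind]
    push_cast
    field_simp
  obtain ⟨η, hη, hη0, r, hrR, hrη, hcongr, hrel⟩ := exists_congr_rank_one h2M hind.1 hA hsym
  set κ : IrrCharacter H → ℂ := fun φ => omega (η : H → ℂ) (regConj 2 (φ : H → ℂ)) with hκ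
  have hκR : ∀ φ, MemLocalRing M (κ φ) := fun φ =>
    omega_memR h2M η.2 (isClassFunction_regConj (Chars.isClassFunction_irr φ)) (rFun_regConj φ)
  have hpM := h2M
  have hD : ∀ χ ∈ B, blockHeight 2 B (χ : G → ℂ) = 0 → ¬ MemLocalIdeal M (∑ φ ∈ bf b, (n χ φ : ℂ) * κ φ) := by
    intro χ hχ hχ0 hI
    refine not_memI_omega_regConj hpM hind.2.1 hχ hχ0 hχ
      ((memI_iff_of_sub (isInducedBlock_apply H hpM hind hη hχ
        (isClassFunction_regConj (Chars.isClassFunction_irr χ)) (rFun_regConj χ))).1 ?_)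
    have hsum : resFun H (regConj 2 (χ : G → ℂ)) =
        ∑ φ : IrrCharacter H, (n χ φ : ℂ) • regConj 2 (φ : H → ℂ) := by
      funext c
      rw [resFun_regConj, Finset.sum_apply]
      have h2 : (χ : G → ℂ) c = ∑ φ : IrrCharacter H, (n χ φ : ℂ) * (φ : H → ℂ) c := by
        refine (congrFun (Chars.eq_sum_classInner
          (Chars.isClassFunction_of_isCharacter (hres χ))) c).trans ?_
        rw [Finset.sum_apply]
        exact Finset.sum_congr rfl fun φ _ => by rw [hn χ φ]; rfl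
      simp only [regConj_apply, resFun, Pi.smul_apply, smul_eq_mul]
      split_ifs
      · simp
      · rw [h2, map_sum]
        exact Finset.sum_congr rfl fun φ _ => by rw [map_mul, map_natCast]
    rw [hsum, omega_sum]
    simp only [omega_smul]
    rw [← Finset.sum_subset (Finset.subset_univ (bf b)) fun φ _ hφ => by
      rw [omega_regConj_of_not_sameBlock hpM
        (fun h => hφ (mem_bf.2 (mem_of_sameBlock hind.1 hη h))), mul_zero]]
    exact hI
  have hQI : ∀ χ ∈ B, ∀ ψ ∈ B, blockHeight 2 B (χ : G → ℂ) = 0 →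
      blockHeight 2 B (ψ : G → ℂ) = 0 → ¬ MemLocalIdeal M (Q χ ψ) := by
    intro χ hχ ψ hψ hχ0 hψ0 hI
    set C : ℂ := ∑ φ ∈ bf b, (n χ φ : ℂ) * r φ with hC
    set D : ℂ := ∑ φ ∈ bf b, (n ψ φ : ℂ) * κ φ
    have hCR : MemLocalRing M C := memR_sum _ _ fun φ hφ =>
      memR_mul (memR_natCast _) (hrR φ (mem_bf.1 hφ))
    have hdiff : MemLocalIdeal M (Q χ ψ - C * D) := by
      simp only [Q, C, D, Finset.sum_mul_sum, ← Finset.sum_sub_distrib]
      refine memI_sum _ _ fun φ hφ => memI_sum _ _ fun φ' hφ' => ?_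
      have hz : (ζ φ * (ζ φ')⁻¹) ^ 2 ^ k = 1 := by rw [mul_pow, inv_pow, hζk, hζk, inv_one, one_mul]
      have he := memI_add
        (memI_mul_left (memR_mul (memR_natCast (M := M) (n χ φ)) (memR_natCast (n ψ φ')))
          (hcongr φ (mem_bf.1 hφ) φ' (mem_bf.1 hφ')))
        (memI_mul_left (memR_mul (memR_mul (memR_natCast (M := M) (n χ φ))
          (memR_natCast (n ψ φ'))) (memR_intCast (A φ φ'))) (root_congr_one hpM hz))
      convert he using 1
      ring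
    rcases memI_or_of_mul hCR (memR_sum _ _ fun φ _ => memR_mul (memR_natCast _) (hκR φ))
      ((memI_iff_of_sub hdiff).1 hI) with h | h
    · have h' : MemLocalIdeal M (r η * ∑ φ ∈ bf b, (n χ φ : ℂ) * κ φ - C * κ η) := by
        simp only [C, Finset.mul_sum, Finset.sum_mul, ← Finset.sum_sub_distrib]
        refine memI_sum _ _ fun φ hφ => ?_
        have he := memI_neg (memI_mul_left (memR_natCast (M := M) (n χ φ))
          (hrel φ (mem_bf.1 hφ)))
        convert he using 1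
        ring
      rcases memI_or_of_mul (hrR η hη) (memR_sum _ _ fun φ _ => memR_mul (memR_natCast _) (hκR φ))
        ((memI_iff_of_sub h').2 (memI_mul_right h (hκR η))) with h1 | h1
      · exact hrη h1
      · exact hD χ hχ hχ0 h1
    · exact hD ψ hψ hψ0 h
  have hρ : ∀ i : IrrCharacter H × IrrCharacter H, (ζ i.1 * (ζ i.2)⁻¹) ^ 2 ^ k = 1 := fun i => by
    rw [mul_pow, inv_pow, hζk, hζk, inv_one, one_mul]
  -- the congruence of transposed entries
  have hswap : ∀ χ ψ, MemLocalIdeal M (Q χ ψ - Q ψ χ) := by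
    intro χ ψ
    have e : ∀ χ ψ, MemLocalIdeal M (Q χ ψ -
        ∑ φ ∈ bf b, ∑ φ' ∈ bf b, (n χ φ : ℂ) * n ψ φ' * A φ φ') := fun χ ψ => by
      simp only [Q, ← Finset.sum_sub_distrib]
      refine memI_sum _ _ fun φ _ => memI_sum _ _ fun φ' _ => ?_
      have := memI_mul_left (memR_mul (memR_mul (memR_natCast (M := M) (n χ φ))
        (memR_natCast (n ψ φ'))) (memR_intCast (A φ φ'))) (root_congr_one h2M (hρ (φ, φ')))
      convert this using 1
      ring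
    have e2 : ∑ φ ∈ bf b, ∑ φ' ∈ bf b, (n χ φ : ℂ) * n ψ φ' * A φ φ' =
        ∑ φ ∈ bf b, ∑ φ' ∈ bf b, (n ψ φ : ℂ) * n χ φ' * A φ φ' := by
      rw [Finset.sum_comm]
      refine Finset.sum_congr rfl fun φ hφ => Finset.sum_congr rfl fun φ' hφ' => ?_
      rw [hsym φ' (mem_bf.1 hφ') φ (mem_bf.1 hφ)]; ring
    have := memI_sub (e χ ψ) (e ψ χ)
    rw [e2] at this
    convert this using 1
    ring
  let wt : IrrCharacter G → IrrCharacter G → IrrCharacter H × IrrCharacter H → ℤ :=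
    fun χ ψ i => (n χ i.1 : ℤ) * n ψ i.2 * A i.1 i.2
  have hQs : ∀ χ ψ, Q χ ψ = ∑ i ∈ bf b ×ˢ bf b, (wt χ ψ i : ℂ) * (ζ i.1 * (ζ i.2)⁻¹) := by
    intro χ ψ
    rw [Finset.sum_product]
    refine Finset.sum_congr rfl fun φ _ => Finset.sum_congr rfl fun φ' _ => ?_
    simp only [wt]; push_cast; ring
  have hdivQ : ∀ (χ ψ : IrrCharacter G) (h : ℕ), MemLocalRing M (Q χ ψ / 2 ^ h) →
      ∃ z : ℂ, IsIntegral ℤ z ∧ Q χ ψ = 2 ^ h * z := fun χ ψ h hh => by
    obtain ⟨z, h1, h2, -⟩ := two_pow_sum h2M (bf b ×ˢ bf b) (wt χ ψ) _ (fun i _ => hρ i)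
      (h := h) (by rwa [← hQs])
    exact ⟨z, h1, by rw [hQs]; exact h2⟩
  set T : IrrCharacter G → ℤ := fun χ =>
    ∑ i ∈ bf b ×ˢ bf b, wt χ χ i * rootSign (ζ i.1 * (ζ i.2)⁻¹) with hT
  have hTdiv : ∀ (χ : IrrCharacter G) (h : ℕ), MemLocalRing M (Q χ χ / 2 ^ h) →
      ∃ z : ℤ, T χ = 2 ^ h * z ∧ MemLocalIdeal M (Q χ χ / 2 ^ h - z) := fun χ h hh => by
    obtain ⟨z, -, h2, h3⟩ := two_pow_sum h2M (bf b ×ˢ bf b) (wt χ χ) _ (fun i _ => hρ i)
      (h := h) (by rwa [← hQs])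
    obtain ⟨z', h4, h5⟩ := h3 Prod.swap
      (fun i hi => Finset.mem_product.2 ⟨(Finset.mem_product.1 hi).2, (Finset.mem_product.1 hi).1⟩)
      (fun i _ => Prod.swap_swap i)
      (fun i hi => by
        simp only [wt, Prod.fst_swap, Prod.snd_swap]
        rw [hsym i.2 (mem_bf.1 (Finset.mem_product.1 hi).2) i.1
          (mem_bf.1 (Finset.mem_product.1 hi).1)]
        ring)
      (fun i _ => by
        simp only [Prod.fst_swap, Prod.snd_swap]
        field_simp [hζ0 i.1, hζ0 i.2])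
    refine ⟨z', h4, ?_⟩
    rwa [hQs, h2, mul_div_cancel_left₀ _ (pow_ne_zero _ two_ne_zero)]
  -- the lift to a number field
  have hζG : ∀ φ, ζ φ ^ Nat.card G = 1 := fun φ => by
    obtain ⟨e, he⟩ := hk ▸ (orderOf_dvd_natCard y)
    rw [he, pow_mul, hζk, one_pow]
  have hζmem : ∀ φ, ζ φ ∈ DegreeGraph.fieldG G := fun φ => by
    haveI : NeZero (Nat.card G) := ⟨Nat.card_pos.ne'⟩
    obtain ⟨i, -, hi⟩ := (DegreeGraph.isPrimitiveRoot_rootG (G := G)).eq_pow_of_pow_eq_one (hζG φ)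
    rw [← hi]
    exact pow_mem DegreeGraph.rootG_mem i
  haveI := DegreeGraph.finiteDimensional_fieldG (G := G)
  let z : IrrCharacter H → DegreeGraph.fieldG G := fun φ => ⟨ζ φ, hζmem φ⟩
  let X : IrrCharacter G → IrrCharacter G → DegreeGraph.fieldG G := fun χ ψ =>
    ∑ φ ∈ bf b, ∑ φ' ∈ bf b, (n χ φ : DegreeGraph.fieldG G) * n ψ φ' * A φ φ' * (z φ * (z φ')⁻¹)
  have hX : ∀ χ ψ, (X χ ψ : ℂ) = Q χ ψ := fun χ ψ => by simp [X, Q, z]
  have hXrow : ∀ χ, ∑ ψ ∈ bf B, X χ ψ * X ψ χ = ((2 ^ d : ℕ) : DegreeGraph.fieldG G) * X χ χ :=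
    fun χ => Subtype.ext (by
      simp only [AddSubmonoidClass.coe_finsetSum, MulMemClass.coe_mul, hX, hrow]
      simp <;> exact Or.inl rfl)
  have hnorm : ∀ (σ : DegreeGraph.fieldG G →ₐ[ℚ] ℂ) χ ψ,
      ((‖σ (X χ ψ)‖ ^ 2 : ℝ) : ℂ) = σ (X χ ψ * X ψ χ) := by
    intro σ χ ψ
    rw [map_mul, Complex.ofReal_pow, ← Complex.mul_conj']
    congr 1
    simp only [X, map_sum, map_mul, map_natCast, map_intCast, map_inv₀]
    rw [Finset.sum_comm]
    refine Finset.sum_congr rfl fun φ' hφ' => Finset.sum_congr rfl fun φ hφ => ?_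
    have hc : ∀ φ, conj (σ (z φ)) = (σ (z φ))⁻¹ := fun φ =>
      (Complex.inv_eq_conj (Complex.norm_eq_one_of_pow_eq_one (n := 2 ^ k) (by
        rw [← map_pow, show z φ ^ 2 ^ k = 1 from Subtype.ext (by simpa [z] using hζk φ), map_one])
        hp0)).symm
    rw [hc, hc, inv_inv, hsym φ (mem_bf.1 hφ) φ' (mem_bf.1 hφ')]
    ring
  have hnsym : ∀ (σ : DegreeGraph.fieldG G →ₐ[ℚ] ℂ) χ ψ,
      ‖σ (X χ ψ)‖ ^ 2 = ‖σ (X ψ χ)‖ ^ 2 := fun σ χ ψ =>
    Complex.ofReal_injective (by rw [hnorm, hnorm, mul_comm])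
  set E := Fintype.card (DegreeGraph.fieldG G →ₐ[ℚ] ℂ) with hE
  have hEpos : (0 : ℝ) < E := by
    haveI : Nonempty (DegreeGraph.fieldG G →ₐ[ℚ] ℂ) := ⟨(DegreeGraph.fieldG G).val⟩
    exact Nat.cast_pos.2 Fintype.card_pos
  have hTsum : ∀ χ, ∑ σ : DegreeGraph.fieldG G →ₐ[ℚ] ℂ, σ (X χ χ) = (E : ℂ) * (T χ : ℂ) := by
    intro χ
    simp only [X, map_sum, map_mul, map_natCast, map_intCast, map_inv₀]
    rw [Finset.sum_comm, hT]
    simp only [Finset.sum_product, Int.cast_sum, Finset.mul_sum]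
    refine Finset.sum_congr rfl fun φ _ => ?_
    rw [Finset.sum_comm]
    refine Finset.sum_congr rfl fun φ' _ => ?_
    have h := sum_embeddings_root (DegreeGraph.fieldG G) (z φ * (z φ')⁻¹) (k := k)
      (Subtype.ext (by simpa [z] using hρ (φ, φ')))
    simp only [map_mul, map_inv₀] at h
    rw [← Finset.mul_sum, h]
    simp only [wt, z, MulMemClass.coe_mul, IntermediateField.coe_inv]
    push_cast
    ring
  let rσ : (DegreeGraph.fieldG G →ₐ[ℚ] ℂ) → IrrCharacter G → ℝ := fun σ χ =>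
    (∑ ψ ∈ bf B, ‖σ (X χ ψ)‖ ^ 2) / 2 ^ d
  have hrσ : ∀ σ χ, ((rσ σ χ : ℝ) : ℂ) = σ (X χ χ) := by
    intro σ χ
    simp only [rσ, Complex.ofReal_div, Complex.ofReal_sum, hnorm, ← map_sum, hXrow]
    rw [map_mul, map_natCast]
    push_cast
    field_simp
  have hTr : ∀ χ, ∑ σ : DegreeGraph.fieldG G →ₐ[ℚ] ℂ, rσ σ χ = (E : ℝ) * (T χ : ℝ) := fun χ =>
    Complex.ofReal_injective (by
      rw [Complex.ofReal_sum, Finset.sum_congr rfl fun σ _ => hrσ σ χ, hTsum]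
      push_cast; rfl)
  have hTnn : ∀ χ, 0 ≤ T χ := fun χ => by
    have h1 : (0 : ℝ) ≤ (E : ℝ) * (T χ : ℝ) := by
      rw [← hTr]
      exact Finset.sum_nonneg fun σ _ => div_nonneg
        (Finset.sum_nonneg fun ψ _ => sq_nonneg _) (by positivity)
    exact_mod_cast nonneg_of_mul_nonneg_right h1 hEpos
  have hTtot : ∑ χ ∈ bf B, T χ = ((2 ^ d * blockRank 2 b : ℕ) : ℤ) := by
    have h1 : (E : ℂ) * ((∑ χ ∈ bf B, T χ : ℤ) : ℂ) =
        (E : ℂ) * (((2 ^ d * blockRank 2 b : ℕ) : ℤ) : ℂ) := by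
      have e : ∑ χ ∈ bf B, X χ χ = ((2 ^ d * blockRank 2 b : ℕ) : DegreeGraph.fieldG G) :=
        Subtype.ext (by simp only [AddSubmonoidClass.coe_finsetSum, hX, htr]; simp <;> exact Or.inl rfl)
      rw [Int.cast_sum, Finset.mul_sum, ← Finset.sum_congr rfl fun χ _ => hTsum χ, Finset.sum_comm,
        Finset.sum_congr rfl fun σ _ => (map_sum σ _ _).symm, e,
        Finset.sum_congr rfl fun σ _ => map_natCast σ _, Finset.sum_const, Finset.card_univ,
        nsmul_eq_mul, Int.cast_natCast]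
    exact_mod_cast mul_left_cancel₀ (by exact_mod_cast hEpos.ne') h1
  -- the inequality of a row
  have hineq : ∀ χ ∈ B, ∀ S : Finset (IrrCharacter G), S ⊆ (bf B).erase χ →
      ∀ e : IrrCharacter G → ℕ,
      (∀ ψ ∈ S, Q ψ χ ≠ 0 ∧ ∃ w : ℂ, IsIntegral ℤ w ∧ Q ψ χ = 2 ^ e ψ * w) →
      T χ ^ 2 + ∑ ψ ∈ S, (4 : ℤ) ^ e ψ ≤ 2 ^ d * T χ := by
    intro χ hχ S hS e he
    have hcs := sq_sum_le_card_mul_sum_sq (α := ℝ)
      (s := (Finset.univ : Finset (DegreeGraph.fieldG G →ₐ[ℚ] ℂ))) (f := fun σ => rσ σ χ)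
    rw [hTr, Finset.card_univ, ← hE] at hcs
    have hsq : ∀ σ, rσ σ χ ^ 2 = ‖σ (X χ χ)‖ ^ 2 := fun σ => by
      rw [← hrσ σ χ, Complex.norm_real, Real.norm_eq_abs, sq_abs]
    simp only [hsq] at hcs
    have hrest : ∀ ψ ∈ S, (E : ℝ) * (4 : ℝ) ^ e ψ ≤
        ∑ σ : DegreeGraph.fieldG G →ₐ[ℚ] ℂ, ‖σ (X χ ψ)‖ ^ 2 := by
      intro ψ hψ
      obtain ⟨hne, w, hw, hwe⟩ := he ψ hψ
      set x' : DegreeGraph.fieldG G := X ψ χ / ((2 ^ e ψ : ℕ) : DegreeGraph.fieldG G) with hx'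
      have hcoe : (x' : ℂ) = w := by
        rw [hx']
        push_cast
        rw [hX, hwe]
        field_simp
        rw [mul_comm]; rfl
      have h1 := card_embeddings_le _ x' (fun h => hne (by
        rw [hwe, ← hcoe, h]; simp)) (by rwa [hcoe])
      have h2 : ∀ σ : DegreeGraph.fieldG G →ₐ[ℚ] ℂ,
          ‖σ (X χ ψ)‖ ^ 2 = (4 : ℝ) ^ e ψ * ‖σ x'‖ ^ 2 := fun σ => by
        rw [hnsym, hx', map_div₀, map_natCast, norm_div, Complex.norm_natCast, div_pow]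
        push_cast
        rw [← pow_mul, mul_comm (e ψ) 2, pow_mul]
        norm_num
        field_simp
      simp only [h2, ← Finset.mul_sum]
      rw [mul_comm]
      exact mul_le_mul_of_nonneg_left h1 (by positivity)
    have htot : ∑ σ : DegreeGraph.fieldG G →ₐ[ℚ] ℂ, ∑ ψ ∈ bf B, ‖σ (X χ ψ)‖ ^ 2 =
        (2 : ℝ) ^ d * ((E : ℝ) * (T χ : ℝ)) := by
      rw [← hTr, Finset.mul_sum]
      refine Finset.sum_congr rfl fun σ _ => ?_
      simp only [rσ]
      field_simp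
    rw [Finset.sum_comm, ← Finset.add_sum_erase _ _ (mem_bf.2 hχ)] at htot
    have hle := Finset.sum_le_sum_of_subset_of_nonneg hS
      (f := fun ψ => ∑ σ : DegreeGraph.fieldG G →ₐ[ℚ] ℂ, ‖σ (X χ ψ)‖ ^ 2)
      fun ψ _ _ => Finset.sum_nonneg fun σ _ => sq_nonneg _
    have hle2 := Finset.sum_le_sum hrest
    rw [← Finset.mul_sum] at hle2
    have hfin : (E : ℝ) * ((T χ : ℝ) ^ 2 + ∑ ψ ∈ S, (4 : ℝ) ^ e ψ) ≤
        (E : ℝ) * ((2 : ℝ) ^ d * T χ) := by
      have h3 : (E : ℝ) * (T χ : ℝ) ^ 2 ≤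
          ∑ σ : DegreeGraph.fieldG G →ₐ[ℚ] ℂ, ‖σ (X χ χ)‖ ^ 2 := by
        refine le_of_mul_le_mul_left ?_ hEpos
        calc (E : ℝ) * ((E : ℝ) * (T χ : ℝ) ^ 2) = ((E : ℝ) * T χ) ^ 2 := by ring
          _ ≤ _ := hcs
      linarith
    exact_mod_cast le_of_mul_le_mul_left hfin hEpos
  have hQR : ∀ χ ψ, MemLocalRing M (Q χ ψ) := fun χ ψ => by
    rw [hQs]
    exact memR_sum _ _ fun i _ => memR_mul (memR_intCast _) (memR_of_isIntegral
      (IsIntegral.of_pow (Nat.pos_of_ne_zero hp0) (by rw [hρ i]; exact isIntegral_one)))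
  refine ⟨T, hTtot, fun χ _ => hTnn χ, fun χ hχ h0 => ⟨?_, ?_⟩, fun hmaj => ?_⟩
  · obtain ⟨z', hz', hzI⟩ := hTdiv χ 0 (by simpa using hQR χ χ)
    rw [pow_zero, div_one] at hzI
    rw [pow_zero, one_mul] at hz'
    rw [← Int.not_even_iff_odd, even_iff_two_dvd, hz']
    intro h2
    exact hQI χ hχ χ hχ h0 h0 ((memI_iff_of_sub hzI).2 ((memI_intCast_iff (p := 2) h2M z').2 h2))
  · have h := hineq χ hχ (((bf B).filter fun ψ : IrrCharacter G => blockHeight 2 B (ψ : G → ℂ) = 0).erase χ)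
      (Finset.erase_subset_erase _ (Finset.filter_subset _ _)) (fun _ => 0) (fun ψ hψ => by
        obtain ⟨hψB, hψ0⟩ := Finset.mem_filter.1 (Finset.mem_of_mem_erase hψ)
        refine ⟨ne_zero_of_not_memI (hQI ψ (mem_bf.1 hψB) χ hχ hψ0 h0), ?_⟩
        exact hdivQ ψ χ 0 (by simpa using hQR ψ χ))
    have hmem : χ ∈ (bf B).filter fun ψ : IrrCharacter G => blockHeight 2 B (ψ : G → ℂ) = 0 :=
      Finset.mem_filter.2 ⟨mem_bf.2 hχ, h0⟩
    simp only [pow_zero, Finset.sum_const, nsmul_eq_mul, mul_one,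
      Finset.card_erase_of_mem hmem] at h
    have hcpos := Finset.card_pos.2 ⟨χ, hmem⟩
    omega
  -- a major subsection
  choose F hFc hFR hFω using fun ψ => exists_section_fun (p := 2) h2M hH hu hind.1 ψ
  obtain ⟨χ₀, hχ₀, hχ₀0⟩ := exists_height_zero (p := 2) hind.2.1
  have hQω : ∀ χ ∈ B, ∃ c : ℂ, MemLocalRing M c ∧ ¬ MemLocalIdeal M c ∧ ∀ ψ,
      Q χ ψ = (2 : ℂ) ^ blockHeight 2 B (χ : G → ℂ) * (c * omega (χ : G → ℂ) (F ψ)) := by
    intro χ hχ
    obtain ⟨c, hcR, hcI, hc⟩ := contribution_div h2M hind.2.1 (χ := χ₀) hχ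
    refine ⟨c, hcR, hcI, fun ψ => ?_⟩
    have hw := ne_zero_of_not_memI (not_memI_omega_regConj h2M hind.2.1 hχ₀ hχ₀0 hχ)
    have h1 := Chars.irr_apply_one_ne_zero χ.2
    have hK : (2 : ℂ) ^ d * ((χ : G → ℂ) 1 / (Nat.card G : ℂ)) =
        (2 : ℂ) ^ blockHeight 2 B (χ : G → ℂ) * c := by
      apply mul_right_cancel₀ hw
      push_cast at hc
      rw [← hmaj] at hc
      rw [mul_assoc, mul_assoc _ c, ← hc, omega_regConj]
      field_simp [Chars.card_ne_zero (G := G)]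
    rw [hQ, hFω, ← mul_assoc, hK]
    ring
  have hωR : ∀ χ ψ : IrrCharacter G, MemLocalRing M (omega (χ : G → ℂ) (F ψ)) := fun χ ψ =>
    omega_memR h2M χ.2 (hFc ψ) (hFR ψ)
  have hωc : ∀ χ ∈ B, ∀ χ' ∈ B, ∀ ψ,
      MemLocalIdeal M (omega (χ : G → ℂ) (F ψ) - omega (χ' : G → ℂ) (F ψ)) :=
    fun χ hχ χ' hχ' ψ => omega_congr (sameBlock_of_mem hind.2.1 hχ hχ') (hFc ψ) (hFR ψ)
  -- the entries against a character of height zero
  have hoff : ∀ ψ ∈ B, ∀ χ ∈ B, blockHeight 2 B (χ : G → ℂ) = 0 →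
      Q ψ χ ≠ 0 ∧ ∃ w : ℂ, IsIntegral ℤ w ∧
        Q ψ χ = 2 ^ blockHeight 2 B (ψ : G → ℂ) * w := by
    intro ψ hψ χ hχ h0
    obtain ⟨cχ, hcχR, -, hcχ⟩ := hQω χ hχ
    obtain ⟨cψ, hcψR, hcψI, hcψ⟩ := hQω ψ hψ
    have hu1 : ¬ MemLocalIdeal M (omega (χ : G → ℂ) (F χ)) := fun hI => hQI χ hχ χ hχ h0 h0 (by
      rw [hcχ, h0, pow_zero, one_mul]; exact memI_mul_left hcχR hI)
    have hu2 : ¬ MemLocalIdeal M (omega (ψ : G → ℂ) (F χ)) := fun hI =>
      hu1 ((memI_iff_of_sub (hωc ψ hψ χ hχ χ)).1 hI)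
    refine ⟨?_, hdivQ ψ χ _ ?_⟩
    · rw [hcψ]
      exact mul_ne_zero (pow_ne_zero _ two_ne_zero)
        (mul_ne_zero (ne_zero_of_not_memI hcψI) (ne_zero_of_not_memI hu2))
    · rw [hcψ, mul_div_cancel_left₀ _ (pow_ne_zero _ two_ne_zero)]
      exact memR_mul hcψR (hωR ψ χ)
  refine ⟨fun χ hχ h0 => ?_, fun χ hχ hpos => ?_⟩
  · refine hineq χ hχ ((bf B).filter (· ≠ χ)) ?_ (fun ψ : IrrCharacter G => blockHeight 2 B (ψ : G → ℂ)) fun ψ hψ => ?_
    · intro ψ hψ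
      rw [Finset.mem_filter] at hψ
      exact Finset.mem_erase.2 ⟨hψ.2, hψ.1⟩
    · exact hoff ψ (mem_bf.1 (Finset.mem_filter.1 hψ).1) χ hχ h0
  · obtain ⟨cχ, hcχR, -, hcχ⟩ := hQω χ hχ
    obtain ⟨c0, hc0R, hc0I, hc0⟩ := hQω χ₀ hχ₀
    obtain ⟨hne, -⟩ := hoff χ hχ χ₀ hχ₀ hχ₀0
    -- the transposed entry lies in the maximal ideal
    have hI1 : MemLocalIdeal M (Q χ χ₀) := by
      rw [hcχ]
      refine memI_mul_right ?_ (memR_mul hcχR (hωR _ _))
      obtain ⟨e, he⟩ := Nat.exists_eq_succ_of_ne_zero hpos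
      rw [he, pow_succ]
      refine memI_mul_left (memR_pow ?_ e) ?_
      · exact_mod_cast memR_natCast (M := M) 2
      · have := (memI_natCast_iff (p := 2) (M := M) h2M 2).2 dvd_rfl
        exact_mod_cast this
    have hI2 : MemLocalIdeal M (Q χ₀ χ) := (memI_iff_of_sub (hswap χ₀ χ)).2 hI1
    rw [hc0, hχ₀0, pow_zero, one_mul] at hI2
    have hI3 := (memI_or_of_mul hc0R (hωR _ _) hI2).resolve_left hc0I
    have hI4 : MemLocalIdeal M (omega (χ : G → ℂ) (F χ)) :=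
      (memI_iff_of_sub (hωc χ hχ χ₀ hχ₀ χ)).2 hI3
    obtain ⟨z', hz', hzI⟩ := hTdiv χ (blockHeight 2 B (χ : G → ℂ)) (by
      rw [hcχ, mul_div_cancel_left₀ _ (pow_ne_zero _ two_ne_zero)]
      exact memR_mul hcχR (hωR _ _))
    rw [hcχ, mul_div_cancel_left₀ _ (pow_ne_zero _ two_ne_zero)] at hzI
    have hev : (2 : ℤ) ∣ z' := by
      have := (memI_intCast_iff (p := 2) (M := M) h2M z').1
        ((memI_iff_of_sub hzI).1 (memI_mul_left hcχR hI4))
      exact_mod_cast this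
    have hdvd : (2 : ℤ) ^ (blockHeight 2 B (χ : G → ℂ) + 1) ∣ T χ := by
      rw [hz', pow_succ]; exact mul_dvd_mul_left _ hev
    refine ⟨hdvd, ?_⟩
    have hχne : χ₀ ≠ χ := fun h => hpos (h ▸ hχ₀0)
    have h := hineq χ hχ {χ₀} (Finset.singleton_subset_iff.2
      (Finset.mem_erase.2 ⟨hχne, mem_bf.2 hχ₀⟩)) (fun _ => 0) fun ψ hψ => by
        rw [Finset.mem_singleton] at hψ
        rw [hψ]
        refine ⟨?_, hdivQ _ _ 0 (by simpa using hQR _ _)⟩
        intro h0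
        have h1 := congrArg conj h0
        have h2 : conj (Q χ₀ χ) = Q χ χ₀ := by
          simp only [hQ, map_mul, map_pow, map_sum, map_inv₀, map_natCast, map_ofNat,
            Complex.conj_conj]
          congr 2
          exact Finset.sum_congr rfl fun s _ => mul_comm _ _
        rw [h2, map_zero] at h1
        exact hne h1
    simp only [pow_zero, Finset.sum_singleton] at h
    have hp1 : 0 < T χ := by
      rcases (hTnn χ).lt_or_eq with hlt | heq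
      · exact hlt
      · rw [← heq] at h; norm_num at h
    exact ⟨hp1, lt_of_mul_lt_mul_right
      (show T χ * T χ < 2 ^ d * T χ by rw [← sq]; linarith) hp1.le⟩

end Cfsg.Agent.Chars2
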