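import Cfsg.Agent.Chars2.SubsectionTwo
import Cfsg.Agent.BlockChar.RankBounds

/-!
Bounds on `k(B)` and `k₀(B)` from a subsection of a `2`-block.
-/

set_option autoImplicit false
set_option linter.unusedSectionVars false
set_option linter.style.haveILetI false

namespace Cfsg.Agent.Chars2

open Cfsg Cfsg.Agent Cfsg.Agent.Blocks Cfsg.Agent.BlockChar

universe u

theorem odd_bound {ι : Type*} (K : Finset ι) (T : ι → ℤ) (N : ℤ) (l : ℕ) (hN : 1 ≤ N)
    (hodd : ∀ i ∈ K, Odd (T i)) (hnn : ∀ i ∈ K, 0 ≤ T i)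
    (hsum : ∑ i ∈ K, T i ≤ N * l)
    (hrow : ∀ i ∈ K, T i ^ 2 + (K.card : ℤ) - 1 ≤ N * T i) :
    (Odd (Nat.sqrt l) → (K.card : ℤ) ≤ (Nat.sqrt l : ℤ) * N) ∧
    (¬ Odd (Nat.sqrt l) → ((Nat.sqrt l : ℤ) + 1) * (K.card : ℤ) ≤ (l : ℤ) * N) := by
  set s : ℕ := Nat.sqrt l with hs
  have hlo : (s : ℤ) * s ≤ l := by exact_mod_cast Nat.sqrt_le l
  have hhi : (l : ℤ) < ((s : ℤ) + 1) * ((s : ℤ) + 1) := by exact_mod_cast Nat.lt_succ_sqrt l
  have hlow : ∀ c : ℤ, (∀ i ∈ K, c ≤ T i) → c * (K.card : ℤ) ≤ N * l := fun c hc => by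
    have h := Finset.card_nsmul_le_sum K T c hc
    rw [nsmul_eq_mul, mul_comm] at h
    linarith
  have hone : ∀ i ∈ K, 1 ≤ T i := fun i hi => by
    rcases hodd i hi with ⟨c, hc⟩
    have := hnn i hi
    omega
  constructor
  · intro hso
    by_contra hcon
    push Not at hcon
    obtain ⟨c, hc⟩ := hso
    have hge : ∀ i ∈ K, (s : ℤ) + 2 ≤ T i := by
      intro i hi
      by_contra hlt
      obtain ⟨a, ha⟩ := hodd i hi
      have hle : T i ≤ (s : ℤ) := by omega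
      have h1 := hrow i hi
      have h2 := hone i hi
      have h3 : T i * N ≤ (s : ℤ) * N := mul_le_mul_of_nonneg_right hle (by linarith)
      nlinarith
    have h := hlow _ hge
    have h4 : (l : ℤ) ≤ (s : ℤ) * ((s : ℤ) + 2) := by nlinarith
    have h5 : ((s : ℤ) + 2) * (K.card : ℤ) ≤ ((s : ℤ) + 2) * ((s : ℤ) * N) := by nlinarith
    have h6 := le_of_mul_le_mul_left h5 (by positivity)
    linarith
  · intro hso
    rw [Nat.not_odd_iff_even] at hso
    obtain ⟨c, hc⟩ := hso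
    by_contra hcon
    push Not at hcon
    have hex : ∃ i ∈ K, T i < (s : ℤ) + 1 := by
      by_contra hne
      push Not at hne
      have := hlow _ hne
      nlinarith
    obtain ⟨i, hi, hlt⟩ := hex
    obtain ⟨a, ha⟩ := hodd i hi
    have hle : T i ≤ (s : ℤ) - 1 := by omega
    have h1 := hrow i hi
    have h2 := hone i hi
    have h3 : T i * N ≤ ((s : ℤ) - 1) * N := mul_le_mul_of_nonneg_right hle (by linarith)
    have h4 : (K.card : ℤ) ≤ ((s : ℤ) - 1) * N := by nlinarith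
    have h5 : ((s : ℤ) + 1) * (K.card : ℤ) ≤ ((s : ℤ) + 1) * (((s : ℤ) - 1) * N) :=
      mul_le_mul_of_nonneg_left h4 (by positivity)
    nlinarith

variable {G : Type u} [Group G] [Fintype G] {M : Ideal AlgInt} [M.IsMaximal]
  {y : G} {H : Subgroup G} [Fintype H]

theorem card_height_zero (B : Set (IrrCharacter G)) :
    Nat.card {χ : IrrCharacter G // χ ∈ B ∧ blockHeight 2 B (χ : G → ℂ) = 0} =
      ((bf B).filter fun ψ : IrrCharacter G => blockHeight 2 B (ψ : G → ℂ) = 0).card := by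
  classical
  rw [Nat.card_eq_fintype_card]
  exact Fintype.card_of_subtype _ fun χ => by simp

/-- The bound on the characters of height zero. -/
theorem height_zero_bound (h2M : ((2 : ℕ) : AlgInt) ∈ M) {B : Set (IrrCharacter G)}
    (hH : H = Subgroup.centralizer ({y} : Set G)) (hy : ∃ k : ℕ, orderOf y = 2 ^ k)
    {b : Set (IrrCharacter H)} (hind : IsInducedBlock M H b B) :
    (Odd (Nat.sqrt (blockRank 2 b)) →
      Nat.card {χ : IrrCharacter G // χ ∈ B ∧ blockHeight 2 B (χ : G → ℂ) = 0} ≤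
        Nat.sqrt (blockRank 2 b) * 2 ^ blockDefect 2 b) ∧
    (¬ Odd (Nat.sqrt (blockRank 2 b)) → (Nat.sqrt (blockRank 2 b) + 1) *
      Nat.card {χ : IrrCharacter G // χ ∈ B ∧ blockHeight 2 B (χ : G → ℂ) = 0} ≤
        blockRank 2 b * 2 ^ blockDefect 2 b) ∧
    (blockRank 2 b ≤ 3 →
      Nat.card {χ : IrrCharacter G // χ ∈ B ∧ blockHeight 2 B (χ : G → ℂ) = 0} ≤
        2 ^ blockDefect 2 b) := by
  classical
  obtain ⟨T, hsum, hnn, h0, -⟩ := subsection_data h2M hH hy hind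
  rw [card_height_zero]
  set K := (bf B).filter fun ψ : IrrCharacter G => blockHeight 2 B (ψ : G → ℂ) = 0 with hK
  have hKB : ∀ i ∈ K, i ∈ B := fun i hi => mem_bf.1 (Finset.mem_filter.1 hi).1
  have hle : ∑ i ∈ K, T i ≤ ((2 ^ blockDefect 2 b : ℕ) : ℤ) * (blockRank 2 b : ℕ) := by
    have h := Finset.sum_le_sum_of_subset_of_nonneg (f := T) (Finset.filter_subset
      (fun ψ : IrrCharacter G => blockHeight 2 B (ψ : G → ℂ) = 0) (bf B))
      fun i hi _ => hnn i (mem_bf.1 hi)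
    rw [hsum] at h
    push_cast at h ⊢
    exact h
  obtain ⟨ho, he⟩ := odd_bound K T ((2 ^ blockDefect 2 b : ℕ) : ℤ) (blockRank 2 b)
    (by exact_mod_cast Nat.one_le_two_pow)
    (fun i hi => (h0 i (hKB i hi) (Finset.mem_filter.1 hi).2).1) (fun i hi => hnn i (hKB i hi))
    hle (fun i hi => by
      have := (h0 i (hKB i hi) (Finset.mem_filter.1 hi).2).2
      push_cast
      linarith)
  have ho' : Odd (Nat.sqrt (blockRank 2 b)) →
      K.card ≤ Nat.sqrt (blockRank 2 b) * 2 ^ blockDefect 2 b := fun h => by exact_mod_cast ho h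
  refine ⟨ho', fun h => by exact_mod_cast he h, fun hl => ?_⟩
  rcases Nat.eq_zero_or_pos (blockRank 2 b) with hl0 | hl0
  · have h2 := he (by rw [hl0]; decide)
    rw [hl0] at h2
    simp only [Nat.sqrt_zero, Nat.cast_zero, zero_add, one_mul, zero_mul] at h2
    exact le_trans (by exact_mod_cast h2) (Nat.zero_le _)
  · have hs1 : Nat.sqrt (blockRank 2 b) = 1 := by
      have h1 : 1 ≤ Nat.sqrt (blockRank 2 b) := Nat.le_sqrt.2 (by omega)
      have h2 : Nat.sqrt (blockRank 2 b) < 2 := Nat.sqrt_lt.2 (by omega)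
      omega
    have := ho' (by rw [hs1]; decide)
    rwa [hs1, one_mul] at this

/-- The bound of a major subsection. -/
theorem major_bound (h2M : ((2 : ℕ) : AlgInt) ∈ M) {B : Set (IrrCharacter G)}
    (hH : H = Subgroup.centralizer ({y} : Set G)) (hy : ∃ k : ℕ, orderOf y = 2 ^ k)
    {b : Set (IrrCharacter H)} (hind : IsInducedBlock M H b B)
    (hmaj : blockDefect 2 b = blockDefect 2 B) (hl : blockRank 2 b ≤ 3) :
    3 * Nat.card B ≤
      3 * Nat.card {χ : IrrCharacter G // χ ∈ B ∧ blockHeight 2 B (χ : G → ℂ) = 0} +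
        2 * (∑ᶠ χ ∈ {χ : IrrCharacter G | χ ∈ B ∧ 1 ≤ blockHeight 2 B (χ : G → ℂ)},
          2 ^ blockHeight 2 B (χ : G → ℂ)) ∧
    3 * Nat.card {χ : IrrCharacter G // χ ∈ B ∧ blockHeight 2 B (χ : G → ℂ) = 0} +
        2 * (∑ᶠ χ ∈ {χ : IrrCharacter G | χ ∈ B ∧ 1 ≤ blockHeight 2 B (χ : G → ℂ)},
          2 ^ blockHeight 2 B (χ : G → ℂ)) ≤ 3 * 2 ^ blockDefect 2 B := by
  classical
  obtain ⟨T, hsum, hnn, h0, hm⟩ := subsection_data h2M hH hy hind
  obtain ⟨hrow, hpos⟩ := hm hmaj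
  rw [card_height_zero]
  set K := (bf B).filter fun ψ : IrrCharacter G => blockHeight 2 B (ψ : G → ℂ) = 0 with hK
  set P := (bf B).filter fun ψ : IrrCharacter G => ¬ blockHeight 2 B (ψ : G → ℂ) = 0 with hP
  have hset : {χ : IrrCharacter G | χ ∈ B ∧ 1 ≤ blockHeight 2 B (χ : G → ℂ)} = ↑P := by
    ext χ
    simp [hP, Nat.one_le_iff_ne_zero]
  rw [hset, finsum_mem_coe_finset]
  have hcard : Nat.card B = K.card + P.card := by
    rw [card_bf, hK, hP, Finset.card_filter_add_card_filter_not]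
  have hge : ∀ χ ∈ P, 2 ≤ 2 ^ blockHeight 2 B (χ : G → ℂ) := fun χ hχ =>
    le_self_pow₀ (by norm_num) (Finset.mem_filter.1 hχ).2
  have hsplit : ∀ f : IrrCharacter G → ℤ, ∑ χ ∈ bf B, f χ = ∑ χ ∈ K, f χ + ∑ χ ∈ P, f χ :=
    fun f => (Finset.sum_filter_add_sum_filter_not _ _ _).symm
  refine ⟨?_, ?_⟩
  · have h := Finset.card_nsmul_le_sum P (fun χ : IrrCharacter G => 2 ^ blockHeight 2 B (χ : G → ℂ))
      2 hge
    rw [smul_eq_mul] at h
    omega
  have hN : ((2 ^ blockDefect 2 B : ℕ) : ℤ) = (2 : ℤ) ^ blockDefect 2 b := by rw [hmaj]; push_cast; rfl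
  set N : ℤ := (2 : ℤ) ^ blockDefect 2 b with hNdef
  suffices h : 3 * (K.card : ℤ) + 2 * ∑ χ ∈ P, (2 : ℤ) ^ blockHeight 2 B (χ : G → ℂ) ≤ 3 * N by
    rw [← hN] at h
    exact_mod_cast h
  by_cases hbig : ∀ χ ∈ K, 3 ≤ T χ
  · have h1 := Finset.card_nsmul_le_sum K T 3 hbig
    have h2 : ∑ χ ∈ P, (2 : ℤ) ^ (blockHeight 2 B (χ : G → ℂ) + 1) ≤ ∑ χ ∈ P, T χ :=
      Finset.sum_le_sum fun χ hχ =>
        Int.le_of_dvd (hpos χ (mem_bf.1 (Finset.mem_filter.1 hχ).1) (Finset.mem_filter.1 hχ).2).2.1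
          (hpos χ (mem_bf.1 (Finset.mem_filter.1 hχ).1) (Finset.mem_filter.1 hχ).2).1
    simp only [pow_succ, ← Finset.sum_mul] at h2
    have h3 := hsplit T
    rw [hsum] at h3
    push_cast at h3
    rw [nsmul_eq_mul] at h1
    have h4 : N * (blockRank 2 b : ℤ) ≤ N * 3 :=
      mul_le_mul_of_nonneg_left (by exact_mod_cast hl) (by positivity)
    rw [hNdef] at h4 ⊢
    linarith
  · push Not at hbig
    obtain ⟨η, hη, hlt⟩ := hbig
    have hηB := mem_bf.1 (Finset.mem_filter.1 hη).1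
    have hη0 := (Finset.mem_filter.1 hη).2
    obtain ⟨a, ha⟩ := (h0 η hηB hη0).1
    have hT1 : T η = 1 := by have := hnn η hηB; omega
    have hr := hrow η hηB hη0
    rw [hT1] at hr
    have h5 : ∑ χ ∈ bf B, (4 : ℤ) ^ blockHeight 2 B (χ : G → ℂ) ≤ N := by
      rw [← Finset.add_sum_erase _ _ (Finset.mem_filter.1 hη).1, hη0, pow_zero,
        ← Finset.filter_ne' (bf B) η]
      linarith
    rw [hsplit] at h5
    have h6 : ∑ χ ∈ K, (4 : ℤ) ^ blockHeight 2 B (χ : G → ℂ) = K.card := by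
      rw [Finset.sum_congr rfl fun χ hχ => by rw [(Finset.mem_filter.1 hχ).2, pow_zero],
        Finset.sum_const, nsmul_eq_mul, mul_one]
    have h7 : 2 * ∑ χ ∈ P, (2 : ℤ) ^ blockHeight 2 B (χ : G → ℂ) ≤
        3 * ∑ χ ∈ P, (4 : ℤ) ^ blockHeight 2 B (χ : G → ℂ) := by
      rw [Finset.mul_sum, Finset.mul_sum]
      refine Finset.sum_le_sum fun χ _ => ?_
      have e : (2 : ℤ) ^ blockHeight 2 B (χ : G → ℂ) ≤ (4 : ℤ) ^ blockHeight 2 B (χ : G → ℂ) :=
        pow_le_pow_left₀ (by norm_num) (by norm_num) _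
      have : (0 : ℤ) ≤ (4 : ℤ) ^ blockHeight 2 B (χ : G → ℂ) := by positivity
      linarith
    linarith

/-- The complementary bound of a major subsection. -/
theorem major_bound_diff (h2M : ((2 : ℕ) : AlgInt) ∈ M) {B : Set (IrrCharacter G)}
    (hH : H = Subgroup.centralizer ({y} : Set G)) (hy : ∃ k : ℕ, orderOf y = 2 ^ k)
    {b : Set (IrrCharacter H)} (hind : IsInducedBlock M H b B)
    (hmaj : blockDefect 2 b = blockDefect 2 B) (hl : Nat.card B ≤ blockRank 2 b + 3) :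
    Nat.card B ≤ 2 ^ blockDefect 2 B := by
  classical
  haveI : Fact (Nat.Prime 2) := ⟨Nat.prime_two⟩
  obtain ⟨T, hsum, hnn, h0, hm⟩ := subsection_data h2M hH hy hind
  obtain ⟨hrow, hpos⟩ := hm hmaj
  set N : ℤ := (2 : ℤ) ^ blockDefect 2 b with hNdef
  suffices h : ((bf B).card : ℤ) ≤ N by
    rw [card_bf, ← hmaj]
    rw [hNdef] at h
    exact_mod_cast h
  have hdiff : ∀ χ ∈ B, blockHeight 2 B (χ : G → ℂ) ≠ 0 → 3 ≤ N - T χ := by
    intro χ hχ hne
    obtain ⟨hdvd, hp, hlt⟩ := hpos χ hχ hne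
    have hb := ((brauer_feit h2M hind.2.1 hmaj.symm).2 χ hχ)
    have hle : blockHeight 2 B (χ : G → ℂ) + 1 ≤ blockDefect 2 b := by
      rcases Nat.lt_or_ge (blockDefect 2 b) 2 with h | h
      · exact absurd (hb.1 (by omega)) hne
      · have := hb.2 h; omega
    have hd2 : (2 : ℤ) ^ (blockHeight 2 B (χ : G → ℂ) + 1) ∣ N - T χ :=
      dvd_sub (pow_dvd_pow 2 hle) hdvd
    have h4 : (4 : ℤ) ≤ 2 ^ (blockHeight 2 B (χ : G → ℂ) + 1) :=
      le_trans (by norm_num) (pow_le_pow_right₀ (by norm_num) (show 2 ≤ _ + 1 by omega))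
    have := Int.le_of_dvd (by linarith) hd2
    linarith
  by_cases hbig : ∀ χ ∈ bf B, 3 ≤ N - T χ
  · have h1 := Finset.card_nsmul_le_sum (bf B) (fun χ => N - T χ) 3 hbig
    rw [Finset.sum_sub_distrib, hsum, Finset.sum_const, nsmul_eq_mul, nsmul_eq_mul] at h1
    push_cast at h1
    have h2 : N * ((bf B).card : ℤ) ≤ N * ((blockRank 2 b : ℤ) + 3) :=
      mul_le_mul_of_nonneg_left (by rw [← card_bf]; exact_mod_cast hl) (by positivity)
    rw [hNdef] at h2 ⊢
    linarith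
  · push Not at hbig
    obtain ⟨η, hη, hlt⟩ := hbig
    have hηB := mem_bf.1 hη
    have hη0 : blockHeight 2 B (η : G → ℂ) = 0 := by
      by_contra hne
      have := hdiff η hηB hne
      omega
    obtain ⟨a, ha⟩ := (h0 η hηB hη0).1
    have hr := hrow η hηB hη0
    have hcnt : ((bf B).card : ℤ) - 1 ≤
        ∑ ψ ∈ (bf B).filter (· ≠ η), (4 : ℤ) ^ blockHeight 2 B (ψ : G → ℂ) := by
      have h1 := Finset.card_nsmul_le_sum ((bf B).filter (· ≠ η))
        (fun ψ : IrrCharacter G => (4 : ℤ) ^ blockHeight 2 B (ψ : G → ℂ)) 1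
        (fun ψ _ => one_le_pow₀ (by norm_num))
      rw [nsmul_eq_mul, mul_one, Finset.filter_ne' (bf B) η, Finset.card_erase_of_mem hη] at h1
      rw [Finset.filter_ne' (bf B) η]
      have := Finset.card_pos.2 ⟨η, hη⟩
      omega
    have hTn := hnn η hηB
    have hN1 : 1 ≤ N := one_le_pow₀ (by norm_num)
    have hpar : N = 1 ∨ 2 ∣ N := by
      rcases Nat.eq_zero_or_pos (blockDefect 2 b) with h | h
      · exact Or.inl (by rw [hNdef, h, pow_zero])
      · exact Or.inr (dvd_pow_self 2 h.ne')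
    have hcases : N - T η = 1 ∨ N - T η ≤ 0 := by rcases hpar with h | h <;> omega
    rcases hcases with h | h
    · have e : T η = N - 1 := by omega
      rw [e] at hr
      linarith
    · nlinarith

end Cfsg.Agent.Chars2
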